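import Cfsg.Agent.H3.Fix
import Cfsg.Agent.H27.Kernel
import Cfsg.Agent.H27.Ch12D
import Cfsg.Agent.H23.PSolvable
import Cfsg.Agent.H25.ClassProd
import Cfsg.Agent.H2.Conj

set_option autoImplicit false
set_option linter.style.haveILetI false
set_option linter.unusedSectionVars false

/-! Itô's theorem on groups all of whose character degrees are prime to `p`. -/

namespace Cfsg.Agent.H7.ItoP

open Subgroup Cfsg Cfsg.Agent.H3 Cfsg.Agent.H27

universe u

section

variable {G : Type u} [Group G] [Finite G] {p : ℕ} [hp : Fact p.Prime]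

theorem sylow_comm (P : Sylow p G) (hP : (P : Subgroup G).Normal)
    (hdeg : ∀ χ : IrrCharacter G, ¬ p ∣ charDegree (χ : G → ℂ)) :
    ∀ a b : (P : Subgroup G), a * b = b * a := by
  classical
  apply comm_of_linear
  intro θ
  haveI := Fintype.ofFinite (P : Subgroup G)
  obtain ⟨χ, hχ, -, h1, -⟩ := exists_over hP θ.2
  obtain ⟨k, hk⟩ := IsPGroup.iff_card.1 P.2
  have h2 : charDegree (θ : ↥(P : Subgroup G) → ℂ) ∣ p ^ k := by
    rw [← hk]
    exact charDegree_dvd_card θ.2
  obtain ⟨j, -, hj⟩ := (Nat.dvd_prime_pow hp.out).1 h2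
  rcases Nat.eq_zero_or_pos j with rfl | hj0
  · rw [hj, pow_zero]
  · exact absurd ((dvd_pow_self p hj0.ne').trans (hj ▸ h1)) (hdeg ⟨χ, hχ⟩)

theorem degree_of_abelian (P : Sylow p G) (hP : (P : Subgroup G).Normal)
    (hc : ∀ a ∈ (P : Subgroup G), ∀ b ∈ (P : Subgroup G), a * b = b * a) (χ : IrrCharacter G) :
    ¬ p ∣ charDegree (χ : G → ℂ) := by
  intro h
  have h1 : charDegree (χ : G → ℂ) ∣ (P : Subgroup G).index :=
    ito_degree_dvd χ.2 P hP hc (charDegree_cast (irr_isChar χ.2)).symm
  exact P.not_dvd_index (h.trans h1)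

/-- if `P` fixes all irreducible characters of the normal `p'`-subgroup `K`, then `P`
centralizes `K` -/
theorem centralizes {K : Subgroup G} (hK : K.Normal) {x : G}
    (hx : Nat.Coprime (orderOf x) (Nat.card K))
    (hfix : ∀ χ : IrrCharacter K, cj hK x (χ : K → ℂ) = χ) : ∀ k ∈ K, x * k = k * x := by
  classical
  haveI := Fintype.ofFinite K
  have h1 := card_fixed_irr hK x
  have h2 : Nat.card {χ : IrrCharacter K // cj hK x (χ : K → ℂ) = χ} = Nat.card (IrrCharacter K) :=
    Nat.card_congr (Equiv.subtypeUnivEquiv hfix)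
  have h3 : Nat.card (IrrCharacter K) = Nat.card (ConjClasses K) := card_irr_eq
  have h4 : ∀ C : ConjClasses K, ConjClasses.map (cjEquiv hK x).toMonoidHom C = C := by
    have h5 : Nat.card {C : ConjClasses K // ConjClasses.map (cjEquiv hK x).toMonoidHom C = C} =
        Nat.card (ConjClasses K) := by rw [← h1, h2, h3]
    have h6 : Function.Surjective (Subtype.val :
        {C : ConjClasses K // ConjClasses.map (cjEquiv hK x).toMonoidHom C = C} → ConjClasses K) :=
      ((Nat.bijective_iff_injective_and_card _).2 ⟨Subtype.val_injective, h5⟩).2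
    intro C
    obtain ⟨D, rfl⟩ := h6 C
    exact D.2
  have h7 : (centralizer ({x} : Set G)).subgroupOf K = ⊤ := by
    apply Cfsg.Agent.H25.eq_top_of_forall_conj_mem
    intro k
    obtain ⟨k', hk', hk2⟩ := fixed_class_rep hK hx (h4 (ConjClasses.mk k))
    obtain ⟨c, hc⟩ := isConj_iff.1 (ConjClasses.mk_eq_mk_iff_isConj.1 hk'.symm)
    refine ⟨c, ?_⟩
    rw [hc, mem_subgroupOf, mem_centralizer_singleton_iff]
    exact hk2.symm
  intro k hk
  have h8 : (⟨k, hk⟩ : K) ∈ (centralizer ({x} : Set G)).subgroupOf K := by rw [h7]; trivial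
  rw [mem_subgroupOf, mem_centralizer_singleton_iff] at h8
  exact h8.symm

end

theorem sylow_normal {p : ℕ} [hp : Fact p.Prime] : ∀ n : ℕ, ∀ (G : Type u) [Group G] [Finite G],
    Nat.card G = n → IsPSolvable p G →
    (∀ χ : IrrCharacter G, ¬ p ∣ charDegree (χ : G → ℂ)) → ∀ P : Sylow p G,
    (P : Subgroup G).Normal := by
  intro n
  induction n using Nat.strong_induction_on with
  | _ n ih =>
    intro G _ _ hn hsolv hdeg P
    classical
    rcases subsingleton_or_nontrivial G with hs | hnt
    · exact ⟨fun a ha g => by rwa [Subsingleton.elim (g * a * g⁻¹) a]⟩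
    have key : ∀ K : Subgroup G, K.Normal → K ≠ ⊥ → ((P : Subgroup G) ⊔ K).Normal := by
      intro K hK hne
      have hlt : Nat.card (G ⧸ K) < n := by
        rw [← hn, Subgroup.card_eq_card_quotient_mul_card_subgroup K]
        have h1 : 1 < Nat.card K := by
          rw [one_lt_card_iff_ne_bot]; exact hne
        have h2 : 0 < Nat.card (G ⧸ K) := Nat.card_pos
        nlinarith
      have h2 : IsPSolvable p (G ⧸ K) := Cfsg.Agent.H23.isPSolvable_quotient K hsolv
      have h3 : ∀ χ : IrrCharacter (G ⧸ K), ¬ p ∣ charDegree (χ : G ⧸ K → ℂ) := by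
        intro χ hdvd
        apply hdeg (irrQuotEquiv K χ).1
        have : charDegree (χ : G ⧸ K → ℂ) = charDegree ((irrQuotEquiv K χ).1 : G → ℂ) := by
          have h1 := charDegree_cast (irr_isChar χ.2)
          have h2 := charDegree_cast (irr_isChar (irrQuotEquiv K χ).1.2)
          have h3 := irrQuotEquiv_apply K χ 1
          have h4 : (charDegree (χ : G ⧸ K → ℂ) : ℂ) =
              (charDegree ((irrQuotEquiv K χ).1 : G → ℂ) : ℂ) := by
            rw [h1, h2]
            exact h3.symm
          exact_mod_cast h4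
        rwa [← this]
      have hf : Function.Surjective (QuotientGroup.mk' K) := QuotientGroup.mk'_surjective K
      have h4 := ih _ hlt (G ⧸ K) rfl h2 h3 (P.mapSurjective hf)
      have h5 : ((P : Subgroup G).map (QuotientGroup.mk' K)).Normal := h4
      have h6 : (P : Subgroup G) ⊔ K =
          ((P : Subgroup G).map (QuotientGroup.mk' K)).comap (QuotientGroup.mk' K) := by
        rw [Subgroup.comap_map_eq, QuotientGroup.ker_mk']
      rw [h6]
      exact h5.comap _
    rcases Cfsg.Agent.H23.pCore_ne_bot_or hsolv with h | h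
    · have h1 := key (pCore p G) inferInstance h
      have h2 : pCore p G ≤ (P : Subgroup G) := Cfsg.Agent.H1.pCore_le_sylow P
      rwa [sup_eq_left.2 h2] at h1
    · set K := pPrimeCore p G with hKdef
      haveI hK : K.Normal := inferInstance
      have h1 := key K inferInstance h
      have hKc : (Nat.card K).Coprime p := Cfsg.Agent.H1.pPrimeCore_coprime p G
      have hcen : ∀ x ∈ (P : Subgroup G), ∀ k ∈ K, x * k = k * x := by
        intro x hx
        have hord : Nat.Coprime (orderOf x) (Nat.card K) := by
          obtain ⟨j, hj⟩ := (IsPGroup.iff_orderOf.1 P.2) ⟨x, hx⟩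
          rw [orderOf_mk] at hj
          rw [hj]
          exact (Nat.Coprime.pow_left _ hKc.symm)
        apply centralizes hK hord
        intro θ
        haveI := Fintype.ofFinite G
        haveI := Fintype.ofFinite K
        obtain ⟨χ, hχ, hne, -, -⟩ := exists_over hK θ.2
        have h2 := clifford_degree hK hχ θ.2 hne
        -- the inertia group has index prime to `p`
        have h3 : ¬ p ∣ (inertia hK (θ : K → ℂ)).index := by
          intro hdvd
          obtain ⟨m, hm⟩ := classInner_char_nat (isChar_restrict K (irr_isChar hχ)) (irr_isChar θ.2)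
          rw [hm, ← charDegree_cast (irr_isChar hχ), ← charDegree_cast (irr_isChar θ.2)] at h2
          have h4 : charDegree χ = m * (inertia hK (θ : K → ℂ)).index * charDegree (θ : K → ℂ) := by
            exact_mod_cast h2
          exact hdeg ⟨χ, hχ⟩ (h4 ▸ ((hdvd.mul_left m).mul_right _))
        set T := inertia hK (θ : K → ℂ) with hT
        have hKT : K ≤ T := le_inertia hK (irr_classFun θ.2)
        have hQ : ∃ Q : Sylow p G, (Q : Subgroup G) ≤ T := by
          obtain ⟨Q⟩ : Nonempty (Sylow p T) := inferInstance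
          have hi : ¬ p ∣ ((Q : Subgroup T).map T.subtype).index := by
            rw [Subgroup.index_map_subtype]
            intro hd
            rcases (hp.out.dvd_mul).1 hd with hd | hd
            · exact Q.not_dvd_index hd
            · exact h3 hd
          obtain ⟨R, hR⟩ := Cfsg.Agent.H2.exists_sylow_eq_of_isPGroup_of_not_dvd_index
            (Q.2.map T.subtype) hi
          exact ⟨R, hR ▸ Subgroup.map_subtype_le _⟩
        obtain ⟨Q, hQ⟩ := hQ
        obtain ⟨g, hg⟩ := Cfsg.Agent.H2.exists_map_conj_eq P Q
        have h5 : (P : Subgroup G) ⊔ K ≤ T := by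
          have h6 : ((P : Subgroup G) ⊔ K).map (MulAut.conj g).toMonoidHom ≤ T := by
            rw [Subgroup.map_sup, hg]
            refine sup_le hQ ?_
            have h7 : K.map (MulAut.conj g).toMonoidHom = K := by
              rw [Cfsg.Agent.H2.map_conj_eq_self_iff, normalizer_eq_top]; trivial
            rw [h7]; exact hKT
          have h8 : ((P : Subgroup G) ⊔ K).map (MulAut.conj g).toMonoidHom =
              (P : Subgroup G) ⊔ K := by
            haveI := h1
            rw [Cfsg.Agent.H2.map_conj_eq_self_iff, normalizer_eq_top]; trivial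
          rwa [h8] at h6
        exact (mem_inertia hK _ x).1 (h5 ((le_sup_left : (P : Subgroup G) ≤ _) hx))
      -- `P ⊔ K` normalizes `P`
      have h2 : (P : Subgroup G) ⊔ K ≤ normalizer ((P : Subgroup G) : Set G) := by
        refine sup_le le_normalizer ?_
        intro k hk
        rw [mem_normalizer_iff]
        intro x
        constructor
        · intro hx
          rw [← hcen x hx k hk]
          simpa using hx
        · intro hx
          have h3 := hcen _ hx k hk
          have h4 : x = k * x * k⁻¹ := by
            have h5 : k * x = k * (k * x * k⁻¹) := by rw [← h3]; group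
            exact mul_left_cancel h5
          rw [h4]; exact hx
      haveI := h1
      have h3 := Sylow.normalizer_sup_eq_top' P (le_sup_left : (P : Subgroup G) ≤ (P : Subgroup G) ⊔ K)
      have h3 : normalizer ((P : Subgroup G) : Set G) ⊔ ((P : Subgroup G) ⊔ K) = ⊤ := h3
      rw [sup_eq_left.2 h2] at h3
      exact normalizer_eq_top_iff.1 h3

end Cfsg.Agent.H7.ItoP
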