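import Cfsg.Agent.H26.InfBlk3
import Cfsg.Agent.H1.Coprime
import Cfsg.Agent.H2.Frat

set_option autoImplicit false
set_option linter.style.haveILetI false
set_option linter.unusedSectionVars false

/-! Blocks of `G` and of `G/D'` for a normal `p`-subgroup `D`. -/

namespace Cfsg.Agent.H7.BlkInf

open MulAction Cfsg Cfsg.Agent.H11 Cfsg.Agent.H3 Cfsg.Agent.H26
open scoped ComplexConjugate commutatorElement

universe u

variable {G : Type u} [Group G] [Finite G] {p : ℕ} [hp : Fact p.Prime] {M : Ideal AlgInt}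

/-- A `p'`-element centralizing `D/D'` centralizes the normal `p`-subgroup `D`. -/
theorem cent_of_comm {D : Subgroup G} [hDn : D.Normal] (hD : IsPGroup p D) {x : G}
    (hx : ¬ p ∣ orderOf x) (h : ∀ d ∈ D, ⁅x, d⁆ ∈ ⁅D, D⁆) :
    x ∈ Subgroup.centralizer (D : Set G) := by
  have hcop : (Nat.card (Subgroup.zpowers x)).Coprime (Nat.card D) := by
    obtain ⟨k, hk⟩ := IsPGroup.iff_card.1 hD
    rw [Nat.card_zpowers, hk]
    exact ((Nat.Prime.coprime_iff_not_dvd hp.out).2 hx).symm.pow_right k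
  have hAK : Subgroup.zpowers x ≤ Subgroup.normalizer (D : Set G) := by
    rw [Subgroup.normalizer_eq_top]
    exact le_top
  haveI : Group.IsSolvable (Subgroup.zpowers x) := inferInstance
  have h1 := H1.commutator_sup_centralizer (Subgroup.zpowers x) D hAK hcop (Or.inl inferInstance)
  have h2 : ⁅D, Subgroup.zpowers x⁆ ≤ ⁅D, D⁆ := by
    rw [Subgroup.commutator_le]
    intro d hd a ha
    have h3 : Subgroup.zpowers (QuotientGroup.mk x : G ⧸ ⁅D, D⁆) ≤
        Subgroup.centralizer ({(QuotientGroup.mk d : G ⧸ ⁅D, D⁆)} : Set (G ⧸ ⁅D, D⁆)) := by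
      rw [Subgroup.zpowers_le, Subgroup.mem_centralizer_singleton_iff]
      have h4 : QuotientGroup.mk' ⁅D, D⁆ ⁅x, d⁆ = 1 := (QuotientGroup.eq_one_iff _).2 (h d hd)
      rw [map_commutatorElement, commutatorElement_eq_one_iff_mul_comm] at h4
      exact h4
    obtain ⟨k, rfl⟩ := Subgroup.mem_zpowers_iff.1 ha
    have h5 := h3 (Subgroup.zpow_mem _ (Subgroup.mem_zpowers _) k)
    rw [Subgroup.mem_centralizer_singleton_iff] at h5
    rw [← QuotientGroup.eq_one_iff]
    show QuotientGroup.mk' ⁅D, D⁆ ⁅d, x ^ k⁆ = 1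
    rw [map_commutatorElement, commutatorElement_eq_one_iff_mul_comm, map_zpow]
    exact h5.symm
  set C : Subgroup G := D ⊓ Subgroup.centralizer ((Subgroup.zpowers x : Subgroup G) : Set G)
    with hC
  have h3 : C.subgroupOf D ⊔ frattini D = ⊤ := by
    rw [eq_top_iff]
    intro d _
    have h4 : (d : G) ∈ ⁅D, D⁆ ⊔ C := by
      have h5 : (d : G) ∈ ⁅D, Subgroup.zpowers x⁆ ⊔
          (D ⊓ Subgroup.centralizer ((Subgroup.zpowers x : Subgroup G) : Set G)) := h1.symm ▸ d.2
      exact (sup_le_sup_right h2 _) h5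
    obtain ⟨a, ha, b, hb, hab⟩ := Subgroup.mem_sup_of_normal_left.1 h4
    have haD : a ∈ D := Subgroup.commutator_le_self D ha
    have ha' : (⟨a, haD⟩ : D) ∈ commutator D := by
      rw [← Subgroup.map_subtype_commutator] at ha
      obtain ⟨y, hy, hya⟩ := ha
      have : y = ⟨a, haD⟩ := Subtype.ext hya
      rwa [← this]
    have h6 : d = ⟨a, haD⟩ * ⟨b, hb.1⟩ := Subtype.ext hab.symm
    rw [h6]
    exact mul_mem ((le_sup_right : frattini D ≤ _) (H2.commutator_le_frattini hD ha'))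
      ((le_sup_left : C.subgroupOf D ≤ _) hb)
  have h4 := H2.eq_top_of_sup_frattini h3
  rw [Subgroup.mem_centralizer_iff]
  intro d hd
  have h5 : (⟨d, hd⟩ : D) ∈ C.subgroupOf D := by rw [h4]; trivial
  have h6 : d ∈ C := h5
  exact ((Subgroup.mem_centralizer_iff.1 h6.2) x (Subgroup.mem_zpowers x)).symm

/-- central characters vanish outside the centralizer of a normal `p`-subgroup -/
theorem cc_zero (hMp : IsPModular p M) {D : Subgroup G} [hDn : D.Normal] (hD : IsPGroup p D)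
    (χ : IrrCharacter G) {x : G} (hx : x ∉ Subgroup.centralizer (D : Set G)) :
    MemLocalIdeal M (centralChar (χ : G → ℂ) x) := by
  haveI hM : M.IsPrime := hMp.2.1.isPrime
  obtain ⟨ψ, hψ⟩ := exists_infl_mem (P := D) hMp hD (B := blockOf M (χ : G → ℂ)) ⟨χ, rfl⟩
  have h1 : MemLocalIdeal M (centralChar (χ : G → ℂ) x - centralChar (infl D ψ : G → ℂ) x) := hψ x
  have h2 := centralChar_infl' (N := D) ψ x
  set H : Subgroup G := (Subgroup.centralizer
        ({(QuotientGroup.mk x : G ⧸ D)} : Set (G ⧸ D))).comap (QuotientGroup.mk' D) with hH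
  set C : Subgroup G := Subgroup.centralizer ({x} : Set G) with hC
  have h3 : p ∣ C.relIndex H := by
    have hDH : D ≤ H := by
      intro d hd
      rw [hH, Subgroup.mem_comap, Subgroup.mem_centralizer_singleton_iff]
      have : QuotientGroup.mk' D d = 1 := (QuotientGroup.eq_one_iff d).2 hd
      rw [this]; simp
    have hCH : C ≤ H := by
      intro c hc
      rw [hH, Subgroup.mem_comap, Subgroup.mem_centralizer_singleton_iff]
      have h4 := Subgroup.mem_centralizer_singleton_iff.1 hc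
      have h5 := congrArg (QuotientGroup.mk' D) h4
      rw [map_mul, map_mul] at h5
      exact h5
    have h4 : C.relIndex D ∣ C.relIndex H := by
      have h5 : C.relIndex (C ⊔ D) = C.relIndex D := H2.relIndex_sup_eq_relIndex_of_normal _ _
      rw [← h5]
      exact ⟨_, (Subgroup.relIndex_mul_relIndex C (C ⊔ D) H le_sup_left (sup_le hCH hDH)).symm⟩
    have h5 : C.relIndex D ≠ 1 := by
      intro h
      rw [Subgroup.relIndex_eq_one] at h
      apply hx
      rw [Subgroup.mem_centralizer_iff]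
      intro d hd
      exact Subgroup.mem_centralizer_singleton_iff.1 (h hd)
    obtain ⟨k, hk⟩ := IsPGroup.iff_card.1 hD
    have h6 : C.relIndex D ∣ p ^ k := by
      rw [← hk]; exact Subgroup.relIndex_dvd_card _ _
    obtain ⟨j, -, hj⟩ := (Nat.dvd_prime_pow hp.out).1 h6
    have hj0 : j ≠ 0 := by rintro rfl; exact h5 (by rw [hj, pow_zero])
    refine dvd_trans ?_ h4
    rw [hj]
    exact dvd_pow_self p hj0
  have h4 : MemLocalIdeal M (centralChar (infl D ψ : G → ℂ) x) := by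
    rw [h2]
    haveI : Fintype (G ⧸ D) := Fintype.ofFinite _
    exact li_mul_right ((li_natCast_iff hMp _).2 h3) (lr_centralChar ψ.2 _)
  exact (li_congr h1).2 h4

theorem main1 (hMp : IsPModular p M) {D : Subgroup G} [hDn : D.Normal] (hD : IsPGroup p D)
    (χ ψ : IrrCharacter (G ⧸ ⁅D, D⁆)) :
    SameBlock M (χ : G ⧸ ⁅D, D⁆ → ℂ) (ψ : G ⧸ ⁅D, D⁆ → ℂ) ↔
      SameBlock M ((χ : G ⧸ ⁅D, D⁆ → ℂ) ∘ QuotientGroup.mk)
        ((ψ : G ⧸ ⁅D, D⁆ → ℂ) ∘ QuotientGroup.mk) := by
  haveI hM : M.IsPrime := hMp.2.1.isPrime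
  have hD' : IsPGroup p (⁅D, D⁆ : Subgroup G) := hD.to_le (Subgroup.commutator_le_self D)
  constructor
  · intro h
    exact sameBlock_infl hM h
  · intro h
    have h' : SameBlock M (infl ⁅D, D⁆ χ : G → ℂ) (infl ⁅D, D⁆ ψ : G → ℂ) := h
    apply sameBlock_of_regular hMp
    intro t ht
    obtain ⟨x, rfl, hx⟩ := exists_reg_lift ht
    by_cases hxD : x ∈ Subgroup.centralizer (D : Set G)
    · have hxD' : x ∈ Subgroup.centralizer ((⁅D, D⁆ : Subgroup G) : Set G) :=
        Subgroup.centralizer_le (Subgroup.commutator_le_self D) hxD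
      rw [← centralChar_infl hD' χ hx hxD', ← centralChar_infl hD' ψ hx hxD']
      exact h' x
    · have h1 : (QuotientGroup.mk x : G ⧸ ⁅D, D⁆) ∉ Subgroup.centralizer
          ((D.map (QuotientGroup.mk' ⁅D, D⁆) : Subgroup (G ⧸ ⁅D, D⁆)) : Set (G ⧸ ⁅D, D⁆)) := by
        intro h2
        apply hxD
        refine cent_of_comm hD hx fun d hd => ?_
        rw [Subgroup.mem_centralizer_iff] at h2
        have h3 := h2 (QuotientGroup.mk' ⁅D, D⁆ d) ⟨d, hd, rfl⟩
        rw [← QuotientGroup.eq_one_iff]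
        show QuotientGroup.mk' ⁅D, D⁆ ⁅x, d⁆ = 1
        rw [map_commutatorElement, commutatorElement_eq_one_iff_mul_comm]
        exact h3.symm
      have hDm : (D.map (QuotientGroup.mk' ⁅D, D⁆)).Normal :=
        hDn.map _ (QuotientGroup.mk'_surjective _)
      have hDp : IsPGroup p (D.map (QuotientGroup.mk' ⁅D, D⁆)) := hD.map _
      exact li_sub (cc_zero hMp hDp χ h1) (cc_zero hMp hDp ψ h1)

theorem main2 (hMp : IsPModular p M) {D : Subgroup G} [hDn : D.Normal] (hD : IsPGroup p D)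
    (B : Set (IrrCharacter G)) (hB : IsPBlock M B) :
    ∃ χ : IrrCharacter (G ⧸ ⁅D, D⁆), ∃ θ ∈ B,
      (θ : G → ℂ) = (χ : G ⧸ ⁅D, D⁆ → ℂ) ∘ QuotientGroup.mk := by
  have hD' : IsPGroup p (⁅D, D⁆ : Subgroup G) := hD.to_le (Subgroup.commutator_le_self D)
  obtain ⟨χ, hχ⟩ := exists_infl_mem (P := ⁅D, D⁆) hMp hD' hB
  exact ⟨χ, _, hχ, rfl⟩

end Cfsg.Agent.H7.BlkInf
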