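import Cfsg.Agent.H26.PrinB3
import Cfsg.Agent.H26.Kern
import Cfsg.Agent.H27.AD1
import Cfsg.Agent.H27.Invol
import Cfsg.Agent.H3.Thompson
import Cfsg.Agent.H10.Basic
import Cfsg.Agent.S0939

set_option autoImplicit false
set_option linter.style.haveILetI false
set_option linter.unusedSectionVars false

/-! Height zero characters of the principal block and normal `p`-complements. -/

namespace Cfsg.Agent.H7.BlkHZ

open Subgroup Cfsg Cfsg.Agent.H11 Cfsg.Agent.H3 Cfsg.Agent.H26 Cfsg.Agent.H27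
open scoped ComplexConjugate

universe u

variable {G : Type u} [Group G] [Finite G] {p : ℕ} [hp : Fact p.Prime] {M : Ideal AlgInt}

omit [Finite G] hp in
theorem cd_eq [Fintype G] (ψ : IrrCharacter G) : charDegree (ψ : G → ℂ) = dg (ψ : G → ℂ) := by
  have h1 := deg_eq ψ
  rw [dg_eq (irr_isChar ψ.2)] at h1
  exact_mod_cast h1.symm

theorem forward (hMp : IsPModular p M)
    (h : ∀ χ : IrrCharacter G, χ ∈ principalBlock M G → ¬ p ∣ charDegree (χ : G → ℂ) →
      charDegree (χ : G → ℂ) = 1) : HasNormalPComplement p G := by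
  classical
  haveI hM' : M.IsPrime := hMp.2.1.isPrime
  have hpp : p.Prime := hp.out
  haveI := Fintype.ofFinite G
  obtain ⟨N, hMmin⟩ := Set.Finite.exists_minimal
    (s := {A : Subgroup G | A.Normal ∧ ∃ k : ℕ, A.index = p ^ k}) (Set.toFinite _)
    ⟨⊤, inferInstance, 0, by simp⟩
  obtain ⟨⟨hM, k₀, hk₀⟩, hmin⟩ := hMmin
  haveI := hM
  haveI := Fintype.ofFinite N
  haveI := Fintype.ofFinite (IrrCharacter N)
  -- linear characters have order prime to `p`
  have hlin : ∀ lam : N →* ℂˣ, ¬ p ∣ orderOf lam := by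
    intro lam hdvd
    let M₀ : Subgroup G := {
      carrier := {x | ∃ hx : x ∈ N, ∀ μ : N →* ℂˣ, μ ^ p = 1 → μ ⟨x, hx⟩ = 1}
      one_mem' := ⟨N.one_mem, fun μ _ => map_one μ⟩
      mul_mem' := by
        rintro a b ⟨ha, ha'⟩ ⟨hb, hb'⟩
        refine ⟨N.mul_mem ha hb, fun μ hμ => ?_⟩
        have : (⟨a * b, N.mul_mem ha hb⟩ : N) = ⟨a, ha⟩ * ⟨b, hb⟩ := rfl
        rw [this, map_mul, ha' μ hμ, hb' μ hμ, one_mul]
      inv_mem' := by
        rintro a ⟨ha, ha'⟩
        refine ⟨N.inv_mem ha, fun μ hμ => ?_⟩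
        have : (⟨a⁻¹, N.inv_mem ha⟩ : N) = ⟨a, ha⟩⁻¹ := rfl
        rw [this, map_inv, ha' μ hμ, inv_one] }
    have hM₀n : M₀.Normal := by
      constructor
      rintro x ⟨hx, hx'⟩ g
      refine ⟨hM.conj_mem x hx g, fun μ hμ => ?_⟩
      exact hx' (μ.comp (cjEquiv hM g).toMonoidHom) (by
        ext y
        have h1 := DFunLike.congr_fun hμ (cjEquiv hM g y)
        exact congrArg Units.val h1)
    have hM₀M : M₀ ≤ N := fun x hx => hx.1
    have hidx : ∃ j : ℕ, M₀.index = p ^ j := by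
      haveI : (M₀.subgroupOf N).Normal := inferInstance
      have h1 : IsPGroup p (N ⧸ M₀.subgroupOf N) := by
        intro q
        obtain ⟨x, rfl⟩ := QuotientGroup.mk_surjective q
        refine ⟨1, ?_⟩
        rw [pow_one, ← QuotientGroup.mk_pow, QuotientGroup.eq_one_iff, Subgroup.mem_subgroupOf]
        refine ⟨(x ^ p).2, fun μ hμ => ?_⟩
        have : (⟨((x ^ p : N) : G), (x ^ p).2⟩ : N) = x ^ p := rfl
        rw [this, map_pow]
        exact DFunLike.congr_fun hμ x
      obtain ⟨j, hj⟩ := IsPGroup.iff_card.1 h1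
      have h2 : M₀.relIndex N = p ^ j := hj
      refine ⟨j + k₀, ?_⟩
      rw [← Subgroup.relIndex_mul_index hM₀M, h2, hk₀, pow_add]
    have hle := hmin ⟨hM₀n, hidx⟩ hM₀M
    -- a character of order `p`
    obtain ⟨c, hc⟩ := hdvd
    have hc0 : c ≠ 0 := by
      rintro rfl
      rw [mul_zero] at hc
      exact (orderOf_pos lam).ne' hc
    have h1 : (lam ^ c) ^ p = 1 := by
      rw [← pow_mul lam, mul_comm, ← hc, pow_orderOf_eq_one]
    have h3 : orderOf lam ∣ c := by
      apply orderOf_dvd_of_pow_eq_one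
      ext x
      exact congrArg Units.val ((hle x.2).2 _ h1)
    rw [hc] at h3
    have h4 := Nat.le_of_dvd (Nat.pos_of_ne_zero hc0) h3
    have h5 := hpp.two_le
    have h6 : c * 1 < p * c := by nlinarith [Nat.pos_of_ne_zero hc0]
    omega
  have hcopind : ∀ n : ℕ, ¬ p ∣ n → Nat.Coprime N.index n := by
    intro n hn
    rw [hk₀]
    exact ((Nat.Prime.coprime_iff_not_dvd hpp).2 hn).pow_left _
  obtain ⟨P⟩ : Nonempty (Sylow p G) := inferInstance
  have hMP : N ⊔ P = ⊤ := by
    rw [← Subgroup.index_eq_one]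
    have h1 : (N ⊔ P).index ∣ p ^ k₀ := by
      rw [← hk₀]; exact Subgroup.index_dvd_of_le le_sup_left
    have h2 : (N ⊔ P).index ∣ (P : Subgroup G).index := Subgroup.index_dvd_of_le le_sup_right
    obtain ⟨j, -, hj⟩ := (Nat.dvd_prime_pow hpp).1 h1
    rcases Nat.eq_zero_or_pos j with h3 | h3
    · rw [hj, h3, pow_zero]
    · exact absurd ((dvd_pow_self p h3.ne').trans (hj ▸ h2)) P.not_dvd_index
  -- invariant characters of the principal block
  have hinvlin : ∀ ψ : IrrCharacter N, ψ ∈ principalBlock M N →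
      (∀ g : G, cj hM g (ψ : N → ℂ) = ψ) →
      ¬ p ∣ dg (ψ : N → ℂ) → dg (ψ : N → ℂ) = 1 := by
    intro ψ hψB hψ hpd
    obtain ⟨χ, hχ, hres⟩ := exists_extension hM ψ.2 hψ (dg_eq (irr_isChar ψ.2)) (hcopind _ hpd)
      (fun lam => hcopind _ (hlin lam))
    have hsurj : Function.Surjective (N ⊔ (P : Subgroup G)).subtype := by
      intro x
      exact ⟨⟨x, by rw [hMP]; trivial⟩, rfl⟩
    have hη := isIrr_comp_surjective hχ (N ⊔ (P : Subgroup G)).subtype hsurj
    obtain ⟨χ', hχ'B, hχ'p, hχ'n⟩ := st4583 N p M hMp P ψ hψB (by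
      rw [cd_eq]; exact hpd) ⟨⟨_, hη⟩, fun n => hres n⟩
    have h1 := h χ' hχ'B hχ'p
    have h2 : dg (ψ : N → ℂ) ≤ 1 := by
      refine char_degree_le_of_inner_ne_zero (θ := fun n : N => (χ' : G → ℂ) n)
        (isChar_restrict N (irr_isChar χ'.2)) ψ.2 (by convert hχ'n) (m := 1) ?_
        (dg_eq (irr_isChar ψ.2))
      show (χ' : G → ℂ) 1 = ((1 : ℕ) : ℂ)
      rw [deg_eq χ', h1]
    have h3 : 0 < dg (ψ : N → ℂ) := by
      rw [← cd_eq]; exact deg_pos ψ
    omega
  -- the action of a Sylow subgroup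
  letI := irrAction hM
  letI : MulAction P (IrrCharacter N) := MulAction.compHom _ (P : Subgroup G).subtype
  have hfix : ∀ ψ : IrrCharacter N, ψ ∈ MulAction.fixedPoints P (IrrCharacter N) ↔
      ∀ g : G, cj hM g (ψ : N → ℂ) = ψ := by
    intro ψ
    constructor
    · intro h1 g
      have h2 : N ⊔ P ≤ inertia hM (ψ : N → ℂ) := by
        refine sup_le (le_inertia hM (irr_classFun ψ.2)) ?_
        intro x hx
        have h3 := h1 (⟨x, hx⟩⁻¹ : P)
        have h4 : cj hM (x⁻¹)⁻¹ (ψ : N → ℂ) = ψ := congrArg Subtype.val h3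
        rw [inv_inv] at h4
        exact h4
      rw [hMP] at h2
      exact h2 (Subgroup.mem_top g)
    · intro h1 g
      exact Subtype.ext (h1 (g : G)⁻¹)
  have hcjB : ∀ (g : G) (ψ : IrrCharacter N), ψ ∈ principalBlock M N →
      (⟨cj hM g (ψ : N → ℂ), isIrr_cj hM ψ.2 g⟩ : IrrCharacter N) ∈ principalBlock M N := by
    intro g ψ hψ
    exact (pb_iff _).2 (PB.comp (cjEquiv hM g) ((pb_iff ψ).1 hψ))
  have hcjB' : ∀ (g : P) (ψ : IrrCharacter N), g • ψ ∈ principalBlock M N ↔
      ψ ∈ principalBlock M N := by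
    intro g ψ
    constructor
    · intro h1
      have h2 := hcjB (g : G) (g • ψ) h1
      have h3 : (⟨H3.cj hM (g : G) ((g • ψ : IrrCharacter N) : N → ℂ),
          isIrr_cj hM (g • ψ : IrrCharacter N).2 g⟩ : IrrCharacter N) = ψ := by
        apply Subtype.ext
        show H3.cj hM (g : G) (H3.cj hM (g : G)⁻¹ (ψ : N → ℂ)) = ψ
        rw [← H3.cj_mul, inv_mul_cancel, H3.cj_one]
      rwa [h3] at h2
    · intro h1
      exact hcjB (g : G)⁻¹ ψ h1
  have hsum := sum_modEq_fixed (P := P) (X := IrrCharacter N) hpp P.isPGroup'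
    (fun ψ => if ψ ∈ principalBlock M N then (dg (ψ : N → ℂ) : ℤ) ^ 2 else 0) (by
      intro g ψ
      simp only [hcjB' g ψ]
      have : dg ((g • ψ : IrrCharacter N) : N → ℂ) = dg (ψ : N → ℂ) := by
        show dg (cj hM (g : G)⁻¹ (ψ : N → ℂ)) = _
        rw [dg, dg, H3.cj_one_apply]
      rw [this])
  rw [H2.hasNormalPComplement_iff]
  refine ⟨N, hM, ?_, k₀, hk₀⟩
  intro hd
  have htot : (p : ℤ) ∣ ∑ ψ : IrrCharacter N,
      (if ψ ∈ principalBlock M N then (dg (ψ : N → ℂ) : ℤ) ^ 2 else 0) := by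
    obtain ⟨z, hz⟩ := exists_prime_orderOf_dvd_card' p hd
    have h1 := kr_eq_zero hMp (isPBlock_principal (M := M) (G := N)) (y := (1 : N)) (z := z)
      (by rw [orderOf_one]; exact hpp.one_lt.ne' ∘ Nat.dvd_one.1) (by rw [hz])
    rw [kr_eq, Finset.sum_filter] at h1
    have h2 : MemLocalIdeal M (∑ ψ : IrrCharacter N, ((if ψ ∈ principalBlock M N then
        (ψ : N → ℂ) 1 * conj ((ψ : N → ℂ) z) else 0) -
        (if ψ ∈ principalBlock M N then (ψ : N → ℂ) 1 * (ψ : N → ℂ) 1 else 0))) := by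
      refine li_sum _ _ fun ψ _ => ?_
      split_ifs
      · rw [← mul_sub, ← char_inv (irr_isChar ψ.2)]
        refine li_mul_left (lr_char ψ.2 1) ?_
        have h3 := li_char_mul_sub hMp (irr_isChar ψ.2) (x := z⁻¹) (y := 1) (Commute.one_right _)
          ⟨1, by rw [orderOf_inv, hz, pow_one]⟩
        rwa [mul_one] at h3
      · rw [sub_zero]; exact li_zero M
    rw [Finset.sum_sub_distrib, h1, zero_sub] at h2
    have h3 := li_neg h2
    rw [neg_neg] at h3
    have h4 : ∑ ψ : IrrCharacter N, (if ψ ∈ principalBlock M N then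
        (ψ : N → ℂ) 1 * (ψ : N → ℂ) 1 else 0) = ((∑ ψ : IrrCharacter N,
      (if ψ ∈ principalBlock M N then (dg (ψ : N → ℂ) : ℤ) ^ 2 else 0) : ℤ) : ℂ) := by
      push_cast
      refine Finset.sum_congr rfl fun ψ _ => ?_
      split_ifs
      · rw [dg_eq (irr_isChar ψ.2)]; push_cast; ring
      · simp
    rw [h4] at h3
    exact (li_intCast_iff hMp _).1 h3
  -- the group of invariant linear characters in the principal block
  let Λ : Subgroup (N →* ℂˣ) := {
    carrier := {lam | (∀ (g : G) (x : N), lam (cjEquiv hM g x) = lam x) ∧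
      SameBlock M (fun _ : N => (1 : ℂ)) (hf lam)}
    one_mem' := ⟨fun _ _ => rfl, by
      have : hf (1 : N →* ℂˣ) = fun _ => 1 := by funext x; simp [hf]
      rw [this]; exact sameBlock_refl _⟩
    mul_mem' := by
      rintro a b ⟨ha, ha'⟩ ⟨hb, hb'⟩
      refine ⟨fun g x => by rw [MonoidHom.mul_apply, MonoidHom.mul_apply, ha g x, hb g x], ?_⟩
      intro x
      have h1 := ha' x
      have h2 := hb' x
      unfold centralChar at h1 h2 ⊢
      simp only [hf_at_one, div_one, mul_one] at h1 h2 ⊢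
      have h3 : hf (a * b) x = hf a x * hf b x := by simp [hf]
      rw [h3]
      have h4 : ((Subgroup.centralizer ({x} : Set N)).index : ℂ) -
          ((Subgroup.centralizer ({x} : Set N)).index : ℂ) * (hf a x * hf b x) =
          (((Subgroup.centralizer ({x} : Set N)).index : ℂ) -
          ((Subgroup.centralizer ({x} : Set N)).index : ℂ) * hf a x) * hf b x +
          (((Subgroup.centralizer ({x} : Set N)).index : ℂ) -
          ((Subgroup.centralizer ({x} : Set N)).index : ℂ) * hf b x) := by ring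
      rw [h4]
      exact li_add (li_mul_right h1 (lr_char (isIrr_hf b) x)) h2
    inv_mem' := by
      rintro a ⟨ha, ha'⟩
      refine ⟨fun g x => by rw [MonoidHom.inv_apply, MonoidHom.inv_apply, ha g x], ?_⟩
      intro x
      have h1 := ha' x
      unfold centralChar at h1 ⊢
      simp only [hf_at_one, div_one, mul_one] at h1 ⊢
      have h3 : hf a x * hf a⁻¹ x = 1 := by simp [hf]
      have h4 : ((Subgroup.centralizer ({x} : Set N)).index : ℂ) -
          ((Subgroup.centralizer ({x} : Set N)).index : ℂ) * hf a⁻¹ x =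
          -(((Subgroup.centralizer ({x} : Set N)).index : ℂ) -
          ((Subgroup.centralizer ({x} : Set N)).index : ℂ) * hf a x) * hf a⁻¹ x := by
        linear_combination (-((Subgroup.centralizer ({x} : Set N)).index : ℂ)) * h3
      rw [h4]
      exact li_mul_right (li_neg h1) (lr_char (isIrr_hf a⁻¹) x) }
  haveI : Finite (N →* ℂˣ) := Finite.of_injective _ (linIrr_injective (A := N))
  have hΛ : ¬ p ∣ Nat.card Λ := by
    intro hd
    obtain ⟨lam, hl⟩ := exists_prime_orderOf_dvd_card' p hd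
    apply hlin lam.1
    rw [Subgroup.orderOf_coe, hl]
  have hcount : ∑ ψ with ψ ∈ MulAction.fixedPoints P (IrrCharacter N),
      (if ψ ∈ principalBlock M N then (dg (ψ : N → ℂ) : ℤ) ^ 2 else 0) ≡ Nat.card Λ [ZMOD p] := by
    have h1 : ∀ ψ ∈ (Finset.univ : Finset (IrrCharacter N)).filter
        (fun ψ => ψ ∈ MulAction.fixedPoints P (IrrCharacter N)),
        (if ψ ∈ principalBlock M N then (dg (ψ : N → ℂ) : ℤ) ^ 2 else 0) ≡
          (if ψ ∈ principalBlock M N ∧ dg (ψ : N → ℂ) = 1 then 1 else 0) [ZMOD p] := by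
      intro ψ hψ
      rw [Finset.mem_filter] at hψ
      by_cases hB : ψ ∈ principalBlock M N
      · by_cases h2 : dg (ψ : N → ℂ) = 1
        · rw [if_pos hB, if_pos ⟨hB, h2⟩, h2]; exact Int.ModEq.refl _
        · rw [if_pos hB, if_neg (fun h => h2 h.2)]
          have h3 : p ∣ dg (ψ : N → ℂ) := by
            by_contra h3
            exact h2 (hinvlin ψ hB ((hfix ψ).1 hψ.2) h3)
          rw [Int.modEq_zero_iff_dvd]
          have h4 : (p : ℤ) ∣ (dg (ψ : N → ℂ) : ℤ) := by exact_mod_cast h3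
          exact h4.trans (dvd_pow_self _ two_ne_zero)
      · rw [if_neg hB, if_neg (fun h => hB h.1)]
    refine (Int.ModEq.sum h1).trans ?_
    rw [← Finset.sum_filter, Finset.sum_const, nsmul_eq_mul, mul_one, Finset.filter_filter]
    have h2 : ((Finset.univ : Finset (IrrCharacter N)).filter
        (fun ψ => ψ ∈ MulAction.fixedPoints P (IrrCharacter N) ∧
          (ψ ∈ principalBlock M N ∧ dg (ψ : N → ℂ) = 1))).card =
        Nat.card Λ := by
      rw [← Fintype.card_subtype, ← Nat.card_eq_fintype_card]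
      symm
      refine Nat.card_congr (Equiv.ofBijective (fun lam : Λ => ⟨⟨hf lam.1, isIrr_hf lam.1⟩,
        (hfix _).2 (fun g => funext fun x => by
          have := lam.2.1 g x
          exact congrArg Units.val this), lam.2.2, dg_of_eq (by
            show hf lam.1 1 = _; rw [hf_at_one]; simp)⟩) ⟨?_, ?_⟩)
      · intro a b hab
        have h3 := congrArg (fun z : {ψ : IrrCharacter N //
          ψ ∈ MulAction.fixedPoints P (IrrCharacter N) ∧
            (ψ ∈ principalBlock M N ∧ dg (ψ : N → ℂ) = 1)} =>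
            ((z.1 : IrrCharacter N) : N → ℂ)) hab
        exact Subtype.ext (hf_injective h3)
      · rintro ⟨ψ, hψ, hψB, hψ1⟩
        obtain ⟨μ, hμ⟩ := exists_hf (irr_isChar ψ.2) (by rw [dg_eq (irr_isChar ψ.2), hψ1]; simp)
        refine ⟨⟨μ, fun g x => Units.ext ?_, ?_⟩, Subtype.ext (Subtype.ext hμ.symm)⟩
        · have h3 := congrFun ((hfix ψ).1 hψ g) x
          rw [hμ] at h3
          exact h3
        · rw [← hμ]; exact hψB
    rw [h2]
  apply hΛ
  have h2 : (p : ℤ) ∣ ∑ ψ with ψ ∈ MulAction.fixedPoints P (IrrCharacter N),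
      (if ψ ∈ principalBlock M N then (dg (ψ : N → ℂ) : ℤ) ^ 2 else 0) := by
    have := dvd_sub htot hsum
    rwa [sub_sub_cancel] at this
  have h3 := (Int.modEq_zero_iff_dvd.2 h2).symm.trans hcount
  exact_mod_cast Int.modEq_zero_iff_dvd.1 h3.symm

theorem height_zero_iff (hMp : IsPModular p M) (χ : IrrCharacter G) :
    blockHeight p (principalBlock M G) (χ : G → ℂ) = 0 ↔ ¬ p ∣ charDegree (χ : G → ℂ) := by
  haveI hM' : M.IsPrime := hMp.2.1.isPrime
  haveI := Fintype.ofFinite G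
  have h1 : sInf ((fun ψ : IrrCharacter G => (charDegree (ψ : G → ℂ)).factorization p) ''
      principalBlock M G) = 0 := by
    apply Nat.sInf_eq_zero.2
    left
    refine ⟨oneIrr G, oneIrr_mem, ?_⟩
    have : charDegree ((oneIrr G : IrrCharacter G) : G → ℂ) = 1 := by
      show ⌊((1 : ℂ)).re⌋₊ = 1
      simp
    simp only [this, Nat.factorization_one, Finsupp.coe_zero, Pi.zero_apply]
  rw [blockHeight, h1, Nat.sub_zero]
  have h2 := (deg_pos χ).ne'
  constructor
  · intro h3 h4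
    have := (hp.out.dvd_iff_one_le_factorization h2).1 h4
    omega
  · intro h3
    exact Nat.factorization_eq_zero_of_not_dvd h3

theorem backward (hMp : IsPModular p M) (hn : HasNormalPComplement p G) (χ : IrrCharacter G)
    (hχ : χ ∈ principalBlock M G) (hd : ¬ p ∣ charDegree (χ : G → ℂ)) :
    charDegree (χ : G → ℂ) = 1 := by
  obtain ⟨N, hN, hpN, k, hk⟩ := H2.hasNormalPComplement_iff.1 hn
  have h1 : N ≤ pPrimeCore p G := H10.le_pPrimeCore hN
    ((Nat.Prime.coprime_iff_not_dvd hp.out).2 hpN).symm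
  have h2 : (pPrimeCore p G).index ∣ p ^ k := by
    rw [← hk]; exact Subgroup.index_dvd_of_le h1
  obtain ⟨j, -, hj⟩ := (Nat.dvd_prime_pow hp.out).1 h2
  have h3 := S0939.result p M hMp ⟨j, hj⟩
  rw [h3] at hχ
  have h4 : pPrimeCore p G ≤ charKer (irr_isChar χ.2) := fun n hn => hχ n hn
  have h5 := (charDegree_dvd_index_ker χ.2).trans (Subgroup.index_dvd_of_le h4)
  rw [hj] at h5
  obtain ⟨i, -, hi⟩ := (Nat.dvd_prime_pow hp.out).1 h5
  rcases Nat.eq_zero_or_pos i with h6 | h6
  · rw [hi, h6, pow_zero]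
  · exact absurd (hi ▸ dvd_pow_self p h6.ne') hd

end Cfsg.Agent.H7.BlkHZ
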