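import Cfsg.Agent.H5.LinBasic

set_option autoImplicit false

/-! The centraliser of a transvection in SL(5,2). -/

namespace Cfsg.Agent.H7.Cent5

open Matrix

abbrev F := ZMod 2

theorem det_eq (M : Matrix (Fin 5) (Fin 5) F) (h0 : M 0 0 = 1) (hc : ∀ i : Fin 4, M i.succ 0 = 0)
    (h1 : M 1 1 = 1) (hr : ∀ j : Fin 3, M 1 j.succ.succ = 0) :
    M.det = (M.submatrix (fun i : Fin 3 => i.succ.succ) (fun i : Fin 3 => i.succ.succ)).det := by
  rw [Matrix.det_succ_column_zero, Fin.sum_univ_succ]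
  rw [Finset.sum_eq_zero (fun i _ => by rw [hc i]; ring), add_zero, h0]
  simp only [Fin.val_zero, pow_zero, one_mul, Fin.succAbove_zero]
  rw [Matrix.det_succ_row_zero, Fin.sum_univ_succ]
  rw [Finset.sum_eq_zero (fun j _ => by
    have : (M.submatrix (Fin.succ : Fin 4 → Fin 5) Fin.succ) 0 j.succ = 0 := hr j
    rw [this]; ring), add_zero]
  have : (M.submatrix (Fin.succ : Fin 4 → Fin 5) Fin.succ) 0 0 = 1 := h1
  rw [this]
  simp only [Fin.val_zero, pow_zero, one_mul, Fin.succAbove_zero, submatrix_submatrix]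
  rfl

/-- the matrix with given data -/
def mk (b : F) (c d : Fin 3 → F) (A : Matrix (Fin 3) (Fin 3) F) : Matrix (Fin 5) (Fin 5) F :=
  Matrix.of (Fin.cons (Fin.cons 1 (Fin.cons b c))
    (Fin.cons (Fin.cons 0 (Fin.cons 1 (fun _ => 0)))
      (fun i => Fin.cons 0 (Fin.cons (d i) (A i)))))

theorem comm_iff (g : Matrix (Fin 5) (Fin 5) F) :
    g * Matrix.transvection 0 1 1 = Matrix.transvection 0 1 1 * g ↔
      g 0 0 = g 1 1 ∧ (∀ i : Fin 4, g i.succ 0 = 0) ∧ g 1 0 = 0 ∧
        (∀ j : Fin 3, g 1 j.succ.succ = 0) := by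
  rw [Matrix.transvection, mul_add, add_mul, mul_one, one_mul, add_right_inj]
  rw [← Matrix.ext_iff]
  simp only [Fin.forall_fin_succ, Matrix.mul_apply, Fin.sum_univ_succ, Matrix.single_apply]
  simp
  tauto

theorem mem_cent_iff {s : Matrix.SpecialLinearGroup (Fin 5) F}
    (hs : (s : Matrix (Fin 5) (Fin 5) F) = Matrix.transvection 0 1 1)
    {g : Matrix.SpecialLinearGroup (Fin 5) F} :
    g ∈ Subgroup.centralizer ({s} : Set (Matrix.SpecialLinearGroup (Fin 5) F)) ↔
      (g : Matrix (Fin 5) (Fin 5) F) 0 0 = 1 ∧ (∀ i : Fin 4, (g : Matrix (Fin 5) (Fin 5) F) i.succ 0 = 0) ∧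
      (g : Matrix (Fin 5) (Fin 5) F) 1 1 = 1 ∧
        (∀ j : Fin 3, (g : Matrix (Fin 5) (Fin 5) F) 1 j.succ.succ = 0) := by
  rw [Subgroup.mem_centralizer_singleton_iff]
  have h1 : g * s = s * g ↔ (g : Matrix (Fin 5) (Fin 5) F) * Matrix.transvection 0 1 1 =
      Matrix.transvection 0 1 1 * (g : Matrix (Fin 5) (Fin 5) F) := by
    rw [← hs]
    constructor
    · intro h; exact congrArg Subtype.val h
    · intro h; exact Subtype.ext h
  rw [h1, comm_iff]
  constructor
  · rintro ⟨h00, hc, -, hr⟩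
    have h0 : (g : Matrix (Fin 5) (Fin 5) F) 0 0 = 1 := by
      have h2 : (g : Matrix (Fin 5) (Fin 5) F) 0 0 ≠ 0 := by
        intro h
        have h3 := g.2
        rw [Matrix.det_eq_zero_of_column_eq_zero 0 (fun i => by
          refine Fin.cases h hc i)] at h3
        exact zero_ne_one h3
      revert h2
      generalize (g : Matrix (Fin 5) (Fin 5) F) 0 0 = a
      revert a; decide
    exact ⟨h0, hc, h00 ▸ h0, hr⟩
  · rintro ⟨h0, hc, h11, hr⟩
    exact ⟨h0.trans h11.symm, hc, hc 0, hr⟩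

noncomputable def equiv (s : Matrix.SpecialLinearGroup (Fin 5) F)
    (hs : (s : Matrix (Fin 5) (Fin 5) F) = Matrix.transvection 0 1 1) :
    Subgroup.centralizer ({s} : Set (Matrix.SpecialLinearGroup (Fin 5) F)) ≃
      F × (Fin 3 → F) × (Fin 3 → F) × Matrix.SpecialLinearGroup (Fin 3) F where
  toFun g := ((g.1 : Matrix (Fin 5) (Fin 5) F) 0 1,
    fun j => (g.1 : Matrix (Fin 5) (Fin 5) F) 0 j.succ.succ,
    fun i => (g.1 : Matrix (Fin 5) (Fin 5) F) i.succ.succ 1,
    ⟨(g.1 : Matrix (Fin 5) (Fin 5) F).submatrix (fun i : Fin 3 => i.succ.succ)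
      (fun i : Fin 3 => i.succ.succ), by
        obtain ⟨h1, h2, h3, h4⟩ := (mem_cent_iff hs).1 g.2
        rw [← det_eq _ h1 h2 h3 h4]
        exact g.1.2⟩)
  invFun q := ⟨⟨mk q.1 q.2.1 q.2.2.1 q.2.2.2, by
      rw [det_eq (mk q.1 q.2.1 q.2.2.1 q.2.2.2) rfl (fun i => by
        refine Fin.cases rfl (fun i => ?_) i; rfl) rfl (fun j => rfl)]
      exact q.2.2.2.2⟩, by
        refine (mem_cent_iff hs).2 ⟨rfl, fun i => ?_, rfl, fun j => rfl⟩
        refine Fin.cases rfl (fun i => ?_) i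
        rfl⟩
  left_inv g := by
    obtain ⟨h1, h2, h3, h4⟩ := (mem_cent_iff hs).1 g.2
    apply Subtype.ext
    apply Subtype.ext
    funext i j
    refine Fin.cases ?_ (fun i => ?_) i
    · refine Fin.cases h1.symm (fun j => ?_) j
      refine Fin.cases rfl (fun j => rfl) j
    · refine Fin.cases ?_ (fun i => ?_) i
      · refine Fin.cases (h2 0).symm (fun j => ?_) j
        refine Fin.cases h3.symm (fun j => (h4 j).symm) j
      · refine Fin.cases (h2 i.succ).symm (fun j => ?_) j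
        refine Fin.cases rfl (fun j => rfl) j
  right_inv q := rfl

theorem card_SL3 : Nat.card (Matrix.SpecialLinearGroup (Fin 3) F) = 168 := by
  have h := H5.card_SL_mul (F := F) (q := 2) (by simp [ZMod.card]) 3 (by norm_num)
  simpa [Fin.prod_univ_succ] using h

theorem main (s : Matrix.SpecialLinearGroup (Fin 5) F)
    (hs : (s : Matrix (Fin 5) (Fin 5) F) = Matrix.transvection 0 1 1) :
    Nat.card (Subgroup.centralizer ({s} : Set (Matrix.SpecialLinearGroup (Fin 5) F))) = 21504 := by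
  rw [Nat.card_congr (equiv s hs), Nat.card_prod, Nat.card_prod, Nat.card_prod, card_SL3]
  simp

end Cfsg.Agent.H7.Cent5
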