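import Mathlib
import Cfsg.Prelude
import Cfsg.Agent.H18.DLen1

set_option autoImplicit false
set_option linter.all false
open Cfsg

/-!
Derived length of `p`-subgroups of `GL_n(q)`, `p` odd (adapted from `H18.DLen1`).
-/

namespace Cfsg.Agent.H7.DLP

set_option maxHeartbeats 800000

open Subgroup Cfsg.Agent.H18 Cfsg.Agent

universe u

/-- the irreducible faithful step -/
theorem dlp_succ {F : Type u} [Field F] [Fintype F] {p : ℕ} [hp : Fact p.Prime] {q : ℕ}
    (hp2 : p ≠ 2) (hpF : (p : F) ≠ 0) (hpq : ¬ p ∣ q) (k : ℕ)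
    (IH : ∀ (V : Type u) [AddCommGroup V] [Module F V] [FiniteDimensional F V] (G : Type u) [Group G]
      [Finite G] (ρ : Representation F G V), IsPGroup p G →
      Module.finrank F V < orderOf (q : ZMod p) * p ^ k → ∀ g ∈ derivedSeries G k, ρ g = 1)
    {V : Type u} [AddCommGroup V] [Module F V] [FiniteDimensional F V]
    {G : Type u} [Group G] [Finite G] (ρ : Representation F G V) (hG : IsPGroup p G)
    (hd : Module.finrank F V < orderOf (q : ZMod p) * p ^ (k + 1)) (hinj : Function.Injective ρ)
    (hV : Nontrivial V)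
    (hirr : ∀ W : Submodule F V, (∀ g, ∀ w ∈ W, ρ g w ∈ W) → W = ⊥ ∨ W = ⊤) :
    derivedSeries G (k + 1) = ⊥ := by
  classical
  have comm_case : (∀ x y : G, x * y = y * x) → derivedSeries G (k + 1) = ⊥ := by
    intro h
    have h1 : derivedSeries G 1 = ⊥ := by
      rw [derivedSeries_succ, derivedSeries_zero, commutator_eq_bot_iff_le_centralizer]
      intro x _
      rw [mem_centralizer_iff]
      intro y _
      exact h y x
    rw [eq_bot_iff, ← h1]
    exact derivedSeries_antitone G (by omega)
  by_cases hE : ∃ E : Subgroup G, E.Normal ∧ Nat.card E = p ^ 2 ∧ ∀ a ∈ E, a ^ p = 1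
  swap
  · push Not at hE
    rcases H23.cyclic_or_dqs hG (fun E h1 h2 h3 => by
      obtain ⟨a, ha, ha'⟩ := hE E h1 h2
      exact ha' (h3 a ha)) with h1 | ⟨h1, m, h2⟩
    · haveI := h1
      exact comm_case (fun x y => IsCyclic.commGroup.mul_comm x y)
    · exact absurd h1 hp2
  obtain ⟨E, hEn, hEc, hEp⟩ := hE
  have hEcomm := H23.comm_of_card_sq hEc
  set N : Subgroup G := centralizer (E : Set G) with hN
  haveI hNn : N.Normal := inferInstance
  have hNi : N.index ≤ p := H23.index_centralizer_sq_le hG hEc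
  have hGN : _root_.commutator G ≤ N := by
    haveI : IsMulCommutative (G ⧸ N) := by
      apply H23.isMulCommutative_of_card_le_sq (hG.to_quotient N)
      calc Nat.card (G ⧸ N) = N.index := rfl
        _ ≤ p := hNi
        _ ≤ p ^ 2 := Nat.le_self_pow (by norm_num) p
    intro x hx
    rw [← QuotientGroup.eq_one_iff]
    have h5 : (QuotientGroup.mk' N) x ∈ (_root_.commutator G).map (QuotientGroup.mk' N) :=
      ⟨x, hx, rfl⟩
    rw [_root_.commutator, map_commutator] at h5
    have h6 : ⁅(⊤ : Subgroup G).map (QuotientGroup.mk' N),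
        (⊤ : Subgroup G).map (QuotientGroup.mk' N)⁆ = ⊥ := by
      rw [commutator_eq_bot_iff_le_centralizer]
      intro y _
      rw [mem_centralizer_iff]
      intro z _
      exact this.is_comm.comm z y
    rw [h6, mem_bot] at h5
    exact h5
  -- fixed spaces
  let C : G → Submodule F V := fun z =>
    { carrier := {v | ρ z v = v}
      add_mem' := by
        intro a b ha hb
        show ρ z (a + b) = a + b
        rw [map_add, show ρ z a = a from ha, show ρ z b = b from hb]
      zero_mem' := map_zero _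
      smul_mem' := by
        intro c a ha
        show ρ z (c • a) = c • a
        rw [map_smul, show ρ z a = a from ha] }
  have hC : ∀ z v, v ∈ C z ↔ ρ z v = v := fun z v => Iff.rfl
  have hCtop : ∀ z, C z = ⊤ → z = 1 := by
    intro z hz
    apply hinj
    apply LinearMap.ext
    intro v
    have : v ∈ C z := by rw [hz]; trivial
    rw [map_one, Module.End.one_apply]
    exact this
  -- an element of E with nontrivial fixed space
  obtain ⟨x, hxE, hx1, v₀, hv₀, hv₀x⟩ : ∃ x ∈ E, x ≠ 1 ∧ ∃ v, v ≠ 0 ∧ ρ x v = v := by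
    by_contra hcon
    push Not at hcon
    have hp1 := hp.out.one_lt
    obtain ⟨b, hbE, hb1⟩ : ∃ b ∈ E, b ≠ 1 := by
      by_contra h
      push Not at h
      have : E = ⊥ := by rw [eq_bot_iff]; intro y hy; rw [mem_bot]; exact h y hy
      rw [this] at hEc
      simp at hEc
      nlinarith
    have hob : orderOf b = p := orderOf_eq_prime (hEp b hbE) hb1
    obtain ⟨a, haE, hab⟩ : ∃ a ∈ E, a ∉ zpowers b := by
      by_contra h
      push Not at h
      have := card_le_of_le (show E ≤ zpowers b from h)
      rw [hEc, Nat.card_zpowers, hob] at this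
      nlinarith
    obtain ⟨v, hv⟩ := exists_ne (0 : V)
    apply hv
    refine eq_zero_of_fpf hpF (A := ρ a) (B := ρ b) ?_ ?_ ?_ ?_ ?_ v
    · show ρ a * ρ b = ρ b * ρ a
      rw [← map_mul, ← map_mul, hEcomm a haE b hbE]
    · rw [← map_pow, hEp a haE, map_one]
    · rw [← map_pow, hEp b hbE, map_one]
    · intro j hj hjp v hv
      by_contra hv0
      rw [← map_pow] at hv
      refine hcon (b ^ j) (pow_mem hbE j) ?_ v hv0 hv
      intro h
      have := orderOf_dvd_of_pow_eq_one h
      rw [hob] at this
      have := Nat.le_of_dvd hj this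
      omega
    · intro i v hv
      by_contra hv0
      rw [← map_pow, ← map_mul] at hv
      refine hcon (a * b ^ i) (mul_mem haE (pow_mem hbE i)) ?_ v hv0 hv
      intro h
      apply hab
      rw [eq_inv_of_mul_eq_one_left h]
      exact inv_mem (pow_mem (mem_zpowers b) i)
  have hox : orderOf x = p := orderOf_eq_prime (hEp x hxE) hx1
  -- x has a conjugate outside its span
  obtain ⟨g, hg⟩ : ∃ g : G, g * x * g⁻¹ ∉ zpowers x := by
    by_contra hcon
    push Not at hcon
    have hn : (zpowers x).Normal := by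
      refine ⟨fun y hy g => ?_⟩
      obtain ⟨m, rfl⟩ := mem_zpowers_iff.1 hy
      rw [← conj_zpow]
      exact zpow_mem (hcon g) m
    have hZ : zpowers x ≤ center G := by
      apply H23.le_center_of_card_le hG
      rw [Nat.card_zpowers, hox]
    have hxZ := hZ (mem_zpowers x)
    rcases hirr (C x) (by
      intro g w hw
      show ρ x (ρ g w) = ρ g w
      have h1 : ρ x (ρ g w) = ρ g (ρ x w) := by
        rw [← Module.End.mul_apply, ← Module.End.mul_apply, ← map_mul, ← map_mul,
          (mem_center_iff.1 hxZ g)]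
      rw [h1, show ρ x w = w from hw]) with h | h
    · have : v₀ ∈ C x := hv₀x
      rw [h] at this
      exact hv₀ ((Submodule.mem_bot F).1 this)
    · exact hx1 (hCtop x h)
  -- the index of the centralizer
  have hgN : g ∉ N := by
    intro h
    apply hg
    have h1 := mem_centralizer_iff.1 h x hxE
    have h2 : g * x * g⁻¹ = x := by rw [← h1, mul_inv_cancel_right]
    rw [h2]; exact mem_zpowers x
  have hNp : N.index = p := by
    obtain ⟨j, hj⟩ := IsPGroup.iff_card.1 (hG.to_quotient N)
    have h1 : N.index = p ^ j := hj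
    have h2 : j ≠ 0 := by
      intro h3
      rw [h3, pow_zero, index_eq_one] at h1
      exact hgN (h1 ▸ mem_top g)
    have h4 : p ^ 1 ≤ p ^ j := Nat.pow_le_pow_right hp.out.pos (by omega)
    rw [pow_one] at h4
    omega
  -- the normalizer of the span of x is N
  let M : Subgroup G := normalizer (zpowers x : Set G)
  have hMmem : ∀ h : G, h * x * h⁻¹ ∈ zpowers x → h ∈ M := by
    intro h hh
    rw [mem_normalizer_iff]
    have h1 : (zpowers x).map (MulAut.conj h).toMonoidHom = zpowers x := by
      apply eq_of_le_of_card_ge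
      · rw [MonoidHom.map_zpowers, zpowers_le]
        exact hh
      · rw [card_map_of_injective (MulAut.conj h).injective]
    intro z
    constructor
    · intro hz
      rw [← h1]
      exact ⟨z, hz, rfl⟩
    · intro hz
      rw [← h1] at hz
      obtain ⟨w, hw, hw'⟩ := hz
      have h2 : h * w * h⁻¹ = h * z * h⁻¹ := hw'
      have h3 : w = z := mul_left_cancel (mul_right_cancel h2)
      rw [← h3]; exact hw
  have hNM : N ≤ M := by
    intro h hh
    apply hMmem
    have h1 := mem_centralizer_iff.1 hh x hxE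
    have h2 : h * x * h⁻¹ = x := by rw [← h1, mul_inv_cancel_right]
    rw [h2]; exact mem_zpowers x
  have hMN : M ≤ N := by
    have h1 := relIndex_mul_index hNM
    rw [hNp] at h1
    have h2 : M.index ≠ 1 := by
      intro h3
      rw [index_eq_one] at h3
      have h4 : g ∈ M := h3 ▸ mem_top g
      exact hg ((mem_normalizer_iff.1 h4 x).1 (mem_zpowers x))
    have h3 : N.relIndex M = 1 := by
      rcases (Nat.dvd_prime hp.out).1 (Dvd.intro _ h1) with h4 | h4
      · exact h4
      · exfalso
        rw [h4] at h1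
        have h5 : p * M.index = p * 1 := by rw [h1, mul_one]
        exact h2 (Nat.eq_of_mul_eq_mul_left hp.out.pos h5)
    exact relIndex_eq_one.1 h3
  have hgm : ∀ m : ℕ, 0 < m → m < p → g ^ m * x * (g ^ m)⁻¹ ∉ zpowers x := by
    intro m hm hmp hcon
    have h1 := hMN (hMmem _ hcon)
    have h2 : (QuotientGroup.mk' N g) ^ m = 1 := by
      rw [← map_pow]
      exact (QuotientGroup.eq_one_iff _).2 h1
    have h3 : (QuotientGroup.mk' N g) ^ p = 1 := by
      have h4 : Nat.card (G ⧸ N) = p := hNp
      rw [← h4]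
      exact pow_card_eq_one'
    have h4 : QuotientGroup.mk' N g ≠ 1 := fun h => hgN ((QuotientGroup.eq_one_iff _).1 h)
    have h5 := orderOf_eq_prime h3 h4
    have h6 := orderOf_dvd_of_pow_eq_one h2
    rw [h5] at h6
    have := Nat.le_of_dvd hm h6
    omega
  have hdisj : ∀ m : ℕ, 0 < m → m < p → C x ⊓ C (g ^ m * x * (g ^ m)⁻¹) = ⊥ := by
    intro m hm hmp
    set y := g ^ m * x * (g ^ m)⁻¹ with hy
    have hg' := hgm m hm hmp
    rw [← hy] at hg'
    have hyE : y ∈ E := hEn.conj_mem x hxE (g ^ m)
    have hEgen : E = closure ({x, y} : Set G) := by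
      symm
      apply eq_of_le_of_card_ge
      · rw [closure_le]
        rintro z (rfl | rfl)
        · exact hxE
        · exact hyE
      · rw [hEc]
        have h1 : zpowers x < closure ({x, y} : Set G) := by
          refine lt_of_le_of_ne (by rw [zpowers_le]; exact subset_closure (by simp)) ?_
          intro h
          apply hg'
          rw [h]; exact subset_closure (by simp)
        obtain ⟨j, hj⟩ := IsPGroup.iff_card.1 (hG.to_subgroup (closure ({x, y} : Set G)))
        have h2 : Nat.card (zpowers x) < Nat.card (closure ({x, y} : Set G)) := by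
          by_contra h3
          exact h1.ne (eq_of_le_of_card_ge h1.le (not_lt.1 h3))
        rw [Nat.card_zpowers, hox, hj] at h2
        rw [hj]
        apply Nat.pow_le_pow_right hp.out.pos
        by_contra h3
        have h4 : p ^ j ≤ p ^ 1 := Nat.pow_le_pow_right hp.out.pos (by omega)
        rw [pow_one] at h4
        omega
    have hfixE : ∀ v, v ∈ C x ⊓ C y ↔ ∀ z ∈ E, ρ z v = v := by
      intro v
      constructor
      · intro hv z hz
        obtain ⟨hv1, hv2⟩ := Submodule.mem_inf.1 hv
        let S : Subgroup G :=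
          { carrier := {z | ρ z v = v}
            mul_mem' := by
              intro a b ha hb
              show ρ (a * b) v = v
              rw [map_mul, Module.End.mul_apply, show ρ b v = v from hb, show ρ a v = v from ha]
            one_mem' := by show ρ 1 v = v; rw [map_one]; rfl
            inv_mem' := by
              intro a ha
              show ρ a⁻¹ v = v
              have h1 : ρ a⁻¹ (ρ a v) = v := by
                rw [← Module.End.mul_apply, ← map_mul, inv_mul_cancel, map_one]; rfl
              rwa [show ρ a v = v from ha] at h1 }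
        have : E ≤ S := by
          rw [hEgen, closure_le]
          rintro z (rfl | rfl)
          · exact hv1
          · exact hv2
        exact this hz
      · intro h
        exact Submodule.mem_inf.2 ⟨h x hxE, h y hyE⟩
    rcases hirr (C x ⊓ C y) (by
      intro g w hw
      rw [hfixE] at hw ⊢
      intro z hz
      have h1 : ρ z (ρ g w) = ρ g (ρ (g⁻¹ * z * g) w) := by
        rw [← Module.End.mul_apply, ← Module.End.mul_apply, ← map_mul, ← map_mul]
        congr 2; group
      rw [h1, hw]
      have := hEn.conj_mem z hz g⁻¹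
      rwa [inv_inv] at this) with h | h
    · exact h
    · exfalso
      apply hx1
      apply hCtop
      rw [eq_top_iff, ← h]
      exact inf_le_left
  -- translation
  have htr : ∀ (a z : G) (v : V), v ∈ C z → ρ a v ∈ C (a * z * a⁻¹) := by
    intro a z v hv
    show ρ (a * z * a⁻¹) (ρ a v) = ρ a v
    have h1 : ρ (a * z * a⁻¹) (ρ a v) = ρ a (ρ z v) := by
      rw [← Module.End.mul_apply, ← Module.End.mul_apply, ← map_mul, ← map_mul]
      congr 2; group
    rw [h1, show ρ z v = v from hv]
  have hback : ∀ (a : G) (v : V), ρ a⁻¹ (ρ a v) = v := by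
    intro a v
    rw [← Module.End.mul_apply, ← map_mul, inv_mul_cancel, map_one]; rfl
  -- pairwise disjointness of the conjugates
  have hdisj2 : ∀ i j : ℕ, i < j → j < p → ∀ v, v ∈ C (g ^ i * x * (g ^ i)⁻¹) → v ∈ C (g ^ j * x * (g ^ j)⁻¹) → v = 0 := by
    intro i j hij hjp v h1 h2
    have h3 := htr (g ^ i)⁻¹ _ v h1
    have h4 := htr (g ^ i)⁻¹ _ v h2
    have e1 : (g ^ i)⁻¹ * (g ^ i * x * (g ^ i)⁻¹) * ((g ^ i)⁻¹)⁻¹ = x := by group
    obtain ⟨m, rfl⟩ : ∃ m, j = i + m := ⟨j - i, by omega⟩
    have e2 : (g ^ i)⁻¹ * (g ^ (i + m) * x * (g ^ (i + m))⁻¹) * ((g ^ i)⁻¹)⁻¹ = g ^ m * x * (g ^ m)⁻¹ := by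
      rw [pow_add]; group
    rw [e1] at h3
    rw [e2] at h4
    have h5 : ρ (g ^ i)⁻¹ v ∈ C x ⊓ C (g ^ m * x * (g ^ m)⁻¹) := ⟨h3, h4⟩
    rw [hdisj m (by omega) (by omega), Submodule.mem_bot] at h5
    have h6 := hback (g ^ i)⁻¹ v
    rw [h5, map_zero] at h6
    exact h6.symm
  have hdisj3 : ∀ i j : ℕ, i ≠ j → i < p → j < p → ∀ v, v ∈ C (g ^ i * x * (g ^ i)⁻¹) → v ∈ C (g ^ j * x * (g ^ j)⁻¹) → v = 0 := by
    intro i j hij hi hj v h1 h2
    rcases lt_or_gt_of_ne hij with h | h
    · exact hdisj2 i j h hj v h1 h2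
    · exact hdisj2 j i h hi v h2 h1
  -- the direct sum
  let Φ : (Fin p → C x) →ₗ[F] V :=
    ∑ i : Fin p, ((ρ (g ^ (i : ℕ))).comp (C x).subtype).comp (LinearMap.proj i)
  have hΦ : ∀ w : Fin p → C x, Φ w = ∑ i : Fin p, ρ (g ^ (i : ℕ)) (w i : V) := by
    intro w
    show (∑ i : Fin p, ((ρ (g ^ (i : ℕ))).comp (C x).subtype).comp (LinearMap.proj i)) w = _
    rw [LinearMap.sum_apply]
    rfl
  have hΦinj : Function.Injective Φ := by
    rw [injective_iff_map_eq_zero]
    intro w hw
    rw [hΦ] at hw
    funext j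
    apply Subtype.ext
    show (w j : V) = 0
    set xj : G := g ^ (j : ℕ) * x * (g ^ (j : ℕ))⁻¹ with hxj
    have hxjE : xj ∈ E := hEn.conj_mem x hxE _
    have hxjp : xj ^ p = 1 := hEp xj hxjE
    let S : Module.End F V := ∑ t ∈ Finset.range p, ρ (xj ^ t)
    have hSfix : ∀ v, S v ∈ C xj := by
      intro v
      show ρ xj (S v) = S v
      have h1 : ρ xj * S = S := by
        show ρ xj * ∑ t ∈ Finset.range p, ρ (xj ^ t) = ∑ t ∈ Finset.range p, ρ (xj ^ t)
        rw [Finset.mul_sum]
        have h2 : ∀ t ∈ Finset.range p, ρ xj * ρ (xj ^ t) = ρ (xj ^ (t + 1)) := by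
          intro t _
          rw [← map_mul, ← pow_succ']
        rw [Finset.sum_congr rfl h2]
        have h3 := Finset.sum_range_succ' (fun t => ρ (xj ^ t)) p
        have h4 := Finset.sum_range_succ (fun t => ρ (xj ^ t)) p
        rw [h3] at h4
        simp only [hxjp, pow_zero] at h4
        exact add_right_cancel h4
      exact congrArg (fun T : Module.End F V => T v) h1
    have hSi : ∀ i : Fin p, i ≠ j → S (ρ (g ^ (i : ℕ)) (w i : V)) = 0 := by
      intro i hij
      apply hdisj3 i j (fun h => hij (Fin.ext h)) i.2 j.2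
      · set xi : G := g ^ (i : ℕ) * x * (g ^ (i : ℕ))⁻¹ with hxi
        have hxiE : xi ∈ E := hEn.conj_mem x hxE _
        have h1 : ρ (g ^ (i : ℕ)) (w i : V) ∈ C xi := htr _ x _ (w i).2
        show ρ xi (S _) = S _
        have h2 : ρ xi * S = S * ρ xi := by
          show ρ xi * ∑ t ∈ Finset.range p, ρ (xj ^ t) = (∑ t ∈ Finset.range p, ρ (xj ^ t)) * ρ xi
          rw [Finset.mul_sum, Finset.sum_mul]
          refine Finset.sum_congr rfl (fun t _ => ?_)
          rw [← map_mul, ← map_mul, hEcomm xi hxiE _ (pow_mem hxjE t)]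
        have h3 : ρ xi (S (ρ (g ^ (i : ℕ)) (w i : V))) = S (ρ xi (ρ (g ^ (i : ℕ)) (w i : V))) :=
          congrArg (fun T : Module.End F V => T (ρ (g ^ (i : ℕ)) (w i : V))) h2
        rw [h3, show ρ xi (ρ (g ^ (i : ℕ)) (w i : V)) = ρ (g ^ (i : ℕ)) (w i : V) from h1]
      · exact hSfix _
    have hSj : S (ρ (g ^ (j : ℕ)) (w j : V)) = (p : F) • ρ (g ^ (j : ℕ)) (w j : V) := by
      have h1 : ρ xj (ρ (g ^ (j : ℕ)) (w j : V)) = ρ (g ^ (j : ℕ)) (w j : V) := htr _ x _ (w j).2
      have h2 : ∀ t : ℕ, ρ (xj ^ t) (ρ (g ^ (j : ℕ)) (w j : V)) = ρ (g ^ (j : ℕ)) (w j : V) := by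
        intro t
        induction t with
        | zero => rw [pow_zero, map_one]; rfl
        | succ t ih => rw [pow_succ', map_mul, Module.End.mul_apply, ih, h1]
      show (∑ t ∈ Finset.range p, ρ (xj ^ t)) (ρ (g ^ (j : ℕ)) (w j : V)) = _
      rw [LinearMap.sum_apply, Finset.sum_congr rfl (fun t _ => h2 t), Finset.sum_const, Finset.card_range,
        Nat.cast_smul_eq_nsmul]
    have h5 := congrArg S hw
    rw [map_sum, map_zero, Finset.sum_eq_single j (fun i _ hij => hSi i hij) (fun h => absurd (Finset.mem_univ j) h), hSj,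
      smul_eq_zero] at h5
    have h6 := h5.resolve_left hpF
    have h7 := hback (g ^ (j : ℕ)) (w j : V)
    rw [h6, map_zero] at h7
    exact h7.symm
  have hfr2 : Module.finrank F (C x) < orderOf (q : ZMod p) * p ^ k := by
    have h1 := LinearMap.finrank_le_finrank_of_injective hΦinj
    rw [Module.finrank_pi_fintype, Finset.sum_const, Finset.card_univ, Fintype.card_fin, smul_eq_mul] at h1
    rw [pow_succ] at hd
    have h2 : p * Module.finrank F (C x) < p * (orderOf (q : ZMod p) * p ^ k) := by
      calc p * Module.finrank F (C x) ≤ Module.finrank F V := h1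
        _ < orderOf (q : ZMod p) * (p ^ k * p) := hd
        _ = p * (orderOf (q : ZMod p) * p ^ k) := by ring
    exact Nat.lt_of_mul_lt_mul_left h2
  -- apply the induction hypothesis to N acting on C x
  have hNC : ∀ h : N, C x ≤ (C x).comap (ρ (h : G)) := by
    intro h w hw
    show ρ x (ρ (h : G) w) = ρ (h : G) w
    have h1 : ρ x (ρ (h : G) w) = ρ (h : G) (ρ x w) := by
      rw [← Module.End.mul_apply, ← Module.End.mul_apply, ← map_mul, ← map_mul,
        mem_centralizer_iff.1 h.2 x hxE]
    rw [h1, show ρ x w = w from hw]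
  have hI := IH (C x) N (Representation.subrepresentation (ρ.comp N.subtype : Representation F N V) (C x) hNC)
    (hG.to_subgroup N) hfr2
  set D : Subgroup G := (derivedSeries N k).map N.subtype with hD
  haveI hDn : D.Normal := by
    haveI : (derivedSeries N k).Characteristic := inferInstance
    exact ConjAct.normal_of_characteristic_of_normal
  have hDfix : ∀ h ∈ D, ∀ w ∈ C x, ρ h w = w := by
    rintro _ ⟨h, hh, rfl⟩ w hw
    have h1 := hI h hh
    have h2 := congrArg (fun T : Module.End F (C x) => T ⟨w, hw⟩) h1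
    exact congrArg Subtype.val h2
  let W : Submodule F V :=
    { carrier := {v | ∀ z ∈ D, ρ z v = v}
      add_mem' := by
        intro a b ha hb z hz
        rw [map_add, ha z hz, hb z hz]
      zero_mem' := fun z _ => map_zero _
      smul_mem' := by
        intro c a ha z hz
        rw [map_smul, ha z hz] }
  have hDbot : D = ⊥ := by
    rcases hirr W (by
      intro g w hw z hz
      have h1 : ρ z (ρ g w) = ρ g (ρ (g⁻¹ * z * g) w) := by
        rw [← Module.End.mul_apply, ← Module.End.mul_apply, ← map_mul, ← map_mul]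
        congr 2; group
      rw [h1, hw]
      have := hDn.conj_mem z hz g⁻¹
      rwa [inv_inv] at this) with h | h
    · exfalso
      have : v₀ ∈ W := fun z hz => hDfix z hz v₀ hv₀x
      rw [h] at this
      exact hv₀ ((Submodule.mem_bot F).1 this)
    · rw [eq_bot_iff]
      intro z hz
      rw [mem_bot]
      apply hinj
      apply LinearMap.ext
      intro v
      have : v ∈ W := by rw [h]; trivial
      rw [map_one, Module.End.one_apply]
      exact this z hz
  rw [eq_bot_iff, ← hDbot]
  exact derived_le hGN k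

theorem dlp_main {F : Type u} [Field F] [Fintype F] {p : ℕ} [hp : Fact p.Prime] {q : ℕ}
    (hq : Fintype.card F = q) (hp2 : p ≠ 2) (hpF : (p : F) ≠ 0) (hpq : ¬ p ∣ q) (k : ℕ) :
    ∀ (V : Type u) [AddCommGroup V] [Module F V] [FiniteDimensional F V] (G : Type u) [Group G]
      [Finite G] (ρ : Representation F G V), IsPGroup p G →
      Module.finrank F V < orderOf (q : ZMod p) * p ^ k → ∀ g ∈ derivedSeries G k, ρ g = 1 := by
  induction k with
  | zero =>
    intro V _ _ _ G _ _ ρ hG hd g hg
    refine dl_red hpF 0 (orderOf (q : ZMod p) * p ^ 0) ?_ _ V G ρ hG rfl hd g hg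
    intro V _ _ _ G _ _ ρ hG hd hinj hV hirr g _
    exact dl_zero hq ρ hG (by simpa using hd) hinj hV hirr g
  | succ k ih =>
    intro V _ _ _ G _ _ ρ hG hd g hg
    refine dl_red hpF (k + 1) (orderOf (q : ZMod p) * p ^ (k + 1)) ?_ _ V G ρ hG rfl hd g hg
    intro V _ _ _ G _ _ ρ hG hd hinj hV hirr g hg
    rw [dlp_succ hp2 hpF hpq k ih ρ hG hd hinj hV hirr, mem_bot] at hg
    exact hg


end Cfsg.Agent.H7.DLP
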