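import Mathlib
import Cfsg.Prelude
import Cfsg.Agent.S4014

set_option autoImplicit false
set_option linter.all false
open Cfsg

/-!
Lower bound for the derived length of a Sylow `p`-subgroup of `GL_n(q)`.
-/

namespace Cfsg.Agent.H7.DLQ

set_option maxHeartbeats 400000

open Subgroup

universe u

/-- the imprimitive representation of a regular wreath product -/
noncomputable def wrRep {F : Type u} [Field F] {V : Type u} [AddCommGroup V] [Module F V] {D : Type u} [Group D]
    {Q : Type} [Group Q] (ρ : D →* Module.End F V) : (D ≀ᵣ Q) →* Module.End F (Q → V) where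
  toFun a :=
    { toFun := fun φ x => ρ (a.left x) (φ (a.right⁻¹ * x))
      map_add' := fun φ ψ => by funext x; exact map_add _ _ _
      map_smul' := fun c φ => by funext x; exact map_smul _ _ _ }
  map_one' := by
    apply LinearMap.ext
    intro φ
    funext x
    show ρ ((1 : D ≀ᵣ Q).left x) (φ ((1 : D ≀ᵣ Q).right⁻¹ * x)) = φ x
    simp
  map_mul' := fun a b => by
    apply LinearMap.ext
    intro φ
    funext x
    show ρ ((a * b).left x) (φ ((a * b).right⁻¹ * x)) = ρ (a.left x) (ρ (b.left (a.right⁻¹ * x)) (φ (b.right⁻¹ * (a.right⁻¹ * x))))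
    rw [RegularWreathProduct.mul_left, RegularWreathProduct.mul_right, mul_inv_rev, mul_assoc]
    show ρ (a.left x * b.left (a.right⁻¹ * x)) _ = _
    rw [map_mul]
    rfl

theorem wrRep_inj {F : Type u} [Field F] {V : Type u} [AddCommGroup V] [Module F V] [Nontrivial V] {D : Type u} [Group D]
    {Q : Type} [Group Q] (ρ : D →* Module.End F V) (hρ : Function.Injective ρ) : Function.Injective (wrRep (Q := Q) ρ) := by
  classical
  rw [injective_iff_map_eq_one]
  intro a ha
  have h1 : ∀ (φ : Q → V) (x : Q), ρ (a.left x) (φ (a.right⁻¹ * x)) = φ x := by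
    intro φ x
    exact congrFun (congrArg (fun T : Module.End F (Q → V) => T φ) ha) x
  obtain ⟨v, hv⟩ := exists_ne (0 : V)
  have h2 : a.right = 1 := by
    by_contra h
    have h3 := h1 (Pi.single 1 v) 1
    rw [Pi.single_eq_same, mul_one, Pi.single_eq_of_ne (by simpa using h), map_zero] at h3
    exact hv h3.symm
  have h3 : ∀ x, a.left x = 1 := by
    intro x
    apply hρ
    rw [map_one]
    apply LinearMap.ext
    intro w
    have h4 := h1 (fun _ => w) x
    exact h4
  apply RegularWreathProduct.ext
  · funext x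
    rw [h3 x]; rfl
  · rw [h2]; rfl

theorem exists_rep {F : Type u} [Field F] [Fintype F] {p : ℕ} [hp : Fact p.Prime] {q : ℕ}
    (hq : Fintype.card F = q) (hpq : ¬ p ∣ q) (k : ℕ) :
    ∃ (V : Type u) (_ : AddCommGroup V) (_ : Module F V) (_ : FiniteDimensional F V) (_ : Nontrivial V) (D : Type u)
      (_ : Group D) (_ : Finite D) (ρ : D →* Module.End F V), Module.finrank F V = orderOf (q : ZMod p) * p ^ k ∧
      IsPGroup p D ∧ Function.Injective ρ ∧ derivedSeries D k ≠ ⊥ := by
  classical
  induction k with
  | zero =>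
    set e := orderOf (q : ZMod p) with he
    have he0 : 0 < e := by
      rw [he, orderOf_pos_iff]
      have h1 : IsUnit (q : ZMod p) := (ZMod.isUnit_iff_coprime q p).2
        ((Nat.Prime.coprime_iff_not_dvd hp.out).2 hpq).symm
      obtain ⟨u, hu⟩ := h1
      rw [← hu]
      have : IsOfFinOrder u := isOfFinOrder_of_finite u
      exact (Units.isOfFinOrder_val).2 this
    have hdvd : p ∣ Nat.card (GL (Fin e) F) := by
      rw [Matrix.card_GL_field]
      have h1 : p ∣ q ^ e - 1 := by
        have h2 : ((q : ZMod p)) ^ e = 1 := by rw [he]; exact pow_orderOf_eq_one _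
        have h3 : 1 ≤ q ^ e := by
          apply Nat.one_le_pow
          rw [← hq]; exact Fintype.card_pos
        rw [← ZMod.natCast_eq_zero_iff, Nat.cast_sub h3, Nat.cast_pow, h2, Nat.cast_one, sub_self]
      refine h1.trans ?_
      have h2 : q ^ e - 1 = q ^ e - q ^ ((⟨0, he0⟩ : Fin e) : ℕ) := by simp
      rw [h2, ← hq]
      exact Finset.dvd_prod_of_mem (fun i : Fin e => Fintype.card F ^ e - Fintype.card F ^ (i : ℕ)) (Finset.mem_univ _)
    obtain ⟨g, hg⟩ := exists_prime_orderOf_dvd_card' p hdvd
    refine ⟨Fin e → F, inferInstance, inferInstance, inferInstance, ?_, ↥(zpowers g), inferInstance, inferInstance,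
      (Units.coeHom (Module.End F (Fin e → F))).comp
      ((Matrix.GeneralLinearGroup.toLin (n := Fin e) (R := F)).toMonoidHom.comp (zpowers g).subtype), ?_, ?_, ?_, ?_⟩
    · haveI : Nonempty (Fin e) := ⟨⟨0, he0⟩⟩
      infer_instance
    · rw [Module.finrank_fin_fun, pow_zero, mul_one]
    · apply IsPGroup.of_card (n := 1)
      rw [Nat.card_zpowers, hg, pow_one]
    · intro x y h
      apply Subtype.ext
      apply (Matrix.GeneralLinearGroup.toLin (n := Fin e) (R := F)).injective
      exact Units.ext h
    · rw [derivedSeries_zero]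
      intro h
      have h1 : Nat.card (zpowers g) = 1 := by
        rw [← Subgroup.card_top, h, Subgroup.card_bot]
      rw [Nat.card_zpowers, hg] at h1
      exact hp.out.one_lt.ne' h1
  | succ k ih =>
    obtain ⟨V, _, _, _, _, D, _, _, ρ, h1, h2, h3, h4⟩ := ih
    haveI : NeZero p := ⟨hp.out.ne_zero⟩
    haveI : Nontrivial (ZMod p) := inferInstance
    haveI : Nontrivial (Multiplicative (ZMod p)) := inferInstance
    haveI : Finite (D ≀ᵣ Multiplicative (ZMod p)) :=
      Finite.of_equiv _ (RegularWreathProduct.equivProd D (Multiplicative (ZMod p))).symm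
    refine ⟨Multiplicative (ZMod p) → V, inferInstance, inferInstance, inferInstance, inferInstance,
      D ≀ᵣ Multiplicative (ZMod p), inferInstance, this, wrRep ρ, ?_, ?_, wrRep_inj ρ h3, S4014.wreath_derived k h4⟩
    · rw [Module.finrank_pi_fintype, Finset.sum_const, Finset.card_univ, smul_eq_mul, h1, Fintype.card_multiplicative,
        ZMod.card, pow_succ]
      ring
    · obtain ⟨a, ha⟩ := IsPGroup.iff_card.1 h2
      apply IsPGroup.of_card (n := a * p + 1)
      rw [RegularWreathProduct.card, ha]
      simp [pow_add, pow_mul]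

end Cfsg.Agent.H7.DLQ
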