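import Cfsg.Agent.H7.DLP
import Cfsg.Agent.H7.DLQ

set_option autoImplicit false
set_option linter.all false
open Cfsg

/-!
Derived length of a Sylow `p`-subgroup of `GL_n(q)`, `p` odd.
-/

namespace Cfsg.Agent.H7.DLR

set_option maxHeartbeats 400000

open Subgroup

universe u

theorem upper {F : Type u} [Field F] [Fintype F] {q : ℕ} (hF : Fintype.card F = q) {p : ℕ} [Fact p.Prime] (hp2 : p ≠ 2)
    (hpq : ¬ p ∣ q) (n e : ℕ) (he : e = orderOf (q : ZMod p)) (P : Subgroup (GL (Fin n) F))
    (hP : IsPGroup p P) : derivedSeries ↥P (Nat.log p (n / e) + 1) = ⊥ := by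
  classical
  have hp := (Fact.out : p.Prime)
  have hpF : (p : F) ≠ 0 := by
    intro h
    obtain ⟨r, hr⟩ := CharP.exists F
    obtain ⟨m, hrp, hm⟩ := FiniteField.card F r
    rw [CharP.cast_eq_zero_iff F r] at h
    have h1 : r = p := (Nat.prime_dvd_prime_iff_eq hrp hp).1 h
    apply hpq
    rw [← hF, hm, h1]
    exact dvd_pow_self p m.ne_zero
  let ρ : Representation F P (Fin n → F) :=
    (Units.coeHom (Module.End F (Fin n → F))).comp
      ((Matrix.GeneralLinearGroup.toLin (n := Fin n) (R := F)).toMonoidHom.comp P.subtype)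
  have hinj : Function.Injective ρ := by
    intro x y h
    apply Subtype.ext
    apply (Matrix.GeneralLinearGroup.toLin (n := Fin n) (R := F)).injective
    exact Units.ext h
  have he0 : 0 < e := by
    rw [he, orderOf_pos_iff]
    have h1 : IsUnit (q : ZMod p) := (ZMod.isUnit_iff_coprime q p).2
      ((Nat.Prime.coprime_iff_not_dvd hp).2 hpq).symm
    obtain ⟨u, hu⟩ := h1
    rw [← hu]
    have : IsOfFinOrder u := isOfFinOrder_of_finite u
    exact (Units.isOfFinOrder_val).2 this
  have hn : Module.finrank F (Fin n → F) < orderOf (q : ZMod p) * p ^ (Nat.log p (n / e) + 1) := by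
    rw [Module.finrank_fin_fun, ← he]
    have h1 := Nat.lt_pow_succ_log_self (b := p) hp.one_lt (n / e)
    rw [Nat.div_lt_iff_lt_mul he0] at h1
    rw [mul_comm]; exact h1
  rw [eq_bot_iff]
  intro g hg
  rw [mem_bot]
  apply hinj
  rw [map_one]
  exact DLP.dlp_main hF hp2 hpF hpq _ (Fin n → F) P ρ hP hn g hg

theorem lower {F : Type u} [Field F] [Fintype F] {q : ℕ} (hF : Fintype.card F = q) {p : ℕ} [Fact p.Prime]
    (hpq : ¬ p ∣ q) (n k : ℕ) (hk : orderOf (q : ZMod p) * p ^ k ≤ n) (P : Sylow p (GL (Fin n) F)) :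
    derivedSeries ↥(P : Subgroup (GL (Fin n) F)) k ≠ ⊥ := by
  classical
  obtain ⟨V, _, _, _, _, D, _, _, ρ, h1, h2, h3, h4⟩ := DLQ.exists_rep (F := F) hF hpq k
  -- extend to dimension n
  let V' := V × (Fin (n - orderOf (q : ZMod p) * p ^ k) → F)
  let ρ' : D →* Module.End F V' :=
    { toFun := fun d => LinearMap.prodMap (ρ d) LinearMap.id
      map_one' := by
        apply LinearMap.ext
        intro v
        show ((ρ 1) v.1, v.2) = v
        rw [map_one]; rfl
      map_mul' := fun a b => by
        apply LinearMap.ext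
        intro v
        show ((ρ (a * b)) v.1, v.2) = (ρ a (ρ b v.1), v.2)
        rw [map_mul]; rfl }
  have h3' : Function.Injective ρ' := by
    intro a b hab
    apply h3
    apply LinearMap.ext
    intro v
    exact congrArg Prod.fst (congrArg (fun T : Module.End F V' => T (v, 0)) hab)
  have hfr : Module.finrank F V' = Module.finrank F (Fin n → F) := by
    rw [Module.finrank_prod, h1, Module.finrank_fin_fun, Module.finrank_fin_fun]
    omega
  let e : V' ≃ₗ[F] (Fin n → F) := LinearEquiv.ofFinrankEq _ _ hfr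
  let c : Module.End F V' ≃* Module.End F (Fin n → F) := (LinearEquiv.conjRingEquiv e).toMulEquiv
  let f1 : D →* Module.End F (Fin n → F) := c.toMonoidHom.comp ρ'
  have hf1 : Function.Injective f1 := fun a b hab => h3' (c.injective hab)
  let f : D →* GL (Fin n) F := (Matrix.GeneralLinearGroup.toLin (n := Fin n) (R := F)).symm.toMonoidHom.comp f1.toHomUnits
  have hf : Function.Injective f := by
    intro a b hab
    have h5 : f1.toHomUnits a = f1.toHomUnits b := (Matrix.GeneralLinearGroup.toLin (n := Fin n) (R := F)).symm.injective hab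
    apply hf1
    exact congrArg Units.val h5
  have hR : IsPGroup p f.range := h2.of_surjective f.rangeRestrict f.rangeRestrict_surjective
  obtain ⟨Q, hQ⟩ := hR.exists_le_sylow
  let g : D →* (P : Subgroup (GL (Fin n) F)) :=
    (Sylow.equiv Q P).toMonoidHom.comp ((Subgroup.inclusion hQ).comp f.rangeRestrict)
  have hg : Function.Injective g := by
    intro a b hab
    have h5 : (Subgroup.inclusion hQ) (f.rangeRestrict a) = (Subgroup.inclusion hQ) (f.rangeRestrict b) :=
      (Sylow.equiv Q P).injective hab
    have h6 := Subgroup.inclusion_injective hQ h5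
    exact hf (congrArg Subtype.val h6)
  intro hbot
  apply h4
  have h5 := map_derivedSeries_le_derivedSeries g k
  rw [hbot, le_bot_iff, Subgroup.map_eq_bot_iff, (MonoidHom.ker_eq_bot_iff g).2 hg, le_bot_iff] at h5
  exact h5

end Cfsg.Agent.H7.DLR
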