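import Cfsg.Agent.H3.Gallagher2
import Cfsg.Agent.H3.ExtCyc
import Cfsg.Agent.H27.Kernel
import Cfsg.Agent.H27.Util

set_option autoImplicit false
set_option linter.style.haveILetI false
set_option linter.unusedSectionVars false

/-! Fully ramified characters. -/

namespace Cfsg.Agent.H7.FR

open Subgroup Cfsg Cfsg.Agent.H3 Cfsg.Agent.H27
open scoped ComplexConjugate

universe u

section
variable {H : Type u} [Group H] [Fintype H] {Z : Subgroup H} [hZ : Z.Normal] [Fintype Z]
  {χ : H → ℂ} {θ : Z → ℂ} {e : ℕ}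

/-- a fully ramified character vanishes outside the normal subgroup -/
theorem vanish (hχ : IsIrrCharacter H χ) (hθ : IsIrrCharacter Z θ) (he : e ^ 2 = Z.index)
    (h : ∀ z : Z, χ z = (e : ℂ) * θ z) {g : H} (hg : g ∉ Z) : χ g = 0 := by
  classical
  have h1 : ∑ x : H, Complex.normSq (χ x) = Nat.card H := by
    have h2 := classInner_self_of_irr hχ
    unfold classInner at h2
    have h3 : (∑ x : H, χ x * conj (χ x)) = (Nat.card H : ℂ) := by
      have hne : (Nat.card H : ℂ) ≠ 0 := card_ne_zeroC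
      field_simp at h2
      rw [h2]
    have h4 : ((∑ x : H, Complex.normSq (χ x) : ℝ) : ℂ) = ((Nat.card H : ℝ) : ℂ) := by
      push_cast
      rw [← h3]
      exact Finset.sum_congr rfl fun x _ => (Complex.mul_conj _).symm
    exact_mod_cast h4
  have h2 : ∑ z : Z, Complex.normSq (θ z) = Nat.card Z := by
    have h2 := classInner_self_of_irr hθ
    unfold classInner at h2
    have h3 : (∑ x : Z, θ x * conj (θ x)) = (Nat.card Z : ℂ) := by
      have hne : (Nat.card Z : ℂ) ≠ 0 := card_ne_zeroC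
      field_simp at h2
      rw [h2]
    have h4 : ((∑ x : Z, Complex.normSq (θ x) : ℝ) : ℂ) = ((Nat.card Z : ℝ) : ℂ) := by
      push_cast
      rw [← h3]
      exact Finset.sum_congr rfl fun x _ => (Complex.mul_conj _).symm
    exact_mod_cast h4
  have h3 : ∑ z : Z, Complex.normSq (χ z) = Nat.card H := by
    have h4 : ∀ z : Z, Complex.normSq (χ z) = (e : ℝ) ^ 2 * Complex.normSq (θ z) := by
      intro z
      rw [h z, map_mul, Complex.normSq_natCast]; ring
    rw [Finset.sum_congr rfl fun z _ => h4 z, ← Finset.mul_sum, h2, ← Subgroup.index_mul_card Z,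
      ← he]
    push_cast; ring
  have h4 : ∑ x : H, Complex.normSq (χ x) = ∑ z : Z, Complex.normSq (χ z) +
      ∑ x : {x : H // x ∉ Z}, Complex.normSq (χ x) := by
    rw [← Fintype.sum_subtype_add_sum_subtype (fun x => x ∈ Z)]
    congr 1
    exact Finset.sum_congr (by ext; simp) fun _ _ => rfl
  rw [h1, h3] at h4
  have h5 : ∑ x : {x : H // x ∉ Z}, Complex.normSq (χ x) = 0 := by linarith
  rw [Finset.sum_eq_zero_iff_of_nonneg (fun x _ => Complex.normSq_nonneg _)] at h5
  have h6 := h5 ⟨g, hg⟩ (Finset.mem_univ _)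
  exact Complex.normSq_eq_zero.1 h6

theorem e_ne (he : e ^ 2 = Z.index) : e ≠ 0 := by
  rintro rfl
  exact Z.index_ne_zero_of_finite (by rw [← he]; rfl)

theorem invariant (hχ : IsIrrCharacter H χ) (he : e ^ 2 = Z.index)
    (h : ∀ z : Z, χ z = (e : ℂ) * θ z) (g : H) : cj hZ g θ = θ := by
  funext z
  have h1 : (e : ℂ) ≠ 0 := by exact_mod_cast e_ne he
  have h2 := h ⟨g * z * g⁻¹, hZ.conj_mem z z.2 g⟩
  have h3 : χ (g * z * g⁻¹) = χ z := by
    exact irr_classFun hχ z g
  rw [cj_apply]
  apply mul_left_cancel₀ h1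
  rw [← h2, ← h]
  exact h3

/-- characters induced from extensions of `θ` vanish outside `Z` -/
theorem ind_vanish (hχ : IsIrrCharacter H χ) (hθ : IsIrrCharacter Z θ) (he : e ^ 2 = Z.index)
    (h : ∀ z : Z, χ z = (e : ℂ) * θ z) (D : Subgroup H) [Fintype D] (hZD : Z ≤ D) {ψ : D → ℂ}
    (hψ : IsIrrCharacter D ψ) (hext : ∀ z : Z, ψ ⟨z, hZD z.2⟩ = θ z) {g : H} (hg : g ∉ Z) :
    indFun D ψ g = 0 := by
  classical
  haveI := Fintype.ofFinite (IrrCharacter H)
  have hind := isChar_ind D (irr_isChar hψ)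
  have hn : ∀ η : IrrCharacter H, ∃ n : ℕ, classInner (indFun D ψ) (η : H → ℂ) = n :=
    fun η => classInner_char_nat hind (irr_isChar η.2)
  choose m hm using hn
  -- the multiplicity of `χ`
  have h1 : (D.relIndex ⊤ : ℂ) = D.index := by rw [Subgroup.relIndex_top_right]
  have h2 : classInner (indFun D ψ) χ * (Nat.card D : ℂ) = (e : ℂ) * Nat.card Z := by
    rw [frobenius_reciprocity D ψ (irr_classFun hχ)]
    unfold classInner
    have hne : (Nat.card D : ℂ) ≠ 0 := card_ne_zeroC
    have h3 : ∑ x : D, ψ x * conj (χ x) = ∑ z : Z, θ z * conj (χ z) := by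
      rw [← Fintype.sum_subtype_add_sum_subtype (fun x : D => (x : H) ∈ Z)]
      have h4 : ∑ x : {x : D // ¬ (x : H) ∈ Z}, ψ x * conj (χ x) = 0 := by
        refine Finset.sum_eq_zero fun x _ => ?_
        rw [vanish hχ hθ he h x.2, map_zero, mul_zero]
      rw [h4, add_zero]
      refine Fintype.sum_equiv (Equiv.mk (fun x => ⟨((x : D) : H), x.2⟩)
        (fun z => ⟨⟨z, hZD z.2⟩, z.2⟩) (fun x => rfl) (fun z => rfl)) _ _ fun x => ?_
      simp only [Equiv.coe_fn_mk]
      rw [← hext]
    rw [h3]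
    have h4 : ∑ z : Z, θ z * conj (χ z) = (e : ℂ) * Nat.card Z := by
      have h5 := classInner_self_of_irr hθ
      unfold classInner at h5
      have hne : (Nat.card Z : ℂ) ≠ 0 := card_ne_zeroC
      field_simp at h5
      rw [← h5, Finset.mul_sum]
      refine Finset.sum_congr rfl fun z _ => ?_
      rw [h z, map_mul, Complex.conj_natCast]; ring
    rw [h4]; field_simp
  have h3 : indFun D ψ 1 * (Nat.card D : ℂ) = (e : ℂ) * Nat.card Z * χ 1 := by
    rw [indFun_one_apply]
    have h4 : ψ 1 = θ 1 := hext 1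
    have h5 : χ 1 = (e : ℂ) * θ 1 := h 1
    rw [h4, h5]
    have h6 : (D.index : ℂ) * Nat.card D = Nat.card H := by exact_mod_cast D.index_mul_card
    have h7 : (Z.index : ℂ) * Nat.card Z = Nat.card H := by exact_mod_cast Z.index_mul_card
    have h8 : ((e : ℂ)) ^ 2 = Z.index := by exact_mod_cast he
    calc (D.index : ℂ) * θ 1 * Nat.card D = ((D.index : ℂ) * Nat.card D) * θ 1 := by ring
      _ = _ := by rw [h6, ← h7, ← h8]; ring
  have h4 : indFun D ψ 1 = classInner (indFun D ψ) χ * χ 1 := by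
    have hne : (Nat.card D : ℂ) ≠ 0 := card_ne_zeroC
    apply mul_right_cancel₀ hne
    rw [h3, ← h2]; ring
  -- all other multiplicities vanish
  have h5 := classFun_expand_apply (char_classFun hind) 1
  have h6 : ∀ η : IrrCharacter H, η ≠ ⟨χ, hχ⟩ → m η = 0 := by
    have h7 : (∑ η : IrrCharacter H, m η * charDegree (η : H → ℂ) : ℕ) =
        m ⟨χ, hχ⟩ * charDegree χ := by
      have : ((∑ η : IrrCharacter H, m η * charDegree (η : H → ℂ) : ℕ) : ℂ) =
          ((m ⟨χ, hχ⟩ * charDegree χ : ℕ) : ℂ) := by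
        push_cast
        rw [← hm ⟨χ, hχ⟩, charDegree_cast (irr_isChar hχ), ← h4, h5]
        refine Finset.sum_congr rfl fun η _ => ?_
        rw [hm, charDegree_cast (irr_isChar η.2)]
      exact_mod_cast this
    intro η hη
    rw [← Finset.add_sum_erase _ _ (Finset.mem_univ (⟨χ, hχ⟩ : IrrCharacter H))] at h7
    have h8 : ∑ η ∈ Finset.univ.erase (⟨χ, hχ⟩ : IrrCharacter H), m η * charDegree (η : H → ℂ) = 0 := by
      have : m ⟨χ, hχ⟩ * charDegree ((⟨χ, hχ⟩ : IrrCharacter H) : H → ℂ) =
        m ⟨χ, hχ⟩ * charDegree χ := rfl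
      omega
    rw [Finset.sum_eq_zero_iff] at h8
    have h9 := h8 η (Finset.mem_erase.2 ⟨hη, Finset.mem_univ _⟩)
    rcases Nat.mul_eq_zero.1 h9 with h | h
    · exact h
    · have := charDegree_one_le η.2
      omega
  rw [classFun_expand_apply (char_classFun hind) g, Finset.sum_eq_single ⟨χ, hχ⟩]
  · have : ((⟨χ, hχ⟩ : IrrCharacter H) : H → ℂ) g = 0 := vanish hχ hθ he h hg
    rw [this, mul_zero]
  · intro η _ hη
    rw [hm, h6 η hη, Nat.cast_zero, zero_mul]
  · intro h; exact absurd (Finset.mem_univ _) h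

/-- `H / Z` has no self-centralizing cyclic subgroup -/
theorem no_selfcentralizing (hχ : IsIrrCharacter H χ) (hθ : IsIrrCharacter Z θ)
    (he : e ^ 2 = Z.index) (h : ∀ z : Z, χ z = (e : ℂ) * θ z) (hZt : Z ≠ ⊤)
    (C : Subgroup (H ⧸ Z)) (hC : IsCyclic C) : centralizer (C : Set (H ⧸ Z)) ≠ C := by
  classical
  intro hcc
  set π := QuotientGroup.mk' Z with hπ
  set D : Subgroup H := C.comap π with hD
  haveI := Fintype.ofFinite D
  haveI := Fintype.ofFinite C
  haveI := Fintype.ofFinite (IrrCharacter C)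
  have hZD : Z ≤ D := by
    intro z hz
    show π z ∈ C
    rw [show π z = 1 from (QuotientGroup.eq_one_iff z).2 hz]
    exact one_mem _
  obtain ⟨c, hc⟩ := hC.exists_generator
  have hc1 : (c : H ⧸ Z) ≠ 1 := by
    intro h1
    have h2 : C = ⊥ := by
      rw [eq_bot_iff]
      intro x hx
      obtain ⟨k, hk⟩ := mem_zpowers_iff.1 (hc ⟨x, hx⟩)
      have h3 : c = 1 := Subtype.ext h1
      rw [h3, one_zpow] at hk
      exact (congrArg Subtype.val hk).symm
    rw [h2] at hcc
    apply hZt
    rw [eq_top_iff]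
    intro x _
    have h3 : π x ∈ centralizer ((⊥ : Subgroup (H ⧸ Z)) : Set (H ⧸ Z)) := by
      rw [mem_centralizer_iff]
      intro y hy
      rw [mem_bot.1 hy, one_mul, mul_one]
    rw [hcc, mem_bot] at h3
    exact (QuotientGroup.eq_one_iff x).1 h3
  -- extension of `θ` to `D`
  let f : D →* C := (π.comp D.subtype).codRestrict C fun x => x.2
  have hf : Function.Surjective f := by
    rintro ⟨y, hy⟩
    obtain ⟨x, rfl⟩ := QuotientGroup.mk'_surjective Z y
    exact ⟨⟨x, hy⟩, rfl⟩
  have hker : f.ker = Z.subgroupOf D := by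
    ext x
    rw [MonoidHom.mem_ker, mem_subgroupOf]
    constructor
    · intro h1
      exact (QuotientGroup.eq_one_iff (x : H)).1 (congrArg Subtype.val h1)
    · intro h1
      exact Subtype.ext ((QuotientGroup.eq_one_iff (x : H)).2 h1)
  let ε : Z.subgroupOf D ≃* Z := subgroupOfEquivOfLe hZD
  let θ' : Z.subgroupOf D → ℂ := fun x => θ (ε x)
  have hθ' : IsIrrCharacter (Z.subgroupOf D) θ' := (isIrr_comp_equiv_iff ε).2 hθ
  have hinv' : ∀ g : D, cj (inferInstance : (Z.subgroupOf D).Normal) g θ' = θ' := by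
    intro g
    funext x
    have h1 := congrFun (invariant (hZ := hZ) hχ he h (g : H)) (ε x)
    rw [cj_apply] at h1
    exact h1
  have hcyc : IsCyclic (D ⧸ Z.subgroupOf D) := by
    have h1 : Z.subgroupOf D = f.ker := hker.symm
    have e1 : D ⧸ Z.subgroupOf D ≃* C :=
      (QuotientGroup.quotientMulEquivOfEq h1).trans (QuotientGroup.quotientKerEquivOfSurjective f hf)
    exact isCyclic_of_surjective e1.symm e1.symm.surjective
  obtain ⟨ψ, hψ, hψe⟩ := extends_of_cyclic (inferInstance : (Z.subgroupOf D).Normal) hθ' hinv' hcyc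
  have hψZ : ∀ z : Z, ψ ⟨z, hZD z.2⟩ = θ z := by
    intro z
    exact hψe ⟨⟨z, hZD z.2⟩, z.2⟩
  obtain ⟨d, hd⟩ := hf c
  -- `ψ` vanishes on the coset of `c`
  have hvan : ∀ g : D, f g = c → ψ g = 0 := by
    intro g hg
    have hgZ : (g : H) ∉ Z := by
      intro h1
      apply hc1
      rw [← hg]
      exact (QuotientGroup.eq_one_iff (g : H)).2 h1
    have h1 : ∀ β : IrrCharacter C, ∑ x : H, extendByZero D (fun y => (β : C → ℂ) (f y) * ψ y)
        (x⁻¹ * g * x) = 0 := by
      intro β
      haveI : IsMulCommutative C := ⟨⟨fun a b => (IsCyclic.commGroup (α := C)).mul_comm a b⟩⟩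
      have hβ1 : (β : C → ℂ) 1 = 1 := irr_degree_one_of_comm β.2
      obtain ⟨ν, hν⟩ := exists_hom_of_one (irr_isChar β.2) hβ1
      have h2 : IsIrrCharacter D (fun y => (β : C → ℂ) (f y) * ψ y) := by
        have h3 := isIrr_mul_hom hψ (ν.comp f)
        have h4 : (fun y => (β : C → ℂ) (f y) * ψ y) = fun y => ((ν.comp f) y : ℂ) * ψ y := by
          funext y
          rw [hν]; rfl
        rw [h4]; exact h3
      have h3 := ind_vanish hχ hθ he h D hZD h2 (fun z => by
        show (β : C → ℂ) (f ⟨z, hZD z.2⟩) * ψ ⟨z, hZD z.2⟩ = θ z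
        have h4 : f ⟨z, hZD z.2⟩ = 1 := by
          rw [← MonoidHom.mem_ker, hker]; exact z.2
        rw [h4, hβ1, one_mul, hψZ]) hgZ
      unfold indFun at h3
      rcases mul_eq_zero.1 h3 with h4 | h4
      · exact absurd h4 (inv_ne_zero card_ne_zeroC)
      · exact h4
    have h2 : ∑ β : IrrCharacter C, conj ((β : C → ℂ) c) *
        ∑ x : H, extendByZero D (fun y => (β : C → ℂ) (f y) * ψ y) (x⁻¹ * g * x) = 0 :=
      Finset.sum_eq_zero fun β _ => by rw [h1 β, mul_zero]
    simp_rw [Finset.mul_sum] at h2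
    rw [Finset.sum_comm] at h2
    have h3 : ∀ x : H, ∑ β : IrrCharacter C, conj ((β : C → ℂ) c) *
        extendByZero D (fun y => (β : C → ℂ) (f y) * ψ y) (x⁻¹ * g * x) =
        if x ∈ D then (Nat.card C : ℂ) * ψ g else 0 := by
      intro x
      by_cases hx : x⁻¹ * g * x ∈ D
      · have h4 : ∀ β : IrrCharacter C, extendByZero D (fun y => (β : C → ℂ) (f y) * ψ y)
            (x⁻¹ * g * x) = (β : C → ℂ) (f ⟨_, hx⟩) * ψ ⟨_, hx⟩ := fun β =>
          extendByZero_mem D _ hx
        have h5 : ∑ β : IrrCharacter C, conj ((β : C → ℂ) c) *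
            extendByZero D (fun y => (β : C → ℂ) (f y) * ψ y) (x⁻¹ * g * x) =
            (∑ β : IrrCharacter C, (β : C → ℂ) (f ⟨_, hx⟩) * conj ((β : C → ℂ) c)) * ψ ⟨_, hx⟩ := by
          rw [Finset.sum_mul]
          refine Finset.sum_congr rfl fun β _ => ?_
          rw [h4]; ring
        rw [h5, column_orth]
        haveI : IsMulCommutative C := ⟨⟨fun a b => (IsCyclic.commGroup (α := C)).mul_comm a b⟩⟩
        have hcent : ∀ a : C, Nat.card (centralizer ({a} : Set C)) = Nat.card C := by
          intro a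
          have : centralizer ({a} : Set C) = ⊤ := by
            rw [eq_top_iff]
            intro y _
            rw [mem_centralizer_singleton_iff]
            exact mul_comm' _ _
          rw [this]; exact Nat.card_congr Subgroup.topEquiv.toEquiv
        by_cases hxD : x ∈ D
        · have h6 : (⟨x⁻¹ * g * x, hx⟩ : D) = (⟨x, hxD⟩ : D)⁻¹ * g * ((⟨x, hxD⟩ : D)⁻¹)⁻¹ := by
            apply Subtype.ext
            simp
          have h7 : ψ ⟨x⁻¹ * g * x, hx⟩ = ψ g := by
            rw [h6]; exact irr_classFun hψ g _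
          have h8 : f ⟨x⁻¹ * g * x, hx⟩ = c := by
            rw [h6, map_mul, map_mul, hg, map_inv, inv_inv]
            rw [mul_comm' _ c, mul_assoc, inv_mul_cancel, mul_one]
          rw [if_pos hxD, h7, h8, if_pos (IsConj.refl c), hcent]
        · rw [if_neg hxD, if_neg, zero_mul]
          intro hconj
          apply hxD
          obtain ⟨b, hb⟩ := isConj_iff.1 hconj
          have h6 : f ⟨x⁻¹ * g * x, hx⟩ = c := by
            have h6' : ∀ a : C, b * a * b⁻¹ = a := fun a => by
              rw [mul_comm' b, mul_assoc, mul_inv_cancel, mul_one]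
            exact (h6' _).symm.trans hb
          show π x ∈ C
          rw [← hcc, mem_centralizer_iff]
          have h7 : (π x)⁻¹ * c * π x = (c : H ⧸ Z) := by
            have h8 := congrArg Subtype.val h6
            have h9 : ((f ⟨x⁻¹ * g * x, hx⟩ : C) : H ⧸ Z) = (π x)⁻¹ * c * π x := by
              show π (x⁻¹ * g * x) = _
              rw [map_mul, map_mul, map_inv, ← hg]; rfl
            rw [← h9]; exact h8
          have h8 : Commute (c : H ⧸ Z) (π x) := by
            have : (c : H ⧸ Z) * π x = π x * ((π x)⁻¹ * c * π x) := by group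
            rw [h7] at this; exact this
          intro y hy
          obtain ⟨k, hk⟩ := mem_zpowers_iff.1 (hc ⟨y, hy⟩)
          have h9 : y = (c : H ⧸ Z) ^ k := by
            have := congrArg Subtype.val hk
            rw [Subgroup.coe_zpow] at this
            exact this.symm
          rw [h9]
          exact (h8.zpow_left k).eq
      · have hxD : x ∉ D := fun h4 => hx (D.mul_mem (D.mul_mem (D.inv_mem h4) g.2) h4)
        rw [if_neg hxD]
        refine Finset.sum_eq_zero fun β _ => ?_
        rw [extendByZero_not_mem D _ hx, mul_zero]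
    rw [Finset.sum_congr rfl fun x _ => h3 x, Finset.sum_ite, Finset.sum_const_zero, add_zero,
      Finset.sum_const, nsmul_eq_mul] at h2
    rcases mul_eq_zero.1 h2 with h4 | h4
    · exfalso
      have h5 : (Finset.univ.filter fun x => x ∈ D).card = 0 := by exact_mod_cast h4
      rw [Finset.card_eq_zero] at h5
      have h6 : (1 : H) ∈ Finset.univ.filter fun x => x ∈ D :=
        Finset.mem_filter.2 ⟨Finset.mem_univ _, one_mem D⟩
      rw [h5] at h6
      simp at h6
    · rcases mul_eq_zero.1 h4 with h5 | h5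
      · exact absurd h5 card_ne_zeroC
      · exact h5
  -- but the average of `|ψ|²` on the coset is `1`
  haveI := Fintype.ofFinite (Z.subgroupOf D)
  have hψN : IsIrrCharacter (Z.subgroupOf D) (fun n : Z.subgroupOf D => ψ n) := by
    have : (fun n : Z.subgroupOf D => ψ n) = θ' := funext hψe
    rw [this]; exact hθ'
  have h1 := avg_eq_of_mul (inferInstance : (Z.subgroupOf D).Normal) hψ hψN
    (β := fun _ => 1) (isIrr_one) (fun _ => rfl)
  have h2 := congrFun h1 d
  unfold avg at h2
  have h3 : ∑ n : Z.subgroupOf D, ((fun _ => 1 : D → ℂ) * ψ) ((n : D) * d) *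
      conj (ψ ((n : D) * d)) = 0 := by
    refine Finset.sum_eq_zero fun n _ => ?_
    rw [hvan ((n : D) * d) (by
      rw [map_mul, hd]
      have : f n = 1 := by rw [← MonoidHom.mem_ker, hker]; exact n.2
      rw [this, one_mul])]
    rw [map_zero, mul_zero]
  rw [h3, mul_zero] at h2
  exact zero_ne_one h2

end

end Cfsg.Agent.H7.FR
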