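import Cfsg.Agent.H7.FR
import Cfsg.Agent.H2.FratArg
import Cfsg.Agent.H3.Clifford
import Cfsg.Agent.H27.Ch12C

set_option autoImplicit false
set_option linter.style.haveILetI false
set_option linter.unusedSectionVars false

/-! Fully ramified characters and `p`-complements. -/

namespace Cfsg.Agent.H7.FR

open Subgroup Cfsg Cfsg.Agent.H3 Cfsg.Agent.H27
open scoped ComplexConjugate

universe u v

theorem sum_eq_of_vanish {H : Type u} [Group H] [Fintype H] (N : Subgroup H) [Fintype N] (F : H → ℂ)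
    (h : ∀ x, x ∉ N → F x = 0) : ∑ x : H, F x = ∑ n : N, F n := by
  classical
  rw [← Finset.sum_subset (Finset.subset_univ (Finset.univ.filter fun x => x ∈ N))
    (fun x _ hx => h x fun hN => hx (Finset.mem_filter.2 ⟨Finset.mem_univ _, hN⟩))]
  exact Finset.sum_subtype _ (fun x => by simp) F

/-- constituents of constituents of a restriction -/
theorem inner_trans {A : Type u} {B : Type v} [Group A] [Fintype A] [Group B] [Fintype B]
    (j : A →* B) {χ ψ : B → ℂ} {θ : A → ℂ} (hχ : IsCharacter B χ) (hψ : IsIrrCharacter B ψ)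
    (hθ : IsIrrCharacter A θ) (h1 : classInner χ ψ ≠ 0)
    (h2 : classInner (fun a => ψ (j a)) θ ≠ 0) : classInner (fun a => χ (j a)) θ ≠ 0 := by
  classical
  haveI := Fintype.ofFinite (IrrCharacter B)
  have hn : ∀ η : IrrCharacter B, ∃ n : ℕ, classInner χ (η : B → ℂ) = n :=
    fun η => classInner_char_nat hχ (irr_isChar η.2)
  have hk : ∀ η : IrrCharacter B, ∃ n : ℕ, classInner (fun a => (η : B → ℂ) (j a)) θ = n :=
    fun η => classInner_char_nat (isChar_comp (irr_isChar η.2) j) (irr_isChar hθ)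
  choose m hm using hn
  choose k hk using hk
  have h3 : (fun a => χ (j a)) = ∑ η : IrrCharacter B, (m η : ℂ) • fun a => (η : B → ℂ) (j a) := by
    funext a
    rw [classFun_expand_apply (char_classFun hχ) (j a), Finset.sum_apply]
    refine Finset.sum_congr rfl fun η _ => ?_
    rw [hm]; rfl
  rw [h3, classInner_sum_left]
  have h4 : ∑ η : IrrCharacter B, classInner ((m η : ℂ) • fun a => (η : B → ℂ) (j a)) θ =
      ((∑ η : IrrCharacter B, m η * k η : ℕ) : ℂ) := by
    push_cast
    refine Finset.sum_congr rfl fun η _ => ?_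
    rw [classInner_smul_left, hk]
  rw [h4]
  have h5 : m ⟨ψ, hψ⟩ ≠ 0 := by
    intro h
    apply h1
    have := hm ⟨ψ, hψ⟩
    rw [h, Nat.cast_zero] at this
    exact this
  have h6 : k ⟨ψ, hψ⟩ ≠ 0 := by
    intro h
    apply h2
    have := hk ⟨ψ, hψ⟩
    rw [h, Nat.cast_zero] at this
    exact this
  have h7 : m ⟨ψ, hψ⟩ * k ⟨ψ, hψ⟩ ≤ ∑ η : IrrCharacter B, m η * k η :=
    Finset.single_le_sum (f := fun η => m η * k η) (fun _ _ => Nat.zero_le _) (Finset.mem_univ _)
  have h8 : 0 < m ⟨ψ, hψ⟩ * k ⟨ψ, hψ⟩ := Nat.mul_pos (Nat.pos_of_ne_zero h5) (Nat.pos_of_ne_zero h6)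
  have h9 : (∑ η : IrrCharacter B, m η * k η) ≠ 0 := by omega
  exact_mod_cast h9

section
variable {H : Type u} [Group H] [Fintype H] {Z : Subgroup H} [hZ : Z.Normal] [Fintype Z]
  {χ : H → ℂ} {θ : Z → ℂ} {e : ℕ}

/-- a fully ramified character is the only one over `θ` -/
theorem unique_over (hχ : IsIrrCharacter H χ) (hθ : IsIrrCharacter Z θ) (he : e ^ 2 = Z.index)
    (h : ∀ z : Z, χ z = (e : ℂ) * θ z) {η : H → ℂ} (hη : IsIrrCharacter H η)
    (hne : classInner (fun z : Z => η z) θ ≠ 0) : η = χ := by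
  classical
  by_contra hcon
  have h1 := classInner_of_irr_ne hη hχ hcon
  apply hne
  unfold classInner at h1 ⊢
  rcases mul_eq_zero.1 h1 with h2 | h2
  · exact absurd h2 (inv_ne_zero card_ne_zeroC)
  have h3 : ∑ x : H, η x * conj (χ x) = (e : ℂ) * ∑ z : Z, η z * conj (θ z) := by
    rw [sum_eq_of_vanish Z (fun x => η x * conj (χ x)) (fun x hx => by
      rw [vanish hχ hθ he h hx, map_zero, mul_zero]), Finset.mul_sum]
    refine Finset.sum_congr rfl fun z _ => ?_
    rw [h z, map_mul, Complex.conj_natCast]; ring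
  rw [h3] at h2
  rcases mul_eq_zero.1 h2 with h4 | h4
  · exact absurd h4 (by exact_mod_cast e_ne he)
  · rw [h4, mul_zero]

/-- Clifford theory of a fully ramified character over an intermediate normal subgroup -/
theorem trans (hχ : IsIrrCharacter H χ) (hθ : IsIrrCharacter Z θ) (he : e ^ 2 = Z.index)
    (h : ∀ z : Z, χ z = (e : ℂ) * θ z) {N : Subgroup H} [Fintype N] (hN : N.Normal) (hZN : Z ≤ N)
    {ψ : N → ℂ} (hψ : IsIrrCharacter N ψ)
    (hψθ : classInner (fun z : Z => ψ ⟨z, hZN z.2⟩) θ ≠ 0) :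
    classInner (fun n : N => χ n) ψ ≠ 0 := by
  classical
  obtain ⟨η, hη, hne, -, -⟩ := exists_over hN hψ
  have h1 := inner_trans (Subgroup.inclusion hZN) (χ := fun n : N => η n)
    (isChar_restrict N (irr_isChar hη)) hψ hθ hne hψθ
  have h2 := unique_over hχ hθ he h hη h1
  rw [← h2]
  exact hne

theorem norm_restrict (hχ : IsIrrCharacter H χ) (hθ : IsIrrCharacter Z θ) (he : e ^ 2 = Z.index)
    (h : ∀ z : Z, χ z = (e : ℂ) * θ z) {N : Subgroup H} [Fintype N] (hZN : Z ≤ N) :
    classInner (fun n : N => χ n) (fun n : N => χ n) = (N.index : ℂ) := by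
  classical
  have h1 : ∑ x : N, χ x * conj (χ x) = ∑ x : H, χ x * conj (χ x) :=
    (sum_eq_of_vanish N (fun x => χ x * conj (χ x)) (fun x hx => by
      rw [vanish hχ hθ he h (fun h5 => hx (hZN h5)), zero_mul])).symm
  have h2 := classInner_self_of_irr hχ
  unfold classInner at h2 ⊢
  rw [h1]
  have hne : (Nat.card H : ℂ) ≠ 0 := card_ne_zeroC
  have hne2 : (Nat.card N : ℂ) ≠ 0 := card_ne_zeroC
  have h3 : (∑ x : H, χ x * conj (χ x)) = (Nat.card H : ℂ) := by
    field_simp at h2
    rw [h2]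
  rw [h3]
  have h4 : (N.index : ℂ) * Nat.card N = Nat.card H := by exact_mod_cast N.index_mul_card
  rw [← h4]; field_simp

/-- the numerical consequences -/
theorem numbers (hχ : IsIrrCharacter H χ) (hθ : IsIrrCharacter Z θ) (he : e ^ 2 = Z.index)
    (h : ∀ z : Z, χ z = (e : ℂ) * θ z) {N : Subgroup H} [Fintype N] (hN : N.Normal) (hZN : Z ≤ N)
    {ψ : N → ℂ} (hψ : IsIrrCharacter N ψ)
    (hψθ : classInner (fun z : Z => ψ ⟨z, hZN z.2⟩) θ ≠ 0) :
    ∃ f : ℕ, f ^ 2 * (inertia hN ψ).index = N.index ∧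
      e * charDegree θ = f * (inertia hN ψ).index * charDegree ψ := by
  classical
  have hne := trans hχ hθ he h hN hZN hψ hψθ
  obtain ⟨f, hf⟩ := classInner_char_nat (isChar_restrict N (irr_isChar hχ)) (irr_isChar hψ)
  refine ⟨f, ?_, ?_⟩
  · have h1 := clifford_sum hN hχ hψ hne
    have h2 := congrArg (fun F => classInner F (fun n : N => χ n)) h1
    simp only [classInner_smul_left, classInner_sum_left] at h2
    rw [norm_restrict hχ hθ he h hZN, hf] at h2
    have h3 : ∀ x : H, classInner (cj hN x ψ) (fun n : N => χ n) = f := by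
      intro x
      rw [← classInner_conj_symm, classInner_restrict_cj hN (irr_classFun hχ), hf,
        Complex.conj_natCast]
    rw [Finset.sum_congr rfl fun x _ => h3 x, Finset.sum_const, Finset.card_univ, nsmul_eq_mul,
      ← Nat.card_eq_fintype_card] at h2
    have h4 : Nat.card (inertia hN ψ) * N.index = f * (Nat.card H * f) := by exact_mod_cast h2
    have h5 := (inertia hN ψ).index_mul_card
    have h6 : 0 < Nat.card (inertia hN ψ) := Nat.card_pos
    rw [← h5] at h4
    apply Nat.eq_of_mul_eq_mul_left h6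
    rw [h4]; ring
  · have h1 := clifford_degree hN hχ hψ hne
    rw [hf, ← charDegree_cast (irr_isChar hψ)] at h1
    have h2 : χ 1 = (e : ℂ) * charDegree θ := by
      rw [charDegree_cast (irr_isChar hθ)]
      exact h 1
    rw [h2] at h1
    exact_mod_cast h1

end

end Cfsg.Agent.H7.FR
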