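import Cfsg.Agent.H7.FR2
import Cfsg.Agent.H23.PSolvable
import Cfsg.Agent.H1.HallConv

set_option autoImplicit false
set_option linter.style.haveILetI false
set_option linter.unusedSectionVars false

/-! Fully ramified characters and `p`-complements, II. -/

namespace Cfsg.Agent.H7.FR

open Subgroup Cfsg Cfsg.Agent.H3 Cfsg.Agent.H27
open scoped ComplexConjugate

universe u v

section
variable {H : Type u} [Group H] [Fintype H] {Z : Subgroup H} [hZ : Z.Normal] [Fintype Z]
  {χ : H → ℂ} {θ : Z → ℂ} {e : ℕ} {p : ℕ} [hp : Fact p.Prime]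

/-- the restriction of `θ` to `Z` as a subgroup of `S` -/
def thS (θ : Z → ℂ) (S : Subgroup H) : Z.subgroupOf S → ℂ := fun z => θ ⟨(z : S), z.2⟩

theorem thS_irr (hθ : IsIrrCharacter Z θ) {S : Subgroup H} (hZS : Z ≤ S) :
    IsIrrCharacter (Z.subgroupOf S) (thS θ S) :=
  (isIrr_comp_equiv_iff (subgroupOfEquivOfLe hZS)).2 hθ

theorem thS_inv (hinv : ∀ g : H, cj hZ g θ = θ) {S : Subgroup H} (g : S) :
    cj (inferInstance : (Z.subgroupOf S).Normal) g (thS θ S) = thS θ S := by
  funext x
  have h1 := congrFun (hinv (g : H)) ⟨(x : S), x.2⟩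
  rw [cj_apply] at h1
  exact h1

theorem card_comap (Q : Subgroup (H ⧸ Z)) : (Z.subgroupOf (Q.comap (QuotientGroup.mk' Z))).index =
    Nat.card Q := by
  have h1 := Cfsg.Agent.H23.card_comap_mk' Z Q
  have h2 : Z ≤ Q.comap (QuotientGroup.mk' Z) := by
    intro z hz
    show QuotientGroup.mk' Z z ∈ Q
    rw [show QuotientGroup.mk' Z z = 1 from (QuotientGroup.eq_one_iff z).2 hz]
    exact one_mem _
  have h3 := (Z.subgroupOf (Q.comap (QuotientGroup.mk' Z))).index_mul_card
  rw [Nat.card_congr (subgroupOfEquivOfLe h2).toEquiv, h1, mul_comm] at h3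
  exact Nat.eq_of_mul_eq_mul_left Nat.card_pos h3

/-- DeMeyer–Janusz: the character is fully ramified over `Z` in the Sylow subgroups -/
theorem sylow_ram (hχ : IsIrrCharacter H χ) (hθ : IsIrrCharacter Z θ) (he : e ^ 2 = Z.index)
    (h : ∀ z : Z, χ z = (e : ℂ) * θ z) (Q : Sylow p (H ⧸ Z)) (S : Subgroup H) [Fintype S]
    [Fintype (Z.subgroupOf S)]
    (hS : S = (Q : Subgroup (H ⧸ Z)).comap (QuotientGroup.mk' Z)) (hZS : Z ≤ S) :
    ∃ (η : S → ℂ) (a : ℕ), IsIrrCharacter S η ∧ a ^ 2 = (Z.subgroupOf S).index ∧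
      ∀ z : Z.subgroupOf S, η z = (a : ℂ) * thS θ S z := by
  classical
  have hθ' := thS_irr hθ hZS
  obtain ⟨η, hη, hne, -, -⟩ := exists_over (inferInstance : (Z.subgroupOf S).Normal) hθ'
  have h1 := clifford_invariant (inferInstance : (Z.subgroupOf S).Normal) hη hθ'
    (thS_inv (invariant hχ he h)) hne
  obtain ⟨t, ht⟩ := classInner_char_nat (isChar_restrict (Z.subgroupOf S) (irr_isChar hη))
    (irr_isChar hθ')
  obtain ⟨n, hn⟩ := classInner_char_nat (isChar_restrict S (irr_isChar hχ)) (irr_isChar hη)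
  rw [ht] at h1
  have h1' : ∀ z : Z.subgroupOf S, η z = (t : ℂ) * thS θ S z := fun z => congrFun h1 z
  have ht0 : t ≠ 0 := by
    rintro rfl
    exact hne (by rw [ht, Nat.cast_zero])
  -- `n |S : Z| = e t`
  have hidx : (Z.subgroupOf S).index * Nat.card (Z.subgroupOf S) = Nat.card S :=
    (Z.subgroupOf S).index_mul_card
  have h2 : n * (Z.subgroupOf S).index = e * t := by
    unfold classInner at hn
    have h3 : ∑ x : S, χ x * conj (η x) = ∑ z : Z.subgroupOf S, χ (z : S) * conj (η z) :=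
      sum_eq_of_vanish (Z.subgroupOf S) (fun x : S => χ x * conj (η x)) (fun x hx => by
        rw [vanish hχ hθ he h (g := (x : H)) (fun h5 => hx h5), zero_mul])
    have h4 : ∑ z : Z.subgroupOf S, χ (z : S) * conj (η z) =
        (e : ℂ) * t * Nat.card (Z.subgroupOf S) := by
      have h5 := classInner_self_of_irr hθ'
      unfold classInner at h5
      have hne : (Nat.card (Z.subgroupOf S) : ℂ) ≠ 0 := card_ne_zeroC
      have h6 : ∑ z : Z.subgroupOf S, thS θ S z * conj (thS θ S z) =
          (Nat.card (Z.subgroupOf S) : ℂ) := by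
        field_simp at h5
        rw [h5]
      rw [← h6, Finset.mul_sum]
      refine Finset.sum_congr rfl fun z _ => ?_
      have h7 : χ (z : S) = (e : ℂ) * thS θ S z := h ⟨(z : S), z.2⟩
      rw [h7, h1' z, map_mul, Complex.conj_natCast]; ring
    rw [h3, h4, ← hidx] at hn
    have hc1 : (Nat.card (Z.subgroupOf S) : ℂ) ≠ 0 := card_ne_zeroC
    have hc2 : ((Z.subgroupOf S).index : ℂ) ≠ 0 := by
      exact_mod_cast (Z.subgroupOf S).index_ne_zero_of_finite
    push_cast at hn
    field_simp at hn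
    have h8 : (e : ℂ) * t = n * (Z.subgroupOf S).index := by
      rw [hn]; ring
    exact_mod_cast h8.symm
  -- `t ^ 2 ≤ |S : Z|`
  have h3 : t ^ 2 ≤ (Z.subgroupOf S).index := by
    have h4 : ∑ x : S, Complex.normSq (η x) = Nat.card S := by
      have h2 := classInner_self_of_irr hη
      unfold classInner at h2
      have h3 : (∑ x : S, η x * conj (η x)) = (Nat.card S : ℂ) := by
        have hne : (Nat.card S : ℂ) ≠ 0 := card_ne_zeroC
        field_simp at h2
        rw [h2]
      have h4 : ((∑ x : S, Complex.normSq (η x) : ℝ) : ℂ) = ((Nat.card S : ℝ) : ℂ) := by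
        push_cast
        rw [← h3]
        exact Finset.sum_congr rfl fun x _ => (Complex.mul_conj _).symm
      exact_mod_cast h4
    have h5 : ∑ z : Z.subgroupOf S, Complex.normSq (thS θ S z) = Nat.card (Z.subgroupOf S) := by
      have h2 := classInner_self_of_irr hθ'
      unfold classInner at h2
      have h3 : (∑ x : Z.subgroupOf S, thS θ S x * conj (thS θ S x)) =
          (Nat.card (Z.subgroupOf S) : ℂ) := by
        have hne : (Nat.card (Z.subgroupOf S) : ℂ) ≠ 0 := card_ne_zeroC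
        field_simp at h2
        rw [h2]
      have h4 : ((∑ x : Z.subgroupOf S, Complex.normSq (thS θ S x) : ℝ) : ℂ) =
          ((Nat.card (Z.subgroupOf S) : ℝ) : ℂ) := by
        push_cast
        rw [← h3]
        exact Finset.sum_congr rfl fun x _ => (Complex.mul_conj _).symm
      exact_mod_cast h4
    have h6 : ∑ z : Z.subgroupOf S, Complex.normSq (η z) ≤ ∑ x : S, Complex.normSq (η x) := by
      have h7 : ∑ z : Z.subgroupOf S, Complex.normSq (η z) =
          ∑ x ∈ (Finset.univ.filter fun x : S => x ∈ Z.subgroupOf S), Complex.normSq (η x) :=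
        (Finset.sum_subtype (Finset.univ.filter fun x : S => x ∈ Z.subgroupOf S)
          (fun x => by simp) (fun x => Complex.normSq (η x))).symm
      rw [h7]
      exact Finset.sum_le_sum_of_subset_of_nonneg (Finset.filter_subset _ _)
        fun x _ _ => Complex.normSq_nonneg _
    have h7 : ∑ z : Z.subgroupOf S, Complex.normSq (η z) =
        (t : ℝ) ^ 2 * Nat.card (Z.subgroupOf S) := by
      rw [← h5, Finset.mul_sum]
      refine Finset.sum_congr rfl fun z _ => ?_
      rw [h1' z, map_mul, Complex.normSq_natCast]; ring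
    rw [h4, h7, ← hidx] at h6
    have h8 : t ^ 2 * Nat.card (Z.subgroupOf S) ≤
        (Z.subgroupOf S).index * Nat.card (Z.subgroupOf S) := by exact_mod_cast h6
    exact Nat.le_of_mul_le_mul_right h8 Nat.card_pos
  -- arithmetic
  refine ⟨η, t, hη, ?_, h1'⟩
  have h4 : (Z.subgroupOf S).index = p ^ (Z.index).factorization p := by
    have h5 : (Z.subgroupOf S).index = Nat.card (Q : Subgroup (H ⧸ Z)) := by
      subst hS
      exact card_comap _
    rw [h5, Q.card_eq_multiplicity]
    rfl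
  have h5 : (Z.index).factorization p = 2 * e.factorization p := by
    rw [← he, Nat.factorization_pow]; rfl
  refine le_antisymm h3 ?_
  have h6 : p ^ e.factorization p ∣ t := by
    have h7 : p ^ (2 * e.factorization p) ∣ e * t := by
      rw [← h5, ← h4, ← h2]; exact Dvd.intro_left _ rfl
    have h8 := (hp.out.pow_dvd_iff_le_factorization (mul_ne_zero (e_ne he) ht0)).1 h7
    rw [Nat.factorization_mul (e_ne he) ht0, Finsupp.add_apply] at h8
    exact (hp.out.pow_dvd_iff_le_factorization ht0).2 (by omega)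
  have h7 := Nat.le_of_dvd (Nat.pos_of_ne_zero ht0) h6
  rw [h4, h5, mul_comm, pow_mul]
  exact Nat.pow_le_pow_left h7 2

theorem index_eq_of_cover {A : Type u} [Group A] [Finite A] (U S : Subgroup A)
    (hcov : ∀ a : A, ∃ s ∈ S, ∃ u ∈ U, a = s * u) : U.index = U.relIndex S := by
  haveI : MulAction.IsPretransitive S (A ⧸ U) := by
    constructor
    intro x y
    obtain ⟨a, rfl⟩ := QuotientGroup.mk_surjective x
    obtain ⟨b, rfl⟩ := QuotientGroup.mk_surjective y
    obtain ⟨s, hs, u, hu, rfl⟩ := hcov a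
    obtain ⟨t, ht, v, hv, rfl⟩ := hcov b
    refine ⟨⟨t * s⁻¹, S.mul_mem ht (S.inv_mem hs)⟩, ?_⟩
    show (QuotientGroup.mk (t * s⁻¹ * (s * u)) : A ⧸ U) = QuotientGroup.mk (t * v)
    rw [QuotientGroup.eq]
    have : (t * s⁻¹ * (s * u))⁻¹ * (t * v) = u⁻¹ * v := by group
    rw [this]
    exact U.mul_mem (U.inv_mem hu) hv
  have h1 := MulAction.index_stabilizer_of_transitive S (QuotientGroup.mk 1 : A ⧸ U)
  have h2 : MulAction.stabilizer S (QuotientGroup.mk 1 : A ⧸ U) = U.subgroupOf S := by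
    ext s
    rw [MulAction.mem_stabilizer_iff, mem_subgroupOf]
    have h3 : s • (QuotientGroup.mk 1 : A ⧸ U) = QuotientGroup.mk (s : A) := by
      show (QuotientGroup.mk ((s : A) * 1) : A ⧸ U) = _
      rw [mul_one]
    rw [h3, QuotientGroup.eq, mul_one, inv_mem_iff]
  rw [h2] at h1
  exact h1.symm

theorem frattini_lift (Q : Sylow p (H ⧸ Z)) (S K : Subgroup H) [hK : K.Normal] (hZK : Z ≤ K)
    (hS : S = (Q : Subgroup (H ⧸ Z)).comap (QuotientGroup.mk' Z)) (h : H) :
    ∃ a ∈ normalizer ((S ⊓ K : Subgroup H) : Set H), ∃ k ∈ K, h = a * k := by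
  set f := QuotientGroup.mk' Z with hf
  haveI : (K.map f).Normal := hK.map f (QuotientGroup.mk'_surjective Z)
  obtain ⟨n, hn, c, ⟨k, hk, rfl⟩, hnc⟩ := Cfsg.Agent.H2.exists_frattini' Q (K.map f) (f h)
  refine ⟨h * k⁻¹, ?_, k, hk, by group⟩
  have hmem : ∀ x : H, x ∈ S ⊓ K ↔ f x ∈ (Q : Subgroup (H ⧸ Z)) ⊓ K.map f := by
    intro x
    rw [mem_inf, mem_inf, hS, mem_comap]
    refine and_congr Iff.rfl ⟨fun h => ⟨x, h, rfl⟩, ?_⟩
    rintro ⟨y, hy, hyx⟩
    have h1 : y⁻¹ * x ∈ Z := by
      rw [← QuotientGroup.eq]; exact hyx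
    have h2 : x = y * (y⁻¹ * x) := by group
    rw [h2]
    exact K.mul_mem hy (hZK h1)
  have hn' : f (h * k⁻¹) = n := by
    rw [map_mul, hnc, map_inv]; group
  rw [mem_normalizer_iff]
  intro x
  rw [hmem, hmem, map_mul, map_mul, hn', map_inv, hn']
  exact mem_normalizer_iff.1 hn (f x)

/-- if the characters of `S ∩ K` over `θ` have trivial stabilizers in `S`, then `H / K` has a
`p`-complement -/
theorem exists_compl (hχ : IsIrrCharacter H χ) (hθ : IsIrrCharacter Z θ) (he : e ^ 2 = Z.index)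
    (h : ∀ z : Z, χ z = (e : ℂ) * θ z) (Q : Sylow p (H ⧸ Z)) (S K : Subgroup H) [Fintype S]
    [hK : K.Normal] [Fintype (Z.subgroupOf S)] [Fintype (K.subgroupOf S)] (hZK : Z ≤ K)
    (hS : S = (Q : Subgroup (H ⧸ Z)).comap (QuotientGroup.mk' Z)) (hZS : Z ≤ S)
    {η : S → ℂ} (hη : IsIrrCharacter S η) {a : ℕ} (ha : a ^ 2 = (Z.subgroupOf S).index)
    (hηZ : ∀ z : Z.subgroupOf S, η z = (a : ℂ) * thS θ S z)
    {ψ : K.subgroupOf S → ℂ} (hψ : IsIrrCharacter (K.subgroupOf S) ψ)
    (hψθ : classInner (fun z : Z.subgroupOf S => ψ ⟨z, hZK z.2⟩) (thS θ S) ≠ 0)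
    (hT : inertia (inferInstance : (K.subgroupOf S).Normal) ψ ≤ K.subgroupOf S) :
    ∃ M : Subgroup (H ⧸ K), M.index = p ^ (Nat.card (H ⧸ K)).factorization p := by
  classical
  set W : Subgroup H := S ⊓ K with hW
  set A : Subgroup H := normalizer (W : Set H) with hA
  let c : A →* MulAut W := W.normalizerMonoidHom
  have hc : ∀ (g : A) (w : W), ((c g w : W) : H) = g * w * (g : H)⁻¹ := fun g w => rfl
  let ψW : W → ℂ := fun w => ψ ⟨⟨w, w.2.1⟩, w.2.2⟩
  let ε : K.subgroupOf S ≃* W :=
    { toFun := fun x => ⟨((x : S) : H), ⟨(x : S).2, x.2⟩⟩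
      invFun := fun w => ⟨⟨w, w.2.1⟩, w.2.2⟩
      left_inv := fun x => rfl
      right_inv := fun w => rfl
      map_mul' := fun x y => rfl }
  let U : Subgroup A :=
    { carrier := {g | ∀ w, ψW (c g w) = ψW w}
      one_mem' := fun w => by rw [map_one]; rfl
      mul_mem' := fun {x y} hx hy w => by
        have h1 : c (x * y) w = c x (c y w) := by rw [map_mul]; rfl
        rw [h1, hx, hy]
      inv_mem' := fun {x} hx w => by
        have h1 : c x (c x⁻¹ w) = w := by
          have : c x (c x⁻¹ w) = (c x * c x⁻¹) w := rfl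
          rw [this, ← map_mul, mul_inv_cancel, map_one]; rfl
        rw [← hx (c x⁻¹ w), h1] }
  have hU : ∀ g : A, g ∈ U ↔ ∀ w, ψW (c g w) = ψW w := fun g => Iff.rfl
  have hSA : S ≤ A := by
    intro s hs
    rw [hA, mem_normalizer_iff]
    intro x
    rw [hW, mem_inf, mem_inf]
    constructor
    · rintro ⟨h1, h2⟩
      exact ⟨S.mul_mem (S.mul_mem hs h1) (S.inv_mem hs), hK.conj_mem x h2 s⟩
    · rintro ⟨h1, h2⟩
      have h3 : x = s⁻¹ * (s * x * s⁻¹) * s := by group
      refine ⟨?_, ?_⟩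
      · rw [h3]; exact S.mul_mem (S.mul_mem (S.inv_mem hs) h1) hs
      · have h4 := hK.conj_mem _ h2 s⁻¹
        rwa [inv_inv, ← h3] at h4
  -- transitivity
  have htrans : ∀ g : A, ∃ s : S, ∀ w, ψW (c g w) = ψW (c ⟨s, hSA s.2⟩ w) := by
    intro g
    let ψg : K.subgroupOf S → ℂ := fun x => ψW (c g (ε x))
    have h1 : IsIrrCharacter (K.subgroupOf S) ψg := by
      have h2 : ψg = fun x => ψ (((ε.trans (c g)).trans ε.symm) x) := rfl
      rw [h2]
      exact (isIrr_comp_equiv_iff ((ε.trans (c g)).trans ε.symm)).2 hψ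
    have h2 : classInner (fun z : Z.subgroupOf S => ψg ⟨z, hZK z.2⟩) (thS θ S) ≠ 0 := by
      let cz : Z.subgroupOf S ≃* Z.subgroupOf S :=
        { toFun := fun z => ⟨⟨g * (z : S) * (g : H)⁻¹, hZS (hZ.conj_mem _ z.2 g)⟩,
            hZ.conj_mem _ z.2 g⟩
          invFun := fun z => ⟨⟨(g : H)⁻¹ * (z : S) * g, hZS (by
            have := hZ.conj_mem _ z.2 (g : H)⁻¹
            rwa [inv_inv] at this)⟩, by
            have := hZ.conj_mem _ z.2 (g : H)⁻¹
            rwa [inv_inv] at this⟩
          left_inv := fun z => by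
            apply Subtype.ext; apply Subtype.ext
            show (g : H)⁻¹ * (g * (z : S) * (g : H)⁻¹) * g = (z : S)
            group
          right_inv := fun z => by
            apply Subtype.ext; apply Subtype.ext
            show (g : H) * ((g : H)⁻¹ * (z : S) * g) * (g : H)⁻¹ = (z : S)
            group
          map_mul' := fun z y => by
            apply Subtype.ext; apply Subtype.ext
            show (g : H) * (((z : S) : H) * (y : S)) * (g : H)⁻¹ =
              (g : H) * (z : S) * (g : H)⁻¹ * (g * (y : S) * (g : H)⁻¹)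
            group }
      have h3 := classInner_comp_equiv cz (fun z : Z.subgroupOf S => ψ ⟨z, hZK z.2⟩) (thS θ S)
      have h4 : (fun x => thS θ S (cz x)) = thS θ S := by
        funext z
        have h5 := congrFun (invariant (hZ := hZ) hχ he h (g : H)) ⟨(z : S), z.2⟩
        rw [cj_apply] at h5
        exact h5
      rw [h4] at h3
      have h5 : (fun x => (fun z : Z.subgroupOf S => ψ ⟨z, hZK z.2⟩) (cz x)) =
          fun z : Z.subgroupOf S => ψg ⟨z, hZK z.2⟩ := rfl
      rw [h5] at h3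
      rw [h3]
      exact hψθ
    have hZN : Z.subgroupOf S ≤ K.subgroupOf S := fun z hz => hZK hz
    have h3 := trans hη (thS_irr hθ hZS) ha hηZ (inferInstance : (K.subgroupOf S).Normal) hZN hψ hψθ
    have h4 := trans hη (thS_irr hθ hZS) ha hηZ (inferInstance : (K.subgroupOf S).Normal) hZN h1 h2
    obtain ⟨s, hs⟩ := clifford_inner (inferInstance : (K.subgroupOf S).Normal) hη hψ h3 h1 h4
    refine ⟨s, fun w => ?_⟩
    have h5 := congrFun hs (ε.symm w)
    rw [cj_apply] at h5
    exact h5.symm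
  set S' := S.subgroupOf A with hS'
  set W' := W.subgroupOf A with hW'
  have hcov : ∀ g : A, ∃ s ∈ S', ∃ u ∈ U, g = s * u := by
    intro g
    obtain ⟨s, hs⟩ := htrans g⁻¹
    set s' : A := ⟨s, hSA s.2⟩ with hs'
    refine ⟨s'⁻¹, inv_mem (by exact s.2), s' * g, ?_, by group⟩
    rw [hU]
    intro w
    have h1 : c (s' * g) w = c s' (c g w) := by rw [map_mul]; rfl
    rw [h1, ← hs]
    have : c g⁻¹ (c g w) = (c g⁻¹ * c g) w := rfl
    rw [this, ← map_mul, inv_mul_cancel, map_one]; rfl
  have hidx := index_eq_of_cover U S' hcov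
  have hW'U : W' ≤ U := by
    intro w hw x
    have h1 := irr_classFun hψ (ε.symm x) (ε.symm ⟨w, hw⟩)
    exact h1
  have hUS : U ⊓ S' = W' := by
    apply le_antisymm
    · rintro s ⟨hsU, hsS⟩
      have h1 : (⟨s, hsS⟩ : S) ∈ inertia (inferInstance : (K.subgroupOf S).Normal) ψ := by
        rw [mem_inertia]
        funext x
        rw [cj_apply]
        exact hsU (ε x)
      exact ⟨hsS, hT h1⟩
    · intro w hw
      exact ⟨hW'U hw, hw.1⟩
  have hidx2 : U.index = W.relIndex S := by
    rw [hidx, ← Subgroup.inf_relIndex_right, hUS, hW', hS', Subgroup.relIndex_subgroupOf hSA]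
  -- `|S : W|` is a power of `p`
  have hpow : ∃ j : ℕ, W.relIndex S = p ^ j := by
    have h1 : W.relIndex S ∣ Z.relIndex S := Subgroup.relIndex_dvd_of_le_left S (le_inf hZS hZK)
    have h2 : Z.relIndex S = p ^ (Nat.card (H ⧸ Z)).factorization p := by
      have h3 : (Z.subgroupOf S).index = Nat.card (Q : Subgroup (H ⧸ Z)) := by
        subst hS
        exact card_comap _
      rw [Subgroup.relIndex, h3, Q.card_eq_multiplicity]
    rw [h2] at h1
    obtain ⟨j, -, hj⟩ := (Nat.dvd_prime_pow hp.out).1 h1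
    exact ⟨j, hj⟩
  obtain ⟨j, hj⟩ := hpow
  -- `K ∩ A` acts trivially
  set L := K.subgroupOf A with hL
  have hLU : L ≤ U := by
    rw [← Subgroup.relIndex_eq_one]
    have h1 : U.relIndex L ∣ p ^ j := by
      rw [← hj, ← hidx2, ← Cfsg.Agent.H2.relIndex_sup_eq_relIndex_of_normal]
      exact Subgroup.relIndex_dvd_index_of_le le_sup_left
    have h2 : U.relIndex L ∣ S.relIndex K := by
      have h3 : U.relIndex L ∣ W'.relIndex L := Subgroup.relIndex_dvd_of_le_left L hW'U
      have h4 : W'.relIndex L = W.relIndex (K ⊓ A) := by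
        rw [hW', hL, ← Subgroup.inf_subgroupOf_right K A, Subgroup.relIndex_subgroupOf inf_le_right]
      have h5 : W.relIndex (K ⊓ A) * (K ⊓ A).relIndex K = W.relIndex K :=
        Subgroup.relIndex_mul_relIndex _ _ _ (le_inf inf_le_right (inf_le_left.trans hSA))
          inf_le_left
      have h6 : W.relIndex K = S.relIndex K := by rw [hW, Subgroup.inf_relIndex_right]
      rw [h4] at h3
      rw [← h6, ← h5]
      exact h3.mul_right _
    have h3 : ¬ p ∣ S.relIndex K := by
      haveI : (K.map (QuotientGroup.mk' Z)).Normal := hK.map _ (QuotientGroup.mk'_surjective Z)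
      rw [hS, Subgroup.relIndex_comap]
      exact Cfsg.Agent.H2.not_dvd_relIndex_of_normal Q _
    obtain ⟨i, -, hi⟩ := (Nat.dvd_prime_pow hp.out).1 h1
    rcases Nat.eq_zero_or_pos i with rfl | hi0
    · rw [hi, pow_zero]
    · exact absurd ((dvd_pow_self p hi0.ne').trans (hi ▸ h2)) h3
  let g : A →* H ⧸ K := (QuotientGroup.mk' K).comp A.subtype
  have hg : Function.Surjective g := by
    intro y
    obtain ⟨x, rfl⟩ := QuotientGroup.mk'_surjective K y
    obtain ⟨b, hb, k, hk, rfl⟩ := frattini_lift Q S K hZK hS x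
    refine ⟨⟨b, hb⟩, ?_⟩
    show QuotientGroup.mk' K b = _
    rw [map_mul, show QuotientGroup.mk' K k = 1 from (QuotientGroup.eq_one_iff k).2 hk, mul_one]
  have hker : g.ker ≤ U := by
    refine le_trans ?_ hLU
    intro x hx
    exact (QuotientGroup.eq_one_iff (x : H)).1 hx
  refine ⟨U.map g, ?_⟩
  rw [Subgroup.index_map_eq U hg hker, hidx2, hj]
  congr 1
  -- the exponent
  have h1 : K.relIndex S = p ^ j := by
    rw [← hj, hW]
    exact (Subgroup.inf_relIndex_left S K).symm
  have h2 : K.relIndex (S ⊔ K) = p ^ j := by rw [← h1, Subgroup.relIndex_sup_right]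
  have h3 : K.relIndex (S ⊔ K) * (S ⊔ K).index = K.index :=
    Subgroup.relIndex_mul_index le_sup_right
  have h4 : ¬ p ∣ (S ⊔ K).index := by
    intro h5
    have h6 : (S ⊔ K).index ∣ S.index := Subgroup.index_dvd_of_le le_sup_left
    have h7 : S.index = (Q : Subgroup (H ⧸ Z)).index := by
      rw [hS, Subgroup.index_comap_of_surjective _ (QuotientGroup.mk'_surjective Z)]
    rw [h7] at h6
    exact Q.not_dvd_index (h5.trans h6)
  have h5 : Nat.card (H ⧸ K) = p ^ j * (S ⊔ K).index := by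
    rw [← h2, h3]; rfl
  rw [h5, Nat.factorization_mul (pow_ne_zero _ hp.out.ne_zero)
    (Subgroup.index_ne_zero_of_finite), hp.out.factorization_pow, Finsupp.add_apply,
    Finsupp.single_eq_same, Nat.factorization_eq_zero_of_not_dvd h4, add_zero]

end

end Cfsg.Agent.H7.FR
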