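import Cfsg.Agent.H7.FR3

set_option autoImplicit false
set_option linter.style.haveILetI false
set_option linter.unusedSectionVars false

/-! Fully ramified characters and `p`-complements, III. -/

namespace Cfsg.Agent.H7.FR

open Subgroup Cfsg Cfsg.Agent.H3 Cfsg.Agent.H27
open scoped ComplexConjugate

universe u v

section
variable {H : Type u} [Group H] [Fintype H] {Z : Subgroup H} [hZ : Z.Normal] [Fintype Z]
  {χ : H → ℂ} {θ : Z → ℂ} {e : ℕ} {p : ℕ} [hp : Fact p.Prime]

theorem irr_of_ind (hχ : IsIrrCharacter H χ) {K : Subgroup H} (hK : K.Normal) [Fintype K]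
    {φ : K → ℂ} (hφ : IsCharacter K φ) (hind : indFun K φ = χ) : IsIrrCharacter K φ := by
  classical
  have h1 := classInner_indFun_normal hK φ φ
  rw [hind, classInner_self_of_irr hχ, mul_one] at h1
  have hn : ∀ x : H, ∃ n : ℕ, classInner φ (cj hK x φ) = n := fun x =>
    classInner_char_nat hφ (isChar_cj hK hφ x)
  choose m hm using hn
  have h2 : Nat.card K = ∑ x : H, m x := by
    have : (Nat.card K : ℂ) = ((∑ x : H, m x : ℕ) : ℂ) := by
      rw [h1]; push_cast
      exact Finset.sum_congr rfl fun x _ => hm x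
    exact_mod_cast this
  have h3 : ∀ x : K, m x = m 1 := by
    intro x
    have h4 : (m x : ℂ) = (m 1 : ℂ) := by
      rw [← hm, ← hm, cj_of_mem hK (char_classFun hφ) x.2, cj_one]
    exact_mod_cast h4
  have h4 : Nat.card K * m 1 ≤ Nat.card K := by
    calc Nat.card K * m 1 = ∑ x : K, m x := by
          rw [Finset.sum_congr rfl fun x _ => h3 x, Finset.sum_const, Finset.card_univ,
            Nat.card_eq_fintype_card, smul_eq_mul]
      _ = ∑ x ∈ Finset.univ.filter (fun x : H => x ∈ K), m x :=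
          (Finset.sum_subtype (Finset.univ.filter fun x : H => x ∈ K) (fun x => by simp) m).symm
      _ ≤ ∑ x : H, m x := Finset.sum_le_sum_of_subset (Finset.filter_subset _ _)
      _ = Nat.card K := h2.symm
  have h5 : m 1 ≤ 1 := by
    have : 0 < Nat.card K := Nat.card_pos
    by_contra h
    have : Nat.card K * 2 ≤ Nat.card K * m 1 := Nat.mul_le_mul_left _ (by omega)
    omega
  have h6 : classInner φ φ = m 1 := by
    rw [← hm, cj_one]
  have h7 : φ ≠ 0 := by
    rintro rfl
    rw [indFun_zero] at hind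
    have h8 := classInner_self_of_irr hχ
    rw [← hind, classInner_zero_left] at h8
    exact zero_ne_one h8
  have h8 := char_norm_pos hφ h7 h6
  have h9 : m 1 = 1 := by omega
  rw [h9, Nat.cast_one] at h6
  exact isIrr_of_char_norm hφ h6

/-- constituents of the restriction of `χ` lie over `θ` -/
theorem over_of_constituent (hχ : IsIrrCharacter H χ) (hθ : IsIrrCharacter Z θ)
    (h : ∀ z : Z, χ z = (e : ℂ) * θ z) {S K : Subgroup H}
    [Fintype S] [Fintype (Z.subgroupOf S)] [Fintype (K.subgroupOf S)] (hZK : Z ≤ K) (hZS : Z ≤ S)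
    {β : K.subgroupOf S → ℂ} (hβ : IsIrrCharacter (K.subgroupOf S) β)
    (hne : classInner (fun x : K.subgroupOf S => χ (x : S)) β ≠ 0) :
    classInner (fun z : Z.subgroupOf S => β ⟨z, hZK z.2⟩) (thS θ S) ≠ 0 := by
  classical
  have hZN : Z.subgroupOf S ≤ K.subgroupOf S := fun z hz => hZK hz
  have hchar : IsCharacter (Z.subgroupOf S) (fun z => β (Subgroup.inclusion hZN z)) :=
    isChar_comp (irr_isChar hβ) (Subgroup.inclusion hZN)
  obtain ⟨θ', hθ'⟩ := exists_constituent hchar (by
    intro h1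
    have h2 := congrFun h1 1
    simp only [map_one, Pi.zero_apply] at h2
    have h3 := charDegree_cast (irr_isChar hβ)
    rw [h2] at h3
    have h4 := charDegree_one_le hβ
    have h5 : charDegree β = 0 := by exact_mod_cast h3
    omega)
  have h1 := inner_trans (Subgroup.inclusion hZN) (χ := fun x : K.subgroupOf S => χ (x : S))
    (isChar_comp (irr_isChar hχ) (S.subtype.comp (K.subgroupOf S).subtype)) hβ θ'.2 hne hθ'
  have h2 : (fun a : Z.subgroupOf S => (fun x : K.subgroupOf S => χ (x : S))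
      (Subgroup.inclusion hZN a)) = (e : ℂ) • thS θ S := by
    funext z
    exact h ⟨(z : S), z.2⟩
  rw [h2, classInner_smul_left] at h1
  by_cases h3 : thS θ S = θ'
  · rw [← h3] at hθ'
    exact hθ'
  · rw [classInner_of_irr_ne (thS_irr hθ hZS) θ'.2 h3, mul_zero] at h1
    exact absurd rfl h1

/-- characters over `θ` all have the same degree -/
theorem degree_eq {S : Subgroup H} [Fintype S] [Fintype (Z.subgroupOf S)] {K : Subgroup H}
    [hK : K.Normal]
    [Fintype (K.subgroupOf S)] (hθ : IsIrrCharacter Z θ) (hZK : Z ≤ K) (hZS : Z ≤ S)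
    {η : S → ℂ} (hη : IsIrrCharacter S η) {a : ℕ} (ha : a ^ 2 = (Z.subgroupOf S).index)
    (hηZ : ∀ z : Z.subgroupOf S, η z = (a : ℂ) * thS θ S z)
    {β γ : K.subgroupOf S → ℂ} (hβ : IsIrrCharacter (K.subgroupOf S) β)
    (hγ : IsIrrCharacter (K.subgroupOf S) γ)
    (h1 : classInner (fun z : Z.subgroupOf S => β ⟨z, hZK z.2⟩) (thS θ S) ≠ 0)
    (h2 : classInner (fun z : Z.subgroupOf S => γ ⟨z, hZK z.2⟩) (thS θ S) ≠ 0) :
    charDegree β = charDegree γ := by
  classical
  have hZN : Z.subgroupOf S ≤ K.subgroupOf S := fun z hz => hZK hz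
  have h3 := trans hη (thS_irr hθ hZS) ha hηZ (inferInstance : (K.subgroupOf S).Normal) hZN hβ h1
  have h4 := trans hη (thS_irr hθ hZS) ha hηZ (inferInstance : (K.subgroupOf S).Normal) hZN hγ h2
  obtain ⟨s, hs⟩ := clifford_inner (inferInstance : (K.subgroupOf S).Normal) hη hβ h3 hγ h4
  have h5 : (charDegree β : ℂ) = charDegree γ := by
    rw [charDegree_cast (irr_isChar hβ), charDegree_cast (irr_isChar hγ), ← hs, cj_one_apply]
  exact_mod_cast h5

theorem index_facts (Q : Sylow p (H ⧸ Z)) (S K : Subgroup H) [hK : K.Normal] (hZK : Z ≤ K)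
    (hS : S = (Q : Subgroup (H ⧸ Z)).comap (QuotientGroup.mk' Z)) (hZS : Z ≤ S) :
    (∃ j : ℕ, (K.subgroupOf S).index = p ^ j) ∧
      (K.subgroupOf S).index.factorization p = K.index.factorization p := by
  have h0 : ∃ j : ℕ, K.relIndex S = p ^ j := by
    have h1 : K.relIndex S ∣ Z.relIndex S := Subgroup.relIndex_dvd_of_le_left S hZK
    have h2 : Z.relIndex S = p ^ (Nat.card (H ⧸ Z)).factorization p := by
      have h3 : (Z.subgroupOf S).index = Nat.card (Q : Subgroup (H ⧸ Z)) := by
        subst hS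
        exact card_comap _
      rw [Subgroup.relIndex, h3, Q.card_eq_multiplicity]
    rw [h2] at h1
    obtain ⟨j, -, hj⟩ := (Nat.dvd_prime_pow hp.out).1 h1
    exact ⟨j, hj⟩
  refine ⟨h0, ?_⟩
  obtain ⟨j, hj⟩ := h0
  have h2 : K.relIndex (S ⊔ K) = p ^ j := by rw [← hj, Subgroup.relIndex_sup_right]
  have h3 : K.relIndex (S ⊔ K) * (S ⊔ K).index = K.index :=
    Subgroup.relIndex_mul_index le_sup_right
  have h4 : ¬ p ∣ (S ⊔ K).index := by
    intro h5
    have h6 : (S ⊔ K).index ∣ S.index := Subgroup.index_dvd_of_le le_sup_left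
    have h7 : S.index = (Q : Subgroup (H ⧸ Z)).index := by
      rw [hS, Subgroup.index_comap_of_surjective _ (QuotientGroup.mk'_surjective Z)]
    rw [h7] at h6
    exact Q.not_dvd_index (h5.trans h6)
  have h5 : (K.subgroupOf S).index = p ^ j := hj
  rw [← h3, h2, h5, Nat.factorization_mul (pow_ne_zero _ hp.out.ne_zero)
    (Subgroup.index_ne_zero_of_finite), hp.out.factorization_pow, Finsupp.add_apply,
    Finsupp.single_eq_same, Nat.factorization_eq_zero_of_not_dvd h4, add_zero]

theorem inertia_le_of_index {S : Type u} [Group S] [Fintype S] {N : Subgroup S} (hN : N.Normal)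
    {ψ : N → ℂ} (hψ : IsClassFunction N ψ) (h : (inertia hN ψ).index = N.index) :
    inertia hN ψ ≤ N := by
  have h1 := le_inertia hN hψ
  have h2 : Nat.card (inertia hN ψ) = Nat.card N := by
    have h3 := (inertia hN ψ).index_mul_card
    have h4 := N.index_mul_card
    rw [h, ← h4] at h3
    exact Nat.eq_of_mul_eq_mul_left (Nat.pos_of_ne_zero N.index_ne_zero_of_finite) h3
  exact (Subgroup.eq_of_le_of_card_ge h1 h2.le).ge

end

end Cfsg.Agent.H7.FR
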