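import Cfsg.Agent.H7.FR4

set_option autoImplicit false
set_option linter.style.haveILetI false
set_option linter.unusedSectionVars false

/-! Fully ramified characters and `p`-complements, IV: the theorems. -/

namespace Cfsg.Agent.H7.FR

open Subgroup Cfsg Cfsg.Agent.H3 Cfsg.Agent.H27
open scoped ComplexConjugate

universe u v

section
variable {H : Type u} [Group H] [Fintype H] {Z : Subgroup H} [hZ : Z.Normal] [Fintype Z]
  {χ : H → ℂ} {θ : Z → ℂ} {e : ℕ} {p : ℕ} [hp : Fact p.Prime]

theorem le_comap (Q : Subgroup (H ⧸ Z)) : Z ≤ Q.comap (QuotientGroup.mk' Z) := by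
  intro z hz
  show QuotientGroup.mk' Z z ∈ Q
  rw [show QuotientGroup.mk' Z z = 1 from (QuotientGroup.eq_one_iff z).2 hz]
  exact one_mem _

/-- the induced case -/
theorem compl_of_induced (hχ : IsIrrCharacter H χ) (hθ : IsIrrCharacter Z θ)
    (he : e ^ 2 = Z.index) (h : ∀ z : Z, χ z = (e : ℂ) * θ z) (K : Subgroup H) [hK : K.Normal]
    [Fintype K] (hZK : Z ≤ K) {φ : K → ℂ} (hφ : IsCharacter K φ) (hind : indFun K φ = χ) :
    ∃ M : Subgroup (H ⧸ K), M.index = p ^ (Nat.card (H ⧸ K)).factorization p := by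
  classical
  have hφi := irr_of_ind hχ hK hφ hind
  obtain ⟨Q⟩ : Nonempty (Sylow p (H ⧸ Z)) := inferInstance
  set S := (Q : Subgroup (H ⧸ Z)).comap (QuotientGroup.mk' Z) with hS
  have hZS : Z ≤ S := le_comap _
  haveI := Fintype.ofFinite S
  haveI := Fintype.ofFinite (Z.subgroupOf S)
  haveI := Fintype.ofFinite (K.subgroupOf S)
  haveI := Fintype.ofFinite (IrrCharacter (K.subgroupOf S))
  obtain ⟨η, a, hη, ha, hηZ⟩ := sylow_ram hχ hθ he h Q S hS hZS
  -- the restriction of `φ`
  let j : K.subgroupOf S →* K := (S.subtype.comp (K.subgroupOf S).subtype).codRestrict K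
    fun x => x.2
  have hφS : IsCharacter (K.subgroupOf S) (fun x => φ (j x)) := isChar_comp hφ j
  have hχφ : classInner (fun k : K => χ k) φ ≠ 0 := by
    rw [← frobenius_reciprocity' K φ (irr_classFun hχ), hind, classInner_self_of_irr hχ]
    exact one_ne_zero
  have hover : ∀ β : IrrCharacter (K.subgroupOf S), classInner (fun x => φ (j x)) β ≠ 0 →
      classInner (fun z : Z.subgroupOf S => (β : K.subgroupOf S → ℂ) ⟨z, hZK z.2⟩) (thS θ S) ≠ 0 := by
    intro β hβ
    have h1 := inner_trans j (χ := fun k : K => χ k) (isChar_restrict K (irr_isChar hχ)) hφi β.2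
      hχφ hβ
    exact over_of_constituent hχ hθ h hZK hZS β.2 h1
  have hφS0 : (fun x => φ (j x)) ≠ 0 := by
    intro h1
    have h2 := congrFun h1 1
    simp only [map_one, Pi.zero_apply] at h2
    have h3 := charDegree_cast (irr_isChar hφi)
    rw [h2] at h3
    have h4 := charDegree_one_le hφi
    have h5 : charDegree φ = 0 := by exact_mod_cast h3
    omega
  obtain ⟨ψ, hψne⟩ := exists_constituent hφS hφS0
  have hψθ := hover ψ hψne
  -- degrees
  have hdvd : charDegree (ψ : K.subgroupOf S → ℂ) ∣ charDegree φ := by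
    have hn : ∀ β : IrrCharacter (K.subgroupOf S), ∃ n : ℕ,
        classInner (fun x => φ (j x)) (β : K.subgroupOf S → ℂ) = n :=
      fun β => classInner_char_nat hφS (irr_isChar β.2)
    choose m hm using hn
    have h1 := classFun_expand_apply (char_classFun hφS) 1
    have h2 : charDegree φ = ∑ β : IrrCharacter (K.subgroupOf S),
        m β * charDegree (β : K.subgroupOf S → ℂ) := by
      have h3 : (charDegree φ : ℂ) = ((∑ β : IrrCharacter (K.subgroupOf S),
        m β * charDegree (β : K.subgroupOf S → ℂ) : ℕ) : ℂ) := by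
        rw [charDegree_cast hφ]
        simp only [map_one] at h1
        rw [h1]
        push_cast
        refine Finset.sum_congr rfl fun β _ => ?_
        rw [hm, charDegree_cast (irr_isChar β.2)]
      exact_mod_cast h3
    rw [h2]
    refine Finset.dvd_sum fun β _ => ?_
    by_cases h3 : m β = 0
    · rw [h3, zero_mul]; exact dvd_zero _
    · have h4 : classInner (fun x => φ (j x)) (β : K.subgroupOf S → ℂ) ≠ 0 := by
        rw [hm]; exact_mod_cast h3
      rw [degree_eq (K := K) hθ hZK hZS hη ha hηZ ψ.2 β.2 hψθ (hover β h4)]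
      exact Dvd.intro_left _ rfl
  obtain ⟨r, hr⟩ := hdvd
  have hZN : Z.subgroupOf S ≤ K.subgroupOf S := fun z hz => hZK hz
  obtain ⟨f, hf1, hf2⟩ := numbers hη (thS_irr hθ hZS) ha hηZ
    (inferInstance : (K.subgroupOf S).Normal) hZN ψ.2 hψθ
  -- `e θ(1) = |H : K| φ(1)`
  have h1 : e * charDegree θ = K.index * charDegree φ := by
    have h2 := h 1
    rw [← hind] at h2
    have h3 : indFun K φ ((1 : Z) : H) = indFun K φ 1 := by rw [Subgroup.coe_one]
    rw [h3, indFun_one_apply, ← charDegree_cast hφ, ← charDegree_cast (irr_isChar hθ)] at h2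
    exact_mod_cast h2.symm
  have hdeg : charDegree (thS θ S) = charDegree θ := by
    have h2 : (charDegree (thS θ S) : ℂ) = charDegree θ := by
      rw [charDegree_cast (irr_isChar (thS_irr hθ hZS)), charDegree_cast (irr_isChar hθ)]
      rfl
    exact_mod_cast h2
  rw [hdeg] at hf2
  set T := inertia (inferInstance : (K.subgroupOf S).Normal) (ψ : K.subgroupOf S → ℂ) with hTdef
  obtain ⟨⟨i, hi⟩, hfact⟩ := index_facts Q S K hZK hS hZS
  -- valuations
  have hθ0 : charDegree θ ≠ 0 := by have := charDegree_one_le hθ; omega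
  have hψ0 : charDegree (ψ : K.subgroupOf S → ℂ) ≠ 0 := by
    have := charDegree_one_le ψ.2; omega
  have hφ0 : charDegree φ ≠ 0 := by have := charDegree_one_le hφi; omega
  have hr0 : r ≠ 0 := by
    rintro rfl
    rw [mul_zero] at hr
    exact hφ0 hr
  have hK0 : K.index ≠ 0 := Subgroup.index_ne_zero_of_finite
  have hT0 : T.index ≠ 0 := Subgroup.index_ne_zero_of_finite
  have hN0 : (K.subgroupOf S).index ≠ 0 := Subgroup.index_ne_zero_of_finite
  have hf0 : f ≠ 0 := by
    rintro rfl
    rw [zero_pow (by norm_num), zero_mul] at hf1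
    exact hN0 hf1.symm
  have hea : e.factorization p = a.factorization p := by
    have h2 : (Z.subgroupOf S).index.factorization p = Z.index.factorization p := by
      have h3 : (Z.subgroupOf S).index = p ^ (Z.index).factorization p := by
        have h5 : (Z.subgroupOf S).index = Nat.card (Q : Subgroup (H ⧸ Z)) := card_comap _
        rw [h5, Q.card_eq_multiplicity]
        rfl
      rw [h3, hp.out.factorization_pow, Finsupp.single_eq_same]
    rw [← ha, ← he, Nat.factorization_pow, Nat.factorization_pow] at h2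
    simp only [Finsupp.smul_apply, smul_eq_mul] at h2
    omega
  have h2 : e * (f * T.index) = a * (K.index * r) := by
    have h3 : (e * charDegree θ) * (f * T.index * charDegree (ψ : K.subgroupOf S → ℂ)) =
        (a * charDegree θ) * (K.index * (charDegree (ψ : K.subgroupOf S → ℂ) * r)) := by
      rw [h1, ← hf2, hr]; ring
    have h4 : (e * (f * T.index)) * (charDegree θ * charDegree (ψ : K.subgroupOf S → ℂ)) =
        (a * (K.index * r)) * (charDegree θ * charDegree (ψ : K.subgroupOf S → ℂ)) := by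
      calc _ = (e * charDegree θ) * (f * T.index * charDegree (ψ : K.subgroupOf S → ℂ)) := by ring
        _ = _ := by rw [h3]; ring
    exact Nat.eq_of_mul_eq_mul_right (Nat.pos_of_ne_zero (mul_ne_zero hθ0 hψ0)) h4
  have he0 : e ≠ 0 := e_ne he
  have ha0 : a ≠ 0 := e_ne ha
  have h3 := congrArg (fun n => n.factorization p) h2
  simp only [Nat.factorization_mul he0 (mul_ne_zero hf0 hT0), Nat.factorization_mul hf0 hT0,
    Nat.factorization_mul ha0 (mul_ne_zero hK0 hr0), Nat.factorization_mul hK0 hr0,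
    Finsupp.add_apply] at h3
  have h4 := congrArg (fun n => n.factorization p) hf1
  simp only [Nat.factorization_mul (pow_ne_zero 2 hf0) hT0, Nat.factorization_pow,
    Finsupp.add_apply, Finsupp.smul_apply, smul_eq_mul] at h4
  rw [hfact] at h4
  have h5 : f.factorization p = 0 := by omega
  have h6 : f = 1 := by
    have h7 : f ∣ p ^ i := by
      rw [← hi, ← hf1, pow_two, mul_assoc]
      exact Dvd.intro _ rfl
    obtain ⟨l, -, hl⟩ := (Nat.dvd_prime_pow hp.out).1 h7
    rw [hl, hp.out.factorization_pow, Finsupp.single_eq_same] at h5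
    rw [hl, h5, pow_zero]
  rw [h6, one_pow, one_mul] at hf1
  exact exists_compl hχ hθ he h Q S K hZK hS hZS hη ha hηZ ψ.2 hψθ
    (inertia_le_of_index _ (irr_classFun ψ.2) hf1)

theorem solvable_of_induced (hχ : IsIrrCharacter H χ) (hθ : IsIrrCharacter Z θ)
    (he : e ^ 2 = Z.index) (h : ∀ z : Z, χ z = (e : ℂ) * θ z) (K : Subgroup H) [hK : K.Normal]
    [Fintype K] (hZK : Z ≤ K) {φ : K → ℂ} (hφ : IsCharacter K φ) (hind : indFun K φ = χ) :
    Group.IsSolvable (H ⧸ K) := by
  apply Cfsg.Agent.H1.hall_converse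
  intro p hp
  haveI : Fact p.Prime := ⟨hp⟩
  exact compl_of_induced hχ hθ he h K hZK hφ hind

end

section
variable {H : Type u} [Group H] [Fintype H] {Z : Subgroup H} [hZ : Z.Normal] [Fintype Z]
  {χ : H → ℂ} {θ : Z → ℂ} {e : ℕ}

/-- in a fully ramified situation, an invariant character with cyclic inertia factor group has
trivial inertia factor group -/
theorem inertia_le_of_cyclic (hχ : IsIrrCharacter H χ) (hθ : IsIrrCharacter Z θ)
    (he : e ^ 2 = Z.index) (h : ∀ z : Z, χ z = (e : ℂ) * θ z) {N : Subgroup H} [Fintype N]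
    (hN : N.Normal) (hZN : Z ≤ N) {ψ : N → ℂ} (hψ : IsIrrCharacter N ψ)
    (hψθ : classInner (fun z : Z => ψ ⟨z, hZN z.2⟩) θ ≠ 0)
    (hcyc : IsCyclic (inertia hN ψ ⧸ N.subgroupOf (inertia hN ψ))) : inertia hN ψ ≤ N := by
  classical
  apply inertia_le_of_index hN (irr_classFun hψ)
  obtain ⟨f, hf1, hf2⟩ := numbers hχ hθ he h hN hZN hψ hψθ
  set T := inertia hN ψ with hT
  haveI := Fintype.ofFinite T
  haveI := Fintype.ofFinite (N.subgroupOf T)
  have hNT : N ≤ T := le_inertia hN (irr_classFun hψ)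
  let ε : N.subgroupOf T ≃* N := subgroupOfEquivOfLe hNT
  have h1 : IsIrrCharacter (N.subgroupOf T) (fun x => ψ (ε x)) := (isIrr_comp_equiv_iff ε).2 hψ
  obtain ⟨ψt, hψt, hext⟩ := extends_of_cyclic (inferInstance : (N.subgroupOf T).Normal) h1
    (fun g => by
      funext x
      have h2 := (mem_inertia hN ψ (g : H)).1 g.2
      have h3 := congrFun h2 (ε x)
      rw [cj_apply] at h3
      exact h3) hcyc
  have hind := isChar_ind T (irr_isChar hψt)
  -- every constituent is `χ`
  have h2 : ∀ β : IrrCharacter H, classInner (indFun T ψt) (β : H → ℂ) ≠ 0 →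
      (β : H → ℂ) = χ := by
    intro β hβ
    apply unique_over hχ hθ he h β.2
    have h3 : classInner (fun t : T => (β : H → ℂ) t) ψt ≠ 0 := by
      rw [frobenius_reciprocity T ψt (irr_classFun β.2), ← classInner_conj_symm] at hβ
      intro h4
      apply hβ
      rw [h4, map_zero]
    have h4 : classInner (fun z : Z => ψt ⟨z, hNT (hZN z.2)⟩) θ ≠ 0 := by
      have h5 : (fun z : Z => ψt ⟨z, hNT (hZN z.2)⟩) = fun z : Z => ψ ⟨z, hZN z.2⟩ := by
        funext z
        exact hext ⟨⟨z, hNT (hZN z.2)⟩, hZN z.2⟩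
      rw [h5]; exact hψθ
    exact inner_trans (Subgroup.inclusion (hZN.trans hNT)) (χ := fun t : T => (β : H → ℂ) t)
      (isChar_restrict T (irr_isChar β.2)) hψt hθ h3 h4
  obtain ⟨m, hm⟩ := classInner_char_nat hind (irr_isChar hχ)
  haveI := Fintype.ofFinite (IrrCharacter H)
  have h3 : indFun T ψt 1 = (m : ℂ) * χ 1 := by
    rw [classFun_expand_apply (char_classFun hind) 1, Finset.sum_eq_single ⟨χ, hχ⟩]
    · rw [← hm]
    · intro β _ hβ
      by_cases h4 : classInner (indFun T ψt) (β : H → ℂ) = 0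
      · rw [h4, zero_mul]
      · exact absurd (Subtype.ext (h2 β h4)) hβ
    · intro h4; exact absurd (Finset.mem_univ _) h4
  have h4 : T.index * charDegree ψ = m * charDegree χ := by
    have h5 : ψt 1 = ψ 1 := by
      have := hext 1
      rw [map_one] at this
      exact this
    rw [indFun_one_apply, h5, ← charDegree_cast (irr_isChar hψ),
      ← charDegree_cast (irr_isChar hχ)] at h3
    exact_mod_cast h3
  have h5 : charDegree χ = e * charDegree θ := by
    have h6 := h 1
    have h7 : χ ((1 : Z) : H) = χ 1 := by rw [Subgroup.coe_one]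
    rw [h7, ← charDegree_cast (irr_isChar hχ), ← charDegree_cast (irr_isChar hθ)] at h6
    exact_mod_cast h6
  rw [h5, hf2] at h4
  have hψ0 : charDegree ψ ≠ 0 := by have := charDegree_one_le hψ; omega
  have hT0 : T.index ≠ 0 := Subgroup.index_ne_zero_of_finite
  have h6 : 1 * (T.index * charDegree ψ) = (m * f) * (T.index * charDegree ψ) := by
    rw [one_mul]; exact h4.trans (by ring)
  have h7 : 1 = m * f :=
    Nat.eq_of_mul_eq_mul_right (Nat.pos_of_ne_zero (mul_ne_zero hT0 hψ0)) h6
  have h8 : f = 1 := Nat.eq_one_of_mul_eq_one_left h7.symm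
  rw [h8, one_pow, one_mul] at hf1
  exact hf1

end

section
variable {H : Type u} [Group H] [Fintype H] {Z : Subgroup H} [hZ : Z.Normal] [Fintype Z]
  {χ : H → ℂ} {θ : Z → ℂ} {e : ℕ} {p : ℕ} [hp : Fact p.Prime]

theorem compl_of_cyclic (hχ : IsIrrCharacter H χ) (hθ : IsIrrCharacter Z θ)
    (he : e ^ 2 = Z.index) (h : ∀ z : Z, χ z = (e : ℂ) * θ z) (K : Subgroup H) [hK : K.Normal]
    (hZK : Z ≤ K) (P : Sylow p (H ⧸ K)) (hcyc : IsCyclic P) :
    ∃ M : Subgroup (H ⧸ K), M.IsComplement' (P : Subgroup (H ⧸ K)) := by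
  classical
  obtain ⟨Q⟩ : Nonempty (Sylow p (H ⧸ Z)) := inferInstance
  set S := (Q : Subgroup (H ⧸ Z)).comap (QuotientGroup.mk' Z) with hS
  have hZS : Z ≤ S := le_comap _
  haveI := Fintype.ofFinite S
  haveI := Fintype.ofFinite (Z.subgroupOf S)
  haveI := Fintype.ofFinite (K.subgroupOf S)
  obtain ⟨η, a, hη, ha, hηZ⟩ := sylow_ram hχ hθ he h Q S hS hZS
  have hZN : Z.subgroupOf S ≤ K.subgroupOf S := fun z hz => hZK hz
  obtain ⟨ψ, hψne⟩ := exists_constituent (isChar_restrict (K.subgroupOf S) (irr_isChar hη)) (by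
    intro h1
    have h2 := congrFun h1 1
    simp only [Subgroup.coe_one, Pi.zero_apply] at h2
    have h3 := charDegree_cast (irr_isChar hη)
    rw [h2] at h3
    have h4 := charDegree_one_le hη
    have h5 : charDegree η = 0 := by exact_mod_cast h3
    omega)
  have hψθ : classInner (fun z : Z.subgroupOf S => (ψ : K.subgroupOf S → ℂ) ⟨z, hZK z.2⟩)
      (thS θ S) ≠ 0 := by
    have hchar : IsCharacter (Z.subgroupOf S)
        (fun z => (ψ : K.subgroupOf S → ℂ) (Subgroup.inclusion hZN z)) :=
      isChar_comp (irr_isChar ψ.2) (Subgroup.inclusion hZN)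
    obtain ⟨θ', hθ'⟩ := exists_constituent hchar (by
      intro h1
      have h2 := congrFun h1 1
      simp only [map_one, Pi.zero_apply] at h2
      have h3 := charDegree_cast (irr_isChar ψ.2)
      rw [h2] at h3
      have h4 := charDegree_one_le ψ.2
      have h5 : charDegree (ψ : K.subgroupOf S → ℂ) = 0 := by exact_mod_cast h3
      omega)
    have h1 := inner_trans (Subgroup.inclusion hZN) (χ := fun x : K.subgroupOf S => η x)
      (isChar_restrict (K.subgroupOf S) (irr_isChar hη)) ψ.2 θ'.2 hψne hθ'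
    have h2 : (fun a : Z.subgroupOf S => (fun x : K.subgroupOf S => η x)
        (Subgroup.inclusion hZN a)) = (a : ℂ) • thS θ S := by
      funext z
      exact hηZ z
    rw [h2, classInner_smul_left] at h1
    by_cases h3 : thS θ S = θ'
    · rw [← h3] at hθ'
      exact hθ'
    · rw [classInner_of_irr_ne (thS_irr hθ hZS) θ'.2 h3, mul_zero] at h1
      exact absurd rfl h1
  -- `S K / K` is cyclic
  let f : S →* H ⧸ K := (QuotientGroup.mk' K).comp S.subtype
  have hfker : f.ker = K.subgroupOf S := by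
    ext x
    rw [MonoidHom.mem_ker, mem_subgroupOf]
    exact QuotientGroup.eq_one_iff (x : H)
  have hrange : IsPGroup p f.range := by
    rintro ⟨_, ⟨x, rfl⟩⟩
    have h1 : (x : H) ∈ S := x.2
    obtain ⟨k, hk⟩ := Q.2 ⟨QuotientGroup.mk' Z (x : H), h1⟩
    refine ⟨k, ?_⟩
    apply Subtype.ext
    have h2 : QuotientGroup.mk' Z ((x : H) ^ p ^ k) = 1 := by
      rw [map_pow]; exact congrArg Subtype.val hk
    have h3 : (x : H) ^ p ^ k ∈ Z := (QuotientGroup.eq_one_iff _).1 h2
    show (f x) ^ p ^ k = 1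
    rw [← map_pow]
    exact (QuotientGroup.eq_one_iff _).2 (hZK h3)
  have hrcyc : IsCyclic f.range := by
    obtain ⟨P', hP'⟩ := hrange.exists_le_sylow
    have h1 : IsCyclic P' := isCyclic_of_surjective (Sylow.equiv P P') (Sylow.equiv P P').surjective
    exact isCyclic_of_injective (Subgroup.inclusion hP') (Subgroup.inclusion_injective hP')
  set T := inertia (inferInstance : (K.subgroupOf S).Normal) (ψ : K.subgroupOf S → ℂ) with hT
  have hTcyc : IsCyclic (T ⧸ (K.subgroupOf S).subgroupOf T) := by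
    let g : T →* f.range := f.rangeRestrict.comp T.subtype
    have hgker : g.ker = (K.subgroupOf S).subgroupOf T := by
      ext x
      rw [MonoidHom.mem_ker, mem_subgroupOf, ← hfker, MonoidHom.mem_ker]
      constructor
      · intro h1; exact congrArg Subtype.val h1
      · intro h1; exact Subtype.ext h1
    have h2 : IsCyclic (T ⧸ g.ker) :=
      isCyclic_of_injective (QuotientGroup.kerLift g) (QuotientGroup.kerLift_injective g)
    have e1 : T ⧸ (K.subgroupOf S).subgroupOf T ≃* T ⧸ g.ker :=
      QuotientGroup.quotientMulEquivOfEq hgker.symm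
    exact isCyclic_of_surjective e1.symm e1.symm.surjective
  have hTle := inertia_le_of_cyclic hη (thS_irr hθ hZS) ha hηZ
    (inferInstance : (K.subgroupOf S).Normal) hZN ψ.2 hψθ hTcyc
  obtain ⟨M, hM⟩ := exists_compl hχ hθ he h Q S K hZK hS hZS hη ha hηZ ψ.2 hψθ hTle
  refine ⟨M, ?_⟩
  have h1 : Nat.card P = M.index := by rw [hM, P.card_eq_multiplicity]
  apply Subgroup.isComplement'_of_coprime
  · rw [h1, mul_comm]; exact M.index_mul_card
  · have h2 : ¬ p ∣ Nat.card M := by
      intro h3
      have h4 : p ^ ((Nat.card (H ⧸ K)).factorization p + 1) ∣ Nat.card (H ⧸ K) := by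
        conv_rhs => rw [← M.index_mul_card, hM]
        rw [pow_succ]
        exact mul_dvd_mul_left _ h3
      exact Nat.pow_succ_factorization_not_dvd Nat.card_pos.ne' hp.out h4
    rw [h1, hM]
    exact ((Nat.Prime.coprime_iff_not_dvd hp.out).2 h2).symm.pow_right _

end

end Cfsg.Agent.H7.FR
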