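import Cfsg.Prelude.Def_G2
import Cfsg.Agent.H13.Perm
import Cfsg.Agent.H5.OrthForms

set_option autoImplicit false
set_option linter.all false

/-!
The split octonions: automorphisms and the order of `G₂(q)`.
-/

namespace Cfsg.Agent.H7.G2Syl

open Cfsg Cfsg.Lie Matrix

variable {F : Type*} [Field F]

theorem zm (x y : Fin 8 → F) : zornMul x y = ![x 0 * y 0 + (x 1 * y 4 + x 2 * y 5 + x 3 * y 6),
   x 0 * y 1 + y 7 * x 1 - (x 5 * y 6 - x 6 * y 5),
   x 0 * y 2 + y 7 * x 2 - (x 6 * y 4 - x 4 * y 6),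
   x 0 * y 3 + y 7 * x 3 - (x 4 * y 5 - x 5 * y 4),
   y 0 * x 4 + x 7 * y 4 + (x 2 * y 3 - x 3 * y 2),
   y 0 * x 5 + x 7 * y 5 + (x 3 * y 1 - x 1 * y 3),
   y 0 * x 6 + x 7 * y 6 + (x 1 * y 2 - x 2 * y 1),
   x 4 * y 1 + x 5 * y 2 + x 6 * y 3 + x 7 * y 7] := rfl

/-- the automorphisms as linear equivalences -/
def AutZ (F : Type*) [Field F] : Subgroup ((Fin 8 → F) ≃ₗ[F] (Fin 8 → F)) where
  carrier := {g | ∀ x y, g (zornMul x y) = zornMul (g x) (g y)}
  mul_mem' {a b} ha hb := fun x y => by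
    show a (b (zornMul x y)) = zornMul (a (b x)) (a (b y))
    rw [hb, ha]
  one_mem' := fun x y => rfl
  inv_mem' {a} ha := fun x y => by
    show a.symm (zornMul x y) = zornMul (a.symm x) (a.symm y)
    rw [LinearEquiv.symm_apply_eq, ha, LinearEquiv.apply_symm_apply, LinearEquiv.apply_symm_apply]

/-- the two descriptions agree -/
noncomputable def g2Equiv (F : Type*) [Field F] : G2 F ≃* AutZ F where
  toFun g := ⟨LinearMap.GeneralLinearGroup.generalLinearEquiv F (Fin 8 → F)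
    (Matrix.GeneralLinearGroup.toLin g.1), fun x y => g.2 x y⟩
  invFun g := ⟨Matrix.GeneralLinearGroup.toLin.symm
    ((LinearMap.GeneralLinearGroup.generalLinearEquiv F (Fin 8 → F)).symm g.1), fun u v => by
      have h : ∀ u, (Matrix.GeneralLinearGroup.toLin.symm
        ((LinearMap.GeneralLinearGroup.generalLinearEquiv F (Fin 8 → F)).symm g.1)).1.mulVec u = g.1 u := by
        intro u
        have h1 : (Matrix.GeneralLinearGroup.toLin (Matrix.GeneralLinearGroup.toLin.symm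
          ((LinearMap.GeneralLinearGroup.generalLinearEquiv F (Fin 8 → F)).symm g.1))).1 u = g.1 u := by
          rw [MulEquiv.apply_symm_apply]; rfl
        exact h1
      show (Matrix.GeneralLinearGroup.toLin.symm
        ((LinearMap.GeneralLinearGroup.generalLinearEquiv F (Fin 8 → F)).symm g.1)).1.mulVec (zornMul u v) =
        zornMul ((Matrix.GeneralLinearGroup.toLin.symm
        ((LinearMap.GeneralLinearGroup.generalLinearEquiv F (Fin 8 → F)).symm g.1)).1.mulVec u)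
        ((Matrix.GeneralLinearGroup.toLin.symm
        ((LinearMap.GeneralLinearGroup.generalLinearEquiv F (Fin 8 → F)).symm g.1)).1.mulVec v)
      rw [h, h, h, g.2]⟩
  left_inv g := by
    apply Subtype.ext
    simp
  right_inv g := by
    apply Subtype.ext
    simp
  map_mul' g h := by
    apply Subtype.ext
    simp

theorem az_mul (g : AutZ F) (x y : Fin 8 → F) : g.1 (zornMul x y) = zornMul (g.1 x) (g.1 y) := g.2 x y

theorem az_ext {g h : AutZ F} (H : ∀ x, g.1 x = h.1 x) : g = h := Subtype.ext (LinearEquiv.ext H)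

/-- automorphisms from a pair of inverse maps -/
def mkA (f f' : (Fin 8 → F) →ₗ[F] (Fin 8 → F)) (h1 : ∀ x, f (f' x) = x) (h2 : ∀ x, f' (f x) = x)
    (hm : ∀ x y, f (zornMul x y) = zornMul (f x) (f y)) : AutZ F :=
  ⟨LinearEquiv.ofLinear f f' (LinearMap.ext h1) (LinearMap.ext h2), hm⟩

theorem mkA_apply (f f' : (Fin 8 → F) →ₗ[F] (Fin 8 → F)) (h1 : ∀ x, f (f' x) = x) (h2 : ∀ x, f' (f x) = x)
    (hm : ∀ x y, f (zornMul x y) = zornMul (f x) (f y)) (x : Fin 8 → F) : (mkA f f' h1 h2 hm).1 x = f x := rfl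

/-- first family -/
def tauLin (u : Fin 3 → F) : (Fin 8 → F) →ₗ[F] (Fin 8 → F) where
  toFun x := ![x 0 - (u 0 * x 4 + u 1 * x 5 + u 2 * x 6),
    x 1 + (x 0 - x 7 - (u 0 * x 4 + u 1 * x 5 + u 2 * x 6)) * u 0,
    x 2 + (x 0 - x 7 - (u 0 * x 4 + u 1 * x 5 + u 2 * x 6)) * u 1,
    x 3 + (x 0 - x 7 - (u 0 * x 4 + u 1 * x 5 + u 2 * x 6)) * u 2,
    x 4 + (u 1 * x 3 - u 2 * x 2), x 5 + (u 2 * x 1 - u 0 * x 3), x 6 + (u 0 * x 2 - u 1 * x 1),
    x 7 + (u 0 * x 4 + u 1 * x 5 + u 2 * x 6)]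
  map_add' x y := by
    funext i
    fin_cases i <;> simp <;> ring
  map_smul' a x := by
    funext i
    fin_cases i <;> simp <;> ring

/-- second family -/
def tauLin' (u : Fin 3 → F) : (Fin 8 → F) →ₗ[F] (Fin 8 → F) where
  toFun x := ![x 0 - (u 0 * x 1 + u 1 * x 2 + u 2 * x 3),
    x 1 + (u 1 * x 6 - u 2 * x 5), x 2 + (u 2 * x 4 - u 0 * x 6), x 3 + (u 0 * x 5 - u 1 * x 4),
    x 4 + (x 0 - x 7 - (u 0 * x 1 + u 1 * x 2 + u 2 * x 3)) * u 0,
    x 5 + (x 0 - x 7 - (u 0 * x 1 + u 1 * x 2 + u 2 * x 3)) * u 1,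
    x 6 + (x 0 - x 7 - (u 0 * x 1 + u 1 * x 2 + u 2 * x 3)) * u 2,
    x 7 + (u 0 * x 1 + u 1 * x 2 + u 2 * x 3)]
  map_add' x y := by
    funext i
    fin_cases i <;> simp <;> ring
  map_smul' a x := by
    funext i
    fin_cases i <;> simp <;> ring

theorem tauLin_inv (u : Fin 3 → F) (x : Fin 8 → F) : tauLin u (tauLin (-u) x) = x := by
  funext i
  fin_cases i <;> simp [tauLin] <;> ring

theorem tauLin'_inv (u : Fin 3 → F) (x : Fin 8 → F) : tauLin' u (tauLin' (-u) x) = x := by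
  funext i
  fin_cases i <;> simp [tauLin'] <;> ring

theorem tauLin_mul (u : Fin 3 → F) (x y : Fin 8 → F) : tauLin u (zornMul x y) = zornMul (tauLin u x) (tauLin u y) := by
  rw [zm, zm]
  funext i
  fin_cases i <;> simp [tauLin] <;> ring

theorem tauLin'_mul (u : Fin 3 → F) (x y : Fin 8 → F) : tauLin' u (zornMul x y) = zornMul (tauLin' u x) (tauLin' u y) := by
  rw [zm, zm]
  funext i
  fin_cases i <;> simp [tauLin'] <;> ring

def tau (u : Fin 3 → F) : AutZ F := mkA (tauLin u) (tauLin (-u)) (tauLin_inv u)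
  (fun x => by have := tauLin_inv (-u) x; rwa [neg_neg] at this) (tauLin_mul u)

def tau' (u : Fin 3 → F) : AutZ F := mkA (tauLin' u) (tauLin' (-u)) (tauLin'_inv u)
  (fun x => by have := tauLin'_inv (-u) x; rwa [neg_neg] at this) (tauLin'_mul u)

/-- the idempotent -/
def e0 (F : Type*) [Field F] : Fin 8 → F := ![1, 0, 0, 0, 0, 0, 0, 0]
def one8 (F : Type*) [Field F] : Fin 8 → F := ![1, 0, 0, 0, 0, 0, 0, 1]

/-- the non-trivial idempotents -/
def XI (F : Type*) [Field F] : Set (Fin 8 → F) :=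
  {e | e 7 = 1 - e 0 ∧ e 1 * e 4 + e 2 * e 5 + e 3 * e 6 = e 0 * (1 - e 0)}

theorem one_mul8 (x : Fin 8 → F) : zornMul (one8 F) x = x := by
  rw [zm]; funext i; fin_cases i <;> simp [one8]

theorem mul_one8 (x : Fin 8 → F) : zornMul x (one8 F) = x := by
  rw [zm]; funext i; fin_cases i <;> simp [one8]

theorem e0_mul (x : Fin 8 → F) : zornMul (e0 F) x = ![x 0, x 1, x 2, x 3, 0, 0, 0, 0] := by
  rw [zm]; funext i; fin_cases i <;> simp [e0]

theorem mul_e0 (x : Fin 8 → F) : zornMul x (e0 F) = ![x 0, 0, 0, 0, x 4, x 5, x 6, 0] := by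
  rw [zm]; funext i; fin_cases i <;> simp [e0]

theorem map_one8 (g : AutZ F) : g.1 (one8 F) = one8 F := by
  have h1 : zornMul (g.1 (one8 F)) (g.1 (g.1.symm (one8 F))) = g.1 (g.1.symm (one8 F)) := by
    rw [← az_mul, one_mul8]
  rw [LinearEquiv.apply_symm_apply, mul_one8] at h1
  exact h1

theorem mem_XI_of_idem {e : Fin 8 → F} (h : zornMul e e = e) (h0 : e ≠ 0) (h1 : e ≠ one8 F) : e ∈ XI F := by
  rw [zm] at h
  have c0 := congrFun h 0
  have c1 := congrFun h 1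
  have c2 := congrFun h 2
  have c3 := congrFun h 3
  have c4 := congrFun h 4
  have c5 := congrFun h 5
  have c6 := congrFun h 6
  have c7 := congrFun h 7
  simp at c0 c1 c2 c3 c4 c5 c6 c7
  by_cases hs : e 0 + e 7 = 1
  · refine ⟨by linear_combination hs, ?_⟩
    linear_combination c0
  · exfalso
    have hs' : e 0 + e 7 - 1 ≠ 0 := sub_ne_zero.2 hs
    have z : ∀ t : F, (e 0 + e 7 - 1) * t = 0 → t = 0 := fun t ht => (mul_eq_zero.1 ht).resolve_left hs'
    have z1 := z (e 1) (by linear_combination c1)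
    have z2 := z (e 2) (by linear_combination c2)
    have z3 := z (e 3) (by linear_combination c3)
    have z4 := z (e 4) (by linear_combination c4)
    have z5 := z (e 5) (by linear_combination c5)
    have z6 := z (e 6) (by linear_combination c6)
    rw [z1, z2, z3] at c0
    rw [z4, z5, z6] at c7
    have h00 : e 0 * (e 0 - 1) = 0 := by linear_combination c0
    have h77 : e 7 * (e 7 - 1) = 0 := by linear_combination c7
    rcases mul_eq_zero.1 h00 with h8 | h8 <;> rcases mul_eq_zero.1 h77 with h9 | h9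
    · apply h0
      funext i
      fin_cases i <;> assumption
    · exact hs (by rw [h8, sub_eq_zero.1 h9, zero_add])
    · exact hs (by rw [h9, sub_eq_zero.1 h8, add_zero])
    · apply h1
      rw [sub_eq_zero] at h8 h9
      funext i
      fin_cases i <;> simp [one8] <;> assumption

theorem idem_of_mem_XI {e : Fin 8 → F} (h : e ∈ XI F) : zornMul e e = e := by
  obtain ⟨h7, h8⟩ := h
  rw [zm]
  funext i
  fin_cases i
  · show e 0 * e 0 + (e 1 * e 4 + e 2 * e 5 + e 3 * e 6) = e 0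
    rw [h8]; ring
  · show e 0 * e 1 + e 7 * e 1 - (e 5 * e 6 - e 6 * e 5) = e 1
    rw [h7]; ring
  · show e 0 * e 2 + e 7 * e 2 - (e 6 * e 4 - e 4 * e 6) = e 2
    rw [h7]; ring
  · show e 0 * e 3 + e 7 * e 3 - (e 4 * e 5 - e 5 * e 4) = e 3
    rw [h7]; ring
  · show e 0 * e 4 + e 7 * e 4 + (e 2 * e 3 - e 3 * e 2) = e 4
    rw [h7]; ring
  · show e 0 * e 5 + e 7 * e 5 + (e 3 * e 1 - e 1 * e 3) = e 5
    rw [h7]; ring
  · show e 0 * e 6 + e 7 * e 6 + (e 1 * e 2 - e 2 * e 1) = e 6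
    rw [h7]; ring
  · show e 4 * e 1 + e 5 * e 2 + e 6 * e 3 + e 7 * e 7 = e 7
    rw [h7]; linear_combination h8

theorem e0_mem : e0 F ∈ XI F := by
  constructor <;> simp [e0]

theorem ne_of_mem_XI {e : Fin 8 → F} (h : e ∈ XI F) : e ≠ 0 ∧ e ≠ one8 F := by
  obtain ⟨h7, -⟩ := h
  constructor
  · rintro rfl
    simp at h7
  · rintro rfl
    simp [one8] at h7

theorem map_XI (g : AutZ F) {e : Fin 8 → F} (h : e ∈ XI F) : g.1 e ∈ XI F := by
  apply mem_XI_of_idem
  · rw [← az_mul, idem_of_mem_XI h]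
  · intro h0
    exact (ne_of_mem_XI h).1 (g.1.map_eq_zero_iff.1 h0)
  · intro h1
    rw [← map_one8 g] at h1
    exact (ne_of_mem_XI h).2 (g.1.injective h1)

/-- transitivity -/
theorem exists_map_e0 {e : Fin 8 → F} (h : e ∈ XI F) : ∃ g : AutZ F, g.1 e = e0 F := by
  -- third step
  have step3 : ∀ e : Fin 8 → F, e ∈ XI F → e 0 = 1 → e 4 = 0 → e 5 = 0 → e 6 = 0 → ∃ g : AutZ F, g.1 e = e0 F := by
    intro e he h0 h4 h5 h6
    have h7 := he.1
    rw [h0, sub_self] at h7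
    refine ⟨tau ![-e 1, -e 2, -e 3], ?_⟩
    show tauLin ![-e 1, -e 2, -e 3] e = e0 F
    funext i
    fin_cases i <;> simp [tauLin, e0, h0, h4, h5, h6, h7] <;> ring
  have step2 : ∀ e : Fin 8 → F, e ∈ XI F → e 0 = 1 → ∃ g : AutZ F, g.1 e = e0 F := by
    intro e he h0
    have h7 := he.1
    have h8 := he.2
    rw [h0, sub_self] at h7
    rw [h0, sub_self, mul_zero] at h8
    have hd : e 4 * e 1 + e 5 * e 2 + e 6 * e 3 = 0 := by linear_combination h8
    obtain ⟨g, hg⟩ := step3 ((tau' ![-e 4, -e 5, -e 6]).1 e) (map_XI _ he) (by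
      show e 0 - (-e 4 * e 1 + -e 5 * e 2 + -e 6 * e 3) = 1
      rw [h0]; linear_combination hd) (by
      show e 4 + (e 0 - e 7 - (-e 4 * e 1 + -e 5 * e 2 + -e 6 * e 3)) * -e 4 = 0
      rw [h0, h7]; linear_combination (-e 4) * hd) (by
      show e 5 + (e 0 - e 7 - (-e 4 * e 1 + -e 5 * e 2 + -e 6 * e 3)) * -e 5 = 0
      rw [h0, h7]; linear_combination (-e 5) * hd) (by
      show e 6 + (e 0 - e 7 - (-e 4 * e 1 + -e 5 * e 2 + -e 6 * e 3)) * -e 6 = 0
      rw [h0, h7]; linear_combination (-e 6) * hd)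
    exact ⟨g * tau' ![-e 4, -e 5, -e 6], hg⟩
  have step1 : ∀ e : Fin 8 → F, e ∈ XI F → (e 4 ≠ 0 ∨ e 5 ≠ 0 ∨ e 6 ≠ 0) → ∃ g : AutZ F, g.1 e = e0 F := by
    intro e he hb
    obtain ⟨u, hu⟩ : ∃ u : Fin 3 → F, u 0 * e 4 + u 1 * e 5 + u 2 * e 6 = e 0 - 1 := by
      rcases hb with hb | hb | hb
      · exact ⟨![(e 0 - 1) / e 4, 0, 0], by simp [hb]⟩
      · exact ⟨![0, (e 0 - 1) / e 5, 0], by simp [hb]⟩
      · exact ⟨![0, 0, (e 0 - 1) / e 6], by simp [hb]⟩
    obtain ⟨g, hg⟩ := step2 ((tau u).1 e) (map_XI _ he) (by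
      show e 0 - (u 0 * e 4 + u 1 * e 5 + u 2 * e 6) = 1
      rw [hu]; ring)
    exact ⟨g * tau u, hg⟩
  by_cases hb : e 4 ≠ 0 ∨ e 5 ≠ 0 ∨ e 6 ≠ 0
  · exact step1 e h hb
  push Not at hb
  obtain ⟨h4, h5, h6⟩ := hb
  obtain ⟨h7, h8⟩ := id h
  rw [h4, h5, h6] at h8
  have h9 : e 0 * (1 - e 0) = 0 := by linear_combination -h8
  rcases mul_eq_zero.1 h9 with h0 | h0
  · obtain ⟨v, hv, hv0⟩ : ∃ v : Fin 3 → F, v 0 * e 1 + v 1 * e 2 + v 2 * e 3 = 0 ∧ (v 0 ≠ 0 ∨ v 1 ≠ 0 ∨ v 2 ≠ 0) := by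
      by_cases h1 : e 1 = 0
      · exact ⟨![1, 0, 0], by simp [h1], Or.inl (by simp)⟩
      · exact ⟨![e 2, -e 1, 0], by simp; ring, Or.inr (Or.inl (by simp [h1]))⟩
    rw [h0, sub_zero] at h7
    obtain ⟨g, hg⟩ := step1 ((tau' v).1 e) (map_XI _ h) (by
      rcases hv0 with h1 | h1 | h1
      · left
        show e 4 + (e 0 - e 7 - (v 0 * e 1 + v 1 * e 2 + v 2 * e 3)) * v 0 ≠ 0
        rw [hv, h4, h0, h7]
        simpa using h1
      · right; left
        show e 5 + (e 0 - e 7 - (v 0 * e 1 + v 1 * e 2 + v 2 * e 3)) * v 1 ≠ 0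
        rw [hv, h5, h0, h7]
        simpa using h1
      · right; right
        show e 6 + (e 0 - e 7 - (v 0 * e 1 + v 1 * e 2 + v 2 * e 3)) * v 2 ≠ 0
        rw [hv, h6, h0, h7]
        simpa using h1)
    exact ⟨g * tau' v, hg⟩
  · exact step2 e h (sub_eq_zero.1 h0).symm

theorem orbit_e0 : MulAction.orbit (AutZ F) (e0 F) = XI F := by
  ext e
  constructor
  · rintro ⟨g, rfl⟩
    exact map_XI g e0_mem
  · intro he
    obtain ⟨g, hg⟩ := exists_map_e0 he
    refine ⟨g⁻¹, ?_⟩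
    show g.1.symm (e0 F) = e
    rw [← hg, LinearEquiv.symm_apply_apply]

theorem card_XI [Finite F] {q : ℕ} (hq : Nat.card F = q) : Nat.card (XI F) = (q ^ 3 - 1) * q ^ 3 + q ^ 3 * 2 := by
  classical
  have h1 := H5.card_dot (F := F) 3 (T := F) (fun α => -(α * (1 - α))) 0 hq
  have e : XI F ≃ {p : (Fin 3 → F) × (Fin 3 → F) × F // (∑ i, p.1 i * p.2.1 i) + -(p.2.2 * (1 - p.2.2)) = 0} :=
    { toFun := fun x => ⟨(![x.1 1, x.1 2, x.1 3], ![x.1 4, x.1 5, x.1 6], x.1 0), by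
        have := x.2.2
        rw [Fin.sum_univ_three]
        show x.1 1 * x.1 4 + x.1 2 * x.1 5 + x.1 3 * x.1 6 + -(x.1 0 * (1 - x.1 0)) = 0
        rw [this]; ring⟩
      invFun := fun p => ⟨![p.1.2.2, p.1.1 0, p.1.1 1, p.1.1 2, p.1.2.1 0, p.1.2.1 1, p.1.2.1 2, 1 - p.1.2.2], by
        have := p.2
        rw [Fin.sum_univ_three] at this
        refine ⟨rfl, ?_⟩
        show p.1.1 0 * p.1.2.1 0 + p.1.1 1 * p.1.2.1 1 + p.1.1 2 * p.1.2.1 2 = p.1.2.2 * (1 - p.1.2.2)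
        linear_combination this⟩
      left_inv := fun x => by
        apply Subtype.ext
        have := x.2.1
        funext i
        fin_cases i <;> simp [this]
      right_inv := fun p => by
        apply Subtype.ext
        refine Prod.ext ?_ (Prod.ext ?_ ?_)
        · funext i; fin_cases i <;> rfl
        · funext i; fin_cases i <;> rfl
        · rfl }
  rw [Nat.card_congr e, h1, hq]
  have h2 : Nat.card {t : F // -(t * (1 - t)) = 0} = 2 := by
    have e2 : {t : F // -(t * (1 - t)) = 0} ≃ Fin 2 :=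
      { toFun := fun t => if t.1 = 0 then 0 else 1
        invFun := fun i => if i = 0 then ⟨0, by simp⟩ else ⟨1, by simp⟩
        left_inv := fun t => by
          have h3 := t.2
          rw [neg_eq_zero, mul_eq_zero, sub_eq_zero] at h3
          by_cases h4 : t.1 = 0
          · apply Subtype.ext; simp [h4]
          · apply Subtype.ext; simp [h4, h3.resolve_left h4]
        right_inv := fun i => by
          fin_cases i <;> simp }
    rw [Nat.card_congr e2, Nat.card_fin]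
  rw [h2]
  ring

end Cfsg.Agent.H7.G2Syl
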