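import Cfsg.Agent.H7.G2A

set_option autoImplicit false
set_option linter.all false

/-!
The stabilizer of an idempotent in `G₂(q)`.
-/

namespace Cfsg.Agent.H7.G2Syl

open Cfsg Cfsg.Lie Matrix

variable {F : Type*} [Field F]

/-- the two three-dimensional spaces -/
def uu (F : Type*) [Field F] : (Fin 3 → F) →ₗ[F] (Fin 8 → F) where
  toFun a := ![0, a 0, a 1, a 2, 0, 0, 0, 0]
  map_add' a b := by funext i; fin_cases i <;> simp
  map_smul' a b := by funext i; fin_cases i <;> simp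

def vv (F : Type*) [Field F] : (Fin 3 → F) →ₗ[F] (Fin 8 → F) where
  toFun a := ![0, 0, 0, 0, a 0, a 1, a 2, 0]
  map_add' a b := by funext i; fin_cases i <;> simp
  map_smul' a b := by funext i; fin_cases i <;> simp

def pu (F : Type*) [Field F] : (Fin 8 → F) →ₗ[F] (Fin 3 → F) where
  toFun x := ![x 1, x 2, x 3]
  map_add' a b := by funext i; fin_cases i <;> rfl
  map_smul' a b := by funext i; fin_cases i <;> rfl

def pv (F : Type*) [Field F] : (Fin 8 → F) →ₗ[F] (Fin 3 → F) where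
  toFun x := ![x 4, x 5, x 6]
  map_add' a b := by funext i; fin_cases i <;> rfl
  map_smul' a b := by funext i; fin_cases i <;> rfl

def e7 (F : Type*) [Field F] : Fin 8 → F := ![0, 0, 0, 0, 0, 0, 0, 1]

theorem decomp (x : Fin 8 → F) : x = x 0 • e0 F + uu F (pu F x) + vv F (pv F x) + x 7 • e7 F := by
  funext i
  fin_cases i <;> simp [e0, e7, uu, vv, pu, pv]

theorem uu_vv (a b : Fin 3 → F) : zornMul (uu F a) (vv F b) = dot3 a b • e0 F := by
  rw [zm]; funext i; fin_cases i <;> simp [uu, vv, e0, dot3]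

theorem uu_uu (a b : Fin 3 → F) : zornMul (uu F a) (uu F b) = vv F (cross3 a b) := by
  rw [zm]; funext i; fin_cases i <;> simp [uu, vv, cross3]

/-- the map of `SL₃` -/
def slLin (A B : Matrix (Fin 3) (Fin 3) F) : (Fin 8 → F) →ₗ[F] (Fin 8 → F) where
  toFun x := x 0 • e0 F + uu F (A *ᵥ pu F x) + vv F (B *ᵥ pv F x) + x 7 • e7 F
  map_add' x y := by
    rw [map_add, map_add, Matrix.mulVec_add, Matrix.mulVec_add, map_add, map_add, Pi.add_apply, Pi.add_apply, add_smul, add_smul]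
    abel
  map_smul' a x := by
    rw [map_smul, map_smul, Matrix.mulVec_smul, Matrix.mulVec_smul, map_smul, map_smul, Pi.smul_apply, Pi.smul_apply,
      smul_assoc, smul_assoc, RingHom.id_apply, smul_add, smul_add, smul_add]

theorem slLin_apply (A B : Matrix (Fin 3) (Fin 3) F) (x : Fin 8 → F) :
    slLin A B x = x 0 • e0 F + uu F (A *ᵥ pu F x) + vv F (B *ᵥ pv F x) + x 7 • e7 F := rfl

theorem sl0 (A B : Matrix (Fin 3) (Fin 3) F) (x : Fin 8 → F) : slLin A B x 0 = x 0 := by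
  rw [slLin_apply]; simp [e0, e7, uu, vv]
theorem sl7 (A B : Matrix (Fin 3) (Fin 3) F) (x : Fin 8 → F) : slLin A B x 7 = x 7 := by
  rw [slLin_apply]; simp [e0, e7, uu, vv]
theorem slu (A B : Matrix (Fin 3) (Fin 3) F) (x : Fin 8 → F) : pu F (slLin A B x) = A *ᵥ pu F x := by
  rw [slLin_apply]; funext i; fin_cases i <;> simp [e0, e7, uu, vv, pu]
theorem slv (A B : Matrix (Fin 3) (Fin 3) F) (x : Fin 8 → F) : pv F (slLin A B x) = B *ᵥ pv F x := by
  rw [slLin_apply]; funext i; fin_cases i <;> simp [e0, e7, uu, vv, pv]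

theorem slLin_comp (A B A' B' : Matrix (Fin 3) (Fin 3) F) (x : Fin 8 → F) :
    slLin A B (slLin A' B' x) = slLin (A * A') (B * B') x := by
  rw [slLin_apply, sl0, sl7, slu, slv, slLin_apply, Matrix.mulVec_mulVec, Matrix.mulVec_mulVec]

theorem slLin_one (x : Fin 8 → F) : slLin (1 : Matrix (Fin 3) (Fin 3) F) 1 x = x := by
  rw [slLin_apply, Matrix.one_mulVec, Matrix.one_mulVec]
  exact (decomp x).symm

theorem slLin_mul {A B : Matrix (Fin 3) (Fin 3) F} (hB : B = A.adjugateᵀ) (hdet : A.det = 1) (x y : Fin 8 → F) :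
    slLin A B (zornMul x y) = zornMul (slLin A B x) (slLin A B y) := by
  have hx : slLin A B x = ![x 0, (A *ᵥ pu F x) 0, (A *ᵥ pu F x) 1, (A *ᵥ pu F x) 2, (B *ᵥ pv F x) 0, (B *ᵥ pv F x) 1, (B *ᵥ pv F x) 2, x 7] := by
    rw [slLin_apply]; funext i; fin_cases i <;> simp [e0, e7, uu, vv]
  have hy : slLin A B y = ![y 0, (A *ᵥ pu F y) 0, (A *ᵥ pu F y) 1, (A *ᵥ pu F y) 2, (B *ᵥ pv F y) 0, (B *ᵥ pv F y) 1, (B *ᵥ pv F y) 2, y 7] := by
    rw [slLin_apply]; funext i; fin_cases i <;> simp [e0, e7, uu, vv]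
  have hz : slLin A B (zornMul x y) = ![(zornMul x y) 0, (A *ᵥ pu F (zornMul x y)) 0, (A *ᵥ pu F (zornMul x y)) 1, (A *ᵥ pu F (zornMul x y)) 2,
      (B *ᵥ pv F (zornMul x y)) 0, (B *ᵥ pv F (zornMul x y)) 1, (B *ᵥ pv F (zornMul x y)) 2, (zornMul x y) 7] := by
    rw [slLin_apply]; funext i; fin_cases i <;> simp [e0, e7, uu, vv]
  have hmA : ∀ (v : Fin 3 → F) (i : Fin 3), (A *ᵥ v) i = A i 0 * v 0 + A i 1 * v 1 + A i 2 * v 2 := by
    intro v i
    rw [Matrix.mulVec, dotProduct, Fin.sum_univ_three]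
  have hmB : ∀ (v : Fin 3 → F) (i : Fin 3), (B *ᵥ v) i = B i 0 * v 0 + B i 1 * v 1 + B i 2 * v 2 := by
    intro v i
    rw [Matrix.mulVec, dotProduct, Fin.sum_univ_three]
  have hadj := Matrix.adjugate_fin_three A
  have b00 : B 0 0 = A 1 1 * A 2 2 - A 1 2 * A 2 1 := by rw [hB, Matrix.transpose_apply, hadj]; rfl
  have b10 : B 1 0 = -(A 0 1 * A 2 2) + A 0 2 * A 2 1 := by rw [hB, Matrix.transpose_apply, hadj]; rfl
  have b20 : B 2 0 = A 0 1 * A 1 2 - A 0 2 * A 1 1 := by rw [hB, Matrix.transpose_apply, hadj]; rfl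
  have b01 : B 0 1 = -(A 1 0 * A 2 2) + A 1 2 * A 2 0 := by rw [hB, Matrix.transpose_apply, hadj]; rfl
  have b11 : B 1 1 = A 0 0 * A 2 2 - A 0 2 * A 2 0 := by rw [hB, Matrix.transpose_apply, hadj]; rfl
  have b21 : B 2 1 = -(A 0 0 * A 1 2) + A 0 2 * A 1 0 := by rw [hB, Matrix.transpose_apply, hadj]; rfl
  have b02 : B 0 2 = A 1 0 * A 2 1 - A 1 1 * A 2 0 := by rw [hB, Matrix.transpose_apply, hadj]; rfl
  have b12 : B 1 2 = -(A 0 0 * A 2 1) + A 0 1 * A 2 0 := by rw [hB, Matrix.transpose_apply, hadj]; rfl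
  have b22 : B 2 2 = A 0 0 * A 1 1 - A 0 1 * A 1 0 := by rw [hB, Matrix.transpose_apply, hadj]; rfl
  have hd : A 0 0 * A 1 1 * A 2 2 - A 0 0 * A 1 2 * A 2 1 - A 0 1 * A 1 0 * A 2 2 + A 0 1 * A 1 2 * A 2 0
      + A 0 2 * A 1 0 * A 2 1 - A 0 2 * A 1 1 * A 2 0 = 1 := by
    rw [← hdet, Matrix.det_fin_three]
  have pu0 : ∀ x, pu F x 0 = x 1 := fun _ => rfl
  have pu1 : ∀ x, pu F x 1 = x 2 := fun _ => rfl
  have pu2 : ∀ x, pu F x 2 = x 3 := fun _ => rfl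
  have pv0 : ∀ x, pv F x 0 = x 4 := fun _ => rfl
  have pv1 : ∀ x, pv F x 1 = x 5 := fun _ => rfl
  have pv2 : ∀ x, pv F x 2 = x 6 := fun _ => rfl
  have z0 : (zornMul x y) 0 = x 0 * y 0 + (x 1 * y 4 + x 2 * y 5 + x 3 * y 6) := rfl
  have z1 : (zornMul x y) 1 = x 0 * y 1 + y 7 * x 1 - (x 5 * y 6 - x 6 * y 5) := rfl
  have z2 : (zornMul x y) 2 = x 0 * y 2 + y 7 * x 2 - (x 6 * y 4 - x 4 * y 6) := rfl
  have z3 : (zornMul x y) 3 = x 0 * y 3 + y 7 * x 3 - (x 4 * y 5 - x 5 * y 4) := rfl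
  have z4 : (zornMul x y) 4 = y 0 * x 4 + x 7 * y 4 + (x 2 * y 3 - x 3 * y 2) := rfl
  have z5 : (zornMul x y) 5 = y 0 * x 5 + x 7 * y 5 + (x 3 * y 1 - x 1 * y 3) := rfl
  have z6 : (zornMul x y) 6 = y 0 * x 6 + x 7 * y 6 + (x 1 * y 2 - x 2 * y 1) := rfl
  have z7 : (zornMul x y) 7 = x 4 * y 1 + x 5 * y 2 + x 6 * y 3 + x 7 * y 7 := rfl
  have cA : ∀ i, (A *ᵥ pu F x) i = A i 0 * x 1 + A i 1 * x 2 + A i 2 * x 3 := fun i => by rw [hmA, pu0, pu1, pu2]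
  have cA' : ∀ i, (A *ᵥ pu F y) i = A i 0 * y 1 + A i 1 * y 2 + A i 2 * y 3 := fun i => by rw [hmA, pu0, pu1, pu2]
  have cB : ∀ i, (B *ᵥ pv F x) i = B i 0 * x 4 + B i 1 * x 5 + B i 2 * x 6 := fun i => by rw [hmB, pv0, pv1, pv2]
  have cB' : ∀ i, (B *ᵥ pv F y) i = B i 0 * y 4 + B i 1 * y 5 + B i 2 * y 6 := fun i => by rw [hmB, pv0, pv1, pv2]
  have dA : ∀ i, (A *ᵥ pu F (zornMul x y)) i = A i 0 * (x 0 * y 1 + y 7 * x 1 - (x 5 * y 6 - x 6 * y 5))
      + A i 1 * (x 0 * y 2 + y 7 * x 2 - (x 6 * y 4 - x 4 * y 6)) + A i 2 * (x 0 * y 3 + y 7 * x 3 - (x 4 * y 5 - x 5 * y 4)) :=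
    fun i => by rw [hmA, pu0, pu1, pu2, z1, z2, z3]
  have dB : ∀ i, (B *ᵥ pv F (zornMul x y)) i = B i 0 * (y 0 * x 4 + x 7 * y 4 + (x 2 * y 3 - x 3 * y 2))
      + B i 1 * (y 0 * x 5 + x 7 * y 5 + (x 3 * y 1 - x 1 * y 3)) + B i 2 * (y 0 * x 6 + x 7 * y 6 + (x 1 * y 2 - x 2 * y 1)) :=
    fun i => by rw [hmB, pv0, pv1, pv2, z4, z5, z6]
  rw [hz, hx, hy]
  funext i
  fin_cases i
  · show (zornMul x y) 0 = x 0 * y 0 + ((A *ᵥ pu F x) 0 * (B *ᵥ pv F y) 0 + (A *ᵥ pu F x) 1 * (B *ᵥ pv F y) 1 + (A *ᵥ pu F x) 2 * (B *ᵥ pv F y) 2)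
    rw [z0]
    simp only [cA, cB', b00, b01, b02, b10, b11, b12, b20, b21, b22]
    linear_combination (-(x 1 * y 4 + x 2 * y 5 + x 3 * y 6)) * hd
  · show (A *ᵥ pu F (zornMul x y)) 0 = x 0 * (A *ᵥ pu F y) 0 + y 7 * (A *ᵥ pu F x) 0 - ((B *ᵥ pv F x) 1 * (B *ᵥ pv F y) 2 - (B *ᵥ pv F x) 2 * (B *ᵥ pv F y) 1)
    simp only [dA, cA, cA', cB, cB', b00, b01, b02, b10, b11, b12, b20, b21, b22]
    linear_combination (A 0 0 * (x 5 * y 6 - x 6 * y 5) + A 0 1 * (x 6 * y 4 - x 4 * y 6) + A 0 2 * (x 4 * y 5 - x 5 * y 4)) * hd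
  · show (A *ᵥ pu F (zornMul x y)) 1 = x 0 * (A *ᵥ pu F y) 1 + y 7 * (A *ᵥ pu F x) 1 - ((B *ᵥ pv F x) 2 * (B *ᵥ pv F y) 0 - (B *ᵥ pv F x) 0 * (B *ᵥ pv F y) 2)
    simp only [dA, cA, cA', cB, cB', b00, b01, b02, b10, b11, b12, b20, b21, b22]
    linear_combination (A 1 0 * (x 5 * y 6 - x 6 * y 5) + A 1 1 * (x 6 * y 4 - x 4 * y 6) + A 1 2 * (x 4 * y 5 - x 5 * y 4)) * hd
  · show (A *ᵥ pu F (zornMul x y)) 2 = x 0 * (A *ᵥ pu F y) 2 + y 7 * (A *ᵥ pu F x) 2 - ((B *ᵥ pv F x) 0 * (B *ᵥ pv F y) 1 - (B *ᵥ pv F x) 1 * (B *ᵥ pv F y) 0)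
    simp only [dA, cA, cA', cB, cB', b00, b01, b02, b10, b11, b12, b20, b21, b22]
    linear_combination (A 2 0 * (x 5 * y 6 - x 6 * y 5) + A 2 1 * (x 6 * y 4 - x 4 * y 6) + A 2 2 * (x 4 * y 5 - x 5 * y 4)) * hd
  · show (B *ᵥ pv F (zornMul x y)) 0 = y 0 * (B *ᵥ pv F x) 0 + x 7 * (B *ᵥ pv F y) 0 + ((A *ᵥ pu F x) 1 * (A *ᵥ pu F y) 2 - (A *ᵥ pu F x) 2 * (A *ᵥ pu F y) 1)
    simp only [dB, cA, cA', cB, cB', b00, b01, b02, b10, b11, b12, b20, b21, b22]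
    ring
  · show (B *ᵥ pv F (zornMul x y)) 1 = y 0 * (B *ᵥ pv F x) 1 + x 7 * (B *ᵥ pv F y) 1 + ((A *ᵥ pu F x) 2 * (A *ᵥ pu F y) 0 - (A *ᵥ pu F x) 0 * (A *ᵥ pu F y) 2)
    simp only [dB, cA, cA', cB, cB', b00, b01, b02, b10, b11, b12, b20, b21, b22]
    ring
  · show (B *ᵥ pv F (zornMul x y)) 2 = y 0 * (B *ᵥ pv F x) 2 + x 7 * (B *ᵥ pv F y) 2 + ((A *ᵥ pu F x) 0 * (A *ᵥ pu F y) 1 - (A *ᵥ pu F x) 1 * (A *ᵥ pu F y) 0)
    simp only [dB, cA, cA', cB, cB', b00, b01, b02, b10, b11, b12, b20, b21, b22]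
    ring
  · show (zornMul x y) 7 = (B *ᵥ pv F x) 0 * (A *ᵥ pu F y) 0 + (B *ᵥ pv F x) 1 * (A *ᵥ pu F y) 1 + (B *ᵥ pv F x) 2 * (A *ᵥ pu F y) 2 + x 7 * y 7
    rw [z7]
    simp only [cA', cB, b00, b01, b02, b10, b11, b12, b20, b21, b22]
    linear_combination (-(x 4 * y 1 + x 5 * y 2 + x 6 * y 3)) * hd

/-- the group `SL₃` inside the automorphism group -/
noncomputable def slA (A : SpecialLinearGroup (Fin 3) F) : AutZ F :=
  mkA (slLin (A : Matrix (Fin 3) (Fin 3) F) ((A : Matrix (Fin 3) (Fin 3) F).adjugateᵀ))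
    (slLin ((A : Matrix (Fin 3) (Fin 3) F).adjugate) ((A : Matrix (Fin 3) (Fin 3) F)ᵀ))
    (fun x => by
      rw [slLin_comp, ← Matrix.transpose_mul, Matrix.mul_adjugate, A.2, one_smul, Matrix.transpose_one, slLin_one])
    (fun x => by
      rw [slLin_comp, ← Matrix.transpose_mul, Matrix.adjugate_mul, A.2, one_smul, Matrix.transpose_one, slLin_one])
    (slLin_mul rfl A.2)

theorem slA_apply (A : SpecialLinearGroup (Fin 3) F) (x : Fin 8 → F) :
    (slA A).1 x = slLin (A : Matrix (Fin 3) (Fin 3) F) ((A : Matrix (Fin 3) (Fin 3) F).adjugateᵀ) x := rfl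

theorem slA_injective : Function.Injective (slA (F := F)) := by
  intro A B h
  apply Subtype.ext
  apply Matrix.ext_of_mulVec_single
  intro i
  have h1 : (slA A).1 (uu F (Pi.single i 1)) = (slA B).1 (uu F (Pi.single i 1)) := by rw [h]
  rw [slA_apply, slA_apply] at h1
  have h2 := congrArg (pu F) h1
  rw [slu, slu] at h2
  have h3 : pu F (uu F (Pi.single i 1)) = Pi.single i 1 := by
    funext j
    fin_cases j <;> rfl
  rw [h3] at h2
  exact h2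

theorem slA_e0 (A : SpecialLinearGroup (Fin 3) F) : (slA A).1 (e0 F) = e0 F := by
  have h1 : pu F (e0 F) = 0 := by funext j; fin_cases j <;> rfl
  have h2 : pv F (e0 F) = 0 := by funext j; fin_cases j <;> rfl
  have h3 : (e0 F) 0 = 1 := rfl
  have h4 : (e0 F) 7 = 0 := rfl
  rw [slA_apply, slLin_apply, h1, h2, Matrix.mulVec_zero, Matrix.mulVec_zero, map_zero, map_zero, h3, h4]
  simp

/-- every automorphism fixing the idempotent is in `SL₃` -/
theorem stab_eq {g : AutZ F} (hg : g.1 (e0 F) = e0 F) : ∃ A : SpecialLinearGroup (Fin 3) F, g = slA A := by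
  have he7 : g.1 (e7 F) = e7 F := by
    have h1 : e7 F = one8 F - e0 F := by
      funext i; fin_cases i <;> simp [e7, one8, e0]
    rw [h1, map_sub, map_one8, hg]
  -- the image of `uu a`
  have hU : ∀ a, g.1 (uu F a) = uu F (pu F (g.1 (uu F a))) := by
    intro a
    have h1 : zornMul (e0 F) (g.1 (uu F a)) = g.1 (uu F a) := by
      conv_lhs => rw [← hg]
      rw [← az_mul, e0_mul]
      congr 1
    have h2 : zornMul (g.1 (uu F a)) (e0 F) = 0 := by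
      conv_lhs => rw [← hg]
      rw [← az_mul, mul_e0]
      have : (![(uu F a) 0, 0, 0, 0, (uu F a) 4, (uu F a) 5, (uu F a) 6, 0] : Fin 8 → F) = 0 := by
        funext i; fin_cases i <;> rfl
      rw [this, map_zero]
    rw [e0_mul] at h1
    rw [mul_e0] at h2
    set y := g.1 (uu F a) with hy
    have y0 : y 0 = 0 := congrFun h2 0
    have y4 : y 4 = 0 := congrFun h2 4
    have y5 : y 5 = 0 := congrFun h2 5
    have y6 : y 6 = 0 := congrFun h2 6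
    have y7 : y 7 = 0 := (congrFun h1 7).symm
    funext i
    fin_cases i
    · exact y0
    · rfl
    · rfl
    · rfl
    · exact y4
    · exact y5
    · exact y6
    · exact y7
  have hV : ∀ a, g.1 (vv F a) = vv F (pv F (g.1 (vv F a))) := by
    intro a
    have h1 : zornMul (g.1 (vv F a)) (e0 F) = g.1 (vv F a) := by
      conv_lhs => rw [← hg]
      rw [← az_mul, mul_e0]
      congr 1
    have h2 : zornMul (e0 F) (g.1 (vv F a)) = 0 := by
      conv_lhs => rw [← hg]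
      rw [← az_mul, e0_mul]
      have : (![(vv F a) 0, (vv F a) 1, (vv F a) 2, (vv F a) 3, 0, 0, 0, 0] : Fin 8 → F) = 0 := by
        funext i; fin_cases i <;> rfl
      rw [this, map_zero]
    rw [mul_e0] at h1
    rw [e0_mul] at h2
    set y := g.1 (vv F a) with hy
    have y0 : y 0 = 0 := congrFun h2 0
    have y1 : y 1 = 0 := congrFun h2 1
    have y2 : y 2 = 0 := congrFun h2 2
    have y3 : y 3 = 0 := congrFun h2 3
    have y7 : y 7 = 0 := (congrFun h1 7).symm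
    funext i
    fin_cases i
    · exact y0
    · exact y1
    · exact y2
    · exact y3
    · rfl
    · rfl
    · rfl
    · exact y7
  let A : Matrix (Fin 3) (Fin 3) F := LinearMap.toMatrix' (pu F ∘ₗ (g.1 : (Fin 8 → F) →ₗ[F] (Fin 8 → F)) ∘ₗ uu F)
  let B : Matrix (Fin 3) (Fin 3) F := LinearMap.toMatrix' (pv F ∘ₗ (g.1 : (Fin 8 → F) →ₗ[F] (Fin 8 → F)) ∘ₗ vv F)
  have hA : ∀ a, pu F (g.1 (uu F a)) = A *ᵥ a := by
    intro a
    rw [LinearMap.toMatrix'_mulVec]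
    rfl
  have hB : ∀ a, pv F (g.1 (vv F a)) = B *ᵥ a := by
    intro a
    rw [LinearMap.toMatrix'_mulVec]
    rfl
  have hdot : ∀ a b, dot3 (A *ᵥ a) (B *ᵥ b) = dot3 a b := by
    intro a b
    have h1 := az_mul g (uu F a) (vv F b)
    rw [hU, hV, hA, hB, uu_vv, uu_vv, map_smul, hg] at h1
    have h2 := congrFun h1 0
    simp [e0] at h2
    exact h2.symm
  have hcross : ∀ a b, B *ᵥ (cross3 a b) = cross3 (A *ᵥ a) (A *ᵥ b) := by
    intro a b
    have h1 := az_mul g (uu F a) (uu F b)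
    rw [hU, hU b, hA, hA, uu_uu, uu_uu, hV, hB] at h1
    have h2 := congrArg (pv F) h1
    have h3 : ∀ c, pv F (vv F c) = c := fun c => by funext j; fin_cases j <;> rfl
    rw [h3, h3] at h2
    exact h2
  have hAB : Aᵀ * B = 1 := by
    ext i j
    have h1 := hdot (Pi.single i 1) (Pi.single j 1)
    rw [Matrix.mulVec_single_one, Matrix.mulVec_single_one] at h1
    rw [Matrix.mul_apply, Fin.sum_univ_three]
    have h2 : dot3 (Pi.single i 1 : Fin 3 → F) (Pi.single j 1) = (1 : Matrix (Fin 3) (Fin 3) F) i j := by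
      fin_cases i <;> fin_cases j <;> simp [dot3]
    rw [← h2, ← h1]
    rfl
  have hdet : A.det = 1 := by
    have h1 := hcross (Pi.single 0 1) (Pi.single 1 1)
    have h2 : cross3 (Pi.single 0 1 : Fin 3 → F) (Pi.single 1 1) = Pi.single 2 1 := by
      funext j; fin_cases j <;> simp [cross3]
    rw [h2] at h1
    have h3 := hdot (Pi.single 2 1) (Pi.single 2 1)
    rw [h1, Matrix.mulVec_single_one, Matrix.mulVec_single_one, Matrix.mulVec_single_one] at h3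
    have h4 : dot3 (Pi.single 2 1 : Fin 3 → F) (Pi.single 2 1) = 1 := by simp [dot3]
    rw [h4] at h3
    rw [← h3, Matrix.det_fin_three]
    show _ = A 0 2 * (A 1 0 * A 2 1 - A 2 0 * A 1 1) + A 1 2 * (A 2 0 * A 0 1 - A 0 0 * A 2 1) + A 2 2 * (A 0 0 * A 1 1 - A 1 0 * A 0 1)
    ring
  have hBadj : B = A.adjugateᵀ := by
    have h1 : A.adjugateᵀ * Aᵀ = 1 := by
      rw [← Matrix.transpose_mul, Matrix.mul_adjugate, hdet, one_smul, Matrix.transpose_one]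
    calc B = (A.adjugateᵀ * Aᵀ) * B := by rw [h1, Matrix.one_mul]
      _ = _ := by rw [Matrix.mul_assoc, hAB, Matrix.mul_one]
  let A' : SpecialLinearGroup (Fin 3) F := ⟨A, hdet⟩
  refine ⟨A', az_ext (fun x => ?_)⟩
  rw [slA_apply, slLin_apply]
  conv_lhs => rw [decomp x]
  rw [map_add, map_add, map_add, map_smul, map_smul, hg, he7, hU, hV, hA, hB]
  show _ = x 0 • e0 F + uu F (A *ᵥ pu F x) + vv F (A.adjugateᵀ *ᵥ pv F x) + x 7 • e7 F
  rw [← hBadj]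

theorem card_AutZ [Finite F] {q : ℕ} (hq : Nat.card F = q) :
    Nat.card (AutZ F) = ((q ^ 3 - 1) * q ^ 3 + q ^ 3 * 2) * Nat.card (SpecialLinearGroup (Fin 3) F) := by
  rw [← H13.card_orbit_mul_card_stabilizer (G := AutZ F) (e0 F), orbit_e0, card_XI hq]
  congr 1
  refine (Nat.card_congr (Equiv.ofBijective (fun A : SpecialLinearGroup (Fin 3) F =>
    (⟨slA A, slA_e0 A⟩ : MulAction.stabilizer (AutZ F) (e0 F))) ⟨fun A B h => slA_injective (congrArg Subtype.val h), ?_⟩)).symm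
  rintro ⟨g, hg⟩
  obtain ⟨A, rfl⟩ := stab_eq (g := g) hg
  exact ⟨A, rfl⟩

end Cfsg.Agent.H7.G2Syl
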