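import Cfsg.Agent.H7.G2A

set_option autoImplicit false
set_option linter.all false

/-!
The subgroup `SO₄` of `G₂(q)`.
-/

namespace Cfsg.Agent.H7.G2Syl

open Cfsg Cfsg.Lie Matrix

variable {F : Type*} [Field F]

set_option maxHeartbeats 400000

/-- the pair of `2 × 2`-matrices of an octonion -/
def hh (x : Fin 8 → F) : Matrix (Fin 2) (Fin 2) F := !![x 0, x 1; x 4, x 7]
def mm (x : Fin 8 → F) : Matrix (Fin 2) (Fin 2) F := !![x 2, x 6; x 3, -x 5]

def back (h M : Matrix (Fin 2) (Fin 2) F) : Fin 8 → F := ![h 0 0, h 0 1, M 0 0, M 1 0, h 1 0, -M 1 1, M 0 1, h 1 1]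

theorem hh_back (h M : Matrix (Fin 2) (Fin 2) F) : hh (back h M) = h := by
  ext i j; fin_cases i <;> fin_cases j <;> rfl
theorem mm_back (h M : Matrix (Fin 2) (Fin 2) F) : mm (back h M) = M := by
  ext i j; fin_cases i <;> fin_cases j <;> simp [mm, back]
theorem back_hm (x : Fin 8 → F) : back (hh x) (mm x) = x := by
  funext i; fin_cases i <;> simp [mm, back, hh]

theorem hh_add (x y : Fin 8 → F) : hh (x + y) = hh x + hh y := by
  ext i j; fin_cases i <;> fin_cases j <;> rfl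
theorem mm_add (x y : Fin 8 → F) : mm (x + y) = mm x + mm y := by
  ext i j; fin_cases i <;> fin_cases j <;> simp [mm] <;> ring
theorem hh_smul (a : F) (x : Fin 8 → F) : hh (a • x) = a • hh x := by
  ext i j; fin_cases i <;> fin_cases j <;> rfl
theorem mm_smul (a : F) (x : Fin 8 → F) : mm (a • x) = a • mm x := by
  ext i j; fin_cases i <;> fin_cases j <;> simp [mm]
theorem back_add (h M h' M' : Matrix (Fin 2) (Fin 2) F) : back (h + h') (M + M') = back h M + back h' M' := by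
  funext i; fin_cases i <;> simp [back] <;> ring
theorem back_smul (a : F) (h M : Matrix (Fin 2) (Fin 2) F) : back (a • h) (a • M) = a • back h M := by
  funext i; fin_cases i <;> simp [back]

theorem hh_mul (x y : Fin 8 → F) : hh (zornMul x y) = hh x * hh y - (mm y).adjugate * mm x := by
  rw [zm]
  ext i j
  fin_cases i <;> fin_cases j <;>
    simp [hh, mm, Matrix.mul_apply, Fin.sum_univ_two, Matrix.adjugate_fin_two] <;> ring

theorem mm_mul (x y : Fin 8 → F) : mm (zornMul x y) = mm y * hh x + mm x * (hh y).adjugate := by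
  rw [zm]
  ext i j
  fin_cases i <;> fin_cases j <;>
    simp [hh, mm, Matrix.mul_apply, Fin.sum_univ_two, Matrix.adjugate_fin_two] <;> ring

/-- the action of a pair of matrices -/
noncomputable def pLin (u v : GL (Fin 2) F) : (Fin 8 → F) →ₗ[F] (Fin 8 → F) where
  toFun x := back ((u : Matrix (Fin 2) (Fin 2) F) * hh x * ((u⁻¹ : GL (Fin 2) F) : Matrix (Fin 2) (Fin 2) F))
    ((v : Matrix (Fin 2) (Fin 2) F) * mm x * ((u⁻¹ : GL (Fin 2) F) : Matrix (Fin 2) (Fin 2) F))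
  map_add' x y := by
    rw [hh_add, mm_add, Matrix.mul_add, Matrix.mul_add, Matrix.add_mul, Matrix.add_mul, back_add]
  map_smul' a x := by
    rw [hh_smul, mm_smul, Matrix.mul_smul, Matrix.mul_smul, Matrix.smul_mul, Matrix.smul_mul, back_smul]
    rfl

theorem pLin_apply (u v : GL (Fin 2) F) (x : Fin 8 → F) :
    pLin u v x = back ((u : Matrix (Fin 2) (Fin 2) F) * hh x * ((u⁻¹ : GL (Fin 2) F) : Matrix (Fin 2) (Fin 2) F))
    ((v : Matrix (Fin 2) (Fin 2) F) * mm x * ((u⁻¹ : GL (Fin 2) F) : Matrix (Fin 2) (Fin 2) F)) := rfl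

theorem pLin_comp (u v u' v' : GL (Fin 2) F) (x : Fin 8 → F) : pLin u v (pLin u' v' x) = pLin (u * u') (v * v') x := by
  rw [pLin_apply, pLin_apply, hh_back, mm_back, pLin_apply, _root_.mul_inv_rev]
  simp only [Units.val_mul, Matrix.mul_assoc]

theorem pLin_one (x : Fin 8 → F) : pLin (1 : GL (Fin 2) F) 1 x = x := by
  rw [pLin_apply, inv_one, Units.val_one, Matrix.one_mul, Matrix.mul_one, Matrix.one_mul, Matrix.mul_one, back_hm]

theorem adj_inv (u : GL (Fin 2) F) : ((u⁻¹ : GL (Fin 2) F) : Matrix (Fin 2) (Fin 2) F).adjugate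
    = ((u : Matrix (Fin 2) (Fin 2) F).det)⁻¹ • (u : Matrix (Fin 2) (Fin 2) F) := by
  have h0 : (u : Matrix (Fin 2) (Fin 2) F).det ≠ 0 := (Matrix.GeneralLinearGroup.det u).ne_zero
  have h1 : ((u⁻¹ : GL (Fin 2) F) : Matrix (Fin 2) (Fin 2) F).adjugate * ((u⁻¹ : GL (Fin 2) F) : Matrix (Fin 2) (Fin 2) F)
      = ((u : Matrix (Fin 2) (Fin 2) F).det)⁻¹ • 1 := by
    rw [Matrix.adjugate_mul]
    congr 1
    have h2 : ((u⁻¹ : GL (Fin 2) F) : Matrix (Fin 2) (Fin 2) F).det * (u : Matrix (Fin 2) (Fin 2) F).det = 1 := by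
      rw [← Matrix.det_mul, ← Units.val_mul, inv_mul_cancel, Units.val_one, Matrix.det_one]
    exact eq_inv_of_mul_eq_one_left h2
  calc ((u⁻¹ : GL (Fin 2) F) : Matrix (Fin 2) (Fin 2) F).adjugate
      = ((u⁻¹ : GL (Fin 2) F) : Matrix (Fin 2) (Fin 2) F).adjugate * (((u⁻¹ : GL (Fin 2) F) : Matrix (Fin 2) (Fin 2) F) * (u : Matrix (Fin 2) (Fin 2) F)) := by
        rw [← Units.val_mul, inv_mul_cancel, Units.val_one, Matrix.mul_one]
    _ = _ := by rw [← Matrix.mul_assoc, h1, Matrix.smul_mul, Matrix.one_mul]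

theorem adj_eq (u : GL (Fin 2) F) : (u : Matrix (Fin 2) (Fin 2) F).adjugate
    = ((u : Matrix (Fin 2) (Fin 2) F).det) • ((u⁻¹ : GL (Fin 2) F) : Matrix (Fin 2) (Fin 2) F) := by
  calc (u : Matrix (Fin 2) (Fin 2) F).adjugate
      = (u : Matrix (Fin 2) (Fin 2) F).adjugate * ((u : Matrix (Fin 2) (Fin 2) F) * ((u⁻¹ : GL (Fin 2) F) : Matrix (Fin 2) (Fin 2) F)) := by
        rw [← Units.val_mul, mul_inv_cancel, Units.val_one, Matrix.mul_one]
    _ = _ := by rw [← Matrix.mul_assoc, Matrix.adjugate_mul, Matrix.smul_mul, Matrix.one_mul]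

theorem pLin_mul {u v : GL (Fin 2) F} (huv : (u : Matrix (Fin 2) (Fin 2) F).det = (v : Matrix (Fin 2) (Fin 2) F).det)
    (x y : Fin 8 → F) : pLin u v (zornMul x y) = zornMul (pLin u v x) (pLin u v y) := by
  have h0 : (u : Matrix (Fin 2) (Fin 2) F).det ≠ 0 := (Matrix.GeneralLinearGroup.det u).ne_zero
  have hu : ((u⁻¹ : GL (Fin 2) F) : Matrix (Fin 2) (Fin 2) F) * (u : Matrix (Fin 2) (Fin 2) F) = 1 := by
    rw [← Units.val_mul, inv_mul_cancel, Units.val_one]
  have hv : ((v⁻¹ : GL (Fin 2) F) : Matrix (Fin 2) (Fin 2) F) * (v : Matrix (Fin 2) (Fin 2) F) = 1 := by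
    rw [← Units.val_mul, inv_mul_cancel, Units.val_one]
  have e1 : hh (pLin u v (zornMul x y)) = hh (zornMul (pLin u v x) (pLin u v y)) := by
    rw [hh_mul, pLin_apply, pLin_apply, pLin_apply, hh_back, hh_back, hh_back, mm_back, mm_back, hh_mul,
      Matrix.adjugate_mul_distrib, Matrix.adjugate_mul_distrib, adj_inv, adj_eq v, ← huv]
    rw [Matrix.mul_sub, Matrix.sub_mul]
    congr 1
    · calc (u : Matrix (Fin 2) (Fin 2) F) * (hh x * hh y) * ((u⁻¹ : GL (Fin 2) F) : Matrix (Fin 2) (Fin 2) F)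
          = (u : Matrix (Fin 2) (Fin 2) F) * hh x * (((u⁻¹ : GL (Fin 2) F) : Matrix (Fin 2) (Fin 2) F) * (u : Matrix (Fin 2) (Fin 2) F)) * hh y * ((u⁻¹ : GL (Fin 2) F) : Matrix (Fin 2) (Fin 2) F) := by
            rw [hu, Matrix.mul_one]; simp only [Matrix.mul_assoc]
        _ = _ := by simp only [Matrix.mul_assoc]
    · simp only [Matrix.mul_smul, Matrix.smul_mul, smul_smul, mul_inv_cancel₀ h0, inv_mul_cancel₀ h0, one_smul]
      calc (u : Matrix (Fin 2) (Fin 2) F) * ((mm y).adjugate * mm x) * ((u⁻¹ : GL (Fin 2) F) : Matrix (Fin 2) (Fin 2) F)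
          = (u : Matrix (Fin 2) (Fin 2) F) * (mm y).adjugate * (((v⁻¹ : GL (Fin 2) F) : Matrix (Fin 2) (Fin 2) F) * (v : Matrix (Fin 2) (Fin 2) F)) * mm x * ((u⁻¹ : GL (Fin 2) F) : Matrix (Fin 2) (Fin 2) F) := by
            rw [hv, Matrix.mul_one]; simp only [Matrix.mul_assoc]
        _ = _ := by simp only [Matrix.mul_assoc]
  have e2 : mm (pLin u v (zornMul x y)) = mm (zornMul (pLin u v x) (pLin u v y)) := by
    rw [mm_mul, pLin_apply, pLin_apply, pLin_apply, mm_back, mm_back, mm_back, hh_back, hh_back, mm_mul,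
      Matrix.adjugate_mul_distrib, Matrix.adjugate_mul_distrib, adj_inv, adj_eq u]
    rw [Matrix.mul_add, Matrix.add_mul]
    congr 1
    · calc (v : Matrix (Fin 2) (Fin 2) F) * (mm y * hh x) * ((u⁻¹ : GL (Fin 2) F) : Matrix (Fin 2) (Fin 2) F)
          = (v : Matrix (Fin 2) (Fin 2) F) * mm y * (((u⁻¹ : GL (Fin 2) F) : Matrix (Fin 2) (Fin 2) F) * (u : Matrix (Fin 2) (Fin 2) F)) * hh x * ((u⁻¹ : GL (Fin 2) F) : Matrix (Fin 2) (Fin 2) F) := by
            rw [hu, Matrix.mul_one]; simp only [Matrix.mul_assoc]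
        _ = _ := by simp only [Matrix.mul_assoc]
    · simp only [Matrix.mul_smul, Matrix.smul_mul, smul_smul, mul_inv_cancel₀ h0, inv_mul_cancel₀ h0, one_smul]
      calc (v : Matrix (Fin 2) (Fin 2) F) * (mm x * (hh y).adjugate) * ((u⁻¹ : GL (Fin 2) F) : Matrix (Fin 2) (Fin 2) F)
          = (v : Matrix (Fin 2) (Fin 2) F) * mm x * (((u⁻¹ : GL (Fin 2) F) : Matrix (Fin 2) (Fin 2) F) * (u : Matrix (Fin 2) (Fin 2) F)) * (hh y).adjugate * ((u⁻¹ : GL (Fin 2) F) : Matrix (Fin 2) (Fin 2) F) := by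
            rw [hu, Matrix.mul_one]; simp only [Matrix.mul_assoc]
        _ = _ := by simp only [Matrix.mul_assoc]
  rw [← back_hm (pLin u v (zornMul x y)), e1, e2, back_hm]

/-- pairs with the same determinant -/
def PP (F : Type*) [Field F] : Subgroup (GL (Fin 2) F × GL (Fin 2) F) where
  carrier := {p | Matrix.GeneralLinearGroup.det p.1 = Matrix.GeneralLinearGroup.det p.2}
  mul_mem' {a b} ha hb := by
    show Matrix.GeneralLinearGroup.det (a.1 * b.1) = Matrix.GeneralLinearGroup.det (a.2 * b.2)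
    rw [map_mul, map_mul, ha, hb]
  one_mem' := rfl
  inv_mem' {a} ha := by
    show Matrix.GeneralLinearGroup.det (a.1⁻¹) = Matrix.GeneralLinearGroup.det (a.2⁻¹)
    rw [map_inv, map_inv, ha]

theorem PP_det (p : PP F) : (p.1.1 : Matrix (Fin 2) (Fin 2) F).det = (p.1.2 : Matrix (Fin 2) (Fin 2) F).det := by
  have h : Matrix.GeneralLinearGroup.det p.1.1 = Matrix.GeneralLinearGroup.det p.1.2 := p.2
  have h2 := congrArg Units.val h
  rwa [Matrix.GeneralLinearGroup.val_det_apply, Matrix.GeneralLinearGroup.val_det_apply] at h2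

/-- the hom -/
noncomputable def psiF (p : PP F) : AutZ F := mkA (pLin p.1.1 p.1.2) (pLin p.1.1⁻¹ p.1.2⁻¹)
    (fun x => by rw [pLin_comp, mul_inv_cancel, mul_inv_cancel, pLin_one])
    (fun x => by rw [pLin_comp, inv_mul_cancel, inv_mul_cancel, pLin_one])
    (pLin_mul (PP_det p))

theorem psiF_apply (p : PP F) (x : Fin 8 → F) : (psiF p).1 x = pLin p.1.1 p.1.2 x := by
  unfold psiF
  rw [mkA_apply]

theorem psiF_one : psiF (1 : PP F) = 1 := by
  apply az_ext
  intro x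
  rw [psiF_apply]
  have h1 : (1 : PP F).1.1 = 1 := rfl
  have h2 : (1 : PP F).1.2 = 1 := rfl
  rw [h1, h2, pLin_one]
  rfl

theorem psiF_mul (p q : PP F) : psiF (p * q) = psiF p * psiF q := by
  apply az_ext
  intro x
  have h0 : (psiF p * psiF q).1 x = (psiF p).1 ((psiF q).1 x) := rfl
  rw [h0, psiF_apply, psiF_apply, psiF_apply, pLin_comp]
  have h1 : (p * q).1.1 = p.1.1 * q.1.1 := rfl
  have h2 : (p * q).1.2 = p.1.2 * q.1.2 := rfl
  rw [h1, h2]

noncomputable def psi (F : Type*) [Field F] : PP F →* AutZ F where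
  toFun p := psiF p
  map_one' := psiF_one
  map_mul' p q := psiF_mul p q

theorem psi_apply (p : PP F) (x : Fin 8 → F) : (psi F p).1 x = pLin p.1.1 p.1.2 x := psiF_apply p x

theorem psi_ker {p : PP F} (h : psi F p = 1) : ∃ c : F, (p.1.1 : Matrix (Fin 2) (Fin 2) F) = c • 1 ∧
    (p.1.2 : Matrix (Fin 2) (Fin 2) F) = c • 1 := by
  have h1 : ∀ x, pLin p.1.1 p.1.2 x = x := fun x => by
    rw [← psi_apply, h]; rfl
  have h2 : ∀ H : Matrix (Fin 2) (Fin 2) F, (p.1.1 : Matrix (Fin 2) (Fin 2) F) * H = H * (p.1.1 : Matrix (Fin 2) (Fin 2) F) := by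
    intro H
    have h3 := congrArg hh (h1 (back H 0))
    rw [pLin_apply, hh_back, hh_back] at h3
    calc (p.1.1 : Matrix (Fin 2) (Fin 2) F) * H
        = (p.1.1 : Matrix (Fin 2) (Fin 2) F) * H * (((p.1.1⁻¹ : GL (Fin 2) F) : Matrix (Fin 2) (Fin 2) F) * (p.1.1 : Matrix (Fin 2) (Fin 2) F)) := by
          rw [← Units.val_mul, inv_mul_cancel, Units.val_one, Matrix.mul_one]
      _ = _ := by rw [← Matrix.mul_assoc, h3]
  have h4 : ∀ M : Matrix (Fin 2) (Fin 2) F, (p.1.2 : Matrix (Fin 2) (Fin 2) F) * M = M * (p.1.1 : Matrix (Fin 2) (Fin 2) F) := by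
    intro M
    have h3 := congrArg mm (h1 (back 0 M))
    rw [pLin_apply, mm_back, mm_back] at h3
    calc (p.1.2 : Matrix (Fin 2) (Fin 2) F) * M
        = (p.1.2 : Matrix (Fin 2) (Fin 2) F) * M * (((p.1.1⁻¹ : GL (Fin 2) F) : Matrix (Fin 2) (Fin 2) F) * (p.1.1 : Matrix (Fin 2) (Fin 2) F)) := by
          rw [← Units.val_mul, inv_mul_cancel, Units.val_one, Matrix.mul_one]
      _ = _ := by rw [← Matrix.mul_assoc, h3]
  have h5 : (p.1.2 : Matrix (Fin 2) (Fin 2) F) = (p.1.1 : Matrix (Fin 2) (Fin 2) F) := by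
    have := h4 1
    rwa [Matrix.mul_one, Matrix.one_mul] at this
  set U := (p.1.1 : Matrix (Fin 2) (Fin 2) F) with hU
  have a1 := h2 !![0, 1; 0, 0]
  have a2 := h2 !![0, 0; 1, 0]
  have b1 := congrFun (congrFun a1 0) 0
  have b2 := congrFun (congrFun a1 0) 1
  have b3 := congrFun (congrFun a2 0) 0
  simp [Matrix.mul_apply, Fin.sum_univ_two] at b1 b2 b3
  have c10 : U 1 0 = 0 := b1.symm
  have c11 : U 0 0 = U 1 1 := b2
  have c01 : U 0 1 = 0 := b3
  have c1 : U = U 0 0 • (1 : Matrix (Fin 2) (Fin 2) F) := by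
    ext i j
    rw [Matrix.smul_apply]
    fin_cases i <;> fin_cases j
    · show U 0 0 = U 0 0 • (1 : Matrix (Fin 2) (Fin 2) F) 0 0
      rw [Matrix.one_apply_eq, smul_eq_mul, mul_one]
    · show U 0 1 = U 0 0 • (1 : Matrix (Fin 2) (Fin 2) F) 0 1
      rw [Matrix.one_apply_ne (by decide), smul_zero, c01]
    · show U 1 0 = U 0 0 • (1 : Matrix (Fin 2) (Fin 2) F) 1 0
      rw [Matrix.one_apply_ne (by decide), smul_zero, c10]
    · show U 1 1 = U 0 0 • (1 : Matrix (Fin 2) (Fin 2) F) 1 1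
      rw [Matrix.one_apply_eq, smul_eq_mul, mul_one, c11]
  exact ⟨U 0 0, c1, by rw [h5]; exact c1⟩

end Cfsg.Agent.H7.G2Syl
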