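import Cfsg.Agent.H7.OrthSyl4
import Cfsg.Agent.H5.FormClass
import Cfsg.Agent.H5.ExcIso
import Cfsg.Agent.H17.StdForms
import Cfsg.Agent.S0286
import Cfsg.Agent.S0287
import Cfsg.Agent.S0288

set_option autoImplicit false

/-!
Sylow 2-subgroups of the orthogonal groups: the standard forms.
-/

namespace Cfsg.Agent.H7.OrthSyl

open Subgroup Cfsg.Agent.H5
open Cfsg.Agent.H7.SylSp

section iso

variable {F : Type*} [Field F] [Finite F]

/-- Gram determinant in the standard basis. -/
noncomputable def gd {ι : Type} [Fintype ι] [DecidableEq ι] (Q : QuadraticForm F (ι → F)) : F :=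
  (Matrix.of fun i j => Q.polarBilin (Pi.basisFun F ι i) (Pi.basisFun F ι j)).det

omit [Finite F] in
theorem gd_eq {ι : Type} [Fintype ι] [DecidableEq ι] (Q : QuadraticForm F (ι → F)) :
    (LinearMap.BilinForm.toMatrix (Pi.basisFun F ι) Q.polarBilin).det = gd Q := by
  unfold gd
  congr 1
  ext i j
  exact LinearMap.BilinForm.toMatrix_apply _ _ _ _

omit [Finite F] in
theorem gd_ne_zero {ι : Type} [Fintype ι] [DecidableEq ι] {Q : QuadraticForm F (ι → F)} (hQ : ND Q) : gd Q ≠ 0 :=
  by
  rw [← gd_eq]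
  exact disc_ne_zero hQ.nondeg (Pi.basisFun F ι)

theorem iso_std (h2 : (2 : F) ≠ 0) {ι κ : Type} [Fintype ι] [DecidableEq ι] [Fintype κ] [DecidableEq κ]
    {Q : QuadraticForm F (ι → F)} {Q' : QuadraticForm F (κ → F)} (hQ : ND Q) (hQ' : ND Q')
    (hcard : Fintype.card ι = Fintype.card κ) (hsq : IsSquare (gd Q * gd Q')) :
    Nonempty (OG Q ≃* OG Q') := by
  obtain ⟨g, hg⟩ := iso_of_disc h2 (B := Q.polarBilin) (C := Q'.polarBilin) (fun x y => pB_symm Q x y) hQ.nondeg
    (fun x y => pB_symm Q' x y) hQ'.nondeg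
    (by rw [Module.finrank_fintype_fun_eq_card, Module.finrank_fintype_fun_eq_card, hcard])
    (Pi.basisFun F ι) (Pi.basisFun F κ) (by rw [gd_eq, gd_eq]; exact hsq)
  refine ⟨H5.ogCongr g (fun x => ?_)⟩
  have h1 : pB Q' (g x) (g x) = pB Q x x := hg x x
  rw [pB_self, pB_self] at h1
  exact mul_left_cancel₀ h2 h1

omit [Finite F] in
theorem gd_wq {X : Type} [Fintype X] [DecidableEq X] (wt : X → F) : gd (wq wt) = ∏ i, 2 * wt i := by
  have h1 : (Matrix.of fun i j => (wq wt).polarBilin (Pi.basisFun F X i) (Pi.basisFun F X j)) = Matrix.diagonal (fun i => 2 * wt i) := by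
    ext i j
    show pB (wq wt) (Pi.basisFun F X i) (Pi.basisFun F X j) = _
    rw [pB_wq, Pi.basisFun_apply, Pi.basisFun_apply, Finset.sum_eq_single i]
    · rw [Pi.single_eq_same, one_mul]
      rcases eq_or_ne i j with rfl | h
      · rw [Pi.single_eq_same, mul_one, Matrix.diagonal_apply_eq]
      · rw [Pi.single_eq_of_ne h, mul_zero, Matrix.diagonal_apply_ne _ h]
    · intro l _ hl
      rw [Pi.single_eq_of_ne hl, zero_mul, mul_zero]
    · intro h
      exact absurd (Finset.mem_univ i) h
  unfold gd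
  rw [h1, Matrix.det_diagonal]

omit [Finite F] in
theorem gd_qm {k w : ℕ} (c : Fin w → F) : gd (qm k c) = 2 ^ (2 * k) * ∏ l, 2 * c l := by
  unfold qm
  rw [gd_wq, Fintype.prod_sum_type]
  congr 1
  show ∏ _i : Fin k × Fin 2, 2 * (1 : F) = _
  rw [Finset.prod_const, mul_one, Finset.card_univ, Fintype.card_prod, Fintype.card_fin, Fintype.card_fin, mul_comm k 2]

omit [Finite F] in
theorem gd_q2 : gd (q2 F) = 4 := by
  unfold q2
  rw [gd_wq, Fin.prod_univ_two]
  norm_num

theorem row {O' : Type*} [Group O'] {k w : ℕ} {c : Fin w → F} (e : O' ≃* OG (qm k c))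
    (h2 : (2 : F) ≠ 0) (hk : 2 ≤ k) (hc : ∀ l, c l ≠ 0)
    (hcard : (Nat.card O').factorization 2
      = k * (Nat.card (OG (q2 F))).factorization 2 + k.factorial.factorization 2 + w)
    (P : Sylow 2 (commutator O')) : ∀ x : (P : Subgroup (commutator O')), x ^ 2 ∈ commutator (P : Subgroup (commutator O')) := by
  obtain ⟨T, hT, hTsq⟩ := main h2 hk hc (by rw [← hcard, Nat.card_congr e.toEquiv])
  let φ : commutator O' →* OG (qm k c) := e.toMonoidHom.comp (commutator O').subtype
  have hrange : φ.range = commutator (OG (qm k c)) := by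
    show (e.toMonoidHom.comp (commutator O').subtype).range = _
    rw [MonoidHom.range_comp, Subgroup.range_subtype, commutator_def, map_commutator, commutator_def,
      ← MonoidHom.range_eq_map, MonoidHom.range_eq_top.2 e.surjective]
  refine transfer_gen φ (fun a b h => Subtype.ext (e.injective h)) (by rw [hrange]; infer_instance) hT ?_ P
  rw [hrange]
  exact hTsq

end iso

section numbers

theorem vprod {q : ℕ} (hodd : Odd q) (hq1 : 1 < q) (m : ℕ) :
    (∏ i ∈ Finset.range m, (q ^ (2 * (i + 1)) - 1)).factorization 2 = m * (q ^ 2 - 1).factorization 2 + m.factorial.factorization 2 := by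
  have hne : ∀ i, q ^ (2 * (i + 1)) - 1 ≠ 0 := by
    intro i
    have : 1 < q ^ (2 * (i + 1)) := Nat.one_lt_pow (by omega) hq1
    omega
  rw [Nat.factorization_prod (fun i _ => hne i), Finsupp.finsetSum_apply,
    Finset.sum_congr rfl (fun i _ => val_sq hodd hq1 i), Finset.sum_add_distrib, Finset.sum_const,
    Finset.card_range, smul_eq_mul, val_fact]

theorem v4 {a b c d : ℕ} (ha : a = 2) (hb : ¬ 2 ∣ b) (hc : c ≠ 0) (hd : d ≠ 0) :
    (a * b * c * d).factorization 2 = 1 + c.factorization 2 + d.factorization 2 := by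
  have hb0 : b ≠ 0 := by rintro rfl; exact hb (dvd_zero 2)
  subst ha
  rw [Nat.factorization_mul (mul_ne_zero (mul_ne_zero two_ne_zero hb0) hc) hd,
    Nat.factorization_mul (mul_ne_zero two_ne_zero hb0) hc, Nat.factorization_mul two_ne_zero hb0,
    Finsupp.add_apply, Finsupp.add_apply, Finsupp.add_apply, Nat.Prime.factorization_self Nat.prime_two,
    Nat.factorization_eq_zero_of_not_dvd hb, add_zero]

theorem q_odd_pow {q : ℕ} (hodd : Odd q) (n : ℕ) : ¬ 2 ∣ q ^ n := by
  rw [← even_iff_two_dvd]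
  exact Nat.not_even_iff_odd.mpr hodd.pow

theorem vA {q : ℕ} (hodd : Odd q) (hq1 : 1 < q) : (q ^ 2 - 1).factorization 2 = (q - 1).factorization 2 + (q + 1).factorization 2 := by
  have h1 : q ^ 2 - 1 = (q - 1) * (q + 1) := by
    have := Nat.sq_sub_sq q 1
    rw [one_pow] at this
    rw [this, mul_comm]
  rw [h1, Nat.factorization_mul (by omega) (by omega), Finsupp.add_apply]

theorem v_one {n : ℕ} (h : n % 4 = 2) : n.factorization 2 = 1 := by
  have h2 : n = 2 * (n / 2) := by omega
  rw [h2, Nat.factorization_mul (by omega) (by omega), Finsupp.add_apply, Nat.Prime.factorization_self Nat.prime_two,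
    Nat.factorization_eq_zero_of_not_dvd (n := n / 2) (by omega)]

end numbers

section orders

variable {F : Type*} [Field F] [Fintype F]

theorem ne_two (hF : Odd (Fintype.card F)) : (2 : F) ≠ 0 := H5.two_ne_zero_of_odd hF

theorem v_q2 (hF : Odd (Fintype.card F)) :
    (Nat.card (OG (q2 F))).factorization 2 = ((Fintype.card F) ^ 2 - 1).factorization 2 := by
  have h2 := ne_two hF
  have hq1 : 1 < Fintype.card F := Fintype.one_lt_card
  rw [vA hF hq1]
  by_cases hsq : IsSquare (-1 : F)
  · have h4 : Fintype.card F % 4 = 1 := by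
      have := FiniteField.isSquare_neg_one_iff.1 hsq
      obtain ⟨k, hk⟩ := hF
      omega
    obtain ⟨t, ht⟩ := hsq
    obtain ⟨e⟩ := iso_std h2 (Q := q2 F) (Q' := H5.qPlus 1 F) (nd_q2 h2) H5.nd_plus (by simp) (by
      have h5 : gd (H5.qPlus 1 F) = -1 := by
        have h6 := H17.gram_qPlus_det 1 F
        have h7 : H17.qPlus 1 F = H5.qPlus 1 F := QuadraticMap.ext (fun v => by
          rw [H17.qPlus_apply, H5.qPlus_coe])
        rw [h7, pow_one] at h6
        exact h6
      rw [gd_q2, h5]
      refine ⟨2 * t, ?_⟩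
      linear_combination 4 * ht)
    have h8 : Nat.card (OG (q2 F)) = 2 * (Fintype.card F - 1) := by
      rw [Nat.card_congr e.toEquiv, ← Nat.card_congr (ogEquiv (H5.qPlus 1 F)).toEquiv, H5.qPlus_coe,
        S0287.result (F := F) rfl 1 le_rfl]
      simp
    rw [h8, Nat.factorization_mul (by omega) (by omega), Finsupp.add_apply, Nat.Prime.factorization_self Nat.prime_two,
      v_one (n := Fintype.card F + 1) (by omega), add_comm]
  · have h4 : Fintype.card F % 4 = 3 := by
      by_contra h
      exact hsq (FiniteField.isSquare_neg_one_iff.2 h)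
    have hab : ∀ z₁ z₂ : F, z₁ ^ 2 + 0 * z₁ * z₂ + 1 * z₂ ^ 2 = 0 → z₁ = 0 ∧ z₂ = 0 := by
      intro z₁ z₂ h
      have hz2 : z₂ = 0 := by
        by_contra hz
        apply hsq
        refine ⟨z₁ / z₂, ?_⟩
        field_simp
        linear_combination -h
      subst hz2
      refine ⟨?_, rfl⟩
      have : z₁ ^ 2 = 0 := by linear_combination h
      exact pow_eq_zero_iff (two_ne_zero) |>.1 this
    obtain ⟨e⟩ := iso_std h2 (Q := q2 F) (Q' := H5.qMinus 0 F 0 1) (nd_q2 h2) (H5.nd_minus hab) (by simp) (by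
      have h5 : gd (H5.qMinus 0 F 0 1) = 4 := by
        have h6 := H17.gram_qMinus_det 0 F 0 1
        have h7 : H17.qMinus 0 F 0 1 = H5.qMinus 0 F 0 1 := QuadraticMap.ext (fun v => by
          rw [H17.qMinus_apply, H5.qMinus_coe])
        rw [h7] at h6
        refine Eq.trans h6 ?_
        ring
      rw [gd_q2, h5]
      exact ⟨4, rfl⟩)
    have h8 : Nat.card (OG (q2 F)) = 2 * (Fintype.card F + 1) := by
      rw [Nat.card_congr e.toEquiv, ← Nat.card_congr (ogEquiv (H5.qMinus 0 F 0 1)).toEquiv, H5.qMinus_coe]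
      have h9 := S0288.result (F := F) rfl 1 le_rfl 0 1 hab
      refine h9.trans ?_
      simp
    rw [h8, Nat.factorization_mul (by omega) (by omega), Finsupp.add_apply, Nat.Prime.factorization_self Nat.prime_two,
      v_one (n := Fintype.card F - 1) (by omega)]

end orders

end Cfsg.Agent.H7.OrthSyl
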