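import Cfsg.Agent.H7.SylSp2
import Cfsg.Agent.H16.SylB
import Cfsg.Agent.H24.SylowInf

set_option autoImplicit false

/-!
Squares of elements of a Sylow 2-subgroup of `GL_{2m}(q)`, `q ≡ 3 mod 4`, and of
`SL_{2m+1}(q)`.
-/

namespace Cfsg.Agent.H7.SylGL

open Subgroup Equiv Matrix
open Cfsg.Agent.H7.SylSp

section two

variable {F : Type*} [Field F]

/-- The reflection. -/
def rr (F : Type*) [Field F] : GL (Fin 2) F :=
  ⟨!![1, 0; 0, -1], !![1, 0; 0, -1],
    by ext i j; fin_cases i <;> fin_cases j <;> simp [Matrix.mul_apply],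
    by ext i j; fin_cases i <;> fin_cases j <;> simp [Matrix.mul_apply]⟩

theorem rr_mul : rr F * rr F = 1 := by
  apply Units.ext
  show (!![1, 0; 0, -1] : Matrix (Fin 2) (Fin 2) F) * !![1, 0; 0, -1] = 1
  ext i j; fin_cases i <;> fin_cases j <;> simp [Matrix.mul_apply]

theorem det_rr : GeneralLinearGroup.det (rr F) = -1 := by
  apply Units.ext
  show Matrix.det (!![1, 0; 0, -1] : Matrix (Fin 2) (Fin 2) F) = _
  rw [Matrix.det_fin_two_of]
  simp

/-- For `q ≡ 3 mod 4`, there is a Sylow 2-subgroup of `GL_2(q)` containing the reflection; the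
intersection with `SL_2` has its squares in the derived subgroup. -/
theorem exists_S [Fintype F] (hF : Odd (Fintype.card F)) (hq : 4 ∣ Fintype.card F + 1) :
    ∃ S : Sylow 2 (GL (Fin 2) F), rr F ∈ (S : Subgroup (GL (Fin 2) F)) ∧
      (∀ x ∈ (S : Subgroup (GL (Fin 2) F)), GeneralLinearGroup.det x = 1 ∨ GeneralLinearGroup.det x = -1) ∧
      (∀ x ∈ GeneralLinearGroup.det.ker ⊓ (S : Subgroup (GL (Fin 2) F)),
        x ^ 2 ∈ ⁅GeneralLinearGroup.det.ker ⊓ (S : Subgroup (GL (Fin 2) F)),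
          GeneralLinearGroup.det.ker ⊓ (S : Subgroup (GL (Fin 2) F))⁆) := by
  classical
  haveI : Fact (Nat.Prime 2) := ⟨Nat.prime_two⟩
  have hr : IsPGroup 2 (zpowers (rr F)) := by
    rintro ⟨x, k, hk⟩
    refine ⟨1, Subtype.ext ?_⟩
    show x ^ 2 ^ 1 = 1
    rw [← hk]
    show (rr F ^ k) ^ 2 ^ 1 = 1
    rw [pow_one, sq, ← (Commute.refl (rr F)).mul_zpow, rr_mul, _root_.one_zpow]
  obtain ⟨S, hS⟩ := hr.exists_le_sylow
  refine ⟨S, hS (mem_zpowers _), ?_, ?_⟩
  · intro x hx
    obtain ⟨k, hk⟩ := S.isPGroup' ⟨x, hx⟩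
    have hk' : x ^ 2 ^ k = 1 := congrArg Subtype.val hk
    have h1 : (GeneralLinearGroup.det x) ^ 2 ^ k = 1 := by rw [← map_pow, hk', map_one]
    have h2 : (GeneralLinearGroup.det x) ^ (Fintype.card F - 1) = 1 := by
      rw [← Fintype.card_units]
      exact pow_card_eq_one
    have h3 : (GeneralLinearGroup.det x) ^ (Nat.gcd (2 ^ k) (Fintype.card F - 1)) = 1 := by
      rw [pow_gcd_eq_one, h1, h2]
      exact ⟨rfl, rfl⟩
    have h4 : Nat.gcd (2 ^ k) (Fintype.card F - 1) ∣ 2 := by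
      obtain ⟨j, hj, hj'⟩ := (Nat.dvd_prime_pow Nat.prime_two).1 (Nat.gcd_dvd_left (2 ^ k) (Fintype.card F - 1))
      rw [hj']
      have h5 : 2 ^ j ∣ Fintype.card F - 1 := hj' ▸ Nat.gcd_dvd_right _ _
      have h6 : j ≤ 1 := by
        by_contra h
        have h7 : 2 ^ 2 ∣ Fintype.card F - 1 := (pow_dvd_pow 2 (by omega)).trans h5
        have h8 : 1 < Fintype.card F := Fintype.one_lt_card
        omega
      calc 2 ^ j ∣ 2 ^ 1 := pow_dvd_pow 2 h6
        _ = 2 := pow_one 2
    have h5 : (GeneralLinearGroup.det x) ^ 2 = 1 := by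
      obtain ⟨c, hc⟩ := h4
      have h7 : ∀ u : Fˣ, u ^ (Nat.gcd (2 ^ k) (Fintype.card F - 1)) = 1 → u ^ 2 = 1 := by
        intro u hu
        rw [hc, pow_mul, hu, one_pow]
      exact h7 _ h3
    have h6 : ((GeneralLinearGroup.det x : Fˣ) : F) ^ 2 = 1 := by
      rw [← Units.val_pow_eq_pow_val, h5, Units.val_one]
    rw [sq] at h6
    rcases mul_self_eq_one_iff.1 h6 with h | h
    · left
      exact Units.ext h
    · right
      exact Units.ext h
  · let T : Subgroup (SpecialLinearGroup (Fin 2) F) := (S : Subgroup (GL (Fin 2) F)).comap SpecialLinearGroup.toGL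
    have hrange : (GeneralLinearGroup.det : GL (Fin 2) F →* Fˣ).ker = (SpecialLinearGroup.toGL : SpecialLinearGroup (Fin 2) F →* GL (Fin 2) F).range := by
      ext x
      rw [MonoidHom.mem_ker]
      constructor
      · intro hx
        have h1 : Matrix.det (x : Matrix (Fin 2) (Fin 2) F) = 1 := congrArg Units.val hx
        exact ⟨⟨x, h1⟩, Units.ext rfl⟩
      · rintro ⟨y, rfl⟩
        exact Units.ext y.2
    have hmap : T.map SpecialLinearGroup.toGL = (GeneralLinearGroup.det : GL (Fin 2) F →* Fˣ).ker ⊓ (S : Subgroup (GL (Fin 2) F)) := by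
      rw [map_comap_eq, hrange]
    have hcard : Nat.card T = 2 ^ (Nat.card (SpecialLinearGroup (Fin 2) F)).factorization 2 := by
      have h1 := H24.card_inf_sylow (GeneralLinearGroup.det : GL (Fin 2) F →* Fˣ).ker S
      rw [← hmap] at h1
      rw [Nat.card_congr (equivMapOfInjective T _ SpecialLinearGroup.toGL_injective).toEquiv, h1, hrange]
      rw [← Nat.card_congr (MonoidHom.ofInjective (SpecialLinearGroup.toGL_injective (n := Fin 2) (R := F))).toEquiv]
    let Q : Sylow 2 (SpecialLinearGroup (Fin 2) F) := Sylow.ofCard T hcard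
    have h1 := sylow_SL2 hF Q
    rw [← hmap]
    exact pow_map _ h1

theorem sq_S [Fintype F] {S : Sylow 2 (GL (Fin 2) F)} (hr : rr F ∈ (S : Subgroup (GL (Fin 2) F)))
    (hd : ∀ x ∈ (S : Subgroup (GL (Fin 2) F)), GeneralLinearGroup.det x = 1 ∨ GeneralLinearGroup.det x = -1)
    (hs : ∀ x ∈ GeneralLinearGroup.det.ker ⊓ (S : Subgroup (GL (Fin 2) F)),
        x ^ 2 ∈ ⁅GeneralLinearGroup.det.ker ⊓ (S : Subgroup (GL (Fin 2) F)),
          GeneralLinearGroup.det.ker ⊓ (S : Subgroup (GL (Fin 2) F))⁆) :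
    ∀ x ∈ (S : Subgroup (GL (Fin 2) F)),
      x ^ 2 ∈ ⁅(S : Subgroup (GL (Fin 2) F)), (S : Subgroup (GL (Fin 2) F))⁆ := by
  intro x hx
  refine (pow_closure (T := (S : Subgroup (GL (Fin 2) F)))
    (S := ((GeneralLinearGroup.det.ker ⊓ (S : Subgroup (GL (Fin 2) F)) : Subgroup (GL (Fin 2) F)) : Set (GL (Fin 2) F)) ∪ {rr F}) ?_ x ?_).2
  · rintro y (hy | hy)
    · exact ⟨hy.2, commutator_mono inf_le_right inf_le_right (hs y hy)⟩
    · rw [Set.mem_singleton_iff] at hy
      rw [hy, sq, rr_mul]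
      exact ⟨hr, one_mem _⟩
  · rcases hd x hx with h | h
    · exact subset_closure (Or.inl ⟨h, hx⟩)
    · have h1 : x * rr F ∈ GeneralLinearGroup.det.ker ⊓ (S : Subgroup (GL (Fin 2) F)) := by
        refine ⟨?_, mul_mem hx hr⟩
        show GeneralLinearGroup.det (x * rr F) = 1
        rw [map_mul, h, det_rr]
        simp
      have h2 : x = x * rr F * rr F := by rw [mul_assoc, rr_mul, mul_one]
      rw [h2]
      exact mul_mem (subset_closure (Or.inl h1)) (subset_closure (Or.inr rfl))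

end two

section hom

variable {F : Type*} [Field F] {n : ℕ}

/-- The product of the groups `GL₂` inside `GL_{2n}`. -/
def DG (F : Type*) [Field F] (n : ℕ) : (Fin n → GL (Fin 2) F) →* GL (Fin n ⊕ Fin n) F where
  toFun g := ⟨Dmat (fun i => (g i : Matrix (Fin 2) (Fin 2) F)), Dmat (fun i => ((g i)⁻¹ : GL (Fin 2) F)),
    by rw [Dmat_mul, ← Dmat_one]; congr 1; funext i; exact Units.mul_inv _,
    by rw [Dmat_mul, ← Dmat_one]; congr 1; funext i; exact Units.inv_mul _⟩
  map_one' := Units.ext Dmat_one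
  map_mul' g h := Units.ext (Dmat_mul _ _).symm

theorem DG_val (g : Fin n → GL (Fin 2) F) : ((DG F n g : GL (Fin n ⊕ Fin n) F) : Matrix _ _ F)
    = Dmat (fun i => (g i : Matrix (Fin 2) (Fin 2) F)) := rfl

theorem Dmat_injective {g h : Fin n → Matrix (Fin 2) (Fin 2) F} (h1 : Dmat g = Dmat h) : g = h := by
  unfold Dmat at h1
  rw [fromBlocks_inj] at h1
  obtain ⟨h00, h01, h10, h11⟩ := h1
  funext i
  ext a b
  fin_cases a <;> fin_cases b
  · exact congrFun (diagonal_injective h00) i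
  · exact congrFun (diagonal_injective h01) i
  · exact congrFun (diagonal_injective h10) i
  · exact congrFun (diagonal_injective h11) i

theorem DG_injective : Function.Injective (DG F n) := by
  intro g h hgh
  have h1 := Dmat_injective (congrArg Units.val hgh)
  funext i
  exact Units.ext (congrFun h1 i)

theorem blk_mul (σ τ : Perm (Fin n)) : fromBlocks (Pm F σ) 0 0 (Pm F σ) * fromBlocks (Pm F τ) 0 0 (Pm F τ)
    = fromBlocks (Pm F (σ * τ)) 0 0 (Pm F (σ * τ)) := by
  rw [fromBlocks_multiply]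
  simp only [Pm_mul, Matrix.mul_zero, Matrix.zero_mul, add_zero, zero_add]

/-- The symmetric group inside `GL_{2n}`. -/
def PG (F : Type*) [Field F] (n : ℕ) : Perm (Fin n) →* GL (Fin n ⊕ Fin n) F where
  toFun σ := ⟨fromBlocks (Pm F σ) 0 0 (Pm F σ), fromBlocks (Pm F σ⁻¹) 0 0 (Pm F σ⁻¹),
    by rw [blk_mul, mul_inv_cancel, Pm_one, fromBlocks_one],
    by rw [blk_mul, inv_mul_cancel, Pm_one, fromBlocks_one]⟩
  map_one' := by
    apply Units.ext
    show fromBlocks (Pm F 1) 0 0 (Pm F 1) = 1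
    rw [Pm_one, fromBlocks_one]
  map_mul' σ τ := Units.ext (blk_mul σ τ).symm

theorem PG_injective : Function.Injective (PG F n) := by
  intro σ τ h
  have h1 : fromBlocks (Pm F σ) 0 0 (Pm F σ) = fromBlocks (Pm F τ) 0 0 (Pm F τ) := congrArg Units.val h
  rw [fromBlocks_inj] at h1
  exact Pm_injective h1.1

theorem conj_DG (σ : Perm (Fin n)) (g : Fin n → GL (Fin 2) F) :
    PG F n σ * DG F n g = DG F n (fun i => g (σ⁻¹ i)) * PG F n σ := by
  apply Units.ext
  show fromBlocks (Pm F σ) 0 0 (Pm F σ) * Dmat _ = Dmat _ * fromBlocks (Pm F σ) 0 0 (Pm F σ)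
  unfold Dmat
  rw [fromBlocks_multiply, fromBlocks_multiply]
  simp only [Matrix.mul_zero, Matrix.zero_mul, add_zero, zero_add, Pm_diagonal]

theorem DG_eq_PG {g : Fin n → GL (Fin 2) F} {σ : Perm (Fin n)}
    (h : DG F n g = PG F n σ) : σ = 1 := by
  have h1 : Dmat _ = fromBlocks (Pm F σ) 0 0 (Pm F σ) := congrArg Units.val h
  unfold Dmat at h1
  rw [fromBlocks_inj] at h1
  ext j
  have h2 := congrFun (congrFun h1.1 (σ j)) j
  rw [Pm_apply, if_pos rfl] at h2
  by_contra hne
  rw [diagonal_apply_ne _ (fun h => hne (by rw [h]; rfl))] at h2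
  exact zero_ne_one h2

/-- the semidirect product of a family of subgroups and a group of permutations. -/
theorem wr_card {K : Subgroup (Fin n → GL (Fin 2) F)} {R : Subgroup (Perm (Fin n))} [Finite F]
    (hK : ∀ σ ∈ R, ∀ g ∈ K, (fun i => g (σ⁻¹ i)) ∈ K) :
    Nat.card (K.map (DG F n) ⊔ R.map (PG F n) : Subgroup (GL (Fin n ⊕ Fin n) F)) = Nat.card K * Nat.card R := by
  haveI : Finite (GL (Fin n ⊕ Fin n) F) := by
    haveI : Finite (Matrix (Fin n ⊕ Fin n) (Fin n ⊕ Fin n) F) := inferInstance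
    infer_instance
  have hnorm : R.map (PG F n) ≤ normalizer (K.map (DG F n) : Set (GL (Fin n ⊕ Fin n) F)) := by
    have key : ∀ σ ∈ R, ∀ a ∈ K.map (DG F n), PG F n σ * a * (PG F n σ)⁻¹ ∈ K.map (DG F n) := by
      rintro σ hσ _ ⟨g, hg, rfl⟩
      rw [conj_DG, mul_inv_cancel_right]
      exact ⟨_, hK σ hσ g hg, rfl⟩
    rintro _ ⟨σ, hσ, rfl⟩
    rw [mem_normalizer_iff]
    intro a
    constructor
    · intro ha
      exact key σ hσ a ha
    · intro ha
      have h1 := key σ⁻¹ (inv_mem hσ) _ ha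
      rw [map_inv, inv_inv] at h1
      have h2 : (PG F n σ)⁻¹ * (PG F n σ * a * (PG F n σ)⁻¹) * PG F n σ = a := by group
      rwa [h2] at h1
  have hinf : K.map (DG F n) ⊓ R.map (PG F n) = ⊥ := by
    rw [eq_bot_iff]
    rintro _ ⟨⟨g, -, rfl⟩, ⟨σ, -, hσ⟩⟩
    rw [mem_bot, ← hσ, DG_eq_PG hσ.symm, map_one]
  have h1 := H1.card_sup_mul_card_inf_of_le_normalizer hnorm
  rw [hinf, card_bot, mul_one] at h1
  rw [h1]
  congr 1
  · exact (Nat.card_congr (equivMapOfInjective K (DG F n) DG_injective).toEquiv).symm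
  · exact (Nat.card_congr (equivMapOfInjective R (PG F n) PG_injective).toEquiv).symm

theorem val_odd {q : ℕ} (hq : Odd q) (hq1 : 1 < q) (j : ℕ) :
    (q ^ (2 * j + 1) - 1).factorization 2 = (q - 1).factorization 2 := by
  have h1 : q ^ (2 * j + 1) - 1 = (q - 1) * ∑ i ∈ Finset.range (2 * j + 1), q ^ i := by
    rw [mul_comm (q - 1)]
    exact (geom_sum_mul_of_one_le hq1.le _).symm
  have h2 : ¬ 2 ∣ ∑ i ∈ Finset.range (2 * j + 1), q ^ i := by
    rw [← even_iff_two_dvd, Nat.not_even_iff_odd, Finset.odd_sum_iff_odd_card_odd]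
    rw [Finset.filter_true_of_mem (fun i _ => hq.pow), Finset.card_range]
    exact ⟨j, rfl⟩
  rw [h1, Nat.factorization_mul (by omega) (fun h => h2 (by rw [h]; exact dvd_zero 2)), Finsupp.add_apply,
    Nat.factorization_eq_zero_of_not_dvd h2, add_zero]

/-- The 2-part of the order of `GL_{2m}(q)`. -/
theorem val_even {q : ℕ} (hq : Odd q) (hq1 : 1 < q) (m : ℕ) :
    (∏ i ∈ Finset.range (2 * m), (q ^ (i + 1) - 1)).factorization 2
      = m * ((q - 1).factorization 2 + (q ^ 2 - 1).factorization 2) + m.factorial.factorization 2 := by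
  have hne : ∀ i, q ^ (i + 1) - 1 ≠ 0 := by
    intro i
    have : 1 < q ^ (i + 1) := Nat.one_lt_pow (by omega) hq1
    omega
  induction m with
  | zero => simp
  | succ m ih =>
    rw [show 2 * (m + 1) = 2 * m + 1 + 1 from by ring, Finset.prod_range_succ, Finset.prod_range_succ,
      Nat.factorization_mul (mul_ne_zero (Finset.prod_ne_zero_iff.2 (fun i _ => hne i)) (hne _)) (hne _),
      Nat.factorization_mul (Finset.prod_ne_zero_iff.2 (fun i _ => hne i)) (hne _), Finsupp.add_apply,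
      Finsupp.add_apply, ih, val_odd hq hq1 m, show 2 * m + 1 + 1 = 2 * (m + 1) from by ring, val_sq hq hq1,
      Nat.factorial_succ, Nat.factorization_mul (by omega) (Nat.factorial_ne_zero m), Finsupp.add_apply]
    ring

/-- `GL_k` inside `SL_{k+1}`. -/
def EG (F : Type*) [Field F] {ι κ : Type*} [Fintype ι] [DecidableEq ι] [Fintype κ] [DecidableEq κ] (e : κ ≃ ι ⊕ Unit) :
    GL ι F →* SpecialLinearGroup κ F where
  toFun A := ⟨(fromBlocks (A : Matrix ι ι F) 0 0 (diagonal fun _ : Unit => (((GeneralLinearGroup.det A)⁻¹ : Fˣ) : F))).submatrix e e, by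
    rw [det_submatrix_equiv_self, det_fromBlocks_zero₂₁, det_diagonal, Finset.univ_unique, Finset.prod_singleton]
    exact Units.mul_inv (GeneralLinearGroup.det A)⟩
  map_one' := by
    apply Subtype.ext
    show (fromBlocks ((1 : GL ι F) : Matrix ι ι F) 0 0 (diagonal fun _ : Unit => (((GeneralLinearGroup.det (1 : GL ι F))⁻¹ : Fˣ) : F))).submatrix e e = 1
    rw [map_one, inv_one, Units.val_one, Units.val_one, diagonal_one, fromBlocks_one, submatrix_one_equiv]
  map_mul' A B := by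
    apply Subtype.ext
    show (fromBlocks ((A * B : GL ι F) : Matrix ι ι F) 0 0 (diagonal fun _ : Unit => (((GeneralLinearGroup.det (A * B))⁻¹ : Fˣ) : F))).submatrix e e
      = (fromBlocks (A : Matrix ι ι F) 0 0 (diagonal fun _ : Unit => (((GeneralLinearGroup.det A)⁻¹ : Fˣ) : F))).submatrix e e
      * (fromBlocks (B : Matrix ι ι F) 0 0 (diagonal fun _ : Unit => (((GeneralLinearGroup.det B)⁻¹ : Fˣ) : F))).submatrix e e
    rw [submatrix_mul_equiv, fromBlocks_multiply, map_mul, mul_inv, Units.val_mul, Units.val_mul]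
    simp only [Matrix.mul_zero, Matrix.zero_mul, add_zero, zero_add, diagonal_mul_diagonal]

theorem EG_injective {ι κ : Type*} [Fintype ι] [DecidableEq ι] [Fintype κ] [DecidableEq κ] (e : κ ≃ ι ⊕ Unit) :
    Function.Injective (EG F e) := by
  intro A B h
  have h1 : (fromBlocks (A : Matrix ι ι F) 0 0 (diagonal fun _ : Unit => (((GeneralLinearGroup.det A)⁻¹ : Fˣ) : F))).submatrix e e
    = (fromBlocks (B : Matrix ι ι F) 0 0 (diagonal fun _ : Unit => (((GeneralLinearGroup.det B)⁻¹ : Fˣ) : F))).submatrix e e :=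
    congrArg Subtype.val h
  have h2 : fromBlocks (A : Matrix ι ι F) 0 0 (diagonal fun _ : Unit => (((GeneralLinearGroup.det A)⁻¹ : Fˣ) : F))
    = fromBlocks (B : Matrix ι ι F) 0 0 (diagonal fun _ : Unit => (((GeneralLinearGroup.det B)⁻¹ : Fˣ) : F)) :=
    (Matrix.reindex e.symm e.symm).injective h1
  rw [fromBlocks_inj] at h2
  exact Units.ext h2.1

/-- Squares in a Sylow 2-subgroup of `SL_{2m+1}(q)`, `q ≡ 3 mod 4`. -/
theorem sl_odd [Fintype F] (hF : Odd (Fintype.card F)) (hq : 4 ∣ Fintype.card F + 1) (m : ℕ)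
    (P : Sylow 2 (SpecialLinearGroup (Fin (2 * m + 1)) F)) :
    ∀ x : (P : Subgroup (SpecialLinearGroup (Fin (2 * m + 1)) F)),
      x ^ 2 ∈ commutator (P : Subgroup (SpecialLinearGroup (Fin (2 * m + 1)) F)) := by
  classical
  haveI : Fact (Nat.Prime 2) := ⟨Nat.prime_two⟩
  obtain ⟨S, hr, hd, hs⟩ := exists_S hF hq
  have hsq := sq_S hr hd hs
  let R : Sylow 2 (Perm (Fin m)) := default
  let K : Subgroup (Fin m → GL (Fin 2) F) := Subgroup.pi (Set.univ : Set (Fin m)) (fun _ => (S : Subgroup (GL (Fin 2) F)))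
  let T0 : Subgroup (GL (Fin m ⊕ Fin m) F) := K.map (DG F m) ⊔ (R : Subgroup (Perm (Fin m))).map (PG F m)
  let e : Fin (2 * m + 1) ≃ (Fin m ⊕ Fin m) ⊕ Unit := Fintype.equivOfCardEq (by
    rw [Fintype.card_sum, Fintype.card_sum, Fintype.card_fin, Fintype.card_fin, Fintype.card_unit]
    ring)
  have hT0 : ∀ x ∈ T0, x ^ 2 ∈ ⁅T0, T0⁆ := by
    apply pow_sup
    · apply pow_map
      intro g hg
      rw [Subgroup.commutator_pi_pi_of_finite]
      intro i _
      exact hsq (g i) (hg i (Set.mem_univ i))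
    · apply pow_map
      intro g hg
      exact (SylSn.sylow_gen m R).1.pow_mem hg
  have hcard0 : Nat.card T0 = Nat.card K * Nat.card (R : Subgroup (Perm (Fin m))) :=
    wr_card (fun σ _ g hg i _ => hg (σ⁻¹ i) (Set.mem_univ _))
  have hcK : Nat.card K = (2 ^ (Nat.card (GL (Fin 2) F)).factorization 2) ^ m := by
    rw [← S.card_eq_multiplicity]
    exact card_pi _
  have hcR : Nat.card (R : Subgroup (Perm (Fin m))) = 2 ^ (m.factorial.factorization 2) := by
    have h4 : (Nat.card (Perm (Fin m))) = m.factorial := by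
      rw [Nat.card_eq_fintype_card, Fintype.card_perm, Fintype.card_fin]
    rw [← h4]
    exact R.card_eq_multiplicity
  have hq1 : 1 < Fintype.card F := Fintype.one_lt_card
  have h2q : ¬ 2 ∣ Fintype.card F := by
    rw [← even_iff_two_dvd]
    exact Nat.not_even_iff_odd.mpr hF
  have hne : ∀ i, (Fintype.card F) ^ (i + 1) - 1 ≠ 0 := by
    intro i
    have : 1 < (Fintype.card F) ^ (i + 1) := Nat.one_lt_pow (by omega) hq1
    omega
  have hgl : ∀ k, (Nat.card (GL (Fin (2 * k)) F)).factorization 2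
      = k * ((Fintype.card F - 1).factorization 2 + ((Fintype.card F) ^ 2 - 1).factorization 2) + k.factorial.factorization 2 := by
    intro k
    rw [H16.SylB.card_gl rfl, Nat.factorization_mul (pow_ne_zero _ (by omega))
      (Finset.prod_ne_zero_iff.2 (fun i _ => hne i)), Finsupp.add_apply, Nat.factorization_pow,
      Finsupp.smul_apply, Nat.factorization_eq_zero_of_not_dvd h2q, smul_zero, zero_add, val_even hF hq1]
  have hsl : (Nat.card (SpecialLinearGroup (Fin (2 * m + 1)) F)).factorization 2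
      = m * ((Fintype.card F - 1).factorization 2 + ((Fintype.card F) ^ 2 - 1).factorization 2) + m.factorial.factorization 2 := by
    have h1 := H5.card_SL_mul (F := F) rfl (2 * m + 1) (by omega)
    rw [← Matrix.card_GL_field, H16.SylB.card_gl rfl] at h1
    have h2 := congrArg (fun x : ℕ => x.factorization 2) h1
    beta_reduce at h2
    rw [Nat.factorization_mul (by omega) Nat.card_pos.ne', Finsupp.add_apply, Nat.factorization_mul (pow_ne_zero _ (by omega))
      (Finset.prod_ne_zero_iff.2 (fun i _ => hne i)), Finsupp.add_apply, Nat.factorization_pow,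
      Finsupp.smul_apply, Nat.factorization_eq_zero_of_not_dvd h2q, smul_zero, zero_add, Finset.prod_range_succ,
      Nat.factorization_mul (Finset.prod_ne_zero_iff.2 (fun i _ => hne i)) (hne _), Finsupp.add_apply,
      val_even hF hq1, val_odd hF hq1] at h2
    omega
  have hcard : Nat.card (T0.map (EG F e)) = 2 ^ (Nat.card (SpecialLinearGroup (Fin (2 * m + 1)) F)).factorization 2 := by
    rw [← Nat.card_congr (equivMapOfInjective T0 _ (EG_injective e)).toEquiv, hcard0, hcK, hcR, hsl, ← pow_mul, ← pow_add]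
    congr 1
    have h5 := hgl 1
    rw [mul_one, one_mul, Nat.factorial_one, Nat.factorization_one, Finsupp.zero_apply, add_zero] at h5
    rw [h5]
    ring
  exact sylow_of_one hcard (pow_map _ hT0) P

end hom

end Cfsg.Agent.H7.SylGL
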