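import Cfsg.Agent.H7.G2B
import Cfsg.Agent.H7.G2C
import Cfsg.Agent.H7.SylGL
import Cfsg.Agent.H7.OrthSyl5

set_option autoImplicit false
set_option linter.all false

/-!
Sylow 2-subgroups of `G₂(q)`, `q` odd.
-/

namespace Cfsg.Agent.H7.G2Syl

open Cfsg Cfsg.Lie Matrix Subgroup
open Cfsg.Agent.H7.SylSp

variable {F : Type*} [Field F]

set_option maxHeartbeats 400000

theorem v_q3 {q : ℕ} (hq : Odd q) (hq1 : 1 < q) : (q ^ 3 + 1).factorization 2 = (q + 1).factorization 2 := by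
  have h1 : q ^ 3 + 1 = (q + 1) * (q * (q - 1) + 1) := by
    obtain ⟨r, rfl⟩ : ∃ r, q = r + 1 := ⟨q - 1, by omega⟩
    rw [Nat.add_sub_cancel]
    ring
  have h2 : ¬ 2 ∣ q * (q - 1) + 1 := by
    have h3 : Even (q * (q - 1)) := by
      have := Nat.even_mul_pred_self q
      exact this
    rw [← even_iff_two_dvd, Nat.not_even_iff_odd]
    exact h3.add_one
  rw [h1, Nat.factorization_mul (by omega) (by omega), Finsupp.add_apply, Nat.factorization_eq_zero_of_not_dvd h2,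
    add_zero]

theorem v_SL2 [Fintype F] (hF : Odd (Fintype.card F)) :
    (Nat.card (SpecialLinearGroup (Fin 2) F)).factorization 2 = (Fintype.card F ^ 2 - 1).factorization 2 := by
  have hq1 : 1 < Fintype.card F := Fintype.one_lt_card
  have h2q : ¬ 2 ∣ Fintype.card F := by
    rw [← even_iff_two_dvd]
    exact Nat.not_even_iff_odd.mpr hF
  have h3 : 1 < Fintype.card F ^ 2 := Nat.one_lt_pow (by omega) hq1
  rw [H5.card_SL2 rfl, Nat.factorization_mul (by omega) (by omega), Finsupp.add_apply,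
    Nat.factorization_eq_zero_of_not_dvd h2q, zero_add]

theorem v_AutZ [Fintype F] (hF : Odd (Fintype.card F)) :
    (Nat.card (AutZ F)).factorization 2 = 2 * (Fintype.card F ^ 2 - 1).factorization 2 := by
  have hq1 : 1 < Fintype.card F := Fintype.one_lt_card
  have h2q : ¬ 2 ∣ Fintype.card F := by
    rw [← even_iff_two_dvd]
    exact Nat.not_even_iff_odd.mpr hF
  rw [card_AutZ (F := F) Nat.card_eq_fintype_card]
  have hne : ∀ i, (Fintype.card F) ^ (i + 1) - 1 ≠ 0 := by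
    intro i
    have : 1 < (Fintype.card F) ^ (i + 1) := Nat.one_lt_pow (by omega) hq1
    omega
  have h1 := H5.card_SL_mul (F := F) rfl 3 (by omega)
  rw [← Matrix.card_GL_field, H16.SylB.card_gl rfl] at h1
  have h2 := congrArg (fun x : ℕ => x.factorization 2) h1
  beta_reduce at h2
  rw [Nat.factorization_mul (by omega) Nat.card_pos.ne', Finsupp.add_apply, Nat.factorization_mul (pow_ne_zero _ (by omega))
    (Finset.prod_ne_zero_iff.2 (fun i _ => hne i)), Finsupp.add_apply, Nat.factorization_pow,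
    Finsupp.smul_apply, Nat.factorization_eq_zero_of_not_dvd h2q, smul_zero, zero_add, Finset.prod_range_succ,
    Finset.prod_range_succ, Finset.prod_range_succ, Finset.prod_range_zero, one_mul,
    Nat.factorization_mul (mul_ne_zero (hne 0) (hne 1)) (hne 2), Finsupp.add_apply,
    Nat.factorization_mul (hne 0) (hne 1), Finsupp.add_apply] at h2
  have h3 := SylGL.val_odd hF hq1 1
  have h4 := OrthSyl.vA hF hq1
  have h5 := v_q3 hF hq1
  have e1 : (0 : ℕ) + 1 = 1 := rfl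
  have e2 : (1 : ℕ) + 1 = 2 := rfl
  have e3 : (2 : ℕ) + 1 = 3 := rfl
  have e4 : 2 * 1 + 1 = 3 := rfl
  rw [e1, e2, e3, pow_one] at h2
  rw [e4] at h3
  have h6 : (Fintype.card F ^ 3 - 1) * Fintype.card F ^ 3 + Fintype.card F ^ 3 * 2 = Fintype.card F ^ 3 * (Fintype.card F ^ 3 + 1) := by
    have h7 : 1 < Fintype.card F ^ 3 := Nat.one_lt_pow (by omega) hq1
    obtain ⟨r, hr⟩ : ∃ r, Fintype.card F ^ 3 = r + 1 := ⟨Fintype.card F ^ 3 - 1, by omega⟩
    rw [hr, Nat.add_sub_cancel]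
    ring
  rw [h6, Nat.factorization_mul (mul_ne_zero (pow_ne_zero _ (by omega)) (by omega)) Nat.card_pos.ne', Finsupp.add_apply,
    Nat.factorization_mul (pow_ne_zero _ (by omega)) (by omega), Finsupp.add_apply, Nat.factorization_pow,
    Finsupp.smul_apply, Nat.factorization_eq_zero_of_not_dvd h2q, smul_zero, zero_add, h5]
  omega

/-- a nonsquare 2-element -/
theorem exists_zeta [Fintype F] (hF : Odd (Fintype.card F)) : ∃ ζ : Fˣ, (∃ s, ζ ^ 2 ^ s = 1) ∧ ∀ c : Fˣ, c * c ≠ ζ := by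
  classical
  obtain ⟨α, hα⟩ := IsCyclic.exists_generator (α := Fˣ)
  have ho : orderOf α = Fintype.card F - 1 := by
    rw [orderOf_eq_card_of_forall_mem_zpowers hα, Nat.card_eq_fintype_card, Fintype.card_units]
  have hq1 : 1 < Fintype.card F := Fintype.one_lt_card
  obtain ⟨s, m, hm, hsm⟩ := Nat.exists_eq_two_pow_mul_odd (n := Fintype.card F - 1) (by omega)
  refine ⟨α ^ m, ⟨s, ?_⟩, ?_⟩
  · rw [← pow_mul, mul_comm, ← hsm, ← ho, pow_orderOf_eq_one]
  · intro c hc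
    obtain ⟨j, hj⟩ := mem_zpowers_iff.1 (hα c)
    rw [← hj, ← _root_.zpow_add, ← zpow_natCast] at hc
    have h1 : α ^ (j + j - (m : ℤ)) = 1 := by
      rw [_root_.zpow_sub, hc, mul_inv_cancel]
    rw [← orderOf_dvd_iff_zpow_eq_one, ho] at h1
    have h2 : (2 : ℤ) ∣ ((Fintype.card F - 1 : ℕ) : ℤ) := by
      have : 2 ∣ Fintype.card F - 1 := by
        obtain ⟨k, hk⟩ := hF
        exact ⟨k, by omega⟩
      exact_mod_cast this
    have h3 := h2.trans h1
    obtain ⟨k, hk⟩ := hm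
    omega

def dgm (a b : Fˣ) : GL (Fin 2) F :=
  ⟨!![(a : F), 0; 0, (b : F)], !![((a⁻¹ : Fˣ) : F), 0; 0, ((b⁻¹ : Fˣ) : F)],
    by ext i j; fin_cases i <;> fin_cases j <;> simp [Matrix.mul_apply],
    by ext i j; fin_cases i <;> fin_cases j <;> simp [Matrix.mul_apply]⟩

def adg (a b : Fˣ) : GL (Fin 2) F :=
  ⟨!![0, (a : F); (b : F), 0], !![0, ((b⁻¹ : Fˣ) : F); ((a⁻¹ : Fˣ) : F), 0],
    by ext i j; fin_cases i <;> fin_cases j <;> simp [Matrix.mul_apply],
    by ext i j; fin_cases i <;> fin_cases j <;> simp [Matrix.mul_apply]⟩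

theorem dd (a b c d : Fˣ) : dgm a b * dgm c d = dgm (a * c) (b * d) := by
  apply Units.ext
  show (!![(a : F), 0; 0, (b : F)] : Matrix (Fin 2) (Fin 2) F) * !![(c : F), 0; 0, (d : F)] = !![((a * c : Fˣ) : F), 0; 0, ((b * d : Fˣ) : F)]
  ext i j; fin_cases i <;> fin_cases j <;> simp [Matrix.mul_apply]

theorem da (a b c d : Fˣ) : dgm a b * adg c d = adg (a * c) (b * d) := by
  apply Units.ext
  show (!![(a : F), 0; 0, (b : F)] : Matrix (Fin 2) (Fin 2) F) * !![0, (c : F); (d : F), 0] = !![0, ((a * c : Fˣ) : F); ((b * d : Fˣ) : F), 0]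
  ext i j; fin_cases i <;> fin_cases j <;> simp [Matrix.mul_apply]

theorem ad (a b c d : Fˣ) : adg a b * dgm c d = adg (a * d) (b * c) := by
  apply Units.ext
  show (!![0, (a : F); (b : F), 0] : Matrix (Fin 2) (Fin 2) F) * !![(c : F), 0; 0, (d : F)] = !![0, ((a * d : Fˣ) : F); ((b * c : Fˣ) : F), 0]
  ext i j; fin_cases i <;> fin_cases j <;> simp [Matrix.mul_apply]

theorem aa (a b c d : Fˣ) : adg a b * adg c d = dgm (a * d) (b * c) := by
  apply Units.ext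
  show (!![0, (a : F); (b : F), 0] : Matrix (Fin 2) (Fin 2) F) * !![0, (c : F); (d : F), 0] = !![((a * d : Fˣ) : F), 0; 0, ((b * c : Fˣ) : F)]
  ext i j; fin_cases i <;> fin_cases j <;> simp [Matrix.mul_apply]

theorem d1 : dgm (1 : Fˣ) 1 = 1 := by
  apply Units.ext
  show (!![((1 : Fˣ) : F), 0; 0, ((1 : Fˣ) : F)] : Matrix (Fin 2) (Fin 2) F) = 1
  ext i j; fin_cases i <;> fin_cases j <;> simp

theorem dinv (a b : Fˣ) : (dgm a b)⁻¹ = dgm a⁻¹ b⁻¹ := by
  rw [inv_eq_iff_mul_eq_one, dd, mul_inv_cancel, mul_inv_cancel, d1]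

theorem ainv (a b : Fˣ) : (adg a b)⁻¹ = adg b⁻¹ a⁻¹ := by
  rw [inv_eq_iff_mul_eq_one, aa, mul_inv_cancel, mul_inv_cancel, d1]

theorem dpow (a b : Fˣ) (k : ℕ) : (dgm a b) ^ k = dgm (a ^ k) (b ^ k) := by
  induction k with
  | zero => rw [pow_zero, pow_zero, pow_zero, d1]
  | succ k ih => rw [pow_succ, ih, dd, ← pow_succ, ← pow_succ]

/-- monomial matrices with entries of 2-power order -/
def M0 (F : Type*) [Field F] : Subgroup (GL (Fin 2) F) where
  carrier := {x | ∃ a b : Fˣ, (∃ s, a ^ 2 ^ s = 1) ∧ (∃ s, b ^ 2 ^ s = 1) ∧ (x = dgm a b ∨ x = adg a b)}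
  one_mem' := ⟨1, 1, ⟨0, one_pow _⟩, ⟨0, one_pow _⟩, Or.inl d1.symm⟩
  mul_mem' := by
    have hm : ∀ a b : Fˣ, (∃ s, a ^ 2 ^ s = 1) → (∃ s, b ^ 2 ^ s = 1) → ∃ s, (a * b) ^ 2 ^ s = 1 := by
      rintro a b ⟨s, hs⟩ ⟨t, ht⟩
      refine ⟨s + t, ?_⟩
      rw [mul_pow]
      have h1 : a ^ 2 ^ (s + t) = 1 := by rw [pow_add, pow_mul, hs, one_pow]
      have h2 : b ^ 2 ^ (s + t) = 1 := by rw [add_comm, pow_add, pow_mul, ht, one_pow]
      rw [h1, h2, one_mul]
    rintro x y ⟨a, b, ha, hb, hx⟩ ⟨c, d, hc, hd, hy⟩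
    rcases hx with rfl | rfl <;> rcases hy with rfl | rfl
    · exact ⟨_, _, hm a c ha hc, hm b d hb hd, Or.inl (dd _ _ _ _)⟩
    · exact ⟨_, _, hm a c ha hc, hm b d hb hd, Or.inr (da _ _ _ _)⟩
    · exact ⟨_, _, hm a d ha hd, hm b c hb hc, Or.inr (ad _ _ _ _)⟩
    · exact ⟨_, _, hm a d ha hd, hm b c hb hc, Or.inl (aa _ _ _ _)⟩
  inv_mem' := by
    have hi : ∀ a : Fˣ, (∃ s, a ^ 2 ^ s = 1) → ∃ s, (a⁻¹) ^ 2 ^ s = 1 := by
      rintro a ⟨s, hs⟩
      exact ⟨s, by rw [inv_pow, hs, inv_one]⟩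
    rintro x ⟨a, b, ha, hb, hx⟩
    rcases hx with rfl | rfl
    · exact ⟨_, _, hi a ha, hi b hb, Or.inl (dinv _ _)⟩
    · exact ⟨_, _, hi b hb, hi a ha, Or.inr (ainv _ _)⟩

theorem M0_pgroup : IsPGroup 2 (M0 F) := by
  rintro ⟨x, a, b, ⟨s, hs⟩, ⟨t, ht⟩, hx⟩
  have h1 : a ^ 2 ^ (s + t) = 1 := by rw [pow_add, pow_mul, hs, one_pow]
  have h2 : b ^ 2 ^ (s + t) = 1 := by rw [add_comm, pow_add, pow_mul, ht, one_pow]
  rcases hx with rfl | rfl
  · refine ⟨s + t, Subtype.ext ?_⟩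
    show (dgm a b) ^ 2 ^ (s + t) = 1
    rw [dpow, h1, h2, d1]
  · refine ⟨s + t + 1, Subtype.ext ?_⟩
    show (adg a b) ^ 2 ^ (s + t + 1) = 1
    rw [pow_succ 2, mul_comm, pow_mul, sq, aa, dpow, mul_pow, mul_pow, h1, h2, one_mul, d1]

/-- the pair hom -/
def jj (F : Type*) [Field F] : SpecialLinearGroup (Fin 2) F × SpecialLinearGroup (Fin 2) F →* PP F where
  toFun p := ⟨(SpecialLinearGroup.toGL p.1, SpecialLinearGroup.toGL p.2), by
    show Matrix.GeneralLinearGroup.det (SpecialLinearGroup.toGL p.1) = Matrix.GeneralLinearGroup.det (SpecialLinearGroup.toGL p.2)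
    apply Units.ext
    show (p.1 : Matrix (Fin 2) (Fin 2) F).det = (p.2 : Matrix (Fin 2) (Fin 2) F).det
    rw [p.1.2, p.2.2]⟩
  map_one' := by
    apply Subtype.ext
    show ((SpecialLinearGroup.toGL (1 : SpecialLinearGroup (Fin 2) F), SpecialLinearGroup.toGL (1 : SpecialLinearGroup (Fin 2) F)) : GL (Fin 2) F × GL (Fin 2) F) = 1
    rw [map_one]; rfl
  map_mul' p q := by
    apply Subtype.ext
    show ((SpecialLinearGroup.toGL (p.1 * q.1), SpecialLinearGroup.toGL (p.2 * q.2)) : GL (Fin 2) F × GL (Fin 2) F) = (SpecialLinearGroup.toGL p.1, SpecialLinearGroup.toGL p.2) * (SpecialLinearGroup.toGL q.1, SpecialLinearGroup.toGL q.2)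
    rw [map_mul, map_mul]; rfl

theorem jj_ker {p : SpecialLinearGroup (Fin 2) F × SpecialLinearGroup (Fin 2) F} (h : psi F (jj F p) = 1) :
    p = 1 ∨ (p.1 : Matrix (Fin 2) (Fin 2) F) = (-1 : F) • 1 ∧ (p.2 : Matrix (Fin 2) (Fin 2) F) = (-1 : F) • 1 := by
  obtain ⟨c, h1, h2⟩ := psi_ker h
  have h1' : (p.1 : Matrix (Fin 2) (Fin 2) F) = c • 1 := h1
  have h2' : (p.2 : Matrix (Fin 2) (Fin 2) F) = c • 1 := h2
  have h3 : c ^ 2 = 1 := by
    have := p.1.2
    rw [h1', Matrix.det_smul, Matrix.det_one, mul_one, Fintype.card_fin] at this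
    exact this
  rw [sq] at h3
  rcases mul_self_eq_one_iff.1 h3 with h4 | h4
  · left
    rw [h4, one_smul] at h1' h2'
    exact Prod.ext (Subtype.ext h1') (Subtype.ext h2')
  · right
    rw [h4] at h1' h2'
    exact ⟨h1', h2'⟩

/-- scalars act trivially -/
theorem psi_scalar (c : Fˣ) (h : ((dgm c c, dgm c c) : GL (Fin 2) F × GL (Fin 2) F) ∈ PP F) : psi F ⟨(dgm c c, dgm c c), h⟩ = 1 := by
  apply az_ext
  intro x
  rw [psi_apply]
  have h1 : ((dgm c c : GL (Fin 2) F) : Matrix (Fin 2) (Fin 2) F) = (c : F) • 1 := by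
    show (!![(c : F), 0; 0, (c : F)] : Matrix (Fin 2) (Fin 2) F) = _
    ext i j; fin_cases i <;> fin_cases j <;> simp
  have h2 : (((dgm c c)⁻¹ : GL (Fin 2) F) : Matrix (Fin 2) (Fin 2) F) = ((c⁻¹ : Fˣ) : F) • 1 := by
    rw [dinv]
    show (!![((c⁻¹ : Fˣ) : F), 0; 0, ((c⁻¹ : Fˣ) : F)] : Matrix (Fin 2) (Fin 2) F) = _
    ext i j; fin_cases i <;> fin_cases j <;> simp
  show pLin (dgm c c) (dgm c c) x = x
  rw [pLin_apply, h1, h2]
  simp only [Matrix.smul_mul, Matrix.mul_smul, Matrix.one_mul, Matrix.mul_one, smul_smul, Units.mul_inv, Units.inv_mul, one_smul]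
  rw [back_hm]

end Cfsg.Agent.H7.G2Syl
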