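import Cfsg.Agent.H7.G2D

set_option autoImplicit false
set_option linter.all false

/-!
Sylow 2-subgroups of `G₂(q)`, `q` odd: the result.
-/

namespace Cfsg.Agent.H7.G2Syl

open Cfsg Cfsg.Lie Matrix Subgroup
open Cfsg.Agent.H7.SylSp
open scoped commutatorElement

variable {F : Type*} [Field F]

set_option maxHeartbeats 400000

theorem two_fib {G H : Type*} [Group G] [Group H] [Finite G] (f : G →* H) (z : G → Prop)
    (hz : ∀ x y, z x → z y → x = y) (hk : ∀ x, f x = 1 → x = 1 ∨ z x) (K : Subgroup G) :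
    Nat.card K ≤ 2 * Nat.card (K.map f) := by
  classical
  have h1 : Nat.card (f.comp K.subtype).ker * Nat.card (f.comp K.subtype).range = Nat.card K := by
    rw [← Subgroup.index_ker, Subgroup.card_mul_index]
  rw [← MonoidHom.map_range, Subgroup.range_subtype] at h1
  rw [← h1]
  apply Nat.mul_le_mul_right
  have h2 : Function.Injective (fun x : (f.comp K.subtype).ker => decide (x.1.1 = 1)) := by
    rintro ⟨⟨x, hx⟩, hx'⟩ ⟨⟨y, hy⟩, hy'⟩ h
    have hx1 : f x = 1 := hx'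
    have hy1 : f y = 1 := hy'
    have h' : decide (x = 1) = decide (y = 1) := h
    apply Subtype.ext
    apply Subtype.ext
    show x = y
    by_cases h3 : x = 1
    · rw [decide_eq_true h3] at h'
      rw [h3, of_decide_eq_true h'.symm]
    · rw [decide_eq_false h3] at h'
      have h4 : ¬ y = 1 := of_decide_eq_false h'.symm
      exact hz x y ((hk x hx1).resolve_left h3) ((hk y hy1).resolve_left h4)
  calc Nat.card (f.comp K.subtype).ker ≤ Nat.card Bool := Nat.card_le_card_of_injective _ h2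
    _ = 2 := by simp

theorem exists_T [Fintype F] (hF : Odd (Fintype.card F)) :
    ∃ T : Subgroup (AutZ F), Nat.card T = 2 ^ (Nat.card (AutZ F)).factorization 2 ∧
      ∀ x ∈ T, x ^ 2 ∈ ⁅T, T⁆ := by
  classical
  haveI : Fact (Nat.Prime 2) := ⟨Nat.prime_two⟩
  haveI : Finite (GL (Fin 2) F) := inferInstance
  haveI : Finite (AutZ F) := by
    haveI : Finite ((Fin 8 → F) ≃ₗ[F] (Fin 8 → F)) :=
      Finite.of_injective (fun e : (Fin 8 → F) ≃ₗ[F] (Fin 8 → F) => (e : (Fin 8 → F) → (Fin 8 → F)))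
        (fun a b h => LinearEquiv.ext (fun x => congrFun h x))
    infer_instance
  obtain ⟨ζ, ⟨s, hs⟩, hns⟩ := exists_zeta hF
  obtain ⟨S, hS⟩ := (M0_pgroup (F := F)).exists_le_sylow
  -- the element d
  have hd : dgm ζ 1 ∈ (S : Subgroup (GL (Fin 2) F)) := hS ⟨ζ, 1, ⟨s, hs⟩, ⟨0, one_pow _⟩, Or.inl rfl⟩
  have hw : adg (1 : Fˣ) (-1) ∈ (S : Subgroup (GL (Fin 2) F)) :=
    hS ⟨1, -1, ⟨0, one_pow _⟩, ⟨1, by rw [pow_one]; exact neg_one_sq⟩, Or.inr rfl⟩
  -- Sylow subgroup of SL2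
  let Q0 : Subgroup (SpecialLinearGroup (Fin 2) F) := (S : Subgroup (GL (Fin 2) F)).comap SpecialLinearGroup.toGL
  have hrange : (GeneralLinearGroup.det : GL (Fin 2) F →* Fˣ).ker = (SpecialLinearGroup.toGL : SpecialLinearGroup (Fin 2) F →* GL (Fin 2) F).range := by
    ext x
    rw [MonoidHom.mem_ker]
    constructor
    · intro hx
      have h1 : Matrix.det (x : Matrix (Fin 2) (Fin 2) F) = 1 := congrArg Units.val hx
      exact ⟨⟨x, h1⟩, Units.ext rfl⟩
    · rintro ⟨y, rfl⟩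
      exact Units.ext y.2
  have hmap : Q0.map SpecialLinearGroup.toGL = (GeneralLinearGroup.det : GL (Fin 2) F →* Fˣ).ker ⊓ (S : Subgroup (GL (Fin 2) F)) := by
    rw [map_comap_eq, hrange]
  have hcQ : Nat.card Q0 = 2 ^ (Nat.card (SpecialLinearGroup (Fin 2) F)).factorization 2 := by
    have h1 := H24.card_inf_sylow (GeneralLinearGroup.det : GL (Fin 2) F →* Fˣ).ker S
    rw [← hmap] at h1
    rw [Nat.card_congr (equivMapOfInjective Q0 _ SpecialLinearGroup.toGL_injective).toEquiv, h1, hrange]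
    rw [← Nat.card_congr (MonoidHom.ofInjective (SpecialLinearGroup.toGL_injective (n := Fin 2) (R := F))).toEquiv]
  have hsqQ : ∀ x ∈ Q0, x ^ 2 ∈ ⁅Q0, Q0⁆ := by
    have h1 := sylow_SL2 hF (Sylow.ofCard Q0 hcQ)
    exact h1
  let K : Subgroup (SpecialLinearGroup (Fin 2) F × SpecialLinearGroup (Fin 2) F) := Q0.prod Q0
  have hsqK : ∀ x ∈ K, x ^ 2 ∈ ⁅K, K⁆ := by
    rintro ⟨x, y⟩ hxy
    have hxy' := Subgroup.mem_prod.1 hxy
    show (x, y) ^ 2 ∈ ⁅Q0.prod Q0, Q0.prod Q0⁆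
    rw [commutator_prod_prod]
    exact Subgroup.mem_prod.2 ⟨hsqQ x hxy'.1, hsqQ y hxy'.2⟩
  let f : SpecialLinearGroup (Fin 2) F × SpecialLinearGroup (Fin 2) F →* AutZ F := (psi F).comp (jj F)
  let A : Subgroup (AutZ F) := K.map f
  have hsqA : ∀ x ∈ A, x ^ 2 ∈ ⁅A, A⁆ := pow_map f hsqK
  have hcK : Nat.card K = 2 ^ (Nat.card (AutZ F)).factorization 2 := by
    show Nat.card (Q0.prod Q0) = _
    rw [Nat.card_congr (Subgroup.prodEquiv Q0 Q0).toEquiv, Nat.card_prod, hcQ, v_SL2 hF, v_AutZ hF, two_mul, pow_add]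
  have hcA : Nat.card K ≤ 2 * Nat.card A := by
    apply two_fib f (fun p => (p.1 : Matrix (Fin 2) (Fin 2) F) = (-1 : F) • 1 ∧ (p.2 : Matrix (Fin 2) (Fin 2) F) = (-1 : F) • 1)
    · rintro x y ⟨hx, hx'⟩ ⟨hy, hy'⟩
      exact Prod.ext (Subtype.ext (by rw [hx, hy])) (Subtype.ext (by rw [hx', hy']))
    · intro x hx
      exact jj_ker hx
  have hPd : ((dgm ζ 1, dgm ζ 1) : GL (Fin 2) F × GL (Fin 2) F) ∈ PP F := rfl
  let D : AutZ F := psi F ⟨(dgm ζ 1, dgm ζ 1), hPd⟩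
  have hDA : D ∉ A := by
    rintro ⟨⟨x, y⟩, -, hxy⟩
    have h1 : psi F (⟨(dgm ζ 1, dgm ζ 1), hPd⟩ * (jj F (x, y))⁻¹) = 1 := by
      rw [map_mul, map_inv]
      have h2 : psi F (jj F (x, y)) = D := hxy
      rw [h2, mul_inv_cancel]
    obtain ⟨c, h2, -⟩ := psi_ker h1
    have h3 : ((dgm ζ 1 : GL (Fin 2) F) : Matrix (Fin 2) (Fin 2) F) * (((SpecialLinearGroup.toGL x)⁻¹ : GL (Fin 2) F) : Matrix (Fin 2) (Fin 2) F) = c • 1 := h2
    have h4 : ((dgm ζ 1 : GL (Fin 2) F) : Matrix (Fin 2) (Fin 2) F) = c • (x : Matrix (Fin 2) (Fin 2) F) := by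
      calc ((dgm ζ 1 : GL (Fin 2) F) : Matrix (Fin 2) (Fin 2) F)
          = ((dgm ζ 1 : GL (Fin 2) F) : Matrix (Fin 2) (Fin 2) F) * ((((SpecialLinearGroup.toGL x)⁻¹ : GL (Fin 2) F) : Matrix (Fin 2) (Fin 2) F) * ((SpecialLinearGroup.toGL x : GL (Fin 2) F) : Matrix (Fin 2) (Fin 2) F)) := by
            rw [← Units.val_mul, inv_mul_cancel, Units.val_one, Matrix.mul_one]
        _ = c • ((SpecialLinearGroup.toGL x : GL (Fin 2) F) : Matrix (Fin 2) (Fin 2) F) := by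
            rw [← Matrix.mul_assoc, h3, Matrix.smul_mul, Matrix.one_mul]
    have h5 : (ζ : F) = c * c := by
      have h6 := congrArg Matrix.det h4
      rw [Matrix.det_smul, x.2, mul_one, Fintype.card_fin, sq] at h6
      rw [← h6]
      show _ = Matrix.det (!![(ζ : F), 0; 0, ((1 : Fˣ) : F)])
      rw [Matrix.det_fin_two_of]
      simp
    have hc0 : c ≠ 0 := by
      rintro rfl
      rw [mul_zero] at h5
      exact ζ.ne_zero h5
    exact hns (Units.mk0 c hc0) (Units.ext h5.symm)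
  let T : Subgroup (AutZ F) := A ⊔ zpowers D
  have hAT : A < T := lt_of_le_of_ne le_sup_left (fun h => hDA (by
    rw [h]
    exact (le_sup_right : zpowers D ≤ T) (mem_zpowers D)))
  -- T is a 2-group
  have hSS : IsPGroup 2 ((S : Subgroup (GL (Fin 2) F)).prod (S : Subgroup (GL (Fin 2) F))) := by
    rintro ⟨⟨x, y⟩, hxy⟩
    have hxy' := Subgroup.mem_prod.1 hxy
    obtain ⟨k, hk⟩ := S.isPGroup' ⟨x, hxy'.1⟩
    obtain ⟨l, hl⟩ := S.isPGroup' ⟨y, hxy'.2⟩
    have hk' : x ^ 2 ^ k = 1 := congrArg Subtype.val hk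
    have hl' : y ^ 2 ^ l = 1 := congrArg Subtype.val hl
    refine ⟨k + l, Subtype.ext (Prod.ext ?_ ?_)⟩
    · show x ^ 2 ^ (k + l) = 1
      rw [pow_add, pow_mul, hk', one_pow]
    · show y ^ 2 ^ (k + l) = 1
      rw [add_comm, pow_add, pow_mul, hl', one_pow]
  have hTle : T ≤ (((S : Subgroup (GL (Fin 2) F)).prod (S : Subgroup (GL (Fin 2) F))).comap (PP F).subtype).map (psi F) := by
    apply sup_le
    · rintro _ ⟨⟨x, y⟩, hxy, rfl⟩
      have hxy' := Subgroup.mem_prod.1 hxy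
      exact ⟨jj F (x, y), Subgroup.mem_prod.2 ⟨hxy'.1, hxy'.2⟩, rfl⟩
    · rw [zpowers_le]
      exact ⟨⟨(dgm ζ 1, dgm ζ 1), hPd⟩, Subgroup.mem_prod.2 ⟨hd, hd⟩, rfl⟩
  have hTp : IsPGroup 2 T := by
    have h1 := (hSS.comap_of_injective (PP F).subtype (PP F).subtype_injective).map (psi F)
    exact h1.to_le hTle
  have hcT : Nat.card T = 2 ^ (Nat.card (AutZ F)).factorization 2 := by
    apply le_antisymm
    · obtain ⟨P, hP⟩ := hTp.exists_le_sylow
      calc Nat.card T ≤ Nat.card P := Nat.card_le_card_of_injective _ (Subgroup.inclusion_injective hP)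
        _ = _ := P.card_eq_multiplicity
    · rw [← hcK]
      refine hcA.trans ?_
      have h1 : Nat.card A * A.relIndex T = Nat.card T := by
        rw [← Subgroup.relIndex_bot_left, ← Subgroup.relIndex_bot_left]
        exact Subgroup.relIndex_mul_relIndex _ _ _ bot_le hAT.le
      have h2 : A.relIndex T ≠ 1 := fun h => hAT.not_ge (Subgroup.relIndex_eq_one.1 h)
      have h3 : A.relIndex T ≠ 0 := by
        intro h
        rw [h, mul_zero] at h1
        exact Nat.card_pos.ne' h1.symm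
      rw [← h1, mul_comm]
      exact Nat.mul_le_mul_left _ (by omega)
  refine ⟨T, hcT, ?_⟩
  -- squares
  have hPw : ((adg (1 : Fˣ) (-1), adg (1 : Fˣ) (-1)) : GL (Fin 2) F × GL (Fin 2) F) ∈ PP F := rfl
  have hW : psi F ⟨(adg (1 : Fˣ) (-1), adg (1 : Fˣ) (-1)), hPw⟩ ∈ A := by
    have hdet : (!![0, ((1 : Fˣ) : F); ((-1 : Fˣ) : F), 0] : Matrix (Fin 2) (Fin 2) F).det = 1 := by
      rw [Matrix.det_fin_two_of]
      simp
    let w : SpecialLinearGroup (Fin 2) F := ⟨!![0, ((1 : Fˣ) : F); ((-1 : Fˣ) : F), 0], hdet⟩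
    have hw1 : SpecialLinearGroup.toGL w = adg (1 : Fˣ) (-1) := Units.ext rfl
    refine ⟨(w, w), Subgroup.mem_prod.2 ⟨?_, ?_⟩, ?_⟩
    · show SpecialLinearGroup.toGL w ∈ (S : Subgroup (GL (Fin 2) F))
      rw [hw1]; exact hw
    · show SpecialLinearGroup.toGL w ∈ (S : Subgroup (GL (Fin 2) F))
      rw [hw1]; exact hw
    · show psi F (jj F (w, w)) = _
      congr 1
      apply Subtype.ext
      exact Prod.ext hw1 hw1
  have hDT : D ∈ T := (le_sup_right : zpowers D ≤ T) (mem_zpowers D)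
  have hWT := hAT.le hW
  have hD2 : D ^ 2 ∈ ⁅T, T⁆ := by
    have hPz : ((dgm ζ ζ, dgm ζ ζ) : GL (Fin 2) F × GL (Fin 2) F) ∈ PP F := rfl
    have h1 : D ^ 2 = ⁅D, psi F ⟨(adg (1 : Fˣ) (-1), adg (1 : Fˣ) (-1)), hPw⟩⁆ := by
      have h2 : (⟨(dgm ζ 1, dgm ζ 1), hPd⟩ : PP F) ^ 2 = ⟨(dgm ζ ζ, dgm ζ ζ), hPz⟩ *
          ⁅(⟨(dgm ζ 1, dgm ζ 1), hPd⟩ : PP F), ⟨(adg (1 : Fˣ) (-1), adg (1 : Fˣ) (-1)), hPw⟩⁆ := by
        have h3 : (dgm ζ 1 : GL (Fin 2) F) ^ 2 = dgm ζ ζ * ⁅dgm ζ 1, adg (1 : Fˣ) (-1)⁆ := by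
          rw [commutatorElement_def, dinv, ainv, da, ad, aa, dd, sq, dd]
          congr 1 <;> simp
        apply Subtype.ext
        exact Prod.ext h3 h3
      have h4 : D ^ 2 = psi F ((⟨(dgm ζ 1, dgm ζ 1), hPd⟩ : PP F) ^ 2) := by rw [map_pow]
      rw [h4, h2, map_mul, psi_scalar, one_mul, map_commutatorElement]
    rw [h1]
    exact commutator_mem_commutator hDT hWT
  have hTcl : T = closure ((A : Set (AutZ F)) ∪ {D}) := by
    rw [Subgroup.closure_union, Subgroup.closure_eq, ← zpowers_eq_closure]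
  intro x hx
  refine (pow_closure (T := T) (S := (A : Set (AutZ F)) ∪ {D}) ?_ x (by rw [← hTcl]; exact hx)).2
  rintro y (hy | hy)
  · exact ⟨hAT.le hy, commutator_mono hAT.le hAT.le (hsqA y hy)⟩
  · rw [Set.mem_singleton_iff] at hy
    subst hy
    exact ⟨hDT, hD2⟩

theorem g2_main [Fintype F] (hF : Odd (Fintype.card F)) (P : Sylow 2 (G2 F)) :
    ∀ x : (P : Subgroup (G2 F)), x ^ 2 ∈ commutator (P : Subgroup (G2 F)) := by
  classical
  haveI : Finite (AutZ F) := by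
    haveI : Finite ((Fin 8 → F) ≃ₗ[F] (Fin 8 → F)) :=
      Finite.of_injective (fun e : (Fin 8 → F) ≃ₗ[F] (Fin 8 → F) => (e : (Fin 8 → F) → (Fin 8 → F)))
        (fun a b h => LinearEquiv.ext (fun x => congrFun h x))
    infer_instance
  obtain ⟨T, hT, hsq⟩ := exists_T hF
  have hr : (g2Equiv F).toMonoidHom.range = ⊤ := MonoidHom.range_eq_top.2 (g2Equiv F).surjective
  refine OrthSyl.transfer_gen (g2Equiv F).toMonoidHom (g2Equiv F).injective ?_ hT ?_ P
  · rw [hr]; infer_instance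
  · rw [hr, top_inf_eq]
    exact hsq

end Cfsg.Agent.H7.G2Syl
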