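import Cfsg.Agent.H11.Defect4
import Cfsg.Agent.H27.EigBasis
import Cfsg.Agent.H27.PMod
import Cfsg.Agent.H27.Kernel
import Cfsg.Agent.H3.Ind
import Cfsg.Agent.H3.Core4

set_option autoImplicit false
set_option linter.style.haveILetI false
set_option linter.unusedSectionVars false

/-! Character values modulo `p` and `p`-regular parts. -/

namespace Cfsg.Agent.H7.ModP

open Subgroup Cfsg Cfsg.Agent.H3 Cfsg.Agent.H27 Cfsg.Agent.H11
open scoped ComplexConjugate

universe u

section frob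

variable {p : ℕ} [hp : Fact p.Prime]

theorem charP_quot' : CharP (AlgInt ⧸ Ideal.span {(p : AlgInt)}) p := by
  apply CharP.quotient
  rw [mem_nonunits_iff]
  intro hu
  obtain ⟨M, hM⟩ := exists_isPModular hp.out
  exact hM.2.1.ne_top (Ideal.eq_top_of_isUnit_mem _ hM.2.2 hu)

theorem sum_pow_congr {ι : Type*} (s : Finset ι) (f : ι → AlgInt) (k : ℕ) :
    ∃ γ : AlgInt, (∑ i ∈ s, f i) ^ (p ^ k) - ∑ i ∈ s, f i ^ (p ^ k) = (p : AlgInt) * γ := by
  haveI := charP_quot' (p := p)
  have h1 : (∑ i ∈ s, Ideal.Quotient.mk (Ideal.span {(p : AlgInt)}) (f i)) ^ (p ^ k)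
      = ∑ i ∈ s, (Ideal.Quotient.mk (Ideal.span {(p : AlgInt)}) (f i)) ^ (p ^ k) :=
    sum_pow_char_pow p k s _
  rw [← map_sum, ← map_pow] at h1
  simp only [← map_pow] at h1
  rw [← map_sum, ← sub_eq_zero, ← map_sub, Ideal.Quotient.eq_zero_iff_mem,
    Ideal.mem_span_singleton] at h1
  exact h1

/-- `χ(g)^{p^k} ≡ χ(g^{p^k})` modulo `p` -/
theorem char_pow_congr {G : Type u} [Group G] [Finite G] {χ : G → ℂ} (hχ : IsCharacter G χ) (g : G)
    (k : ℕ) : ∃ γ : AlgInt, χ g ^ (p ^ k) - χ (g ^ (p ^ k)) = (p : ℂ) * (γ : ℂ) := by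
  obtain ⟨n, ρ, rfl⟩ := hχ
  obtain ⟨μ, hμ, h⟩ := exists_char_powerSum ρ g (orderOf g) (orderOf_pos g).ne'
    (pow_orderOf_eq_one g)
  have hint : ∀ i, IsIntegral ℤ (μ i) := by
    intro i
    refine ⟨Polynomial.X ^ orderOf g - 1, Polynomial.monic_X_pow_sub_C 1 (orderOf_pos g).ne', ?_⟩
    simp [hμ i]
  let f : Fin (Module.finrank ℂ (Fin n → ℂ)) → AlgInt := fun i => ⟨μ i, hint i⟩
  obtain ⟨γ, hγ⟩ := sum_pow_congr (p := p) Finset.univ f k
  refine ⟨γ, ?_⟩
  have h1 := congrArg (fun a : AlgInt => (a : ℂ)) hγ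
  push_cast at h1
  have h2 := h 1
  rw [pow_one] at h2
  rw [h2, h (p ^ k)]
  simpa [f] using h1

end frob

section sep

variable {G : Type u} [Group G] [Fintype G] {p : ℕ} [hp : Fact p.Prime] {M : Ideal AlgInt}

/-- irreducible characters separate `p`-regular classes modulo `M` -/
theorem isConj_of_li (hM : IsPModular p M) {x y : G} (hx : ¬ p ∣ orderOf x)
    (hy : ¬ p ∣ orderOf y)
    (h : ∀ χ : IrrCharacter G, MemLocalIdeal M ((χ : G → ℂ) x - (χ : G → ℂ) y)) : IsConj x y := by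
  classical
  haveI hpr := hM.2.1.isPrime
  haveI := Fintype.ofFinite (IrrCharacter G)
  by_contra hcon
  -- a Sylow `p`-subgroup of the centralizer of `x`
  set C : Subgroup G := centralizer ({x} : Set G) with hC
  obtain ⟨P⟩ : Nonempty (Sylow p C) := inferInstance
  set P0 : Subgroup G := (P : Subgroup C).map C.subtype with hP0
  have hP0C : P0 ≤ C := Subgroup.map_subtype_le _
  have hP0p : IsPGroup p P0 := P.2.map _
  have hcomm : ∀ u ∈ P0, u * x = x * u := fun u hu =>
    mem_centralizer_singleton_iff.1 (hP0C hu)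
  have hcz : ∀ (k : ℤ), ∀ u ∈ P0, x ^ k * u = u * x ^ k := by
    intro k u hu
    have h1 : Commute x u := (hcomm u hu).symm
    exact (h1.zpow_left k).eq
  let E : Subgroup G :=
    { carrier := {g | ∃ u ∈ P0, ∃ k : ℤ, g = u * x ^ k}
      one_mem' := ⟨1, one_mem _, 0, by simp⟩
      mul_mem' := by
        rintro _ _ ⟨u, hu, k, rfl⟩ ⟨v, hv, l, rfl⟩
        refine ⟨u * v, mul_mem hu hv, k + l, ?_⟩
        rw [zpow_add, mul_assoc, ← mul_assoc (x ^ k), hcz k v hv]
        group
      inv_mem' := by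
        rintro _ ⟨u, hu, k, rfl⟩
        refine ⟨u⁻¹, inv_mem hu, -k, ?_⟩
        rw [mul_inv_rev, ← zpow_neg, hcz _ _ (inv_mem hu)] }
  haveI := Fintype.ofFinite E
  have hxE : x ∈ E := ⟨1, one_mem _, 1, by simp⟩
  have hPE0 : P0 ≤ E := fun u hu => ⟨u, hu, 0, by simp⟩
  set PE : Subgroup E := P0.subgroupOf E with hPE
  haveI hPEn : PE.Normal := by
    constructor
    rintro u hu ⟨_, ⟨v, hv, k, rfl⟩⟩
    have h1 : v * x ^ k * u * (v * x ^ k)⁻¹ = v * u * v⁻¹ := by
      rw [mul_assoc v, hcz k u hu]; group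
    show v * x ^ k * u * (v * x ^ k)⁻¹ ∈ P0
    rw [h1]
    exact mul_mem (mul_mem hv hu) (inv_mem hv)
  set c : E ⧸ PE := QuotientGroup.mk ⟨x, hxE⟩ with hc
  have hEx : ∀ g : E, ∃ k : ℤ, (QuotientGroup.mk g : E ⧸ PE) = c ^ k := by
    rintro ⟨_, ⟨u, hu, k, rfl⟩⟩
    refine ⟨k, ?_⟩
    rw [hc, ← QuotientGroup.mk_zpow, QuotientGroup.eq]
    show (u * x ^ k)⁻¹ * (((⟨x, hxE⟩ : E) ^ k : E) : G) ∈ P0
    rw [Subgroup.coe_zpow]
    have h1 : (u * x ^ k)⁻¹ * x ^ k = u⁻¹ := by
      rw [mul_inv_rev, mul_assoc, ← hcz k _ (inv_mem hu)]; group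
    rw [h1]; exact inv_mem hu
  have hQc : ∀ a b : E ⧸ PE, a * b = b * a := by
    intro a b
    obtain ⟨g, rfl⟩ := QuotientGroup.mk_surjective a
    obtain ⟨g', rfl⟩ := QuotientGroup.mk_surjective b
    obtain ⟨k, hk⟩ := hEx g
    obtain ⟨l, hl⟩ := hEx g'
    rw [hk, hl, ← zpow_add, ← zpow_add, add_comm]
  haveI := Fintype.ofFinite (E ⧸ PE)
  haveI := Fintype.ofFinite (IrrCharacter (E ⧸ PE))
  -- a `p`-regular element of the coset of `x` is `x`
  have hreg : ∀ g : E, ¬ p ∣ orderOf (g : G) → (QuotientGroup.mk g : E ⧸ PE) = c → (g : G) = x := by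
    intro g hg hgc
    have h1 : x⁻¹ * (g : G) ∈ P0 := by
      have := QuotientGroup.eq.1 hgc.symm
      exact this
    set u := x⁻¹ * (g : G) with hu
    have hgu : (g : G) = x * u := by rw [hu]; group
    have hxu : Commute x u := (hcomm u h1).symm
    have h2 : u ^ (orderOf x * orderOf (g : G)) = 1 := by
      have h3 : (g : G) ^ (orderOf x * orderOf (g : G)) = 1 := by
        rw [mul_comm, pow_mul, pow_orderOf_eq_one, one_pow]
      rw [hgu, hxu.mul_pow, ← hgu, pow_mul, pow_orderOf_eq_one, one_pow, one_mul] at h3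
      exact h3
    obtain ⟨k, hk⟩ := hP0p ⟨u, h1⟩
    have h3 : u ^ p ^ k = 1 := congrArg Subtype.val hk
    have h4 : orderOf u ∣ p ^ k := orderOf_dvd_of_pow_eq_one h3
    have h5 : orderOf u ∣ orderOf x * orderOf (g : G) := orderOf_dvd_of_pow_eq_one h2
    have h6 : Nat.Coprime (p ^ k) (orderOf x * orderOf (g : G)) :=
      Nat.Coprime.pow_left k (Nat.Coprime.mul_right ((Nat.Prime.coprime_iff_not_dvd hp.out).2 hx)
        ((Nat.Prime.coprime_iff_not_dvd hp.out).2 hg))
    have h7 : orderOf u = 1 :=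
      Nat.Coprime.eq_one_of_dvd (Nat.Coprime.coprime_dvd_left h4 h6) h5
    rw [hgu, orderOf_eq_one_iff.1 h7, mul_one]
  let Θ : E → ℂ := fun g => ∑ β : IrrCharacter (E ⧸ PE),
    conj ((β : E ⧸ PE → ℂ) c) * (β : E ⧸ PE → ℂ) (QuotientGroup.mk g)
  have hΘ : ∀ g : E, Θ g = if (QuotientGroup.mk g : E ⧸ PE) = c then (Nat.card (E ⧸ PE) : ℂ)
      else 0 := by
    intro g
    have h1 : Θ g = ∑ β : IrrCharacter (E ⧸ PE),
      (β : E ⧸ PE → ℂ) (QuotientGroup.mk g) * conj ((β : E ⧸ PE → ℂ) c) :=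
      Finset.sum_congr rfl fun β _ => mul_comm _ _
    rw [h1, column_orth]
    have h2 : Nat.card (centralizer ({(QuotientGroup.mk g : E ⧸ PE)} : Set (E ⧸ PE))) =
        Nat.card (E ⧸ PE) := by
      have : centralizer ({(QuotientGroup.mk g : E ⧸ PE)} : Set (E ⧸ PE)) = ⊤ := by
        rw [eq_top_iff]
        intro y _
        rw [mem_centralizer_singleton_iff]
        exact hQc _ _
      rw [this]; exact Nat.card_congr Subgroup.topEquiv.toEquiv
    rw [h2]
    congr 1
    apply propext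
    constructor
    · intro h3
      obtain ⟨b, hb⟩ := isConj_iff.1 h3
      rw [hQc b, mul_assoc, mul_inv_cancel, mul_one] at hb
      exact hb
    · intro h3; rw [h3]
  -- `Θ` induced
  have hf : ∀ g : G, indFun E Θ g = ∑ β : IrrCharacter (E ⧸ PE),
      conj ((β : E ⧸ PE → ℂ) c) * indFun E (fun g => (β : E ⧸ PE → ℂ) (QuotientGroup.mk g)) g := by
    intro g
    have h1 : Θ = ∑ β : IrrCharacter (E ⧸ PE), conj ((β : E ⧸ PE → ℂ) c) •
        fun g : E => (β : E ⧸ PE → ℂ) (QuotientGroup.mk g) := by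
      funext g
      rw [Finset.sum_apply]; rfl
    rw [h1, indFun_sum, Finset.sum_apply]
    refine Finset.sum_congr rfl fun β _ => ?_
    rw [indFun_smul]; rfl
  have hchar : ∀ β : IrrCharacter (E ⧸ PE),
      IsCharacter G (indFun E (fun g => (β : E ⧸ PE → ℂ) (QuotientGroup.mk g))) := fun β =>
    isChar_ind E (isChar_comp (irr_isChar β.2) (QuotientGroup.mk' PE))
  have hdiff : MemLocalIdeal M (indFun E Θ x - indFun E Θ y) := by
    rw [hf, hf, ← Finset.sum_sub_distrib]
    apply li_sum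
    intro β _
    rw [← mul_sub]
    apply li_mul_left
    · apply lr_int
      have h1 := char_isIntegral (isChar_conj (irr_isChar β.2)) c
      exact h1
    · rw [classFun_expand_apply (char_classFun (hchar β)) x,
        classFun_expand_apply (char_classFun (hchar β)) y, ← Finset.sum_sub_distrib]
      apply li_sum
      intro χ _
      rw [← mul_sub]
      obtain ⟨n, hn⟩ := classInner_char_nat (hchar β) (irr_isChar χ.2)
      rw [hn]
      exact li_mul_left (lr_natCast M n) (h χ)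
  have hfy : indFun E Θ y = 0 := by
    unfold indFun
    rw [Finset.sum_eq_zero, mul_zero]
    intro t _
    by_cases ht : t⁻¹ * y * t ∈ E
    · rw [extendByZero_mem E Θ ht, hΘ, if_neg]
      intro h1
      apply hcon
      have h2 : ¬ p ∣ orderOf (t⁻¹ * y * t) := by
        have : orderOf (t⁻¹ * y * t) = orderOf y := by
          have := (MulAut.conj t⁻¹).orderOf_eq y
          simpa [MulAut.conj_apply] using this
        rwa [this]
      have h3 := hreg ⟨_, ht⟩ h2 h1
      have h3 : t⁻¹ * y * t = x := h3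
      rw [← h3]
      exact (isConj_iff.2 ⟨t⁻¹, by group⟩ : IsConj y (t⁻¹ * y * t)).symm
    · exact extendByZero_not_mem E Θ ht
  have hfx : indFun E Θ x = ((Nat.card C / Nat.card P0 : ℕ) : ℂ) := by
    unfold indFun
    have h1 : ∀ t : G, extendByZero E Θ (t⁻¹ * x * t) =
        if t ∈ C then (Nat.card (E ⧸ PE) : ℂ) else 0 := by
      intro t
      by_cases htC : t ∈ C
      · have h2 : t⁻¹ * x * t = x := by
          have := mem_centralizer_singleton_iff.1 htC
          rw [mul_assoc, ← this]; group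
        rw [h2, if_pos htC, extendByZero_mem E Θ hxE, hΘ, if_pos rfl]
      · rw [if_neg htC]
        by_cases ht : t⁻¹ * x * t ∈ E
        · rw [extendByZero_mem E Θ ht, hΘ, if_neg]
          intro h1
          apply htC
          have h2 : ¬ p ∣ orderOf (t⁻¹ * x * t) := by
            have : orderOf (t⁻¹ * x * t) = orderOf x := by
              have := (MulAut.conj t⁻¹).orderOf_eq x
              simpa [MulAut.conj_apply] using this
            rwa [this]
          have h3 : t⁻¹ * x * t = x := hreg ⟨_, ht⟩ h2 h1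
          rw [hC, mem_centralizer_singleton_iff]
          calc t * x = t * (t⁻¹ * x * t) := by rw [h3]
            _ = x * t := by group
        · exact extendByZero_not_mem E Θ ht
    rw [Finset.sum_congr rfl fun t _ => h1 t, Finset.sum_ite, Finset.sum_const_zero, add_zero,
      Finset.sum_const, nsmul_eq_mul]
    have h2 : (Finset.univ.filter fun t => t ∈ C).card = Nat.card C := by
      rw [Nat.card_eq_fintype_card, Fintype.card_subtype]
    rw [h2]
    have h3 : Nat.card E = Nat.card (E ⧸ PE) * Nat.card P0 := by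
      rw [Subgroup.card_eq_card_quotient_mul_card_subgroup PE,
        Nat.card_congr (subgroupOfEquivOfLe hPE0).toEquiv]
    have h4 : Nat.card P0 ∣ Nat.card C := Subgroup.card_dvd_of_le hP0C
    have h5 : (Nat.card P0 : ℂ) ≠ 0 := by exact_mod_cast Nat.card_pos.ne'
    have h6 : (Nat.card (E ⧸ PE) : ℂ) ≠ 0 := by exact_mod_cast Nat.card_pos.ne'
    rw [h3, Nat.cast_div h4 h5]
    push_cast
    field_simp
  rw [hfx, hfy, sub_zero, li_natCast_iff hM] at hdiff
  -- but the index of the Sylow subgroup is prime to `p`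
  have h1 : Nat.card C / Nat.card P0 = (P : Subgroup C).index := by
    have h2 : Nat.card P0 = Nat.card (P : Subgroup C) :=
      (Nat.card_congr ((P : Subgroup C).equivMapOfInjective C.subtype
        C.subtype_injective).toEquiv).symm
    rw [h2, ← (P : Subgroup C).index_mul_card, Nat.mul_div_cancel _ Nat.card_pos]
  rw [h1] at hdiff
  exact P.not_dvd_index hdiff

end sep

/-- **the theorem** -/
theorem main {G : Type u} [Group G] [Finite G] (p : ℕ) [hp : Fact p.Prime] (x y x' y' : G)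
    (hx : (∃ k : ℕ, orderOf (x * x'⁻¹) = p ^ k) ∧ Commute (x * x'⁻¹) x' ∧ ¬ p ∣ orderOf x')
    (hy : (∃ k : ℕ, orderOf (y * y'⁻¹) = p ^ k) ∧ Commute (y * y'⁻¹) y' ∧ ¬ p ∣ orderOf y') :
    IsConj x' y' ↔ ∀ χ : IrrCharacter G, ∃ γ : AlgInt,
      (χ : G → ℂ) x ^ (p ^ (Nat.card G).factorization p) -
        (χ : G → ℂ) y ^ (p ^ (Nat.card G).factorization p) = (p : ℂ) * (γ : ℂ) := by
  classical
  haveI := Fintype.ofFinite G
  set a := (Nat.card G).factorization p with ha
  have hpow : ∀ z z' : G, (∃ k : ℕ, orderOf (z * z'⁻¹) = p ^ k) → Commute (z * z'⁻¹) z' →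
      z ^ p ^ a = z' ^ p ^ a := by
    rintro z z' ⟨k, hk⟩ hc
    have h1 : z = z * z'⁻¹ * z' := by group
    have h2 : p ^ k ∣ Nat.card G := by rw [← hk]; exact orderOf_dvd_natCard _
    have h3 : k ≤ a := (hp.out.pow_dvd_iff_le_factorization Nat.card_pos.ne').1 h2
    have h4 : (z * z'⁻¹) ^ p ^ a = 1 := by
      apply orderOf_dvd_iff_pow_eq_one.1
      rw [hk]; exact pow_dvd_pow p h3
    conv_lhs => rw [h1]
    rw [hc.mul_pow, h4, one_mul]
  have hxp := hpow x x' hx.1 hx.2.1
  have hyp := hpow y y' hy.1 hy.2.1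
  constructor
  · intro hconj χ
    obtain ⟨γ, hγ⟩ := char_pow_congr (p := p) (irr_isChar χ.2) x a
    obtain ⟨δ, hδ⟩ := char_pow_congr (p := p) (irr_isChar χ.2) y a
    refine ⟨γ - δ, ?_⟩
    have h1 : (χ : G → ℂ) (x ^ p ^ a) = (χ : G → ℂ) (y ^ p ^ a) := by
      rw [hxp, hyp]
      apply classFun_isConj (irr_classFun χ.2)
      exact hconj.pow _
    push_cast
    rw [mul_sub, ← hγ, ← hδ, h1]; ring
  · intro h
    obtain ⟨M, hM⟩ := exists_isPModular hp.out
    haveI hpr := hM.2.1.isPrime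
    apply isConj_of_li hM hx.2.2 hy.2.2
    intro χ
    obtain ⟨γ, hγ⟩ := h χ
    have h1 : MemLocalIdeal M ((χ : G → ℂ) x - (χ : G → ℂ) y) := by
      apply li_sub_of_pow hM (lr_isChar hpr (irr_isChar χ.2) _) (lr_isChar hpr (irr_isChar χ.2) _)
        (k := a)
      rw [hγ]
      exact li_mul_right ((li_natCast_iff hM p).2 dvd_rfl) (lr_coe γ)
    have h2 : MemLocalIdeal M ((χ : G → ℂ) x - (χ : G → ℂ) x') := by
      have := li_char_mul_sub hM (irr_isChar χ.2) hx.2.1 hx.1
      rwa [inv_mul_cancel_right] at this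
    have h3 : MemLocalIdeal M ((χ : G → ℂ) y - (χ : G → ℂ) y') := by
      have := li_char_mul_sub hM (irr_isChar χ.2) hy.2.1 hy.1
      rwa [inv_mul_cancel_right] at this
    exact li_sub_trans (li_sub_comm.1 h2) (li_sub_trans h1 h3)

end Cfsg.Agent.H7.ModP
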