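import Cfsg.Agent.H24.ClassSize
import Cfsg.Agent.H25.ClassSize

set_option autoImplicit false
set_option linter.all false

/-!
Classes of size prime to `p` in a group with abelian Sylow subgroup and normal `p`-complement.
-/

namespace Cfsg.Agent.H7.OneDeg

open Subgroup

set_option maxHeartbeats 400000

universe u

variable {G : Type u} [Group G] [Finite G] {p : ℕ} [hp : Fact p.Prime] {N : Subgroup G}

theorem carrier_card (x : G) : Nat.card (ConjClasses.mk x).carrier = (centralizer ({x} : Set G)).index := by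
  rw [← H25.card_conj_eq_index]
  exact Nat.card_congr (Equiv.subtypeEquivRight (fun y => by
    rw [ConjClasses.mem_carrier_iff_mk_eq, ConjClasses.mk_eq_mk_iff_isConj]
    exact isConj_comm))

theorem card_classes (P : Sylow p G) (hP : ∀ a ∈ (P : Subgroup G), ∀ b ∈ (P : Subgroup G), a * b = b * a)
    (hN : N.Normal) (hinf : ∀ x ∈ N, x ∈ (P : Subgroup G) → x = 1)
    (hsup : ∀ g : G, ∃ n ∈ N, ∃ y ∈ (P : Subgroup G), g = n * y) :
    Nat.card {C : ConjClasses G // ¬ p ∣ Nat.card C.carrier} =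
      Nat.card (ConjClasses (N ⊓ centralizer ((P : Subgroup G) : Set G) : Subgroup G)) * Nat.card (P : Subgroup G) := by
  classical
  set D : Subgroup G := N ⊓ centralizer ((P : Subgroup G) : Set G) with hD
  have hDc : ∀ d ∈ D, ∀ y ∈ (P : Subgroup G), d * y = y * d := fun d hd y hy => (mem_centralizer_iff.1 hd.2 y hy).symm
  have hrep : ∀ c : ConjClasses D, ∃ d : D, ConjClasses.mk d = c := fun c => ConjClasses.exists_rep c
  choose r hr using hrep
  have hland : ∀ (c : ConjClasses D) (y : (P : Subgroup G)), ¬ p ∣ Nat.card (ConjClasses.mk ((r c : G) * y)).carrier := by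
    intro c y
    rw [carrier_card]
    apply H24.not_dvd_index_of_sylow_centralizes _ P
    rw [mem_centralizer_iff]
    intro z hz
    calc z * ((r c : G) * y) = z * (r c : G) * y := by group
      _ = (r c : G) * z * y := by rw [hDc _ (r c).2 z hz]
      _ = (r c : G) * (z * y) := by group
      _ = (r c : G) * (y * z) := by rw [hP z hz y y.2]
      _ = _ := by group
  let Φ : ConjClasses D × (P : Subgroup G) → {C : ConjClasses G // ¬ p ∣ Nat.card C.carrier} :=
    fun q => ⟨ConjClasses.mk ((r q.1 : G) * q.2), hland q.1 q.2⟩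
  have hinj : Function.Injective Φ := by
    rintro ⟨c, y⟩ ⟨c', y'⟩ h
    have h1 : ConjClasses.mk ((r c : G) * y) = ConjClasses.mk ((r c' : G) * y') := congrArg Subtype.val h
    rw [ConjClasses.mk_eq_mk_iff_isConj, isConj_iff] at h1
    obtain ⟨g, hg⟩ := h1
    have hxc : ∀ (c : ConjClasses D) (y : (P : Subgroup G)), (r c : G) * y ∈ centralizer ((P : Subgroup G) : Set G) := by
      intro c y
      rw [mem_centralizer_iff]
      intro z hz
      calc z * ((r c : G) * y) = z * (r c : G) * y := by group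
        _ = (r c : G) * z * y := by rw [hDc _ (r c).2 z hz]
        _ = (r c : G) * (z * y) := by group
        _ = (r c : G) * (y * z) := by rw [hP z hz y y.2]
        _ = _ := by group
    obtain ⟨m, hm, hm2⟩ := Sylow.conj_eq_normalizer_conj_of_mem_centralizer P ((r c : G) * y) g⁻¹ (hxc c y) (by
      rw [inv_inv, hg]
      exact hxc c' y')
    rw [inv_inv, hg] at hm2
    -- m normalizes P, write its inverse
    obtain ⟨n, hn, z, hz, hnz⟩ := hsup m⁻¹
    have hm' : m⁻¹ ∈ normalizer ((P : Subgroup G) : Set G) := inv_mem hm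
    have hnN : n ∈ D := by
      refine mem_inf.2 ⟨hn, mem_centralizer_iff.2 ?_⟩
      intro w hw
      have h2 : n ∈ normalizer ((P : Subgroup G) : Set G) := by
        have h3 : n = m⁻¹ * z⁻¹ := by rw [hnz]; group
        rw [h3]
        exact mul_mem hm' (le_normalizer (inv_mem hz))
      have h4 : n * w * n⁻¹ ∈ (P : Subgroup G) := (mem_normalizer_iff.1 h2 w).1 hw
      have h5 : n * w * n⁻¹ * w⁻¹ = 1 := by
        apply hinf
        · have h6 : w * n⁻¹ * w⁻¹ ∈ N := hN.conj_mem _ (inv_mem hn) w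
          have h7 : n * w * n⁻¹ * w⁻¹ = n * (w * n⁻¹ * w⁻¹) := by group
          rw [h7]
          exact mul_mem hn h6
        · exact mul_mem h4 (inv_mem hw)
      have h6 : n * w * n⁻¹ = w := mul_inv_eq_one.1 h5
      calc w * n = n * w * n⁻¹ * n := by rw [h6]
        _ = n * w := by group
    have hm3 : (r c' : G) * y' = n * (r c : G) * n⁻¹ * y := by
      have h2 : m = z⁻¹ * n⁻¹ := by
        rw [← inv_inv m, hnz, mul_inv_rev]
      rw [hm2, h2]
      calc (z⁻¹ * n⁻¹)⁻¹ * ((r c : G) * y) * (z⁻¹ * n⁻¹) = n * (z * (r c : G)) * y * z⁻¹ * n⁻¹ := by group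
        _ = n * ((r c : G) * z) * y * z⁻¹ * n⁻¹ := by rw [hDc _ (r c).2 z hz]
        _ = n * (r c : G) * (z * y) * z⁻¹ * n⁻¹ := by group
        _ = n * (r c : G) * (y * z) * z⁻¹ * n⁻¹ := by rw [hP z hz y y.2]
        _ = n * (r c : G) * (y * n⁻¹) := by group
        _ = n * (r c : G) * (n⁻¹ * y) := by rw [← hDc _ (inv_mem hnN) y y.2]
        _ = _ := by group
    have hconj : n * (r c : G) * n⁻¹ ∈ D := mul_mem (mul_mem hnN (r c).2) (inv_mem hnN)
    have hyy : (y : G) = y' := by
      have h2 : (y : G) * (y' : G)⁻¹ = (n * (r c : G) * n⁻¹)⁻¹ * (r c' : G) := by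
        have h3 : (r c' : G) = n * (r c : G) * n⁻¹ * y * (y' : G)⁻¹ := by rw [← hm3]; group
        rw [h3]; group
      have h4 : (y : G) * (y' : G)⁻¹ = 1 := by
        apply hinf
        · rw [h2]
          exact mul_mem (inv_mem hconj.1) (r c').2.1
        · exact mul_mem y.2 (inv_mem y'.2)
      exact mul_inv_eq_one.1 h4
    have hcc : c = c' := by
      rw [← hr c, ← hr c', ConjClasses.mk_eq_mk_iff_isConj, isConj_iff]
      refine ⟨⟨n, hnN⟩, Subtype.ext ?_⟩
      show n * (r c : G) * n⁻¹ = r c'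
      rw [hyy] at hm3
      exact (mul_right_cancel hm3).symm
    exact Prod.ext hcc (Subtype.ext hyy)
  have hsurj : Function.Surjective Φ := by
    rintro ⟨C, hC⟩
    obtain ⟨x, rfl⟩ := ConjClasses.exists_rep C
    rw [carrier_card] at hC
    obtain ⟨Q, hQ⟩ := H24.exists_sylow_centralizes_of_not_dvd x hC
    obtain ⟨g, hg⟩ := MulAction.exists_smul_eq G Q P
    have hx' : ∀ z ∈ (P : Subgroup G), z * (g * x * g⁻¹) = (g * x * g⁻¹) * z := by
      intro z hz
      rw [← hg] at hz
      have hz' : g⁻¹ * z * g ∈ (Q : Subgroup G) := by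
        rw [Sylow.coe_subgroup_smul, Subgroup.mem_pointwise_smul_iff_inv_smul_mem] at hz
        simpa [MulAut.smul_def, MulAut.conj_apply, mul_assoc] using hz
      have h2 := mem_centralizer_iff.1 hQ _ hz'
      calc z * (g * x * g⁻¹) = g * ((g⁻¹ * z * g) * x) * g⁻¹ := by group
        _ = g * (x * (g⁻¹ * z * g)) * g⁻¹ := by rw [h2]
        _ = _ := by group
    obtain ⟨n, hn, y, hy, hny⟩ := hsup (g * x * g⁻¹)
    have hnD : n ∈ D := by
      refine mem_inf.2 ⟨hn, mem_centralizer_iff.2 ?_⟩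
      intro z hz
      have h2 : n = (g * x * g⁻¹) * y⁻¹ := by rw [hny]; group
      rw [h2]
      calc z * ((g * x * g⁻¹) * y⁻¹) = (z * (g * x * g⁻¹)) * y⁻¹ := by group
        _ = (g * x * g⁻¹) * z * y⁻¹ := by rw [hx' z hz]
        _ = (g * x * g⁻¹) * (z * y⁻¹) := by group
        _ = (g * x * g⁻¹) * (y⁻¹ * z) := by rw [hP z hz _ (inv_mem hy)]
        _ = _ := by group
    have h3 := hr (ConjClasses.mk ⟨n, hnD⟩)
    rw [ConjClasses.mk_eq_mk_iff_isConj] at h3
    obtain ⟨d, hd⟩ := isConj_iff.1 h3.symm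
    have hd' : (d : G) * n * (d : G)⁻¹ = r (ConjClasses.mk ⟨n, hnD⟩) := congrArg Subtype.val hd
    refine ⟨(ConjClasses.mk ⟨n, hnD⟩, ⟨y, hy⟩), Subtype.ext ?_⟩
    show ConjClasses.mk ((r (ConjClasses.mk ⟨n, hnD⟩) : G) * y) = ConjClasses.mk x
    rw [ConjClasses.mk_eq_mk_iff_isConj]
    apply IsConj.symm
    rw [isConj_iff]
    refine ⟨(d : G) * g, ?_⟩
    calc (d : G) * g * x * ((d : G) * g)⁻¹ = d * (g * x * g⁻¹) * (d : G)⁻¹ := by group
      _ = d * (n * y) * (d : G)⁻¹ := by rw [hny]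
      _ = d * n * (y * (d : G)⁻¹) := by group
      _ = d * n * ((d : G)⁻¹ * y) := by rw [← hDc _ (inv_mem d.2) y hy]
      _ = (d * n * (d : G)⁻¹) * y := by group
      _ = _ := by rw [hd']
  rw [← Nat.card_prod]
  exact (Nat.card_congr (Equiv.ofBijective Φ ⟨hinj, hsurj⟩)).symm

end Cfsg.Agent.H7.OneDeg
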