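import Cfsg.Agent.H7.OneDeg
import Cfsg.Agent.H3.Gallagher2
import Cfsg.Agent.H3.DegRatio
import Cfsg.Agent.H3.Core4
import Cfsg.Agent.H11.PF2
import Cfsg.Agent.H27.Kernel
import Cfsg.Agent.H27.GlSol2

set_option autoImplicit false
set_option linter.all false

/-!
Characters of degree prime to `p` in a group with abelian Sylow subgroup and normal `p`-complement.
-/

namespace Cfsg.Agent.H7.OneDeg

open Subgroup Cfsg Cfsg.Agent.H3

set_option maxHeartbeats 400000

universe u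

variable {G : Type u} [Group G] {p : ℕ} [hp : Fact p.Prime] {N : Subgroup G}

omit hp in
theorem char_zero_of_one [Fintype G] {θ : G → ℂ} (hθ : IsCharacter G θ) (h1 : θ 1 = 0) : θ = 0 := by
  by_contra h
  obtain ⟨ψ, hψ⟩ := exists_constituent hθ h
  obtain ⟨d, hd0, hd⟩ := irr_one_eq_nat ψ.2
  have h3 := char_degree_le_of_inner_ne_zero hθ ψ.2 hψ (m := 0) (n := d) (by rw [h1, Nat.cast_zero]) hd
  omega

theorem restr_irr [Fintype G] [Fintype N] (hN : N.Normal) (hidx : ∃ k, N.index = p ^ k) {χ : G → ℂ}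
    (hχ : IsIrrCharacter G χ) {c : ℕ} (hc : χ 1 = c) (hpc : ¬ p ∣ c) :
    IsIrrCharacter N (fun n : N => χ n) := by
  have h0 : (fun n : N => χ n) ≠ 0 := fun h => irr_one_ne_zero hχ (congrFun h 1)
  obtain ⟨θ, hθ⟩ := exists_constituent (isChar_restrict N (irr_isChar hχ)) h0
  obtain ⟨d, hd0, hd⟩ := irr_one_eq_nat θ.2
  obtain ⟨h1, h2⟩ := ratio_dvd_index hN hχ θ.2 hθ c d hc hd
  obtain ⟨k, hk⟩ := hidx
  rw [hk] at h2
  obtain ⟨j, -, hj⟩ := (Nat.dvd_prime_pow hp.out).1 h2
  have hcd : c = d := by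
    rcases Nat.eq_zero_or_pos j with h3 | h3
    · rw [h3, pow_zero] at hj
      have := Nat.div_mul_cancel h1
      rw [hj, one_mul] at this
      exact this.symm
    · exfalso
      apply hpc
      have h4 : p ∣ c / d := by
        rw [hj]
        exact dvd_pow_self p (by omega)
      exact h4.trans (Nat.div_dvd_of_dvd h1)
  have hsub := isChar_sub_irr (isChar_restrict N (irr_isChar hχ)) θ.2 hθ
  have hzero := char_zero_of_one hsub (by
    rw [Pi.sub_apply, hd, ← hcd]
    show χ ((1 : N) : G) - (c : ℂ) = 0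
    rw [coe_one, hc, sub_self])
  rw [sub_eq_zero] at hzero
  rw [hzero]
  exact θ.2

omit hp in
theorem quot_comm [hN : N.Normal] (hab : ∀ a b : G, a * b * a⁻¹ * b⁻¹ ∈ N) : IsMulCommutative (G ⧸ N) := by
  refine ⟨⟨fun a b => ?_⟩⟩
  induction a using QuotientGroup.induction_on with
  | H a =>
    induction b using QuotientGroup.induction_on with
    | H b =>
      change ((a * b : G) : G ⧸ N) = ((b * a : G) : G ⧸ N)
      rw [eq_comm, QuotientGroup.eq]
      have h1 := hab a⁻¹ b⁻¹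
      have h2 := hN.conj_mem _ h1 (1 : G)
      have h3 : (b * a)⁻¹ * (a * b) = a⁻¹ * b⁻¹ * a⁻¹⁻¹ * b⁻¹⁻¹ := by group
      rw [h3]
      exact h1

/-- the number of characters of degree prime to `p` -/
theorem card_chars [Fintype G] [Fintype N] [hN : N.Normal] (hidx : ∃ k, N.index = p ^ k)
    (hcop : (Nat.card N).Coprime p) (hab : ∀ a b : G, a * b * a⁻¹ * b⁻¹ ∈ N) :
    Nat.card {χ : IrrCharacter G // ¬ p ∣ charDegree (χ : G → ℂ)} =
      Nat.card {θ : IrrCharacter N // ∀ g : G, cj hN g (θ : N → ℂ) = θ} * N.index := by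
  classical
  haveI := quot_comm hab
  have hcop' : (Nat.card N).Coprime N.index := by
    obtain ⟨k, hk⟩ := hidx
    rw [hk]
    exact Nat.Coprime.pow_right k hcop
  have hext : ∀ θ : {θ : IrrCharacter N // ∀ g : G, cj hN g (θ : N → ℂ) = θ},
      ∃ χ : G → ℂ, IsIrrCharacter G χ ∧ ∀ n : N, χ n = (θ.1 : N → ℂ) n := fun θ =>
    H11.PF.coprime_ext hN θ.1.2 θ.2 hcop'
  choose E hE hEN using hext
  have hENirr : ∀ θ, IsIrrCharacter N (fun n : N => E θ n) := fun θ => by
    have : (fun n : N => E θ n) = (θ.1 : N → ℂ) := funext (hEN θ)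
    rw [this]; exact θ.1.2
  let B := {β : IrrCharacter G // ∀ n ∈ N, β.1 n = β.1 1}
  have hB1 : ∀ β : B, β.1.1 1 = 1 := by
    intro β
    obtain ⟨ψ, hψ⟩ := (H27.irrQuotEquiv N).surjective β
    rw [← hψ, H27.irrQuotEquiv_apply]
    exact irr_degree_one_of_comm ψ.2
  have hBcard : Nat.card B = N.index := by
    rw [← Nat.card_congr (H27.irrQuotEquiv N), card_irr_eq]
    rw [Subgroup.index_eq_card]
    refine (Nat.card_congr (Equiv.ofBijective (ConjClasses.mk : G ⧸ N → ConjClasses (G ⧸ N)) ⟨?_, ConjClasses.mk_surjective⟩)).symm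
    intro a b h
    rw [ConjClasses.mk_eq_mk_iff_isConj, isConj_iff] at h
    obtain ⟨c, hc⟩ := h
    rw [mul_comm' c a, mul_inv_cancel_right] at hc
    exact hc
  have hBN : ∀ (β : B) (n : N), β.1.1 n = β.1.1 1 := fun β n => β.2 n n.2
  have hgal := fun θ => gallagher_one hN (hE θ) (hENirr θ)
  have hEone : ∀ θ, ¬ p ∣ charDegree (E θ) := by
    intro θ
    have h1 : (charDegree (E θ) : ℂ) = (charDegree (θ.1 : N → ℂ) : ℂ) := by
      rw [H27.charDegree_cast (irr_isChar (hE θ)), H27.charDegree_cast (irr_isChar θ.1.2), ← hEN θ 1]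
      rfl
    have h2 : charDegree (E θ) = charDegree (θ.1 : N → ℂ) := by exact_mod_cast h1
    rw [h2]
    have h3 := H27.charDegree_dvd_card θ.1.2
    intro h4
    have h5 : p ∣ Nat.card N := h4.trans h3
    have h6 := Nat.Coprime.eq_one_of_dvd hcop.symm h5
    exact hp.out.one_lt.ne' h6
  let Φ : {θ : IrrCharacter N // ∀ g : G, cj hN g (θ : N → ℂ) = θ} × B → {χ : IrrCharacter G // ¬ p ∣ charDegree (χ : G → ℂ)} :=
    fun q => ⟨⟨q.2.1.1 * E q.1, (hgal q.1).2.1 q.2.1.1 q.2.1.2 (hBN q.2)⟩, by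
      have h1 : (charDegree (q.2.1.1 * E q.1) : ℂ) = (charDegree (E q.1) : ℂ) := by
        rw [H27.charDegree_cast (irr_isChar ((hgal q.1).2.1 q.2.1.1 q.2.1.2 (hBN q.2))),
          H27.charDegree_cast (irr_isChar (hE q.1)), Pi.mul_apply, hB1, one_mul]
      have h2 : charDegree (q.2.1.1 * E q.1) = charDegree (E q.1) := by exact_mod_cast h1
      show ¬ p ∣ charDegree (q.2.1.1 * E q.1)
      rw [h2]
      exact hEone q.1⟩
  have hinj : Function.Injective Φ := by
    rintro ⟨θ, β⟩ ⟨θ', β'⟩ h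
    have h1 : β.1.1 * E θ = β'.1.1 * E θ' := congrArg (fun x => x.1.1) h
    have hθ : θ = θ' := by
      apply Subtype.ext
      apply Subtype.ext
      funext n
      have h2 := congrFun h1 (n : G)
      rw [Pi.mul_apply, Pi.mul_apply, hBN, hBN, hB1, hB1, one_mul, one_mul, hEN, hEN] at h2
      exact h2
    subst hθ
    have hβ : β = β' := by
      rcases (hgal θ).1 β.1.1 β'.1.1 β.1.2 β'.1.2 (hBN β) (hBN β') with h2 | h2
      · exact Subtype.ext (Subtype.ext h2)
      · exfalso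
        rw [← h1] at h2
        have h3 := (hgal θ).2.1 β.1.1 β.1.2 (hBN β)
        rw [classInner_self_of_irr h3] at h2
        exact one_ne_zero h2
    rw [hβ]
  have hsurj : Function.Surjective Φ := by
    rintro ⟨ψ, hψ⟩
    have hc := (H27.charDegree_cast (irr_isChar ψ.2)).symm
    have hirr := restr_irr hN hidx ψ.2 hc hψ
    have hinv : ∀ g : G, cj hN g (fun n : N => ψ.1 n) = (fun n : N => ψ.1 n) := by
      intro g
      funext n
      show ψ.1 (g * n * g⁻¹) = ψ.1 n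
      exact irr_classFun ψ.2 _ _
    let θ : {θ : IrrCharacter N // ∀ g : G, cj hN g (θ : N → ℂ) = θ} := ⟨⟨_, hirr⟩, hinv⟩
    have h1 : (fun n : N => E θ n) = (fun n : N => ψ.1 n) := funext (hEN θ)
    obtain ⟨β, hβ, hβN, hβψ⟩ := (hgal θ).2.2.1 ψ.1 ψ.2 (by
      rw [h1, classInner_self_of_irr hirr]
      exact one_ne_zero)
    refine ⟨(θ, ⟨⟨β, hβ⟩, fun n hn => hβN ⟨n, hn⟩⟩), ?_⟩
    apply Subtype.ext
    apply Subtype.ext
    exact hβψ.symm
  rw [← hBcard, ← Nat.card_prod]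
  exact (Nat.card_congr (Equiv.ofBijective Φ ⟨hinj, hsurj⟩)).symm

end Cfsg.Agent.H7.OneDeg
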