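import Cfsg.Agent.H7.OneDeg2

set_option autoImplicit false
set_option linter.all false

/-!
Exactly one character of degree divisible by `p`.
-/

namespace Cfsg.Agent.H7.OneDeg

open Subgroup Cfsg Cfsg.Agent.H3

set_option maxHeartbeats 400000

universe u

variable {G : Type u} [Group G] {p : ℕ} [hp : Fact p.Prime] {N : Subgroup G}

theorem quot_ab [Fintype G] [Fintype N] [hN : N.Normal] (hidx : ∃ k, N.index = p ^ k) (hnil : ¬ Group.IsNilpotent G)
    (hone : Nat.card {χ : IrrCharacter G // p ∣ charDegree (χ : G → ℂ)} = 1) :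
    ∀ a b : G, a * b * a⁻¹ * b⁻¹ ∈ N := by
  classical
  by_contra hcon
  have huniq : ∀ χ ψ : IrrCharacter G, p ∣ charDegree (χ : G → ℂ) → p ∣ charDegree (ψ : G → ℂ) → χ = ψ := by
    intro χ ψ h1 h2
    haveI := (Nat.card_eq_one_iff_unique.1 hone).1
    exact congrArg Subtype.val (Subsingleton.elim (⟨χ, h1⟩ : {χ : IrrCharacter G // p ∣ charDegree (χ : G → ℂ)}) ⟨ψ, h2⟩)
  -- a nonlinear character of the quotient
  have h1 : ¬ ∀ a b : G ⧸ N, a * b = b * a := by
    intro h
    apply hcon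
    intro a b
    have h2 : ((a * b : G) : G ⧸ N) = ((b * a : G) : G ⧸ N) := h (a : G ⧸ N) (b : G ⧸ N)
    rw [eq_comm, QuotientGroup.eq] at h2
    have h3 := hN.conj_mem _ h2 (b * a)
    have h4 : b * a * ((b * a)⁻¹ * (a * b)) * (b * a)⁻¹ = a * b * a⁻¹ * b⁻¹ := by group
    rwa [h4] at h3
  rw [comm_iff_all_linear] at h1
  push Not at h1
  obtain ⟨ψ, hψ⟩ := h1
  obtain ⟨k, hk⟩ := hidx
  have hψd : p ∣ charDegree (ψ : G ⧸ N → ℂ) := by
    have h2 := H27.charDegree_dvd_card ψ.2
    rw [← Subgroup.index_eq_card, hk] at h2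
    obtain ⟨j, -, hj⟩ := (Nat.dvd_prime_pow hp.out).1 h2
    rcases Nat.eq_zero_or_pos j with h3 | h3
    · exfalso
      apply hψ
      rw [← H27.charDegree_cast (irr_isChar ψ.2), hj, h3, pow_zero, Nat.cast_one]
    · rw [hj]
      exact dvd_pow_self p (by omega)
  let β := H27.irrQuotEquiv N ψ
  have hβ1 : β.1.1 1 = ψ.1 1 := by
    show (H27.irrQuotEquiv N ψ).1.1 1 = _
    rw [H27.irrQuotEquiv_apply]; rfl
  have hβd : charDegree β.1.1 = charDegree ψ.1 := by
    have h2 : (charDegree β.1.1 : ℂ) = (charDegree ψ.1 : ℂ) := by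
      rw [H27.charDegree_cast (irr_isChar β.1.2), H27.charDegree_cast (irr_isChar ψ.2), hβ1]
    exact_mod_cast h2
  have hβN : ∀ n : N, β.1.1 n = β.1.1 1 := fun n => β.2 n n.2
  have hβ0 : β.1.1 1 ≠ 0 := irr_one_ne_zero β.1.2
  -- a nontrivial element of N
  have hNne : ∃ x : N, x ≠ 1 := by
    by_contra h
    push Not at h
    have h2 : N = ⊥ := by
      rw [eq_bot_iff]
      intro x hx
      exact congrArg Subtype.val (h ⟨x, hx⟩)
    apply hnil
    have h3 : Nat.card G = p ^ k := by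
      rw [← hk, h2, Subgroup.index_bot]
    exact (IsPGroup.of_card h3).isNilpotent
  obtain ⟨x, hx⟩ := hNne
  have h2 : ¬ IsConj x 1 := fun h => hx (isConj_one_left.mp h)
  rw [isConj_iff_irr] at h2
  push Not at h2
  obtain ⟨θ, hθ⟩ := h2
  have h3 : indFun N (θ : N → ℂ) ≠ 0 := by
    intro h
    have h4 := congrFun h 1
    rw [indFun_one_apply, hk] at h4
    have h5 : (((p ^ k : ℕ) : ℂ)) ≠ 0 := by
      exact_mod_cast pow_ne_zero k hp.out.ne_zero
    rcases mul_eq_zero.1 h4 with h6 | h6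
    · exact h5 h6
    · exact irr_one_ne_zero θ.2 h6
  obtain ⟨φ, hφ⟩ := exists_constituent (isChar_ind N (irr_isChar θ.2)) h3
  rw [frobenius_reciprocity N θ (irr_classFun φ.2)] at hφ
  have hφ' := classInner_ne_zero_symm hφ
  -- φ does not contain N in its kernel
  have hφN : ¬ ∀ n : N, φ.1 n = φ.1 1 := by
    intro h
    have h4 : (fun n : N => φ.1 n) = fun n : N => φ.1 1 * (1 : ℂ) := by
      funext n; rw [h n, mul_one]
    have h5 : classInner (fun n : N => φ.1 1 * (1 : ℂ)) (θ : N → ℂ) = φ.1 1 * classInner (fun _ : N => (1 : ℂ)) (θ : N → ℂ) := by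
      unfold classInner
      simp only [Finset.mul_sum]
      refine Finset.sum_congr rfl (fun n _ => by ring)
    have h6 : classInner (fun _ : N => (1 : ℂ)) (θ : N → ℂ) = 0 := by
      rw [classInner_irr isIrr_one θ.2, if_neg]
      intro h7
      apply hθ
      rw [← h7]
    apply hφ'
    show classInner (fun n : N => φ.1 n) (θ : N → ℂ) = 0
    rw [h4, h5, h6, mul_zero]
  by_cases hpd : p ∣ charDegree (φ : G → ℂ)
  · have h4 := huniq φ β.1 hpd (by rw [hβd]; exact hψd)
    apply hφN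
    intro n
    rw [h4]
    exact hβN n
  · have hirr := restr_irr hN ⟨k, hk⟩ φ.2 (H27.charDegree_cast (irr_isChar φ.2)).symm hpd
    have h4 := (gallagher_one hN φ.2 hirr).2.1 β.1.1 β.1.2 hβN
    have h5 : p ∣ charDegree (β.1.1 * φ.1) := by
      have h6 : (charDegree (β.1.1 * φ.1) : ℂ) = ((charDegree β.1.1 * charDegree φ.1 : ℕ) : ℂ) := by
        rw [H27.charDegree_cast (irr_isChar h4), Nat.cast_mul, H27.charDegree_cast (irr_isChar β.1.2),
          H27.charDegree_cast (irr_isChar φ.2), Pi.mul_apply]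
      have h7 : charDegree (β.1.1 * φ.1) = charDegree β.1.1 * charDegree φ.1 := by exact_mod_cast h6
      rw [h7, hβd]
      exact Dvd.dvd.mul_right hψd _
    have h6 := huniq ⟨_, h4⟩ β.1 h5 (by rw [hβd]; exact hψd)
    have h7 : β.1.1 * φ.1 = β.1.1 := congrArg Subtype.val h6
    have h8 : ∀ n : N, φ.1 n = 1 := by
      intro n
      have h9 := congrFun h7 (n : G)
      rw [Pi.mul_apply, hβN n] at h9
      exact mul_left_cancel₀ hβ0 (by rw [h9, mul_one])
    apply hφN
    intro n
    rw [h8 n]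
    exact (h8 1).symm

theorem main [Finite G] (hnil : ¬ Group.IsNilpotent G) [hN : N.Normal] (hcop : (Nat.card N).Coprime p)
    (hidx : ∃ k, N.index = p ^ k) (hone : Nat.card {χ : IrrCharacter G // p ∣ charDegree (χ : G → ℂ)} = 1) :
    Nat.card {C : ConjClasses G // p ∣ Nat.card C.carrier} = 1 := by
  classical
  haveI := Fintype.ofFinite G
  haveI := Fintype.ofFinite N
  have hab := quot_ab hidx hnil hone
  let P : Sylow p G := default
  have hinf : ∀ x ∈ N, x ∈ (P : Subgroup G) → x = 1 := by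
    intro x hx hxP
    obtain ⟨j, hj⟩ := P.isPGroup' ⟨x, hxP⟩
    have h1 : x ^ p ^ j = 1 := congrArg Subtype.val hj
    have h2 : orderOf x ∣ Nat.card N := N.orderOf_dvd_natCard hx
    have h3 : orderOf x ∣ p ^ j := orderOf_dvd_of_pow_eq_one h1
    exact orderOf_eq_one_iff.1 (Nat.Coprime.eq_one_of_dvd (Nat.Coprime.coprime_dvd_left h2 (Nat.Coprime.pow_right j hcop)) h3)
  have hP : ∀ a ∈ (P : Subgroup G), ∀ b ∈ (P : Subgroup G), a * b = b * a := by
    intro a ha b hb
    have h1 := hinf _ (hab a b) (mul_mem (mul_mem (mul_mem ha hb) (inv_mem ha)) (inv_mem hb))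
    have h2 : a * b * (b * a)⁻¹ = 1 := by rw [← h1]; group
    exact mul_inv_eq_one.1 h2
  have hcardP : Nat.card (P : Subgroup G) = N.index := by
    obtain ⟨k, hk⟩ := hidx
    have h1 : Nat.card (P : Subgroup G) = p ^ (Nat.card G).factorization p := P.card_eq_multiplicity
    have h2 : Nat.card N * N.index = Nat.card G := card_mul_index N
    have h3 : ¬ p ∣ Nat.card N := by
      intro h
      have h6 := Nat.Coprime.eq_one_of_dvd hcop.symm h
      exact hp.out.one_lt.ne' h6
    rw [h1, ← h2, hk, Nat.factorization_mul Nat.card_pos.ne' (pow_ne_zero _ hp.out.ne_zero), Finsupp.add_apply,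
      Nat.factorization_eq_zero_of_not_dvd h3, zero_add, Nat.factorization_pow, Finsupp.smul_apply,
      hp.out.factorization_self, smul_eq_mul, mul_one]
  have hcop2 : (Nat.card N).Coprime (Nat.card (P : Subgroup G)) := by
    rw [hcardP]
    obtain ⟨k, hk⟩ := hidx
    rw [hk]
    exact Nat.Coprime.pow_right k hcop
  have hcompl : IsComplement' N (P : Subgroup G) :=
    isComplement'_of_coprime (by rw [hcardP]; exact card_mul_index N) hcop2
  have hsup : ∀ g : G, ∃ n ∈ N, ∃ y ∈ (P : Subgroup G), g = n * y := by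
    intro g
    obtain ⟨⟨n, y⟩, hny⟩ := hcompl.2 g
    exact ⟨n, n.2, y, y.2, hny.symm⟩
  have c1 := card_chars (p := p) hidx hcop hab
  have c2 := card_classes P hP hN hinf hsup
  have hsol : Group.IsSolvable (P : Subgroup G) := by
    haveI := P.isPGroup'.isNilpotent
    infer_instance
  have c3 := H27.card_inv_eq (S := (P : Subgroup G)) (G := N) hsol (by
    rw [normalizer_eq_top]
    exact le_top) hcop2 (H27.isFx_inf N (P : Subgroup G))
  have c4 : Nat.card {θ : IrrCharacter N // ∀ g : G, cj hN g (θ : N → ℂ) = θ} =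
      Nat.card {χ : IrrCharacter N // H27.Inv ((P : Subgroup G) : Set G) N χ} := by
    refine Nat.card_congr (Equiv.subtypeEquivRight (fun θ => ?_))
    constructor
    · intro h x _ k k' hk
      have h1 := congrFun (h x) k
      rw [cj_apply] at h1
      rw [← h1]
      have h2 : k' = ⟨x * k * x⁻¹, hN.conj_mem k k.2 x⟩ := Subtype.ext hk
      rw [h2]
    · intro h g
      obtain ⟨n, hn, y, hy, rfl⟩ := hsup g
      funext k
      rw [cj_apply]
      have h1 := h y hy k ⟨y * k * y⁻¹, hN.conj_mem k k.2 y⟩ rfl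
      rw [← h1]
      have h2 := irr_classFun θ.2 ⟨y * k * y⁻¹, hN.conj_mem k k.2 y⟩ ⟨n, hn⟩
      rw [← h2]
      have h3 : (⟨n * y * k * (n * y)⁻¹, hN.conj_mem k k.2 (n * y)⟩ : N) =
          ⟨n, hn⟩ * ⟨y * k * y⁻¹, hN.conj_mem k k.2 y⟩ * ⟨n, hn⟩⁻¹ := by
        apply Subtype.ext
        show n * y * k * (n * y)⁻¹ = n * (y * k * y⁻¹) * n⁻¹
        group
      rw [h3]
  have e1 : Nat.card {χ : IrrCharacter G // p ∣ charDegree (χ : G → ℂ)} + Nat.card {χ : IrrCharacter G // ¬ p ∣ charDegree (χ : G → ℂ)} = Nat.card (IrrCharacter G) := by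
    rw [← Nat.card_sum]
    exact Nat.card_congr (Equiv.sumCompl _)
  have e2 : Nat.card {C : ConjClasses G // p ∣ Nat.card C.carrier} + Nat.card {C : ConjClasses G // ¬ p ∣ Nat.card C.carrier} = Nat.card (ConjClasses G) := by
    rw [← Nat.card_sum]
    exact Nat.card_congr (Equiv.sumCompl _)
  rw [hone, c1, c4, c3, card_irr_eq, card_irr_eq, ← e2, c2, hcardP] at e1
  omega

end Cfsg.Agent.H7.OneDeg
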