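import Cfsg.Agent.H7.SylGL3

set_option autoImplicit false

/-!
Squares in Sylow 2-subgroups: transfer to a normal subgroup, groups generated by involutions of
two classes.
-/

namespace Cfsg.Agent.H7.OrthSyl

open Subgroup
open Cfsg.Agent.H7.SylSp

theorem transfer_gen {S O : Type*} [Group S] [Group O] [Finite O] (φ : S →* O)
    (hinj : Function.Injective φ) (hN : φ.range.Normal) {T : Subgroup O}
    (hT : Nat.card T = 2 ^ (Nat.card O).factorization 2)
    (hsq : ∀ x ∈ φ.range ⊓ T, x ^ 2 ∈ ⁅φ.range ⊓ T, φ.range ⊓ T⁆) (P : Sylow 2 S) :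
    ∀ x : (P : Subgroup S), x ^ 2 ∈ commutator (P : Subgroup S) := by
  classical
  have : Fact (Nat.Prime 2) := ⟨Nat.prime_two⟩
  haveI : Finite S := Finite.of_injective φ hinj
  let Sy : Sylow 2 O := Sylow.ofCard T hT
  let T2 : Subgroup S := T.comap φ
  have hmap : T2.map φ = φ.range ⊓ T := by
    rw [map_comap_eq]
  have hcard : Nat.card T2 = 2 ^ (Nat.card S).factorization 2 := by
    have h1 := H24.card_inf_sylow φ.range Sy
    have h2 : (Sy : Subgroup O) = T := rfl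
    rw [h2, ← hmap] at h1
    rw [Nat.card_congr (equivMapOfInjective T2 _ hinj).toEquiv, h1]
    rw [← Nat.card_congr (MonoidHom.ofInjective hinj).toEquiv]
  refine sylow_of_one hcard ?_ P
  intro x hx
  have h1 := hsq (φ x) (by rw [← hmap]; exact mem_map_of_mem _ hx)
  rw [← hmap, ← map_pow, ← map_commutator] at h1
  obtain ⟨y, hy, hyx⟩ := h1
  rwa [← hinj hyx]

theorem lemM {O : Type*} [Group O] {Ω T Pi : Subgroup O} [hΩ : Ω.Normal] {R0 R1 : Set O}
    (hR0 : ∀ x ∈ R0, x ∈ T ∧ x * x = 1) (hR1 : ∀ x ∈ R1, x ∈ T ∧ x * x = 1)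
    (hPi : Pi ≤ Ω ⊓ T) (hPisq : ∀ x ∈ Pi, x ^ 2 ∈ ⁅Pi, Pi⁆)
    (hgen : T ≤ closure (R0 ∪ R1 ∪ (Pi : Set O)))
    (h0 : ∀ x ∈ R0, ∀ y ∈ R0, x * y ∈ Ω ∧ ∃ f ∈ R0, Commute x f ∧ Commute f y)
    (h1 : ∀ x ∈ R1, ∀ y ∈ R1, x * y ∈ Ω ∧ ∃ f ∈ R1, Commute x f ∧ Commute f y)
    {r s : O} (hr : r ∈ R0) (hs : s ∈ R1) (hsrs : s * r * s ∈ R0)
    (hrΩ : r ∉ Ω) (hsΩ : s ∉ Ω) (hrsΩ : r * s ∉ Ω) :
    ∀ x ∈ Ω ⊓ T, x ^ 2 ∈ ⁅Ω ⊓ T, Ω ⊓ T⁆ := by
  set T1 := Ω ⊓ T with hT1
  set N : Subgroup O := closure {y | y ∈ T1 ∧ y ^ 2 ∈ ⁅T1, T1⁆} with hN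
  have hNmem : ∀ y ∈ N, y ∈ T1 ∧ y ^ 2 ∈ ⁅T1, T1⁆ := pow_closure (fun y hy => hy)
  -- products of two reflections of the same class
  have hinv : ∀ x ∈ T, ∀ y ∈ T, x * x = 1 → y * y = 1 → Commute x y → x * y ∈ Ω → x * y ∈ N := by
    intro x hx y hy hxx hyy hc hΩxy
    refine subset_closure ⟨⟨hΩxy, mul_mem hx hy⟩, ?_⟩
    have : (x * y) ^ 2 = 1 := by
      rw [hc.mul_pow, sq, sq, hxx, hyy, mul_one]
    rw [this]
    exact one_mem _
  have hp0 : ∀ x ∈ R0, ∀ y ∈ R0, x * y ∈ N := by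
    intro x hx y hy
    obtain ⟨-, f, hf, hxf, hfy⟩ := h0 x hx y hy
    have e1 : x * y = (x * f) * (f * y) := by
      rw [mul_assoc, ← mul_assoc f, (hR0 f hf).2, one_mul]
    rw [e1]
    exact mul_mem (hinv x (hR0 x hx).1 f (hR0 f hf).1 (hR0 x hx).2 (hR0 f hf).2 hxf (h0 x hx f hf).1)
      (hinv f (hR0 f hf).1 y (hR0 y hy).1 (hR0 f hf).2 (hR0 y hy).2 hfy (h0 f hf y hy).1)
  have hp1 : ∀ x ∈ R1, ∀ y ∈ R1, x * y ∈ N := by
    intro x hx y hy
    obtain ⟨-, f, hf, hxf, hfy⟩ := h1 x hx y hy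
    have e1 : x * y = (x * f) * (f * y) := by
      rw [mul_assoc, ← mul_assoc f, (hR1 f hf).2, one_mul]
    rw [e1]
    exact mul_mem (hinv x (hR1 x hx).1 f (hR1 f hf).1 (hR1 x hx).2 (hR1 f hf).2 hxf (h1 x hx f hf).1)
      (hinv f (hR1 f hf).1 y (hR1 y hy).1 (hR1 f hf).2 (hR1 y hy).2 hfy (h1 f hf y hy).1)
  -- `N` is normalized by `T`
  have hmap : ∀ g ∈ T, T1.map (MulAut.conj g).toMonoidHom ≤ T1 := by
    rintro g hg _ ⟨x, hx, rfl⟩
    exact ⟨hΩ.conj_mem x hx.1 g, T.mul_mem (T.mul_mem hg hx.2) (T.inv_mem hg)⟩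
  have hconj : ∀ g ∈ T, ∀ x ∈ N, g * x * g⁻¹ ∈ N := by
    intro g hg x hx
    have e1 : N ≤ N.comap (MulAut.conj g).toMonoidHom := by
      rw [hN, closure_le]
      rintro y ⟨hy, hy2⟩
      refine subset_closure ⟨hmap g hg (mem_map_of_mem _ hy), ?_⟩
      rw [← map_pow]
      have e2 : (MulAut.conj g).toMonoidHom (y ^ 2) ∈ ⁅T1, T1⁆.map (MulAut.conj g).toMonoidHom :=
        mem_map_of_mem _ hy2
      rw [map_commutator] at e2
      exact commutator_mono (hmap g hg) (hmap g hg) e2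
    exact e1 hx
  obtain ⟨hrT, hrr⟩ := hR0 r hr
  obtain ⟨hsT, hss⟩ := hR1 s hs
  have hconj' : ∀ g ∈ T, g * g = 1 → ∀ x ∈ N, g * x * g ∈ N := by
    intro g hg hgg x hx
    have := hconj g hg x hx
    rwa [inv_eq_of_mul_eq_one_left hgg] at this
  have hsrsr : s * r * s * r ∈ N := hp0 _ hsrs _ hr
  have hPiN : Pi ≤ N := by
    intro x hx
    exact subset_closure ⟨hPi hx, commutator_mono hPi hPi (hPisq x hx)⟩
  -- every element is in `N {1, r, s, r s}`
  have key : ∀ x ∈ closure (R0 ∪ R1 ∪ (Pi : Set O)), ∃ n ∈ N, x = n ∨ x = n * r ∨ x = n * s ∨ x = n * (r * s) := by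
    intro x hx
    have hinvset : ∀ y ∈ (R0 ∪ R1 ∪ (Pi : Set O)), y⁻¹ ∈ (R0 ∪ R1 ∪ (Pi : Set O)) := by
      rintro y ((hy | hy) | hy)
      · rw [inv_eq_of_mul_eq_one_left (hR0 y hy).2]; exact Or.inl (Or.inl hy)
      · rw [inv_eq_of_mul_eq_one_left (hR1 y hy).2]; exact Or.inl (Or.inr hy)
      · exact Or.inr (inv_mem hy)
    have step : ∀ g ∈ (R0 ∪ R1 ∪ (Pi : Set O)), ∀ x : O,
        (∃ n ∈ N, x = n ∨ x = n * r ∨ x = n * s ∨ x = n * (r * s)) →
        ∃ n ∈ N, g * x = n ∨ g * x = n * r ∨ g * x = n * s ∨ g * x = n * (r * s) := by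
      rintro g hg x ⟨n, hn, hx⟩
      rcases hg with (hg | hg) | hg
      · -- `g = n' r`
        have hn' : g * r ∈ N := hp0 g hg r hr
        have hm : g * r * (r * n * r) ∈ N := mul_mem hn' (hconj' r hrT hrr n hn)
        have e0 : g * n = g * r * (r * n * r) * r := by
          calc g * n = g * (r * r) * n * (r * r) := by rw [hrr, mul_one, mul_one]
            _ = _ := by group
        rcases hx with rfl | rfl | rfl | rfl
        · exact ⟨_, hm, Or.inr (Or.inl e0)⟩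
        · refine ⟨_, hm, Or.inl ?_⟩
          rw [← mul_assoc, e0, mul_assoc (g * r * (r * n * r)), hrr, mul_one]
        · refine ⟨_, hm, Or.inr (Or.inr (Or.inr ?_))⟩
          rw [← mul_assoc, e0, mul_assoc (g * r * (r * n * r))]
        · refine ⟨_, hm, Or.inr (Or.inr (Or.inl ?_))⟩
          rw [← mul_assoc, e0, mul_assoc (g * r * (r * n * r)) r (r * s), ← mul_assoc r r s, hrr, one_mul]
      · have hn' : g * s ∈ N := hp1 g hg s hs
        have hm : g * s * (s * n * s) ∈ N := mul_mem hn' (hconj' s hsT hss n hn)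
        have e0 : g * n = g * s * (s * n * s) * s := by
          calc g * n = g * (s * s) * n * (s * s) := by rw [hss, mul_one, mul_one]
            _ = _ := by group
        have e1 : s * r = (s * r * s * r) * (r * s) := by
          calc s * r = s * r * (s * s) := by rw [hss, mul_one]
            _ = s * r * s * (r * r) * s := by rw [hrr]; group
            _ = _ := by group
        have e2 : s * (r * s) = (s * r * s * r) * r := by
          rw [mul_assoc (s * r * s) r r, hrr, mul_one, mul_assoc]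
        rcases hx with rfl | rfl | rfl | rfl
        · exact ⟨_, hm, Or.inr (Or.inr (Or.inl e0))⟩
        · refine ⟨_, mul_mem hm hsrsr, Or.inr (Or.inr (Or.inr ?_))⟩
          rw [← mul_assoc, e0, mul_assoc (g * s * (s * n * s)) s r]
          conv_lhs => rw [e1]
          exact (mul_assoc _ _ _).symm
        · refine ⟨_, hm, Or.inl ?_⟩
          rw [← mul_assoc, e0, mul_assoc (g * s * (s * n * s)), hss, mul_one]
        · refine ⟨_, mul_mem hm hsrsr, Or.inr (Or.inl ?_)⟩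
          rw [← mul_assoc, e0, mul_assoc (g * s * (s * n * s)) s (r * s), e2]
          exact (mul_assoc _ _ _).symm
      · rcases hx with rfl | rfl | rfl | rfl
        · exact ⟨_, mul_mem (hPiN hg) hn, Or.inl rfl⟩
        · exact ⟨_, mul_mem (hPiN hg) hn, Or.inr (Or.inl (mul_assoc _ _ _).symm)⟩
        · exact ⟨_, mul_mem (hPiN hg) hn, Or.inr (Or.inr (Or.inl (mul_assoc _ _ _).symm))⟩
        · exact ⟨_, mul_mem (hPiN hg) hn, Or.inr (Or.inr (Or.inr (mul_assoc _ _ _).symm))⟩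
    induction hx using closure_induction_left with
    | one => exact ⟨1, one_mem _, Or.inl rfl⟩
    | mul_left g hg y hy ih => exact step g hg y ih
    | inv_mul_cancel g hg y hy ih => exact step g⁻¹ (hinvset g hg) y ih
  intro x hx
  obtain ⟨n, hn, hxn⟩ := key x (hgen hx.2)
  have hnΩ : n ∈ Ω := (hNmem n hn).1.1
  have hxΩ : x ∈ Ω := hx.1
  rcases hxn with h | h | h | h
  · rw [h]; exact (hNmem n hn).2
  · exact absurd (by rw [h] at hxΩ; exact (mul_mem_cancel_left hnΩ).1 hxΩ) hrΩ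
  · exact absurd (by rw [h] at hxΩ; exact (mul_mem_cancel_left hnΩ).1 hxΩ) hsΩ
  · exact absurd (by rw [h] at hxΩ; exact (mul_mem_cancel_left hnΩ).1 hxΩ) hrsΩ

end Cfsg.Agent.H7.OrthSyl
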