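import Cfsg.Agent.H7.OrthSyl
import Cfsg.Agent.H5.OrthIndex

set_option autoImplicit false

/-!
The diagonal quadratic forms and the monomial-type subgroups.
-/

namespace Cfsg.Agent.H7.OrthSyl

open Subgroup Cfsg.Agent.H5

/-- diagonal form -/
noncomputable def wq {F : Type*} [Field F] {X : Type*} [Fintype X] (wt : X → F) : QuadraticForm F (X → F) :=
  QuadraticMap.weightedSumSquares F wt

theorem wq_apply {F : Type*} [Field F] {X : Type*} [Fintype X] (wt : X → F) (x : X → F) :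
    wq wt x = ∑ i, wt i * (x i * x i) := by
  unfold wq
  rw [QuadraticMap.weightedSumSquares_apply]
  rfl

theorem pB_wq {F : Type*} [Field F] {X : Type*} [Fintype X] (wt : X → F) (x y : X → F) :
    pB (wq wt) x y = ∑ i, 2 * wt i * (x i * y i) := by
  rw [pB_apply, QuadraticMap.polar, wq_apply, wq_apply, wq_apply, ← Finset.sum_sub_distrib, ← Finset.sum_sub_distrib]
  apply Finset.sum_congr rfl
  intro i _
  rw [Pi.add_apply]
  ring

theorem nd_wq {F : Type*} [Field F] (h2 : (2 : F) ≠ 0) {X : Type*} [Fintype X] {wt : X → F}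
    (hw : ∀ i, wt i ≠ 0) : ND (wq wt) := by
  classical
  intro x hx
  funext i
  have h1 := hx (Pi.single i 1)
  rw [pB_wq, Finset.sum_eq_single i] at h1
  · rw [Pi.single_eq_same, mul_one] at h1
    exact (mul_eq_zero.1 h1).resolve_left (mul_ne_zero h2 (hw i))
  · intro j _ hj
    rw [Pi.single_eq_of_ne hj, mul_zero, mul_zero]
  · intro h
    exact absurd (Finset.mem_univ i) h

section model

variable {F : Type*} [Field F] {k w : ℕ}

/-- the weights of the model -/
def mwt (k : ℕ) {w : ℕ} (c : Fin w → F) : (Fin k × Fin 2) ⊕ Fin w → F := Sum.elim (fun _ => 1) c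

/-- `x² + y²` -/
noncomputable def q2 (F : Type*) [Field F] : QuadraticForm F (Fin 2 → F) := wq (fun _ => 1)

/-- the model -/
noncomputable def qm (k : ℕ) {w : ℕ} (c : Fin w → F) : QuadraticForm F ((Fin k × Fin 2) ⊕ Fin w → F) :=
  wq (mwt k c)

/-- the blocks of a vector -/
def blk (x : (Fin k × Fin 2) ⊕ Fin w → F) (i : Fin k) : Fin 2 → F := fun j => x (Sum.inl (i, j))

theorem qm_apply (c : Fin w → F) (x : (Fin k × Fin 2) ⊕ Fin w → F) :
    qm k c x = ∑ i, q2 F (blk x i) + ∑ l, c l * (x (Sum.inr l) * x (Sum.inr l)) := by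
  unfold qm q2
  rw [wq_apply, Fintype.sum_sum_type, Fintype.sum_prod_type]
  simp only [wq_apply]
  rfl

theorem pB_qm (c : Fin w → F) (x y : (Fin k × Fin 2) ⊕ Fin w → F) :
    pB (qm k c) x y = ∑ i, pB (q2 F) (blk x i) (blk y i) + ∑ l, 2 * c l * (x (Sum.inr l) * y (Sum.inr l)) := by
  unfold qm q2
  rw [pB_wq, Fintype.sum_sum_type, Fintype.sum_prod_type]
  simp only [pB_wq]
  rfl

theorem nd_q2 (h2 : (2 : F) ≠ 0) : ND (q2 F) := nd_wq h2 (fun _ => one_ne_zero)

theorem nd_qm (h2 : (2 : F) ≠ 0) {c : Fin w → F} (hc : ∀ l, c l ≠ 0) : ND (qm k c) := by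
  apply nd_wq h2
  rintro (i | l)
  · exact one_ne_zero
  · exact hc l

/-- a vector in a block -/
def emb (w : ℕ) (i : Fin k) (v : Fin 2 → F) : (Fin k × Fin 2) ⊕ Fin w → F :=
  Sum.elim (fun p => if p.1 = i then v p.2 else 0) (fun _ => 0)

theorem blk_emb_same (i : Fin k) (v : Fin 2 → F) : blk (emb w i v) i = v := by
  funext j
  exact if_pos rfl

theorem blk_emb_ne {i i' : Fin k} (h : i' ≠ i) (v : Fin 2 → F) : blk (emb w i v) i' = 0 := by
  funext j
  exact if_neg h

theorem emb_inr (i : Fin k) (v : Fin 2 → F) (l : Fin w) : emb w i v (Sum.inr l) = 0 := rfl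

theorem qm_emb (c : Fin w → F) (i : Fin k) (v : Fin 2 → F) : qm k c (emb w i v) = q2 F v := by
  rw [qm_apply, Finset.sum_eq_single i, blk_emb_same, Finset.sum_eq_zero, add_zero]
  · intro l _
    rw [emb_inr, mul_zero, mul_zero]
  · intro j _ hj
    rw [blk_emb_ne hj, q_zero]
  · intro h
    exact absurd (Finset.mem_univ i) h

theorem pB_emb (c : Fin w → F) (i : Fin k) (v : Fin 2 → F) (x : (Fin k × Fin 2) ⊕ Fin w → F) :
    pB (qm k c) (emb w i v) x = pB (q2 F) v (blk x i) := by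
  rw [pB_qm, Finset.sum_eq_single i, blk_emb_same, Finset.sum_eq_zero, add_zero]
  · intro l _
    rw [emb_inr, zero_mul, mul_zero]
  · intro j _ hj
    rw [blk_emb_ne hj, map_zero, LinearMap.zero_apply]
  · intro h
    exact absurd (Finset.mem_univ i) h

/-- the extra coordinate vectors -/
def eo (k : ℕ) {w : ℕ} (F : Type*) [Field F] (l : Fin w) : (Fin k × Fin 2) ⊕ Fin w → F := Pi.single (Sum.inr l) 1

theorem eo_inl (l : Fin w) (p : Fin k × Fin 2) : eo k F l (Sum.inl p) = 0 := by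
  unfold eo
  rw [Pi.single_eq_of_ne]
  exact Sum.inl_ne_inr

theorem qm_eo (c : Fin w → F) (l : Fin w) : qm k c (eo k F l) = c l := by
  unfold qm eo
  rw [wq_apply, Finset.sum_eq_single (Sum.inr l)]
  · rw [Pi.single_eq_same, mul_one, mul_one]
    rfl
  · intro j _ hj
    rw [Pi.single_eq_of_ne hj, mul_zero, mul_zero]
  · intro h
    exact absurd (Finset.mem_univ _) h

theorem pB_eo (c : Fin w → F) (l : Fin w) (x : (Fin k × Fin 2) ⊕ Fin w → F) :
    pB (qm k c) (eo k F l) x = 2 * c l * x (Sum.inr l) := by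
  unfold qm eo
  rw [pB_wq, Finset.sum_eq_single (Sum.inr l)]
  · rw [Pi.single_eq_same, one_mul]
    rfl
  · intro j _ hj
    rw [Pi.single_eq_of_ne hj, zero_mul, mul_zero]
  · intro h
    exact absurd (Finset.mem_univ _) h

/-- the linear map -/
noncomputable def bLin {k w : ℕ} (g : Fin k → OG (q2 F)) (u : Fin w → ℤˣ) :
    ((Fin k × Fin 2) ⊕ Fin w → F) →ₗ[F] ((Fin k × Fin 2) ⊕ Fin w → F) where
  toFun x := Sum.elim (fun p => (g p.1) (blk x p.1) p.2) (fun l => (((u l : ℤˣ) : ℤ) : F) * x (Sum.inr l))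
  map_add' x y := by
    funext p
    rcases p with p | l
    · show (g p.1) (blk (x + y) p.1) p.2 = (g p.1) (blk x p.1) p.2 + (g p.1) (blk y p.1) p.2
      have : blk (x + y) p.1 = blk x p.1 + blk y p.1 := rfl
      rw [this, og_add]
      rfl
    · show _ * (x (Sum.inr l) + y (Sum.inr l)) = _ * x (Sum.inr l) + _ * y (Sum.inr l)
      ring
  map_smul' a x := by
    funext p
    rcases p with p | l
    · show (g p.1) (blk (a • x) p.1) p.2 = a * (g p.1) (blk x p.1) p.2
      have : blk (a • x) p.1 = a • blk x p.1 := rfl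
      rw [this, og_smul]
      rfl
    · show _ * (a * x (Sum.inr l)) = a * (_ * x (Sum.inr l))
      ring

theorem blk_bLin (g : Fin k → OG (q2 F)) (u : Fin w → ℤˣ) (x : (Fin k × Fin 2) ⊕ Fin w → F) (i : Fin k) :
    blk (bLin g u x) i = (g i) (blk x i) := rfl

theorem bLin_inr (g : Fin k → OG (q2 F)) (u : Fin w → ℤˣ) (x : (Fin k × Fin 2) ⊕ Fin w → F) (l : Fin w) :
    bLin g u x (Sum.inr l) = (((u l : ℤˣ) : ℤ) : F) * x (Sum.inr l) := rfl

theorem ext_blk {x y : (Fin k × Fin 2) ⊕ Fin w → F} (h1 : ∀ i, blk x i = blk y i)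
    (h2 : ∀ l, x (Sum.inr l) = y (Sum.inr l)) : x = y := by
  funext p
  rcases p with ⟨i, j⟩ | l
  · exact congrFun (h1 i) j
  · exact h2 l

theorem unit_sq (u : ℤˣ) : ((u : ℤ) : F) * ((u : ℤ) : F) = 1 := by
  rw [← Int.cast_mul, ← Units.val_mul, Int.units_mul_self, Units.val_one, Int.cast_one]

theorem qm_bLin (c : Fin w → F) (g : Fin k → OG (q2 F)) (u : Fin w → ℤˣ) (x : (Fin k × Fin 2) ⊕ Fin w → F) :
    qm k c (bLin g u x) = qm k c x := by
  rw [qm_apply, qm_apply]
  congr 1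
  · apply Finset.sum_congr rfl
    intro i _
    rw [blk_bLin, og_q]
  · apply Finset.sum_congr rfl
    intro l _
    rw [bLin_inr]
    calc c l * ((((u l : ℤˣ) : ℤ) : F) * x (Sum.inr l) * ((((u l : ℤˣ) : ℤ) : F) * x (Sum.inr l)))
        = c l * (((((u l : ℤˣ) : ℤ) : F) * (((u l : ℤˣ) : ℤ) : F)) * (x (Sum.inr l) * x (Sum.inr l))) := by ring
      _ = _ := by rw [unit_sq, one_mul]

/-- the hom -/
noncomputable def bHom {c : Fin w → F} (hnd : ND (qm k c)) :
    ((Fin k → OG (q2 F)) × (Fin w → ℤˣ)) →* OG (qm k c) where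
  toFun g := mkOG hnd (bLin g.1 g.2) (qm_bLin c g.1 g.2)
  map_one' := by
    apply og_ext
    intro x
    rw [mkOG_apply]
    apply ext_blk
    · intro i
      rfl
    · intro l
      rw [bLin_inr]
      show (((1 : ℤˣ) : ℤ) : F) * _ = _
      rw [Units.val_one, Int.cast_one, one_mul]
      rfl
  map_mul' g h := by
    apply og_ext
    intro x
    rw [og_mul, mkOG_apply, mkOG_apply, mkOG_apply]
    apply ext_blk
    · intro i
      rfl
    · intro l
      rw [bLin_inr, bLin_inr, bLin_inr]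
      show (((g.2 l * h.2 l : ℤˣ) : ℤ) : F) * _ = _
      rw [Units.val_mul, Int.cast_mul, mul_assoc]

theorem blk_bHom {c : Fin w → F} (hnd : ND (qm k c)) (g : (Fin k → OG (q2 F)) × (Fin w → ℤˣ))
    (x : (Fin k × Fin 2) ⊕ Fin w → F) (i : Fin k) : blk (bHom hnd g x) i = (g.1 i) (blk x i) := rfl

theorem bHom_inr {c : Fin w → F} (hnd : ND (qm k c)) (g : (Fin k → OG (q2 F)) × (Fin w → ℤˣ))
    (x : (Fin k × Fin 2) ⊕ Fin w → F) (l : Fin w) : bHom hnd g x (Sum.inr l) = (((g.2 l : ℤˣ) : ℤ) : F) * x (Sum.inr l) := rfl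

/-- permutations of the blocks -/
noncomputable def pLin {k : ℕ} (w : ℕ) (F : Type*) [Field F] (σ : Equiv.Perm (Fin k)) :
    ((Fin k × Fin 2) ⊕ Fin w → F) →ₗ[F] ((Fin k × Fin 2) ⊕ Fin w → F) where
  toFun x := Sum.elim (fun p => x (Sum.inl (σ⁻¹ p.1, p.2))) (fun l => x (Sum.inr l))
  map_add' x y := by
    funext p
    rcases p with p | l <;> rfl
  map_smul' a x := by
    funext p
    rcases p with p | l <;> rfl

theorem qm_pLin (c : Fin w → F) (σ : Equiv.Perm (Fin k)) (x : (Fin k × Fin 2) ⊕ Fin w → F) :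
    qm k c (pLin w F σ x) = qm k c x := by
  rw [qm_apply, qm_apply]
  congr 1
  exact Equiv.sum_comp σ⁻¹ (fun i => q2 F (blk x i))

noncomputable def pHom {c : Fin w → F} (hnd : ND (qm k c)) : Equiv.Perm (Fin k) →* OG (qm k c) where
  toFun σ := mkOG hnd (pLin w F σ) (qm_pLin c σ)
  map_one' := by
    apply og_ext
    intro x
    rw [mkOG_apply]
    apply ext_blk
    · intro i
      rfl
    · intro l
      rfl
  map_mul' g h := by
    apply og_ext
    intro x
    rw [og_mul, mkOG_apply, mkOG_apply, mkOG_apply]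
    apply ext_blk
    · intro i
      show blk x ((g * h)⁻¹ i) = blk x (h⁻¹ (g⁻¹ i))
      rw [mul_inv_rev]
      rfl
    · intro l
      rfl

theorem blk_pHom {c : Fin w → F} (hnd : ND (qm k c)) (σ : Equiv.Perm (Fin k))
    (x : (Fin k × Fin 2) ⊕ Fin w → F) (i : Fin k) : blk (pHom hnd σ x) i = blk x (σ⁻¹ i) := rfl

theorem pHom_inr {c : Fin w → F} (hnd : ND (qm k c)) (σ : Equiv.Perm (Fin k))
    (x : (Fin k × Fin 2) ⊕ Fin w → F) (l : Fin w) : pHom hnd σ x (Sum.inr l) = x (Sum.inr l) := rfl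

theorem conj_bHom {c : Fin w → F} (hnd : ND (qm k c)) (σ : Equiv.Perm (Fin k))
    (g : Fin k → OG (q2 F)) (u : Fin w → ℤˣ) :
    pHom hnd σ * bHom hnd (g, u) = bHom hnd (fun i => g (σ⁻¹ i), u) * pHom hnd σ := by
  apply og_ext
  intro x
  rw [og_mul, og_mul]
  apply ext_blk
  · intro i
    rfl
  · intro l
    rfl

theorem bHom_eq_pHom {c : Fin w → F} (hnd : ND (qm k c)) {g : (Fin k → OG (q2 F)) × (Fin w → ℤˣ)}
    {σ : Equiv.Perm (Fin k)} (h : bHom hnd g = pHom hnd σ) : σ = 1 := by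
  ext i
  by_contra hne
  have hne' : σ i ≠ i := fun h => hne (by rw [h]; rfl)
  let v : Fin 2 → F := fun _ => 1
  have h1 : blk (bHom hnd g (emb w i v)) (σ i) = blk (pHom hnd σ (emb w i v)) (σ i) := by rw [h]
  rw [blk_bHom, blk_pHom, blk_emb_ne hne', og_zero, show σ⁻¹ (σ i) = i from σ.symm_apply_apply i, blk_emb_same] at h1
  exact zero_ne_one (congrFun h1 0)

theorem pHom_injective {c : Fin w → F} (hnd : ND (qm k c)) : Function.Injective (pHom hnd) := by
  rw [injective_iff_map_eq_one]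
  intro σ h
  exact bHom_eq_pHom hnd (g := 1) (by rw [h, map_one])

theorem bHom_injective (h2 : (2 : F) ≠ 0) {c : Fin w → F} (hnd : ND (qm k c)) : Function.Injective (bHom hnd) := by
  rw [injective_iff_map_eq_one]
  rintro ⟨g, u⟩ h
  apply Prod.ext
  · funext i
    apply og_ext
    intro v
    have h1 : blk (bHom hnd (g, u) (emb w i v)) i = blk ((1 : OG (qm k c)) (emb w i v)) i := by rw [h]
    rw [blk_bHom, blk_emb_same] at h1
    rw [h1]
    show blk (emb w i v) i = v
    exact blk_emb_same i v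
  · funext l
    have h1 : bHom hnd (g, u) (eo k F l) (Sum.inr l) = (1 : OG (qm k c)) (eo k F l) (Sum.inr l) := by rw [h]
    rw [bHom_inr] at h1
    have h3 : eo k F l (Sum.inr l) = 1 := Pi.single_eq_same _ _
    have h4 : (1 : OG (qm k c)) (eo k F l) (Sum.inr l) = 1 := h3
    rw [h3, h4, mul_one] at h1
    rcases Int.units_eq_one_or (u l) with h5 | h5
    · exact h5
    · exfalso
      replace h1 : (((u l : ℤˣ) : ℤ) : F) = 1 := h1
      rw [h5] at h1
      push_cast at h1
      apply h2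
      linear_combination -h1

theorem refl_emb {c : Fin w → F} (hnd : ND (qm k c)) (i : Fin k) {v : Fin 2 → F} (hv : q2 F v ≠ 0)
    (hv' : qm k c (emb w i v) ≠ 0) :
    refl hv' = bHom hnd (Pi.mulSingle i (refl hv), 1) := by
  apply og_ext
  intro x
  rw [refl_apply]
  apply ext_blk
  · intro j
    rw [blk_bHom]
    show blk x j - ((qm k c (emb w i v))⁻¹ * pB (qm k c) (emb w i v) x) • blk (emb w i v) j
      = ((Pi.mulSingle i (refl hv) : Fin k → OG (q2 F)) j) (blk x j)
    rcases eq_or_ne j i with rfl | h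
    · rw [blk_emb_same, Pi.mulSingle_eq_same, refl_apply, qm_emb, pB_emb]
    · rw [blk_emb_ne h, Pi.mulSingle_eq_of_ne h, smul_zero, sub_zero]
      rfl
  · intro l
    rw [bHom_inr]
    show x (Sum.inr l) - _ * emb w i v (Sum.inr l) = (((1 : ℤˣ) : ℤ) : F) * _
    rw [emb_inr, mul_zero, sub_zero, Units.val_one, Int.cast_one, one_mul]

theorem refl_eo {c : Fin w → F} (hnd : ND (qm k c)) (l : Fin w) (hv' : qm k c (eo k F l) ≠ 0) :
    refl hv' = bHom hnd (1, Pi.mulSingle l (-1)) := by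
  apply og_ext
  intro x
  rw [refl_apply]
  apply ext_blk
  · intro j
    rw [blk_bHom]
    show blk x j - ((qm k c (eo k F l))⁻¹ * pB (qm k c) (eo k F l) x) • blk (eo k F l) j = blk x j
    have : blk (eo k F l) j = 0 := by
      funext a
      exact eo_inl l (j, a)
    rw [this, smul_zero, sub_zero]
  · intro l'
    rw [bHom_inr]
    show x (Sum.inr l') - _ * eo k F l (Sum.inr l') = ((((Pi.mulSingle l (-1) : Fin w → ℤˣ) l' : ℤˣ) : ℤ) : F) * _
    rcases eq_or_ne l' l with rfl | h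
    · have h3 : eo k F l' (Sum.inr l') = 1 := Pi.single_eq_same _ _
      rw [Pi.mulSingle_eq_same, h3, qm_eo, pB_eo]
      rw [qm_eo] at hv'
      push_cast
      field_simp
      ring
    · have h3 : eo k F l (Sum.inr l') = 0 := Pi.single_eq_of_ne (fun h' => h (Sum.inr_injective h')) _
      rw [Pi.mulSingle_eq_of_ne h, h3, mul_zero, sub_zero, Units.val_one, Int.cast_one, one_mul]

end model

end Cfsg.Agent.H7.OrthSyl
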