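import Cfsg.Agent.H7.OrthSyl2
import Cfsg.Agent.H5.OrthOrder2
import Cfsg.Agent.H5.OrthDihedral

set_option autoImplicit false

/-!
Sylow 2-subgroups of the orthogonal groups.
-/

namespace Cfsg.Agent.H7.OrthSyl

open Subgroup Cfsg.Agent.H5

section two

variable {F : Type*} [Field F]

theorem q2_apply (v : Fin 2 → F) : q2 F v = v 0 * v 0 + v 1 * v 1 := by
  unfold q2
  rw [wq_apply, Fin.sum_univ_two, one_mul, one_mul]

theorem pB_q2 (x y : Fin 2 → F) : pB (q2 F) x y = 2 * (x 0 * y 0) + 2 * (x 1 * y 1) := by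
  unfold q2
  rw [pB_wq, Fin.sum_univ_two, mul_one]

theorem og2_apply (g : OG (q2 F)) (x : Fin 2 → F) (j : Fin 2) :
    g x j = x 0 * g ![1, 0] j + x 1 * g ![0, 1] j := by
  have h1 : x = x 0 • ![1, 0] + x 1 • ![0, 1] := by
    funext j
    fin_cases j <;> simp
  conv_lhs => rw [h1]
  rw [og_add, og_smul, og_smul]
  rfl

theorem q2_e1 : q2 F ![1, 0] = 1 := by
  rw [q2_apply]; simp

theorem q2_e2 : q2 F ![0, 1] = 1 := by
  rw [q2_apply]; simp

theorem e1_ne : q2 F ![1, 0] ≠ 0 := by rw [q2_e1]; exact one_ne_zero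
theorem e2_ne : q2 F ![0, 1] ≠ 0 := by rw [q2_e2]; exact one_ne_zero

theorem refl_of_det (h2 : (2 : F) ≠ 0) (g : OG (q2 F)) (h1 : g ![0, 1] 0 = g ![1, 0] 1)
    (h2' : g ![0, 1] 1 = - g ![1, 0] 0) : ∃ (v : Fin 2 → F) (hv : q2 F v ≠ 0), g = refl hv := by
  set a := g ![1, 0] 0 with ha
  set b := g ![1, 0] 1 with hb
  have hab : a * a + b * b = 1 := by
    have h3 := og_q g ![1, 0]
    rw [q2_apply, q2_e1] at h3
    exact h3
  by_cases ha1 : a = 1
  · have hb0 : b = 0 := by
      rw [ha1, one_mul, add_eq_left] at hab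
      exact mul_self_eq_zero.1 hab
    refine ⟨![0, 1], e2_ne, og_ext (fun x => ?_)⟩
    funext j
    rw [og2_apply, refl_apply, q2_e2, pB_q2]
    fin_cases j
    · show x 0 * a + x 1 * g ![0, 1] 0 = x 0 - _ * 0
      rw [h1, hb0, ha1]; ring
    · show x 0 * b + x 1 * g ![0, 1] 1 = x 1 - ((1 : F)⁻¹ * (2 * (0 * x 0) + 2 * (1 * x 1))) * 1
      rw [h2', hb0, ha1, inv_one]; ring
  · have ha1' : (1 - a) ≠ 0 := sub_ne_zero.2 (Ne.symm ha1)
    have hq : q2 F ![1 - a, -b] = 2 * (1 - a) := by
      rw [q2_apply]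
      show (1 - a) * (1 - a) + (-b) * (-b) = _
      linear_combination hab
    have hv : q2 F ![1 - a, -b] ≠ 0 := by
      rw [hq]
      exact mul_ne_zero h2 ha1'
    refine ⟨![1 - a, -b], hv, og_ext (fun x => ?_)⟩
    funext j
    have h4 : (q2 F ![1 - a, -b])⁻¹ * pB (q2 F) ![1 - a, -b] x = x 0 - x 1 * (b * (1 - a)⁻¹) := by
      rw [hq, pB_q2]
      show (2 * (1 - a))⁻¹ * (2 * ((1 - a) * x 0) + 2 * ((-b) * x 1)) = _
      field_simp
      ring
    rw [og2_apply, refl_apply, h4]
    have h5 : b * (1 - a)⁻¹ * b = 1 + a := by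
      field_simp
      linear_combination hab
    fin_cases j
    · show x 0 * a + x 1 * g ![0, 1] 0 = x 0 - (x 0 - x 1 * (b * (1 - a)⁻¹)) * (1 - a)
      rw [h1]
      have h6 : b * (1 - a)⁻¹ * (1 - a) = b := by
        rw [mul_assoc, inv_mul_cancel₀ ha1', mul_one]
      linear_combination (-(x 1)) * h6
    · show x 0 * b + x 1 * g ![0, 1] 1 = x 1 - (x 0 - x 1 * (b * (1 - a)⁻¹)) * (-b)
      rw [h2']
      linear_combination (x 1) * h5

theorem exists_refl (h2 : (2 : F) ≠ 0) (g : OG (q2 F)) :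
    (∃ (v : Fin 2 → F) (hv : q2 F v ≠ 0), g = refl hv) ∨
    (∃ (v : Fin 2 → F) (hv : q2 F v ≠ 0), g * refl (e1_ne (F := F)) = refl hv) := by
  set a := g ![1, 0] 0 with ha
  set b := g ![1, 0] 1 with hb
  set c := g ![0, 1] 0 with hc
  set d := g ![0, 1] 1 with hd
  have hab : a * a + b * b = 1 := by
    have h3 := og_q g ![1, 0]
    rw [q2_apply, q2_e1] at h3
    exact h3
  have hcd : c * c + d * d = 1 := by
    have h3 := og_q g ![0, 1]
    rw [q2_apply, q2_e2] at h3
    exact h3
  have hac : a * c + b * d = 0 := by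
    have h3 := og_p g ![1, 0] ![0, 1]
    rw [pB_q2, pB_q2] at h3
    have h4 : 2 * (a * c + b * d) = 0 := by
      have h5 : 2 * ((![1, 0] : Fin 2 → F) 0 * (![0, 1] : Fin 2 → F) 0) + 2 * ((![1, 0] : Fin 2 → F) 1 * (![0, 1] : Fin 2 → F) 1) = 0 := by
        simp
      rw [h5] at h3
      linear_combination h3
    exact (mul_eq_zero.1 h4).resolve_left h2
  have hdet : (a * d - b * c) * (a * d - b * c) = 1 := by
    linear_combination (c * c + d * d) * hab + hcd - (a * c + b * d) * hac
  rcases mul_self_eq_one_iff.1 hdet with h | h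
  · right
    have hr1 : refl (e1_ne (F := F)) ![1, 0] = -![1, 0] := refl_self _
    have hr2 : refl (e1_ne (F := F)) ![0, 1] = ![0, 1] := refl_fix _ (by rw [pB_q2]; simp)
    apply refl_of_det h2
    · rw [og_mul, og_mul, hr1, hr2, og_neg]
      show c = - b
      linear_combination (-c) * hab + a * hac - b * h
    · rw [og_mul, og_mul, hr1, hr2, og_neg]
      show d = - - a
      linear_combination (-d) * hab + b * hac + a * h
  · left
    apply refl_of_det h2
    · show c = b
      linear_combination (-c) * hab + a * hac - b * h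
    · show d = -a
      linear_combination (-d) * hab + b * hac + a * h

end two

theorem notMem {F V : Type*} [Field F] [Finite F] [AddCommGroup V] [Module F V] [FiniteDimensional F V] [Finite V]
    {Q : QuadraticForm F V} (h2 : (2 : F) ≠ 0) (hnd : ND Q) (hn : 2 ≤ Module.finrank F V)
    {u0 v0 : V} (hu0 : Q u0 ≠ 0) (hv0 : Q v0 ≠ 0) (hns : ¬ IsSquare (Q u0 * Q v0)) :
    refl hu0 ∉ commutator (OG Q) ∧ refl hv0 ∉ commutator (OG Q) ∧ refl hu0 * refl hv0 ∉ commutator (OG Q) := by
  have hidx := comm_index_odd h2 hnd hn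
  have hcard : Nat.card (Abelianization (OG Q)) = 4 := hidx
  have hcases := ab_cases h2 hnd hu0 hv0 hns
  have key : ∀ t : Abelianization (OG Q), ¬ ∀ g : OG Q, Abelianization.of g = 1 ∨ Abelianization.of g = t := by
    intro t h
    have h3 : Nat.card (Abelianization (OG Q)) ≤ Nat.card (Fin 2) := by
      apply Nat.card_le_card_of_surjective (f := ![1, t])
      intro y
      obtain ⟨g, rfl⟩ := QuotientGroup.mk_surjective y
      rcases h g with h | h
      · exact ⟨0, h.symm⟩
      · exact ⟨1, h.symm⟩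
    rw [hcard, Nat.card_fin] at h3
    omega
  have hker : ∀ g : OG Q, g ∈ commutator (OG Q) → Abelianization.of g = 1 := by
    intro g hg
    rwa [← MonoidHom.mem_ker, Abelianization.ker_of]
  refine ⟨fun h => ?_, fun h => ?_, fun h => ?_⟩
  · apply key (Abelianization.of (refl hv0))
    intro g
    have h3 := hker _ h
    rcases hcases g with h4 | h4 | h4 | h4
    · exact Or.inl h4
    · exact Or.inl (h4.trans h3)
    · exact Or.inr h4
    · right; rw [h4, h3, one_mul]
  · apply key (Abelianization.of (refl hu0))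
    intro g
    have h3 := hker _ h
    rcases hcases g with h4 | h4 | h4 | h4
    · exact Or.inl h4
    · exact Or.inr h4
    · exact Or.inl (h4.trans h3)
    · right; rw [h4, h3, mul_one]
  · apply key (Abelianization.of (refl hu0))
    intro g
    have h3 := hker _ h
    rw [map_mul] at h3
    have h5 : Abelianization.of (refl hv0) = Abelianization.of (refl hu0) := by
      have h6 := ab_refl_sq (Q := Q) hu0
      rw [eq_comm, ← mul_left_cancel_iff (a := Abelianization.of (refl hu0)), h6, h3]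
    rcases hcases g with h4 | h4 | h4 | h4
    · exact Or.inl h4
    · exact Or.inr h4
    · exact Or.inr (h4.trans h5)
    · exact Or.inl (h4.trans h3)

theorem refl_commute {F V : Type*} [Field F] [AddCommGroup V] [Module F V]
    {Q : QuadraticForm F V} {u v : V} (hu : Q u ≠ 0) (hv : Q v ≠ 0) (h : pB Q u v = 0) :
    Commute (refl hu) (refl hv) := by
  have h1 : refl hu v = v := refl_fix hu h
  have h2 : Q (refl hu v) ≠ 0 := by rw [h1]; exact hv
  have h3 := refl_conj (refl hu) hv h2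
  have h4 : refl h2 = refl hv := by
    congr 1
  rw [h4, mul_inv_eq_iff_eq_mul] at h3
  exact h3

theorem refl_mul_mem {F V : Type*} [Field F] [Finite F] [AddCommGroup V] [Module F V] [FiniteDimensional F V]
    {Q : QuadraticForm F V} (hnd : ND Q) {u v : V} (hu : Q u ≠ 0) (hv : Q v ≠ 0)
    (h : IsSquare (Q u * Q v)) : refl hu * refl hv ∈ commutator (OG Q) := by
  rw [← Abelianization.ker_of, MonoidHom.mem_ker, map_mul, ab_refl_eq hnd hu hv h, ab_refl_sq]

section model

variable {F : Type*} [Field F] {k w : ℕ}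

/-- difference vectors -/
def dv (w : ℕ) (F : Type*) [Field F] {k : ℕ} (i j : Fin k) (a : Fin 2) : (Fin k × Fin 2) ⊕ Fin w → F :=
  emb w i (Pi.single a 1) - emb w j (Pi.single a 1)

theorem q2_single (a : Fin 2) : q2 F (Pi.single a 1) = 1 := by
  rw [q2_apply]
  fin_cases a <;> simp

theorem pB_single (a : Fin 2) (y : Fin 2 → F) : pB (q2 F) (Pi.single a 1) y = 2 * y a := by
  rw [pB_q2]
  fin_cases a <;> simp

theorem qm_dv (c : Fin w → F) {i j : Fin k} (h : i ≠ j) (a : Fin 2) : qm k c (dv w F i j a) = 2 := by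
  unfold dv
  rw [q_sub, qm_emb, qm_emb, pB_emb, blk_emb_ne h, map_zero, q2_single]
  ring

theorem pB_dv (c : Fin w → F) (i j : Fin k) (a : Fin 2) (x : (Fin k × Fin 2) ⊕ Fin w → F) :
    pB (qm k c) (dv w F i j a) x = 2 * (x (Sum.inl (i, a)) - x (Sum.inl (j, a))) := by
  unfold dv
  rw [pl_sub, pB_emb, pB_emb, pB_single, pB_single]
  unfold blk
  ring

theorem pHom_swap (h2 : (2 : F) ≠ 0) {c : Fin w → F} (hnd : ND (qm k c)) {i j : Fin k} (h : i ≠ j)
    (h0 : qm k c (dv w F i j 0) ≠ 0) (h1 : qm k c (dv w F i j 1) ≠ 0) :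
    pHom hnd (Equiv.swap i j) = refl h0 * refl h1 := by
  apply og_ext
  intro x
  rw [og_mul, refl_apply, refl_apply, qm_dv c h, qm_dv c h, pB_dv, pB_dv, inv_mul_cancel_left₀ h2, inv_mul_cancel_left₀ h2]
  have hd0 : ∀ (m : Fin k) (b : Fin 2), dv w F i j 0 (Sum.inl (m, b)) =
      (if m = i then (Pi.single 0 1 : Fin 2 → F) b else 0) - (if m = j then (Pi.single 0 1 : Fin 2 → F) b else 0) := fun _ _ => rfl
  have hd1 : ∀ (m : Fin k) (b : Fin 2), dv w F i j 1 (Sum.inl (m, b)) =
      (if m = i then (Pi.single 1 1 : Fin 2 → F) b else 0) - (if m = j then (Pi.single 1 1 : Fin 2 → F) b else 0) := fun _ _ => rfl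
  funext p
  rcases p with ⟨m, b⟩ | l
  · show x (Sum.inl ((Equiv.swap i j)⁻¹ m, b)) = _
    rw [Equiv.swap_inv]
    simp only [Pi.sub_apply, Pi.smul_apply, smul_eq_mul, hd0, hd1]
    by_cases hmi : m = i
    · subst hmi
      rw [Equiv.swap_apply_left]
      simp only [if_true, if_neg h, if_neg h.symm, sub_zero]
      fin_cases b <;> simp
    · by_cases hmj : m = j
      · subst hmj
        rw [Equiv.swap_apply_right]
        simp only [if_true, if_neg h, if_neg h.symm, zero_sub]
        fin_cases b <;> simp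
      · rw [Equiv.swap_apply_of_ne_of_ne hmi hmj]
        simp only [if_neg hmi, if_neg hmj, sub_zero, mul_zero]
  · have e0 : dv w F i j 0 (Sum.inr l) = 0 := sub_zero _
    have e1 : dv w F i j 1 (Sum.inr l) = 0 := sub_zero _
    rw [pHom_inr]
    simp only [Pi.sub_apply, Pi.smul_apply, smul_eq_mul, e0, e1, mul_zero, sub_zero]

theorem pHom_mem [Finite F] (h2 : (2 : F) ≠ 0) {c : Fin w → F} (hnd : ND (qm k c)) (σ : Equiv.Perm (Fin k)) :
    pHom hnd σ ∈ commutator (OG (qm k c)) := by
  induction σ using Equiv.Perm.swap_induction_on with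
  | one => rw [map_one]; exact one_mem _
  | swap_mul f i j hij ih =>
    rw [map_mul]
    refine mul_mem ?_ ih
    have h0 : qm k c (dv w F i j 0) ≠ 0 := by rw [qm_dv c hij]; exact h2
    have h1 : qm k c (dv w F i j 1) ≠ 0 := by rw [qm_dv c hij]; exact h2
    rw [pHom_swap h2 hnd hij h0 h1]
    refine refl_mul_mem hnd h0 h1 ?_
    rw [qm_dv c hij, qm_dv c hij]
    exact ⟨2, rfl⟩

end model

end Cfsg.Agent.H7.OrthSyl
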