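import Cfsg.Agent.H7.OrthSyl3

set_option autoImplicit false

/-!
Sylow 2-subgroups of the orthogonal groups: the wreath product.
-/

namespace Cfsg.Agent.H7.OrthSyl

open Subgroup Cfsg.Agent.H5
open Cfsg.Agent.H7.SylSp

variable {F : Type*} [Field F] {k w : ℕ}

/-- the reflections of a class -/
def RS {c : Fin w → F} (D : Subgroup (OG (q2 F))) (P : F → Prop) : Set (OG (qm k c)) :=
  {x | ∃ (u : (Fin k × Fin 2) ⊕ Fin w → F) (hu : qm k c u ≠ 0), P (qm k c u) ∧ x = refl hu ∧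
    ((∃ (i : Fin k) (v : Fin 2 → F) (hv : q2 F v ≠ 0), refl hv ∈ D ∧ u = emb w i v) ∨ ∃ l : Fin w, u = eo k F l)}

theorem RS_emb {c : Fin w → F} (hnd : ND (qm k c)) {D : Subgroup (OG (q2 F))} {P : F → Prop} {i : Fin k} {v : Fin 2 → F}
    (hv : q2 F v ≠ 0) (hD : refl hv ∈ D) (hP : P (q2 F v)) :
    bHom hnd (Pi.mulSingle i (refl hv), 1) ∈ RS (k := k) (c := c) D P := by
  have hv' : qm k c (emb w i v) ≠ 0 := by rw [qm_emb]; exact hv
  exact ⟨emb w i v, hv', by rw [qm_emb]; exact hP, (refl_emb hnd i hv hv').symm, Or.inl ⟨i, v, hv, hD, rfl⟩⟩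

theorem RS_eo {c : Fin w → F} (hc : ∀ l, c l ≠ 0) (hnd : ND (qm k c)) {D : Subgroup (OG (q2 F))} {P : F → Prop} {l : Fin w}
    (hP : P (c l)) : bHom hnd (1, Pi.mulSingle l (-1)) ∈ RS (k := k) (c := c) D P := by
  have hv' : qm k c (eo k F l) ≠ 0 := by rw [qm_eo]; exact hc l
  exact ⟨eo k F l, hv', by rw [qm_eo]; exact hP, (refl_eo hnd l hv').symm, Or.inr ⟨l, rfl⟩⟩

theorem RS_pair [Finite F] {c : Fin w → F} (hk : 2 ≤ k) (hnd : ND (qm k c)) {D : Subgroup (OG (q2 F))}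
    {P : F → Prop} (hP : ∀ a b, P a → P b → IsSquare (a * b)) {x y : OG (qm k c)}
    (hx : x ∈ RS (k := k) (c := c) D P) (hy : y ∈ RS (k := k) (c := c) D P) :
    x * y ∈ commutator (OG (qm k c)) ∧ ∃ f ∈ RS (k := k) (c := c) D P, Commute x f ∧ Commute f y := by
  obtain ⟨u, hu, hPu, rfl, hu'⟩ := hx
  obtain ⟨v, hv, hPv, rfl, hv'⟩ := hy
  refine ⟨refl_mul_mem hnd hu hv (hP _ _ hPu hPv), ?_⟩
  have hcase : pB (qm k c) u v = 0 → ∃ f ∈ RS (k := k) (c := c) D P, Commute (refl hu) f ∧ Commute f (refl hv) := by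
    intro h
    exact ⟨refl hu, ⟨u, hu, hPu, rfl, hu'⟩, Commute.refl _, refl_commute hu hv h⟩
  rcases hu' with ⟨i, a, ha, haD, rfl⟩ | ⟨l, rfl⟩
  · rcases hv' with ⟨j, b, hb, hbD, rfl⟩ | ⟨l, rfl⟩
    · by_cases hij : i = j
      · subst hij
        obtain ⟨j', hj'⟩ : ∃ j' : Fin k, j' ≠ i := by
          by_contra hcon
          push Not at hcon
          have h1 := hcon ⟨0, by omega⟩
          have h2 := hcon ⟨1, by omega⟩
          rw [← h2] at h1
          simp [Fin.ext_iff] at h1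
        have hw : qm k c (emb w j' a) ≠ 0 := by rw [qm_emb]; exact ha
        refine ⟨refl hw, ⟨emb w j' a, hw, by rw [qm_emb]; rw [qm_emb] at hPu; exact hPu, rfl, Or.inl ⟨j', a, ha, haD, rfl⟩⟩, ?_, ?_⟩
        · apply refl_commute
          rw [pB_emb, blk_emb_ne (Ne.symm hj'), map_zero]
        · apply refl_commute
          rw [pB_emb, blk_emb_ne hj', map_zero]
      · apply hcase
        rw [pB_emb, blk_emb_ne hij, map_zero]
    · apply hcase
      rw [pB_symm, pB_eo, emb_inr, mul_zero]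
  · rcases hv' with ⟨j, b, hb, hbD, rfl⟩ | ⟨l', rfl⟩
    · apply hcase
      rw [pB_eo, emb_inr, mul_zero]
    · by_cases hll : l = l'
      · subst hll
        exact ⟨refl hu, ⟨eo k F l, hu, hPu, rfl, Or.inr ⟨l, rfl⟩⟩, Commute.refl _, Commute.refl _⟩
      · apply hcase
        rw [pB_eo]
        have : eo k F l' (Sum.inr l) = 0 := Pi.single_eq_of_ne (fun h => hll (Sum.inr_injective h)) _
        rw [this, mul_zero]

theorem bHom_single_mul {c : Fin w → F} (hnd : ND (qm k c)) (i : Fin k) (a b : OG (q2 F)) :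
    bHom hnd (Pi.mulSingle i (a * b), 1) = bHom hnd (Pi.mulSingle i a, 1) * bHom hnd (Pi.mulSingle i b, 1) := by
  rw [← map_mul, Prod.mk_mul_mk, ← Pi.mulSingle_mul, mul_one]

theorem main [Finite F] (h2 : (2 : F) ≠ 0) (hk : 2 ≤ k) {c : Fin w → F} (hc : ∀ l, c l ≠ 0)
    (hcard : (Nat.card (OG (qm k c))).factorization 2
      = k * (Nat.card (OG (q2 F))).factorization 2 + k.factorial.factorization 2 + w) :
    ∃ T : Subgroup (OG (qm k c)), Nat.card T = 2 ^ (Nat.card (OG (qm k c))).factorization 2 ∧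
      ∀ x ∈ commutator (OG (qm k c)) ⊓ T, x ^ 2 ∈ ⁅commutator (OG (qm k c)) ⊓ T, commutator (OG (qm k c)) ⊓ T⁆ := by
  classical
  have : Fact (Nat.Prime 2) := ⟨Nat.prime_two⟩
  have hnd : ND (qm k c) := nd_qm h2 hc
  have hnd2 : ND (q2 F) := nd_q2 h2
  have hfr2 : 2 ≤ Module.finrank F (Fin 2 → F) := by
    rw [Module.finrank_fintype_fun_eq_card, Fintype.card_fin]
  have hp2 : ∀ {V : Type _} [AddCommGroup V] [Module F V] (Q : QuadraticForm F V) {v : V} (hv : Q v ≠ 0), IsPGroup 2 (zpowers (refl hv)) := by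
    intro V _ _ Q v hv
    rintro ⟨x, m, hm⟩
    refine ⟨1, Subtype.ext ?_⟩
    show x ^ 2 ^ 1 = 1
    rw [← hm]
    show (refl hv ^ m) ^ 2 ^ 1 = 1
    rw [pow_one, sq, ← (Commute.refl (refl hv)).mul_zpow, refl_mul_self, one_zpow]
  obtain ⟨D, hD⟩ := (hp2 (q2 F) (e1_ne (F := F))).exists_le_sylow
  have hD1 : refl (e1_ne (F := F)) ∈ (D : Subgroup (OG (q2 F))) := hD (mem_zpowers _)
  obtain ⟨v1, hv1, hv1D, hv1ns⟩ : ∃ (v : Fin 2 → F) (hv : q2 F v ≠ 0), refl hv ∈ (D : Subgroup (OG (q2 F))) ∧ ¬ IsSquare (q2 F v) := by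
    obtain ⟨α, hα⟩ := exists_nonsq (F := F) h2
    obtain ⟨v, hv⟩ := exists_val h2 hnd2 hfr2 α
    have hv0 : q2 F v ≠ 0 := by
      rw [hv]
      rintro rfl
      exact hα ⟨0, by rw [mul_zero]⟩
    obtain ⟨D', hD'⟩ := (hp2 (q2 F) hv0).exists_le_sylow
    obtain ⟨g, hg⟩ := MulAction.exists_smul_eq (OG (q2 F)) D' D
    have h3 : q2 F (g v) ≠ 0 := by rw [og_q]; exact hv0
    refine ⟨g v, h3, ?_, by rw [og_q, hv]; exact hα⟩
    rw [← refl_conj g hv0 h3, ← hg]
    have h4 : refl hv0 ∈ (D' : Subgroup (OG (q2 F))) := hD' (mem_zpowers _)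
    exact ⟨refl hv0, h4, rfl⟩
  let R : Sylow 2 (Equiv.Perm (Fin k)) := default
  set K : Subgroup ((Fin k → OG (q2 F)) × (Fin w → ℤˣ)) :=
    (Subgroup.pi (Set.univ : Set (Fin k)) (fun _ => (D : Subgroup (OG (q2 F))))).prod ⊤ with hK
  set Pi' : Subgroup (OG (qm k c)) := (R : Subgroup (Equiv.Perm (Fin k))).map (pHom hnd) with hPi'
  set T : Subgroup (OG (qm k c)) := K.map (bHom hnd) ⊔ Pi' with hT
  have hKmem : ∀ g u, (g, u) ∈ K ↔ ∀ i, g i ∈ (D : Subgroup (OG (q2 F))) := by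
    intro g u
    constructor
    · intro h i
      exact h.1 i (Set.mem_univ i)
    · intro h
      exact ⟨fun i _ => h i, mem_top _⟩
  have hnorm : Pi' ≤ normalizer (K.map (bHom hnd) : Set (OG (qm k c))) := by
    apply H23.le_normalizer_of_conj_mem
    rintro _ ⟨σ, hσ, rfl⟩ _ ⟨⟨g, u⟩, hg, rfl⟩
    rw [conj_bHom, mul_inv_cancel_right]
    refine ⟨_, ?_, rfl⟩
    show (_, _) ∈ K
    rw [hKmem]
    intro i
    exact (hKmem g u).1 hg _
  have hinf : K.map (bHom hnd) ⊓ Pi' = ⊥ := by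
    rw [eq_bot_iff]
    rintro _ ⟨⟨g, -, rfl⟩, ⟨σ, -, hσ⟩⟩
    rw [mem_bot, ← hσ, bHom_eq_pHom hnd hσ.symm, map_one]
  refine ⟨T, ?_, ?_⟩
  · have h1 := H1.card_sup_mul_card_inf_of_le_normalizer hnorm
    rw [hinf, card_bot, mul_one] at h1
    have hcR : Nat.card (R : Subgroup (Equiv.Perm (Fin k))) = 2 ^ (k.factorial.factorization 2) := by
      have h4 : (Nat.card (Equiv.Perm (Fin k))) = k.factorial := by
        rw [Nat.card_eq_fintype_card, Fintype.card_perm, Fintype.card_fin]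
      rw [← h4]
      exact R.card_eq_multiplicity
    have hcK : Nat.card K = (2 ^ (Nat.card (OG (q2 F))).factorization 2) ^ k * 2 ^ w := by
      rw [← D.card_eq_multiplicity, hK, Nat.card_congr (Subgroup.prodEquiv _ _).toEquiv, Nat.card_prod, card_pi,
        Nat.card_congr topEquiv.toEquiv, Nat.card_fun, Nat.card_fin, Nat.card_eq_fintype_card (α := ℤˣ),
        Fintype.card_units_int]
    rw [hT, h1, ← Nat.card_congr (equivMapOfInjective K (bHom hnd) (bHom_injective h2 hnd)).toEquiv, hPi',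
      ← Nat.card_congr (equivMapOfInjective (R : Subgroup (Equiv.Perm (Fin k))) (pHom hnd) (pHom_injective hnd)).toEquiv, hcR,
      hcK, hcard, ← pow_mul, ← pow_add, ← pow_add]
    congr 1
    ring
  -- the reflections
  have hRST : ∀ P : F → Prop, ∀ x ∈ RS (k := k) (c := c) (D : Subgroup (OG (q2 F))) P, x ∈ T ∧ x * x = 1 := by
    rintro P x ⟨u, hu, hPu, rfl, hu'⟩
    refine ⟨mem_sup_left ?_, refl_mul_self hu⟩
    rcases hu' with ⟨i, v, hv, hvD, rfl⟩ | ⟨l, rfl⟩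
    · rw [refl_emb hnd i hv hu]
      refine mem_map_of_mem _ ?_
      rw [hKmem]
      intro j
      rcases eq_or_ne j i with rfl | h
      · rwa [Pi.mulSingle_eq_same]
      · rw [Pi.mulSingle_eq_of_ne h]
        exact one_mem _
    · rw [refl_eo hnd l hu]
      refine mem_map_of_mem _ ?_
      rw [hKmem]
      intro j
      exact one_mem _
  have hPile : Pi' ≤ commutator (OG (qm k c)) ⊓ T := by
    rintro _ ⟨σ, hσ, rfl⟩
    exact ⟨pHom_mem h2 hnd σ, mem_sup_right (mem_map_of_mem _ hσ)⟩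
  have hPisq : ∀ x ∈ Pi', x ^ 2 ∈ ⁅Pi', Pi'⁆ := by
    apply pow_map
    intro g hg
    exact (SylSn.sylow_gen k R).1.pow_mem hg
  have i0 : Fin k := ⟨0, by omega⟩
  have hgen : T ≤ closure (RS (k := k) (c := c) (D : Subgroup (OG (q2 F))) IsSquare ∪
      RS (k := k) (c := c) (D : Subgroup (OG (q2 F))) (fun a => ¬ IsSquare a) ∪ (Pi' : Set (OG (qm k c)))) := by
    set C := closure (RS (k := k) (c := c) (D : Subgroup (OG (q2 F))) IsSquare ∪
      RS (k := k) (c := c) (D : Subgroup (OG (q2 F))) (fun a => ¬ IsSquare a) ∪ (Pi' : Set (OG (qm k c)))) with hC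
    refine sup_le ?_ (fun x hx => subset_closure (Or.inr hx))
    have hrefl : ∀ (i : Fin k) (v : Fin 2 → F) (hv : q2 F v ≠ 0), refl hv ∈ (D : Subgroup (OG (q2 F))) →
        bHom hnd (Pi.mulSingle i (refl hv), 1) ∈ C := by
      intro i v hv hvD
      by_cases hs : IsSquare (q2 F v)
      · exact subset_closure (Or.inl (Or.inl (RS_emb hnd hv hvD hs)))
      · exact subset_closure (Or.inl (Or.inr (RS_emb hnd hv hvD hs)))
    have hsingle : ∀ (i : Fin k) (d : OG (q2 F)), d ∈ (D : Subgroup (OG (q2 F))) → bHom hnd (Pi.mulSingle i d, 1) ∈ C := by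
      intro i d hd
      rcases exists_refl h2 d with ⟨v, hv, rfl⟩ | ⟨v, hv, hdv⟩
      · exact hrefl i v hv hd
      · have h3 : d = refl hv * refl (e1_ne (F := F)) := by
          rw [← hdv, mul_assoc, refl_mul_self, mul_one]
        have h4 : refl hv ∈ (D : Subgroup (OG (q2 F))) := by
          rw [← hdv]
          exact mul_mem hd hD1
        rw [h3, bHom_single_mul]
        exact mul_mem (hrefl i v hv h4) (hrefl i ![1, 0] e1_ne hD1)
    have heo : ∀ l : Fin w, bHom hnd (1, Pi.mulSingle l (-1)) ∈ C := by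
      intro l
      by_cases hs : IsSquare (c l)
      · exact subset_closure (Or.inl (Or.inl (RS_eo hc hnd hs)))
      · exact subset_closure (Or.inl (Or.inr (RS_eo hc hnd hs)))
    rintro _ ⟨⟨g, u⟩, hg, rfl⟩
    replace hg : (g, u) ∈ K := hg
    have hg' := (hKmem g u).1 hg
    have h3 : ((g, u) : (Fin k → OG (q2 F)) × (Fin w → ℤˣ)) = (g, 1) * (1, u) := by
      rw [Prod.mk_mul_mk, mul_one, one_mul]
    rw [h3, map_mul]
    refine mul_mem ?_ ?_
    · show g ∈ (C.comap (bHom hnd)).comap (MonoidHom.inl (Fin k → OG (q2 F)) (Fin w → ℤˣ))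
      apply Subgroup.pi_mem_of_mulSingle_mem
      intro i
      exact hsingle i (g i) (hg' i)
    · show u ∈ (C.comap (bHom hnd)).comap (MonoidHom.inr (Fin k → OG (q2 F)) (Fin w → ℤˣ))
      apply Subgroup.pi_mem_of_mulSingle_mem
      intro l
      rcases Int.units_eq_one_or (u l) with h | h
      · rw [h, Pi.mulSingle_one]
        exact one_mem _
      · rw [h]
        exact heo l
  have hfin : Finite ((Fin k × Fin 2) ⊕ Fin w → F) := inferInstance
  have hfr : 2 ≤ Module.finrank F ((Fin k × Fin 2) ⊕ Fin w → F) := by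
    rw [Module.finrank_fintype_fun_eq_card, Fintype.card_sum, Fintype.card_prod, Fintype.card_fin, Fintype.card_fin,
      Fintype.card_fin]
    omega
  have hu0 : qm k c (emb w i0 ![1, 0]) ≠ 0 := by rw [qm_emb]; exact e1_ne
  have hv0 : qm k c (emb w i0 v1) ≠ 0 := by rw [qm_emb]; exact hv1
  have hnm := notMem h2 hnd hfr hu0 hv0 (by rw [qm_emb, qm_emb, q2_e1, one_mul]; exact hv1ns)
  rw [refl_emb hnd i0 e1_ne hu0, refl_emb hnd i0 hv1 hv0] at hnm
  refine lemM (hRST _) (hRST _) hPile hPisq hgen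
    (fun x hx y hy => RS_pair hk hnd (fun a b ha hb => ha.mul hb) hx hy)
    (fun x hx y hy => RS_pair hk hnd (fun a b ha hb => nonsq_mul h2 ha hb) hx hy)
    (r := bHom hnd (Pi.mulSingle i0 (refl (e1_ne (F := F))), 1)) (s := bHom hnd (Pi.mulSingle i0 (refl hv1), 1))
    (RS_emb hnd e1_ne hD1 (by rw [q2_e1]; exact ⟨1, by rw [one_mul]⟩)) (RS_emb hnd hv1 hv1D hv1ns) ?_
    hnm.1 hnm.2.1 hnm.2.2
  have h5 : q2 F (refl hv1 ![1, 0]) ≠ 0 := by rw [og_q]; exact e1_ne
  have h6 : refl hv1 * refl (e1_ne (F := F)) * refl hv1 = refl h5 := by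
    rw [← refl_conj (refl hv1) e1_ne h5, refl_inv]
  rw [← bHom_single_mul, ← bHom_single_mul, h6]
  refine RS_emb hnd h5 ?_ ?_
  · rw [← h6]
    exact mul_mem (mul_mem hv1D hD1) hv1D
  · rw [og_q, q2_e1]
    exact ⟨1, by rw [one_mul]⟩

end Cfsg.Agent.H7.OrthSyl
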