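import Cfsg.Agent.H7.OrthSyl5

set_option autoImplicit false

/-!
Sylow 2-subgroups of the orthogonal groups: the three rows.
-/

namespace Cfsg.Agent.H7.OrthSyl

open Subgroup Cfsg.Agent.H5
open Cfsg.Agent.H7.SylSp

variable {F : Type*} [Field F] [Fintype F]

theorem odd_row (hF : Odd (Fintype.card F)) (m : ℕ) (hm : 3 ≤ m)
    (P : Sylow 2 (Cfsg.Omega F (Cfsg.quadFormOdd m F))) :
    ∀ x : (P : Subgroup (Cfsg.Omega F (Cfsg.quadFormOdd m F))),
      x ^ 2 ∈ commutator (P : Subgroup (Cfsg.Omega F (Cfsg.quadFormOdd m F))) := by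
  have h2 := ne_two hF
  have hq1 : 1 < Fintype.card F := Fintype.one_lt_card
  have hne : ∀ i, Fintype.card F ^ (2 * (i + 1)) - 1 ≠ 0 := by
    intro i
    have : 1 < Fintype.card F ^ (2 * (i + 1)) := Nat.one_lt_pow (by omega) hq1
    omega
  have hnd := H5.nd_odd (m := m) h2
  have hgd := gd_ne_zero hnd
  have hc : ∀ l : Fin 1, (fun _ : Fin 1 => 2 * gd (H5.qOdd m F)) l ≠ 0 := fun _ => mul_ne_zero h2 hgd
  obtain ⟨e⟩ := iso_std h2 (Q := H5.qOdd m F) (Q' := qm m (fun _ : Fin 1 => 2 * gd (H5.qOdd m F))) hnd (nd_qm h2 hc)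
    (by simp; ring) (by
      rw [gd_qm, Fin.prod_univ_one]
      exact ⟨2 ^ (m + 1) * gd (H5.qOdd m F), by ring⟩)
  have e' : Cfsg.isometryGroup F (Cfsg.quadFormOdd m F) ≃* OG (H5.qOdd m F) := by
    rw [← H5.qOdd_coe]
    exact ogEquiv (H5.qOdd m F)
  refine row (e'.trans e) h2 (by omega) hc ?_ P
  rw [S0286.result (F := F) rfl hF m, v_q2 hF, Nat.factorization_mul (mul_ne_zero two_ne_zero (pow_ne_zero _ (by omega)))
    (Finset.prod_ne_zero_iff.2 (fun i _ => hne i)), Nat.factorization_mul two_ne_zero (pow_ne_zero _ (by omega)),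
    Finsupp.add_apply, Finsupp.add_apply, Nat.Prime.factorization_self Nat.prime_two,
    Nat.factorization_eq_zero_of_not_dvd (q_odd_pow hF _), vprod hF hq1]
  ring

/-- The two models in even dimension. -/
theorem even_row (hF : Odd (Fintype.card F)) {ι : Type} [Fintype ι] [DecidableEq ι] {Q : QuadraticForm F (ι → F)}
    (hnd : ND Q) (m : ℕ) (hm : 2 ≤ m) (hι : Fintype.card ι = 2 * m)
    (hcard : (IsSquare (gd Q) ∧ (Nat.card (OG Q)).factorization 2
        = m * ((Fintype.card F) ^ 2 - 1).factorization 2 + m.factorial.factorization 2) ∨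
      (¬ IsSquare (gd Q) ∧ 3 ≤ m ∧ (Nat.card (OG Q)).factorization 2
        = (m - 1) * ((Fintype.card F) ^ 2 - 1).factorization 2 + (m - 1).factorial.factorization 2 + 2))
    (P : Sylow 2 (Cfsg.Omega F (⇑Q))) :
    ∀ x : (P : Subgroup (Cfsg.Omega F (⇑Q))), x ^ 2 ∈ commutator (P : Subgroup (Cfsg.Omega F (⇑Q))) := by
  have h2 := ne_two hF
  have hgd := gd_ne_zero hnd
  rcases hcard with ⟨hsq, hcard⟩ | ⟨hsq, hm3, hcard⟩
  · have hc : ∀ l : Fin 0, (fun _ : Fin 0 => (1 : F)) l ≠ 0 := fun l => l.elim0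
    obtain ⟨e⟩ := iso_std h2 (Q := Q) (Q' := qm m (fun _ : Fin 0 => (1 : F))) hnd (nd_qm h2 hc)
      (by rw [hι]; simp; ring) (by
        rw [gd_qm, Fin.prod_univ_zero, mul_one, mul_comm 2 m, pow_mul, sq]
        exact hsq.mul ⟨2 ^ m, rfl⟩)
    refine row ((ogEquiv Q).trans e) h2 hm hc ?_ P
    rw [v_q2 hF, add_zero, ← hcard, Nat.card_congr (ogEquiv Q).toEquiv]
  · have hc : ∀ l : Fin 2, (![1, gd Q] : Fin 2 → F) l ≠ 0 := by
      intro l
      fin_cases l
      · exact one_ne_zero
      · exact hgd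
    obtain ⟨e⟩ := iso_std h2 (Q := Q) (Q' := qm (m - 1) (![1, gd Q] : Fin 2 → F)) hnd (nd_qm h2 hc)
      (by rw [hι]; simp; omega) (by
        rw [gd_qm, Fin.prod_univ_two]
        refine ⟨gd Q * 2 ^ m, ?_⟩
        show gd Q * (2 ^ (2 * (m - 1)) * (2 * 1 * (2 * gd Q))) = _
        obtain ⟨t, rfl⟩ : ∃ t, m = t + 1 := ⟨m - 1, by omega⟩
        rw [Nat.add_sub_cancel]
        ring)
    refine row ((ogEquiv Q).trans e) h2 (by omega) hc ?_ P
    rw [v_q2 hF, ← hcard, Nat.card_congr (ogEquiv Q).toEquiv]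

theorem fact_pred {m : ℕ} (hm : 1 ≤ m) : m.factorial.factorization 2 = m.factorization 2 + (m - 1).factorial.factorization 2 := by
  obtain ⟨t, rfl⟩ : ∃ t, m = t + 1 := ⟨m - 1, by omega⟩
  rw [Nat.factorial_succ, Nat.factorization_mul (by omega) (Nat.factorial_ne_zero t), Finsupp.add_apply, Nat.add_sub_cancel]

theorem plus_row (hF : Odd (Fintype.card F)) (m : ℕ) (hm : 1 ≤ m) (hm' : Even m ∨ 4 ≤ m)
    (P : Sylow 2 (Cfsg.Omega F (Cfsg.quadFormPlus m F))) :
    ∀ x : (P : Subgroup (Cfsg.Omega F (Cfsg.quadFormPlus m F))),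
      x ^ 2 ∈ commutator (P : Subgroup (Cfsg.Omega F (Cfsg.quadFormPlus m F))) := by
  have h2 := ne_two hF
  have hq1 : 1 < Fintype.card F := Fintype.one_lt_card
  have hm2 : 2 ≤ m := by
    rcases hm' with h | h
    · obtain ⟨t, ht⟩ := h; omega
    · omega
  have hne : ∀ i, Fintype.card F ^ (2 * (i + 1)) - 1 ≠ 0 := by
    intro i
    have : 1 < Fintype.card F ^ (2 * (i + 1)) := Nat.one_lt_pow (by omega) hq1
    omega
  have hqm : Fintype.card F ^ m - 1 ≠ 0 := by
    have : 1 < Fintype.card F ^ m := Nat.one_lt_pow (by omega) hq1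
    omega
  have hnd := H5.nd_plus (m := m) (F := F)
  have hgd : gd (H5.qPlus m F) = (-1) ^ m := by
    have h6 := H17.gram_qPlus_det m F
    have h7 : H17.qPlus m F = H5.qPlus m F := QuadraticMap.ext (fun v => by
      rw [H17.qPlus_apply, H5.qPlus_coe])
    rw [h7] at h6
    exact h6
  have hv : (Nat.card (OG (H5.qPlus m F))).factorization 2 = 1 + (Fintype.card F ^ m - 1).factorization 2
      + ((m - 1) * (Fintype.card F ^ 2 - 1).factorization 2 + (m - 1).factorial.factorization 2) := by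
    rw [← Nat.card_congr (ogEquiv (H5.qPlus m F)).toEquiv, H5.qPlus_coe, S0287.result (F := F) rfl m hm,
      v4 rfl (q_odd_pow hF _) hqm (Finset.prod_ne_zero_iff.2 (fun i _ => hne i)), vprod hF hq1]
  have hA := vA hF hq1
  have hmm : ∀ A : ℕ, m * A = (m - 1) * A + A := by
    intro A
    obtain ⟨t, rfl⟩ : ∃ t, m = t + 1 := ⟨m - 1, by omega⟩
    rw [Nat.add_sub_cancel]; ring
  have hmain : (IsSquare (gd (H5.qPlus m F)) ∧ (Nat.card (OG (H5.qPlus m F))).factorization 2
        = m * ((Fintype.card F) ^ 2 - 1).factorization 2 + m.factorial.factorization 2) ∨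
      (¬ IsSquare (gd (H5.qPlus m F)) ∧ 3 ≤ m ∧ (Nat.card (OG (H5.qPlus m F))).factorization 2
        = (m - 1) * ((Fintype.card F) ^ 2 - 1).factorization 2 + (m - 1).factorial.factorization 2 + 2) := by
    rw [hgd, hv, fact_pred hm, hmm]
    rcases Nat.even_or_odd m with he | ho
    · left
      obtain ⟨t, ht⟩ := he
      have ht2 : m = 2 * (t - 1 + 1) := by omega
      refine ⟨by rw [Even.neg_one_pow ⟨t, ht⟩]; exact ⟨1, by rw [mul_one]⟩, ?_⟩
      have h3 := val_sq hF hq1 (t - 1)
      rw [← ht2] at h3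
      have h4 : m.factorization 2 = 1 + (t - 1 + 1).factorization 2 := by
        conv_lhs => rw [ht2]
        rw [Nat.factorization_mul (by omega) (by omega), Finsupp.add_apply, Nat.Prime.factorization_self Nat.prime_two]
      rw [h3, h4]
      ring
    · have h5 : m.factorization 2 = 0 := by
        apply Nat.factorization_eq_zero_of_not_dvd
        obtain ⟨t, ht⟩ := ho
        omega
      have h6 : (Fintype.card F ^ m - 1).factorization 2 = (Fintype.card F - 1).factorization 2 := by
        obtain ⟨t, ht⟩ := ho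
        rw [ht]
        exact SylGL.val_odd hF hq1 t
      rw [Odd.neg_one_pow ho]
      by_cases hsq : IsSquare (-1 : F)
      · left
        have h4 : Fintype.card F % 4 = 1 := by
          have := FiniteField.isSquare_neg_one_iff.1 hsq
          obtain ⟨k, hk⟩ := hF
          omega
        refine ⟨hsq, ?_⟩
        rw [h6, h5, hA, v_one (n := Fintype.card F + 1) (by omega)]
        ring
      · right
        have h4 : Fintype.card F % 4 = 3 := by
          by_contra h
          exact hsq (FiniteField.isSquare_neg_one_iff.2 h)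
        refine ⟨hsq, ?_, ?_⟩
        · rcases hm' with h | h
          · exact absurd h (Nat.not_even_iff_odd.2 ho)
          · omega
        · rw [h6, v_one (n := Fintype.card F - 1) (by omega)]
          ring
  have h9 : ∀ (f : (Fin m ⊕ Fin m → F) → F) (hf : f = ⇑(H5.qPlus m F)) (P : Sylow 2 (Cfsg.Omega F f)),
      ∀ x : (P : Subgroup (Cfsg.Omega F f)), x ^ 2 ∈ commutator (P : Subgroup (Cfsg.Omega F f)) := by
    rintro f rfl P
    exact even_row hF hnd m hm2 (by simp; ring) hmain P
  exact h9 _ (H5.qPlus_coe m F).symm P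

theorem minus_row (hF : Odd (Fintype.card F)) (m : ℕ) (hm : 4 ≤ m) (a b : F)
    (hab : ∀ z₁ z₂ : F, z₁ ^ 2 + a * z₁ * z₂ + b * z₂ ^ 2 = 0 → z₁ = 0 ∧ z₂ = 0)
    (P : Sylow 2 (Cfsg.Omega F (Cfsg.quadFormMinus (m - 1) F a b))) :
    ∀ x : (P : Subgroup (Cfsg.Omega F (Cfsg.quadFormMinus (m - 1) F a b))),
      x ^ 2 ∈ commutator (P : Subgroup (Cfsg.Omega F (Cfsg.quadFormMinus (m - 1) F a b))) := by
  have h2 := ne_two hF
  have hq1 : 1 < Fintype.card F := Fintype.one_lt_card
  have hne : ∀ i, Fintype.card F ^ (2 * (i + 1)) - 1 ≠ 0 := by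
    intro i
    have : 1 < Fintype.card F ^ (2 * (i + 1)) := Nat.one_lt_pow (by omega) hq1
    omega
  have hnd := H5.nd_minus (m := m - 1) hab
  have hgd : gd (H5.qMinus (m - 1) F a b) = (-1) ^ (m - 1) * (4 * b - a ^ 2) := by
    have h6 := H17.gram_qMinus_det (m - 1) F a b
    have h7 : H17.qMinus (m - 1) F a b = H5.qMinus (m - 1) F a b := QuadraticMap.ext (fun v => by
      rw [H17.qMinus_apply, H5.qMinus_coe])
    rw [h7] at h6
    exact h6
  -- the discriminant is not a square
  have hdns : ¬ IsSquare (a ^ 2 - 4 * b) := by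
    rintro ⟨t, ht⟩
    have h3 := hab ((t - a) / 2) 1 (by
      field_simp
      linear_combination -ht)
    exact one_ne_zero h3.2
  have hv : (Nat.card (OG (H5.qMinus (m - 1) F a b))).factorization 2 = 1 + (Fintype.card F ^ m + 1).factorization 2
      + ((m - 1) * (Fintype.card F ^ 2 - 1).factorization 2 + (m - 1).factorial.factorization 2) := by
    rw [← Nat.card_congr (ogEquiv (H5.qMinus (m - 1) F a b)).toEquiv, H5.qMinus_coe, S0288.result (F := F) rfl m (by omega) a b hab,
      v4 rfl (q_odd_pow hF _) (by omega) (Finset.prod_ne_zero_iff.2 (fun i _ => hne i)), vprod hF hq1]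
  have hA := vA hF hq1
  have hmm : ∀ A : ℕ, m * A = (m - 1) * A + A := by
    intro A
    obtain ⟨t, rfl⟩ : ∃ t, m = t + 1 := ⟨m - 1, by omega⟩
    rw [Nat.add_sub_cancel]; ring
  have hmain : (IsSquare (gd (H5.qMinus (m - 1) F a b)) ∧ (Nat.card (OG (H5.qMinus (m - 1) F a b))).factorization 2
        = m * ((Fintype.card F) ^ 2 - 1).factorization 2 + m.factorial.factorization 2) ∨
      (¬ IsSquare (gd (H5.qMinus (m - 1) F a b)) ∧ 3 ≤ m ∧ (Nat.card (OG (H5.qMinus (m - 1) F a b))).factorization 2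
        = (m - 1) * ((Fintype.card F) ^ 2 - 1).factorization 2 + (m - 1).factorial.factorization 2 + 2) := by
    have hgd' : gd (H5.qMinus (m - 1) F a b) = (-1) ^ m * (a ^ 2 - 4 * b) := by
      rw [hgd]
      obtain ⟨t, rfl⟩ : ∃ t, m = t + 1 := ⟨m - 1, by omega⟩
      rw [Nat.add_sub_cancel, pow_succ]; ring
    rw [hgd', hv, fact_pred (by omega : 1 ≤ m), hmm]
    rcases Nat.even_or_odd m with he | ho
    · right
      rw [Even.neg_one_pow he, one_mul]
      refine ⟨hdns, by omega, ?_⟩
      obtain ⟨t, ht⟩ := he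
      have h3 : (Fintype.card F ^ m + 1) % 4 = 2 := by
        have h4 : Fintype.card F ^ m = (Fintype.card F ^ t) * (Fintype.card F ^ t) := by rw [ht, pow_add]
        have h5 : Odd (Fintype.card F ^ t) := hF.pow
        obtain ⟨s, hs⟩ := h5
        rw [h4, hs]
        have h6 : (2 * s + 1) * (2 * s + 1) + 1 = 4 * (s * s + s) + 2 := by ring
        rw [h6]
        omega
      rw [v_one h3]
      ring
    · have h5 : m.factorization 2 = 0 := by
        apply Nat.factorization_eq_zero_of_not_dvd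
        obtain ⟨t, ht⟩ := ho
        omega
      rw [Odd.neg_one_pow ho]
      have h7 : ∀ t : ℕ, Fintype.card F ^ (2 * t + 1) % 4 = Fintype.card F % 4 := by
        intro t
        have h5 : Odd (Fintype.card F ^ t) := hF.pow
        obtain ⟨s, hs⟩ := h5
        have h8 : Fintype.card F ^ (2 * t + 1) = (4 * (s * s + s) + 1) * Fintype.card F := by
          rw [pow_succ, two_mul, pow_add, hs]; ring
        rw [h8, Nat.mul_mod, Nat.add_mod, Nat.mul_mod_right]
        simp
      by_cases hsq : IsSquare (-1 : F)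
      · right
        have h4 : Fintype.card F % 4 = 1 := by
          have := FiniteField.isSquare_neg_one_iff.1 hsq
          obtain ⟨k, hk⟩ := hF
          omega
        refine ⟨sq_mul_nonsq hsq (neg_ne_zero.2 one_ne_zero) hdns, by omega, ?_⟩
        have h3 : (Fintype.card F ^ m + 1) % 4 = 2 := by
          obtain ⟨t, ht⟩ := ho
          have := h7 t
          rw [← ht] at this
          omega
        rw [v_one h3]
        ring
      · left
        have h4 : Fintype.card F % 4 = 3 := by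
          by_contra h
          exact hsq (FiniteField.isSquare_neg_one_iff.2 h)
        refine ⟨nonsq_mul h2 hsq hdns, ?_⟩
        have h3 : (Fintype.card F ^ m + 1).factorization 2 = (Fintype.card F + 1).factorization 2 := by
          have h8 : (Fintype.card F ^ m - 1).factorization 2 = (Fintype.card F - 1).factorization 2 := by
            obtain ⟨t, ht⟩ := ho
            rw [ht]
            exact SylGL.val_odd hF hq1 t
          have h9 := vA (q := Fintype.card F ^ m) hF.pow (Nat.one_lt_pow (by omega) hq1)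
          have h10 : (Fintype.card F ^ m) ^ 2 - 1 = Fintype.card F ^ (2 * (m - 1 + 1)) - 1 := by
            rw [← pow_mul]
            congr 2
            omega
          rw [h10, val_sq hF hq1, show m - 1 + 1 = m from by omega, h5, h8, hA] at h9
          omega
        rw [h3, h5, hA, v_one (n := Fintype.card F - 1) (by omega)]
        ring
  have h9 : ∀ (f : ((Fin (m - 1) ⊕ Fin (m - 1)) ⊕ Fin 2 → F) → F) (hf : f = ⇑(H5.qMinus (m - 1) F a b)) (P : Sylow 2 (Cfsg.Omega F f)),
      ∀ x : (P : Subgroup (Cfsg.Omega F f)), x ^ 2 ∈ commutator (P : Subgroup (Cfsg.Omega F f)) := by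
    rintro f rfl P
    exact even_row hF hnd m (by omega) (by simp; omega) hmain P
  exact h9 _ (H5.qMinus_coe (m - 1) F a b).symm P

end Cfsg.Agent.H7.OrthSyl
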