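import Cfsg.Agent.H7.PrinSolv
import Cfsg.Agent.H2.TateCor
import Cfsg.Agent.H2.Frat
import Cfsg.Agent.H2.NComp
import Cfsg.Agent.H3.Ind

set_option autoImplicit false
set_option linter.style.haveILetI false
set_option linter.unusedSectionVars false

/-! Principal blocks for different primes. -/

namespace Cfsg.Agent.H7.PQBlk

open Subgroup Cfsg Cfsg.Agent.H3 Cfsg.Agent.H27
open scoped ComplexConjugate

universe u

section
variable {X : Type u} [Group X] [Finite X] {p : ℕ} [hp : Fact p.Prime]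

/-- an element outside the derived group is detected by a linear character -/
theorem exists_lin {P : Type u} [Group P] [Finite P] {x : P} (hx : x ∉ commutator P) :
    ∃ μ : P → ℂ, IsIrrCharacter P μ ∧ μ 1 = 1 ∧ μ x ≠ 1 := by
  by_contra hcon
  push Not at hcon
  apply hx
  have h1 : IsConj (QuotientGroup.mk x : P ⧸ commutator P) 1 := by
    haveI := Fintype.ofFinite (P ⧸ commutator P)
    rw [isConj_iff_irr]
    intro χ
    haveI : IsMulCommutative (P ⧸ commutator P) :=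
      ⟨⟨fun a b => by exact mul_comm (G := Abelianization P) a b⟩⟩
    have h2 := irr_degree_one_of_comm χ.2
    have h3 := (irrQuotEquiv (commutator P) χ).1.2
    have h4 : ((irrQuotEquiv (commutator P) χ).1 : P → ℂ) 1 = 1 := by
      rw [irrQuotEquiv_apply, QuotientGroup.mk_one]; exact h2
    have h5 := hcon _ h3 h4
    rw [irrQuotEquiv_apply] at h5
    rw [h5, h2]
  have h2 := isConj_one_left.mp h1
  exact (QuotientGroup.eq_one_iff x).1 h2

/-- there is an irreducible character of degree prime to `p` over every linear character of a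
Sylow `p`-subgroup -/
theorem exists_over_lin [Fintype X] (P : Sylow p X) [Fintype (P : Subgroup X)]
    {μ : ↥(P : Subgroup X) → ℂ} (hμ : IsIrrCharacter ↥(P : Subgroup X) μ) (h1 : μ 1 = 1) :
    ∃ χ : IrrCharacter X, ¬ p ∣ charDegree (χ : X → ℂ) ∧
      classInner (fun y : ↥(P : Subgroup X) => (χ : X → ℂ) y) μ ≠ 0 := by
  classical
  haveI := Fintype.ofFinite (IrrCharacter X)
  by_contra hcon
  push Not at hcon
  have hind := isChar_ind (P : Subgroup X) (irr_isChar hμ)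
  have h2 := classFun_expand_apply (char_classFun hind) 1
  rw [indFun_one_apply, h1, mul_one] at h2
  have hn : ∀ χ : IrrCharacter X, ∃ n : ℕ, classInner (indFun (P : Subgroup X) μ) (χ : X → ℂ) = n :=
    fun χ => classInner_char_nat hind (irr_isChar χ.2)
  choose m hm using hn
  have h3 : (P : Subgroup X).index = ∑ χ : IrrCharacter X, m χ * charDegree (χ : X → ℂ) := by
    have : ((P : Subgroup X).index : ℂ) =
        ((∑ χ : IrrCharacter X, m χ * charDegree (χ : X → ℂ) : ℕ) : ℂ) := by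
      rw [h2]
      push_cast
      refine Finset.sum_congr rfl fun χ _ => ?_
      rw [hm, charDegree_cast (irr_isChar χ.2)]
    exact_mod_cast this
  apply P.not_dvd_index
  rw [h3]
  refine Finset.dvd_sum fun χ _ => ?_
  by_cases hd : p ∣ charDegree (χ : X → ℂ)
  · exact hd.mul_left _
  · have h4 := hcon χ hd
    rw [← frobenius_reciprocity' _ _ (irr_classFun χ.2)] at h4
    have h5 : classInner (indFun (P : Subgroup X) μ) (χ : X → ℂ) = 0 := by
      rw [← classInner_conj_symm, h4, map_zero]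
    rw [hm] at h5
    have : m χ = 0 := by exact_mod_cast h5
    rw [this, zero_mul]; exact dvd_zero p

/-- if `N` lies in the kernel of all characters of degree prime to `p`, then `N ∩ P ≤ P'` -/
theorem inf_le_commutator (P : Sylow p X) (N : Subgroup X)
    (h : ∀ χ : IrrCharacter X, ¬ p ∣ charDegree (χ : X → ℂ) → ∀ n ∈ N,
      (χ : X → ℂ) n = (χ : X → ℂ) 1) :
    N ⊓ (P : Subgroup X) ≤ (commutator (P : Subgroup X)).map (P : Subgroup X).subtype := by
  classical
  haveI := Fintype.ofFinite X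
  haveI := Fintype.ofFinite (P : Subgroup X)
  rintro x ⟨hxN, hxP⟩
  by_contra hcon
  have h1 : (⟨x, hxP⟩ : (P : Subgroup X)) ∉ commutator (P : Subgroup X) := fun h2 =>
    hcon ⟨_, h2, rfl⟩
  obtain ⟨μ, hμ, hμ1, hμx⟩ := exists_lin h1
  obtain ⟨χ, hd, hne⟩ := exists_over_lin P hμ hμ1
  apply hμx
  set y : (P : Subgroup X) := ⟨x, hxP⟩ with hy
  obtain ⟨ν, hν⟩ := exists_hom_of_one (irr_isChar hμ) hμ1
  have h2 : classInner (fun y : ↥(P : Subgroup X) => (χ : X → ℂ) y) μ =
      conj (μ y) * classInner (fun y : ↥(P : Subgroup X) => (χ : X → ℂ) y) μ := by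
    unfold classInner
    rw [← mul_assoc, mul_comm (conj (μ y)), mul_assoc]
    congr 1
    rw [Finset.mul_sum, ← Equiv.sum_comp (Equiv.mulLeft y)]
    refine Finset.sum_congr rfl fun z _ => ?_
    have h3 : (χ : X → ℂ) ((y * z : (P : Subgroup X)) : X) = (χ : X → ℂ) z := by
      rw [Subgroup.coe_mul]
      exact char_ker_mul (irr_isChar χ.2) (h χ hd x hxN) _
    simp only [Equiv.coe_mulLeft]
    rw [h3, hν (y * z), hν y, hν z, map_mul, Units.val_mul, map_mul]
    ring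
  have h3 : conj (μ y) = 1 := by
    have h4 : (conj (μ y) - 1) * classInner (fun y : ↥(P : Subgroup X) => (χ : X → ℂ) y) μ = 0 := by
      rw [sub_mul, one_mul, ← h2, sub_self]
    rcases mul_eq_zero.1 h4 with h5 | h5
    · exact sub_eq_zero.1 h5
    · exact absurd h5 hne
  have h4 := congrArg conj h3
  rwa [Complex.conj_conj, map_one] at h4

/-- normal subgroups meeting `P` in `P'` are `p`-groups when `O_{p'}(X) = 1` -/
theorem isPGroup_of_inf_le (P : Sylow p X) (hO : pPrimeCore p X = ⊥) (N : Subgroup X)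
    [hN : N.Normal]
    (h : N ⊓ (P : Subgroup X) ≤ (commutator (P : Subgroup X)).map (P : Subgroup X).subtype) :
    IsPGroup p N := by
  have h1 : HasNormalPComplement p N :=
    H2.hasNormalPComplement_of_inf_le_frattini P N (h.trans (Subgroup.map_mono
      (H2.commutator_le_frattini P.2)))
  obtain ⟨Q, C, hC, hcomp⟩ := h1
  have h2 : (Nat.card C).Coprime p := by
    have h3 : ¬ p ∣ Nat.card C := by
      rw [← hcomp.index_eq_card]
      exact Q.not_dvd_index
    exact ((Nat.Prime.coprime_iff_not_dvd hp.out).2 h3).symm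
  have h3 : C ≤ pPrimeCore p N := H1.le_pPrimeCore hC h2
  have h4 : ((pPrimeCore p N).map N.subtype).Normal := inferInstance
  have h5 : (Nat.card ((pPrimeCore p N).map N.subtype)).Coprime p := by
    rw [Nat.card_congr ((pPrimeCore p N).equivMapOfInjective N.subtype
      N.subtype_injective).symm.toEquiv]
    exact H1.pPrimeCore_coprime p N
  have h6 := H1.le_pPrimeCore h4 h5
  rw [hO, le_bot_iff, Subgroup.map_eq_bot_iff_of_injective _ N.subtype_injective] at h6
  rw [h6, le_bot_iff] at h3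
  subst h3
  have h7 : (Q : Subgroup N) = ⊤ := by
    have := hcomp.sup_eq_top
    rwa [bot_sup_eq] at this
  have h8 := Q.2
  rw [h7] at h8
  exact h8.of_equiv Subgroup.topEquiv

end

section
variable {G : Type u} [Group G] [Finite G] {p : ℕ} [hp : Fact p.Prime]

theorem inf_le_quot (L : Subgroup G) [hL : L.Normal]
    (h : ∀ χ : IrrCharacter G, ¬ p ∣ charDegree (χ : G → ℂ) →
      (∀ n ∈ pPrimeCore p G, (χ : G → ℂ) n = (χ : G → ℂ) 1) → ∀ n ∈ L,
      (χ : G → ℂ) n = (χ : G → ℂ) 1) (P : Sylow p (G ⧸ pPrimeCore p G)) :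
    L.map (QuotientGroup.mk' (pPrimeCore p G)) ⊓ (P : Subgroup (G ⧸ pPrimeCore p G)) ≤
      (commutator (P : Subgroup (G ⧸ pPrimeCore p G))).map
        (P : Subgroup (G ⧸ pPrimeCore p G)).subtype := by
  apply inf_le_commutator
  rintro χ hχ _ ⟨n, hn, rfl⟩
  have h1 := h (irrQuotEquiv (pPrimeCore p G) χ).1 (by
    intro hdvd
    apply hχ
    have h2 : (charDegree (χ : G ⧸ pPrimeCore p G → ℂ) : ℂ) =
        (charDegree ((irrQuotEquiv (pPrimeCore p G) χ).1 : G → ℂ) : ℂ) := by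
      rw [charDegree_cast (irr_isChar χ.2),
        charDegree_cast (irr_isChar (irrQuotEquiv (pPrimeCore p G) χ).1.2), irrQuotEquiv_apply]
      rfl
    have h3 : charDegree (χ : G ⧸ pPrimeCore p G → ℂ) =
        charDegree ((irrQuotEquiv (pPrimeCore p G) χ).1 : G → ℂ) := by exact_mod_cast h2
    rwa [h3]) (irrQuotEquiv (pPrimeCore p G) χ).2 n hn
  rw [irrQuotEquiv_apply, irrQuotEquiv_apply] at h1
  exact h1

theorem core_quot (L : Subgroup G) [hL : L.Normal]
    (h : ∀ χ : IrrCharacter G, ¬ p ∣ charDegree (χ : G → ℂ) →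
      (∀ n ∈ pPrimeCore p G, (χ : G → ℂ) n = (χ : G → ℂ) 1) → ∀ n ∈ L,
      (χ : G → ℂ) n = (χ : G → ℂ) 1) : pPrimeCore p (G ⧸ (pPrimeCore p G ⊔ L)) = ⊥ := by
  classical
  set K := pPrimeCore p G with hK
  obtain ⟨P⟩ : Nonempty (Sylow p (G ⧸ K)) := inferInstance
  have h1 := inf_le_quot L h P
  set f := QuotientGroup.mk' K with hf
  set g := QuotientGroup.mk' (K ⊔ L) with hg
  set W0 := (pPrimeCore p (G ⧸ (K ⊔ L))).comap g with hW0
  haveI : (W0.map f).Normal := Subgroup.Normal.map inferInstance f (QuotientGroup.mk'_surjective K)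
  -- elements of `W0` whose image in `G / K` is a `p`-element are in `K ⊔ L`
  have key : ∀ w ∈ W0, (∃ k : ℕ, f w ^ p ^ k = 1) → w ∈ K ⊔ L := by
    rintro w hw ⟨k, hk⟩
    have h2 : w ^ p ^ k ∈ K := by
      rw [← map_pow] at hk
      exact (QuotientGroup.eq_one_iff _).1 hk
    have h3 : (g w) ^ p ^ k = 1 := by
      rw [← map_pow]
      exact (QuotientGroup.eq_one_iff _).2 ((le_sup_left : K ≤ K ⊔ L) h2)
    have h4 : g w ∈ pPrimeCore p (G ⧸ (K ⊔ L)) := hw
    have h5 : orderOf (g w) ∣ Nat.card (pPrimeCore p (G ⧸ (K ⊔ L))) := by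
      have := orderOf_dvd_natCard (⟨g w, h4⟩ : pPrimeCore p (G ⧸ (K ⊔ L)))
      rwa [orderOf_mk] at this
    have h6 : orderOf (g w) ∣ p ^ k := orderOf_dvd_of_pow_eq_one h3
    have h7 : orderOf (g w) = 1 :=
      Nat.Coprime.eq_one_of_dvd (Nat.Coprime.coprime_dvd_left h6
        (Nat.Coprime.pow_left k (H1.pPrimeCore_coprime p (G ⧸ (K ⊔ L))).symm)) h5
    exact (QuotientGroup.eq_one_iff _).1 (orderOf_eq_one_iff.1 h7)
  have hmap : (K ⊔ L).map f ≤ L.map f := by
    rw [Subgroup.map_sup]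
    refine sup_le ?_ le_rfl
    rintro _ ⟨k, hk, rfl⟩
    have hk1 : QuotientGroup.mk' (pPrimeCore p G) k = 1 := (QuotientGroup.eq_one_iff k).2 hk
    first
      | rw [hk1]; exact one_mem _
      | exact (show f k = 1 from hk1) ▸ one_mem _
  have h2 : IsPGroup p (W0.map f) := by
    apply isPGroup_of_inf_le P (Cfsg.Agent.H23.pPrimeCore_quotient_eq_bot p G)
    refine le_trans ?_ h1
    rintro _ ⟨⟨w, hw, rfl⟩, hx⟩
    obtain ⟨k, hk⟩ := P.2 ⟨_, hx⟩
    exact ⟨hmap ⟨w, key w hw ⟨k, congrArg Subtype.val hk⟩, rfl⟩, hx⟩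
  rw [eq_bot_iff]
  intro y hy
  obtain ⟨w, rfl⟩ := QuotientGroup.mk'_surjective (K ⊔ L) y
  obtain ⟨k, hk⟩ := h2 ⟨f w, ⟨w, hy, rfl⟩⟩
  exact (QuotientGroup.eq_one_iff _).2 (key w hy ⟨k, congrArg Subtype.val hk⟩)

theorem core_quot' (L M : Subgroup G) [hL : L.Normal] [hM : M.Normal] (hMe : M = pPrimeCore p G ⊔ L)
    (h : ∀ χ : IrrCharacter G, ¬ p ∣ charDegree (χ : G → ℂ) →
      (∀ n ∈ pPrimeCore p G, (χ : G → ℂ) n = (χ : G → ℂ) 1) → ∀ n ∈ L,
      (χ : G → ℂ) n = (χ : G → ℂ) 1) : pPrimeCore p (G ⧸ M) = ⊥ := by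
  subst hMe
  exact core_quot L h

theorem sup_ne_top (L : Subgroup G) [hL : L.Normal] (hdvd : p ∣ Nat.card G)
    (h : ∀ χ : IrrCharacter G, ¬ p ∣ charDegree (χ : G → ℂ) →
      (∀ n ∈ pPrimeCore p G, (χ : G → ℂ) n = (χ : G → ℂ) 1) → ∀ n ∈ L,
      (χ : G → ℂ) n = (χ : G → ℂ) 1) : pPrimeCore p G ⊔ L ≠ ⊤ := by
  classical
  intro htop
  obtain ⟨P⟩ : Nonempty (Sylow p (G ⧸ pPrimeCore p G)) := inferInstance
  have h1 := inf_le_quot L h P
  have h2 : L.map (QuotientGroup.mk' (pPrimeCore p G)) = ⊤ := by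
    have h3 : (pPrimeCore p G ⊔ L).map (QuotientGroup.mk' (pPrimeCore p G)) = ⊤ := by
      rw [htop, ← MonoidHom.range_eq_map, MonoidHom.range_eq_top]
      exact QuotientGroup.mk'_surjective _
    rw [Subgroup.map_sup] at h3
    rw [← h3]
    refine le_antisymm le_sup_right (sup_le ?_ le_rfl)
    rintro _ ⟨k, hk, rfl⟩
    have hk1 : QuotientGroup.mk' (pPrimeCore p G) k = 1 := (QuotientGroup.eq_one_iff k).2 hk
    first
      | rw [hk1]; exact one_mem _
      | exact (show f k = 1 from hk1) ▸ one_mem _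
  rw [h2, top_inf_eq] at h1
  have h3 : commutator (P : Subgroup (G ⧸ pPrimeCore p G)) = ⊤ := by
    rw [eq_top_iff]
    intro x _
    obtain ⟨y, hy, hyx⟩ := h1 x.2
    rwa [Subtype.ext hyx] at hy
  have h4 : Subsingleton (P : Subgroup (G ⧸ pPrimeCore p G)) := by
    by_contra hns
    rw [not_subsingleton_iff_nontrivial] at hns
    haveI := hns
    haveI : Group.IsNilpotent (P : Subgroup (G ⧸ pPrimeCore p G)) := P.2.isNilpotent
    exact (IsSolvable.commutator_lt_top_of_nontrivial (P : Subgroup (G ⧸ pPrimeCore p G))).ne h3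
  have h5 : ¬ p ∣ Nat.card (G ⧸ pPrimeCore p G) := by
    intro h6
    have h7 := P.dvd_card_of_dvd_card h6
    rw [Nat.card_eq_one_iff_unique.2 ⟨h4, ⟨1⟩⟩] at h7
    exact hp.out.one_lt.ne' (Nat.dvd_one.1 h7)
  rw [Subgroup.card_eq_card_quotient_mul_card_subgroup (pPrimeCore p G)] at hdvd
  rcases (hp.out.dvd_mul).1 hdvd with h6 | h6
  · exact h5 h6
  · exact hp.out.one_lt.ne' (Nat.Coprime.eq_one_of_dvd (H1.pPrimeCore_coprime p G).symm h6)

end

theorem main {G : Type u} [Group G] [Finite G] (p q : ℕ) [hp : Fact p.Prime] [hq : Fact q.Prime]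
    (hpG : p ∣ Nat.card G) (hps : IsPSolvable p G) (hqs : IsPSolvable q G)
    (Mp Mq : Ideal AlgInt) (hMp : IsPModular p Mp) (hMq : IsPModular q Mq)
    (h : ∀ χ : IrrCharacter G, (χ ∈ principalBlock Mp G ∧ ¬ p ∣ charDegree (χ : G → ℂ)) ↔
      (χ ∈ principalBlock Mq G ∧ ¬ q ∣ charDegree (χ : G → ℂ))) : p = q := by
  classical
  by_contra hpq
  have h1 : ∀ χ : IrrCharacter G, ¬ p ∣ charDegree (χ : G → ℂ) →
      (∀ n ∈ pPrimeCore p G, (χ : G → ℂ) n = (χ : G → ℂ) 1) → ∀ n ∈ pPrimeCore q G,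
      (χ : G → ℂ) n = (χ : G → ℂ) 1 := fun χ hd hK =>
    (PrinSolv.mem_principal_iff hMq hqs χ).1
      ((h χ).1 ⟨(PrinSolv.mem_principal_iff hMp hps χ).2 hK, hd⟩).1
  have h2 : ∀ χ : IrrCharacter G, ¬ q ∣ charDegree (χ : G → ℂ) →
      (∀ n ∈ pPrimeCore q G, (χ : G → ℂ) n = (χ : G → ℂ) 1) → ∀ n ∈ pPrimeCore p G,
      (χ : G → ℂ) n = (χ : G → ℂ) 1 := fun χ hd hK =>
    (PrinSolv.mem_principal_iff hMp hps χ).1
      ((h χ).2 ⟨(PrinSolv.mem_principal_iff hMq hqs χ).2 hK, hd⟩).1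
  have h3 := sup_ne_top (pPrimeCore q G) hpG h1
  have h4 := core_quot (pPrimeCore q G) h1
  have h5' : pPrimeCore q (G ⧸ (pPrimeCore p G ⊔ pPrimeCore q G)) = ⊥ :=
    core_quot' (pPrimeCore p G) _ (sup_comm _ _) h2
  haveI : Nontrivial (G ⧸ (pPrimeCore p G ⊔ pPrimeCore q G)) := QuotientGroup.nontrivial_iff.2 h3
  rcases Cfsg.Agent.H23.pCore_ne_bot_or (Cfsg.Agent.H23.isPSolvable_quotient
    (pPrimeCore p G ⊔ pPrimeCore q G) hps) with h6 | h6
  · apply h6
    rw [eq_bot_iff, ← h5']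
    exact H1.pCore_le_pPrimeCore_of_ne (Ne.symm hpq)
  · exact h6 h4

end Cfsg.Agent.H7.PQBlk
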