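import Cfsg.Agent.H3.Counting
import Cfsg.Agent.H3.Clifford
import Cfsg.Agent.H13.Burnside

set_option autoImplicit false
set_option linter.style.haveILetI false
set_option linter.unusedSectionVars false

/-! Orbits on real irreducible characters and on real classes of a normal subgroup of odd index. -/

namespace Cfsg.Agent.H7.RealA

open Cfsg Cfsg.Agent.H3
open scoped ComplexConjugate

universe u

variable {G : Type u} [Group G] [Finite G] {K : Subgroup G} [hK : K.Normal]

/-- conjugation by `g` as an automorphism of `K` -/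
abbrev al (g : G) : K ≃* K := cjEquiv hK g

theorem al_apply (g : G) (k : K) : ((al g k : K) : G) = g * k * g⁻¹ := rfl

theorem al_mul (g h : G) (k : K) : al (g * h) k = al g (al h k) := by
  apply Subtype.ext
  rw [al_apply, al_apply, al_apply]; group

theorem al_one (k : K) : al (1 : G) k = k := by
  apply Subtype.ext
  rw [al_apply]; group

theorem al_inv_al (g : G) (k : K) : al g⁻¹ (al g k) = k := by
  rw [← al_mul, inv_mul_cancel, al_one]

theorem al_al_inv (g : G) (k : K) : al g (al g⁻¹ k) = k := by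
  rw [← al_mul, mul_inv_cancel, al_one]

theorem al_isConj (g : G) {k k' : K} (h : IsConj k k') : IsConj (al g k) (al g k') := by
  obtain ⟨c, hc⟩ := isConj_iff.1 h
  refine isConj_iff.2 ⟨al g c, ?_⟩
  rw [← hc, map_mul, map_mul, map_inv]

theorem al_mem {g : G} (hg : g ∈ K) (k : K) : IsConj k (al g k) :=
  isConj_iff.2 ⟨⟨g, hg⟩, rfl⟩

/-- twisted automorphisms of classes: inversion -/
def invP : Equiv.Perm (ConjClasses K) where
  toFun := Quotient.map (fun k => k⁻¹) (fun a b h => by
    obtain ⟨c, hc⟩ := isConj_iff.1 (show IsConj a b from h)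
    exact isConj_iff.2 ⟨c, by rw [← hc]; group⟩)
  invFun := Quotient.map (fun k => k⁻¹) (fun a b h => by
    obtain ⟨c, hc⟩ := isConj_iff.1 (show IsConj a b from h)
    exact isConj_iff.2 ⟨c, by rw [← hc]; group⟩)
  left_inv := by
    intro C
    obtain ⟨k, rfl⟩ := ConjClasses.mk_surjective C
    change ConjClasses.mk (k⁻¹)⁻¹ = _
    rw [inv_inv]
  right_inv := by
    intro C
    obtain ⟨k, rfl⟩ := ConjClasses.mk_surjective C
    change ConjClasses.mk (k⁻¹)⁻¹ = _
    rw [inv_inv]

def actP (g : G) : Equiv.Perm (ConjClasses K) where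
  toFun := ConjClasses.map (al g).toMonoidHom
  invFun := ConjClasses.map (al g⁻¹).toMonoidHom
  left_inv := by
    intro C
    obtain ⟨k, rfl⟩ := ConjClasses.mk_surjective C
    change ConjClasses.mk (al g⁻¹ (al g k)) = _
    rw [al_inv_al]
  right_inv := by
    intro C
    obtain ⟨k, rfl⟩ := ConjClasses.mk_surjective C
    change ConjClasses.mk (al g (al g⁻¹ k)) = _
    rw [al_al_inv]

theorem actP_mk (g : G) (k : K) : actP g (ConjClasses.mk k) = ConjClasses.mk (al g k) := rfl
theorem invP_mk (k : K) : invP (ConjClasses.mk k) = ConjClasses.mk k⁻¹ := rfl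

def IsR (C : ConjClasses K) : Prop := invP C = C

theorem isR_mk (k : K) : IsR (ConjClasses.mk k) ↔ IsConj k k⁻¹ := by
  unfold IsR
  rw [invP_mk, ConjClasses.mk_eq_mk_iff_isConj]
  exact ⟨IsConj.symm, IsConj.symm⟩

theorem irr_real_iff (χ : IrrCharacter K) : (∀ k : K, ((χ : K → ℂ) k).im = 0) ↔
    ∀ k, conj ((χ : K → ℂ) k) = (χ : K → ℂ) k :=
  forall_congr' fun k => Complex.conj_eq_iff_im.symm

/-- iterating the twisted action -/
theorem iter_class (g : G) {k : K} (h : IsConj (al g k) k⁻¹) (j : ℕ) :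
    IsConj (al (g ^ (2 * j)) k) k := by
  have hinv : ∀ {a b : K}, IsConj a b → IsConj a⁻¹ b⁻¹ := by
    intro a b h
    obtain ⟨c, hc⟩ := isConj_iff.1 h
    exact isConj_iff.2 ⟨c, by rw [← hc]; group⟩
  have h2 : IsConj (al (g ^ 2) k) k := by
    rw [sq, al_mul]
    refine (al_isConj g h).trans ?_
    rw [map_inv]
    have := hinv h
    rwa [inv_inv] at this
  induction j with
  | zero => rw [mul_zero, pow_zero, al_one]
  | succ j ih =>
    rw [mul_add, pow_add, mul_one, al_mul]
    exact (al_isConj _ h2).trans ih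

theorem pow_index_mem (g : G) : g ^ K.index ∈ K := by
  have : ((g ^ K.index : G) : G ⧸ K) = 1 := by
    rw [QuotientGroup.mk_pow]
    exact pow_card_eq_one'
  exact (QuotientGroup.eq_one_iff _).1 this

/-- a twisted-fixed class is real and fixed -/
theorem twist_class (hodd : Odd K.index) (g : G) (C : ConjClasses K) :
    invP (actP g C) = C ↔ IsR C ∧ actP g C = C := by
  constructor
  · intro h
    obtain ⟨k, rfl⟩ := ConjClasses.mk_surjective C
    have h1 : IsConj (al g k) k⁻¹ := by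
      rw [actP_mk, invP_mk, ConjClasses.mk_eq_mk_iff_isConj] at h
      obtain ⟨c, hc⟩ := isConj_iff.1 h
      refine isConj_iff.2 ⟨c, ?_⟩
      have h0 := congrArg (fun z => z⁻¹) hc
      simp only [mul_inv_rev, inv_inv] at h0
      rw [← h0]; group
    obtain ⟨m, hm⟩ := hodd
    have h2 := iter_class g h1 m
    have h3 : IsConj k (al (g ^ K.index) k) := al_mem (pow_index_mem g) k
    rw [hm, pow_succ', al_mul] at h3
    have h4 : IsConj (al g k) k := ((h3.trans (al_isConj g h2))).symm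
    refine ⟨?_, ?_⟩
    · rw [isR_mk]; exact h4.symm.trans h1
    · rw [actP_mk, ConjClasses.mk_eq_mk_iff_isConj]; exact h4
  · rintro ⟨h1, h2⟩
    rw [h2]; exact h1

noncomputable def actI (g : G) (χ : IrrCharacter K) : IrrCharacter K :=
  ⟨_, isIrr_cj hK χ.2 g⁻¹⟩

theorem actI_apply (g : G) (χ : IrrCharacter K) (k : K) :
    (actI g χ : K → ℂ) k = (χ : K → ℂ) (al g⁻¹ k) := rfl

noncomputable def cjI (χ : IrrCharacter K) : IrrCharacter K := ⟨_, isIrr_conj χ.2⟩

theorem cjI_apply (χ : IrrCharacter K) (k : K) : (cjI χ : K → ℂ) k = conj ((χ : K → ℂ) k) := rfl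

theorem cls {χ : IrrCharacter K} {k k' : K} (h : IsConj k k') : (χ : K → ℂ) k = (χ : K → ℂ) k' :=
  (classFun_isConj (irr_classFun χ.2) h)

theorem twist_irr (hodd : Odd K.index) (g : G) (χ : IrrCharacter K) :
    cjI (actI g χ) = χ ↔ (∀ k, conj ((χ : K → ℂ) k) = (χ : K → ℂ) k) ∧ actI g χ = χ := by
  constructor
  · intro h
    have h1 : ∀ k, conj ((χ : K → ℂ) (al g⁻¹ k)) = (χ : K → ℂ) k := fun k => by
      have := congrArg (fun ψ : IrrCharacter K => (ψ : K → ℂ) k) h
      exact this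
    have h2 : ∀ k, (χ : K → ℂ) (al (g⁻¹ ^ 2) k) = (χ : K → ℂ) k := by
      intro k
      have e1 := h1 k
      have e2 := h1 (al g⁻¹ k)
      rw [sq, al_mul]
      rw [← e2, Complex.conj_conj] at e1
      exact e1
    have h3 : ∀ (j : ℕ) k, (χ : K → ℂ) (al (g⁻¹ ^ (2 * j)) k) = (χ : K → ℂ) k := by
      intro j
      induction j with
      | zero => intro k; rw [mul_zero, pow_zero, al_one]
      | succ j ih =>
        intro k
        rw [mul_add, pow_add, mul_one, al_mul, ih, h2]
    obtain ⟨m, hm⟩ := hodd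
    have h4 : ∀ k, (χ : K → ℂ) (al g⁻¹ k) = (χ : K → ℂ) k := by
      intro k
      have e1 : IsConj k (al (g⁻¹ ^ K.index) k) := al_mem (pow_index_mem g⁻¹) k
      rw [hm, pow_succ, al_mul] at e1
      rw [cls e1, h3]
    refine ⟨fun k => ?_, Subtype.ext (funext fun k => h4 k)⟩
    have := h1 (al g k)
    rw [al_inv_al] at this
    rw [this, ← h4 (al g k), al_inv_al]
  · rintro ⟨h1, h2⟩
    rw [h2]
    exact Subtype.ext (funext h1)

theorem fix_eq (hodd : Odd K.index) (g : G) :
    Nat.card {χ : IrrCharacter K // (∀ k, conj ((χ : K → ℂ) k) = (χ : K → ℂ) k) ∧ actI g χ = χ} =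
      Nat.card {C : ConjClasses K // IsR C ∧ actP g C = C} := by
  rw [← Nat.card_congr (Equiv.subtypeEquivRight fun χ => twist_irr hodd g χ),
    ← Nat.card_congr (Equiv.subtypeEquivRight fun C => twist_class hodd g C)]
  refine brauer_perm_lemma (fun χ => cjI (actI g χ)) ((actP g).trans invP) ?_
  intro χ k k' h
  have h1 : IsConj k' (al g k)⁻¹ := ConjClasses.mk_eq_mk_iff_isConj.1 h
  rw [cls h1, cjI_apply, actI_apply, map_inv, al_inv_al]
  rw [char_inv (irr_isChar χ.2), Complex.conj_conj]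

theorem al_one' (k : K) : al (1 : G)⁻¹ k = k := by
  rw [inv_one, al_one]

/-- the real irreducible characters -/
abbrev RI (K : Subgroup G) := {θ : IrrCharacter K // ∀ k : K, ((θ : K → ℂ) k).im = 0}

noncomputable instance actRI : MulAction G (RI K) where
  smul g θ := ⟨actI g θ.1, fun k => θ.2 _⟩
  one_smul θ := by
    apply Subtype.ext
    apply Subtype.ext
    funext k
    show (θ.1 : K → ℂ) (al (1 : G)⁻¹ k) = _
    rw [al_one']
  mul_smul g h θ := by
    apply Subtype.ext
    apply Subtype.ext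
    funext k
    show (θ.1 : K → ℂ) (al (g * h)⁻¹ k) = (θ.1 : K → ℂ) (al h⁻¹ (al g⁻¹ k))
    rw [mul_inv_rev, al_mul]

theorem smulRI_apply (g : G) (θ : RI K) (k : K) :
    ((g • θ).1 : K → ℂ) k = (θ.1 : K → ℂ) (al g⁻¹ k) := rfl

abbrev RC (K : Subgroup G) [K.Normal] := {C : ConjClasses K // IsR C}

theorem isR_act (g : G) {C : ConjClasses K} (h : IsR C) : IsR (actP g C) := by
  obtain ⟨k, rfl⟩ := ConjClasses.mk_surjective C
  rw [isR_mk] at h
  rw [actP_mk, isR_mk, ← map_inv]
  exact al_isConj g h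

noncomputable instance actRC : MulAction G (RC K) where
  smul g C := ⟨actP g C.1, isR_act g C.2⟩
  one_smul C := by
    apply Subtype.ext
    obtain ⟨k, hk⟩ := ConjClasses.mk_surjective C.1
    show actP 1 C.1 = C.1
    rw [← hk, actP_mk, al_one]
  mul_smul g h C := by
    apply Subtype.ext
    obtain ⟨k, hk⟩ := ConjClasses.mk_surjective C.1
    show actP (g * h) C.1 = actP g (actP h C.1)
    rw [← hk, actP_mk, actP_mk, actP_mk, al_mul]

theorem orbits_eq (hodd : Odd K.index) :
    Nat.card (MulAction.orbitRel.Quotient G (RI K)) =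
      Nat.card (MulAction.orbitRel.Quotient G (RC K)) := by
  classical
  haveI := Fintype.ofFinite G
  haveI : Finite (RI K) := Subtype.finite
  haveI : Finite (RC K) := Subtype.finite
  have h1 := H13.sum_card_fixedBy (G := G) (Ω := RI K)
  have h2 := H13.sum_card_fixedBy (G := G) (Ω := RC K)
  have h3 : ∀ g : G, Nat.card (MulAction.fixedBy (RI K) g) =
      Nat.card (MulAction.fixedBy (RC K) g) := by
    intro g
    have e1 : Nat.card (MulAction.fixedBy (RI K) g) = Nat.card {χ : IrrCharacter K //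
        (∀ k, conj ((χ : K → ℂ) k) = (χ : K → ℂ) k) ∧ actI g χ = χ} := by
      refine Nat.card_congr ⟨fun x => ⟨x.1.1, (irr_real_iff _).1 x.1.2, congrArg Subtype.val x.2⟩,
        fun x => ⟨⟨x.1, (irr_real_iff _).2 x.2.1⟩, Subtype.ext x.2.2⟩, fun x => rfl, fun x => rfl⟩
    have e2 : Nat.card (MulAction.fixedBy (RC K) g) = Nat.card {C : ConjClasses K //
        IsR C ∧ actP g C = C} := by
      refine Nat.card_congr ⟨fun x => ⟨x.1.1, x.1.2, congrArg Subtype.val x.2⟩,
        fun x => ⟨⟨x.1, x.2.1⟩, Subtype.ext x.2.2⟩, fun x => rfl, fun x => rfl⟩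
    rw [e1, e2, fix_eq hodd]
  rw [Finset.sum_congr rfl fun g _ => h3 g, h2] at h1
  exact (Nat.eq_of_mul_eq_mul_right Nat.card_pos h1).symm

theorem main (hodd : Odd K.index) :
    Nat.card (Quot (fun θ η : RI K => ∃ g : G, ∀ k k' : K, (k' : G) = g * (k : G) * g⁻¹ →
      (η.1 : K → ℂ) k' = (θ.1 : K → ℂ) k)) =
    Nat.card (Quot (fun x y : {x : K // IsConj x x⁻¹} => ∃ g : G, (y.1 : G) = g * x.1 * g⁻¹)) := by
  have e1 : Nat.card (Quot (fun θ η : RI K => ∃ g : G, ∀ k k' : K, (k' : G) = g * (k : G) * g⁻¹ →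
      (η.1 : K → ℂ) k' = (θ.1 : K → ℂ) k)) = Nat.card (MulAction.orbitRel.Quotient G (RI K)) := by
    refine Nat.card_congr (Quot.congrRight fun θ η => ?_)
    show _ ↔ θ ∈ MulAction.orbit G η
    constructor
    · rintro ⟨g, hg⟩
      refine ⟨g⁻¹, ?_⟩
      apply Subtype.ext
      apply Subtype.ext
      funext k
      show (η.1 : K → ℂ) (al g⁻¹⁻¹ k) = (θ.1 : K → ℂ) k
      apply hg
      rw [al_apply, inv_inv]
    · rintro ⟨g, hg⟩
      refine ⟨g⁻¹, fun k k' h => ?_⟩
      have h1 : (θ.1 : K → ℂ) k = (η.1 : K → ℂ) (al g⁻¹ k) := by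
        rw [← hg]; rfl
      have h2 : k' = al g⁻¹ k := Subtype.ext h
      rw [h1, h2]
  rw [e1, orbits_eq hodd]
  symm
  let f : Quot (fun x y : {x : K // IsConj x x⁻¹} => ∃ g : G, (y.1 : G) = g * x.1 * g⁻¹) →
      MulAction.orbitRel.Quotient G (RC K) :=
    Quot.lift (fun x => Quotient.mk'' (⟨ConjClasses.mk x.1, (isR_mk _).2 x.2⟩ : RC K)) (by
      rintro x y ⟨g, hg⟩
      apply Quotient.sound'
      show _ ∈ MulAction.orbit G _
      refine ⟨g⁻¹, ?_⟩
      apply Subtype.ext
      show actP g⁻¹ (ConjClasses.mk y.1) = ConjClasses.mk x.1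
      rw [actP_mk]
      congr 1
      apply Subtype.ext
      rw [al_apply, hg]; group)
  refine Nat.card_congr (Equiv.ofBijective f ⟨?_, ?_⟩)
  · intro a b
    induction a using Quot.inductionOn with
    | _ x =>
    induction b using Quot.inductionOn with
    | _ y =>
    intro h
    have h1 : (⟨ConjClasses.mk x.1, (isR_mk _).2 x.2⟩ : RC K) ∈
        MulAction.orbit G (⟨ConjClasses.mk y.1, (isR_mk _).2 y.2⟩ : RC K) := Quotient.exact' h
    obtain ⟨g, hg⟩ := h1
    have h2 : actP g (ConjClasses.mk y.1) = ConjClasses.mk x.1 := congrArg Subtype.val hg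
    rw [actP_mk, ConjClasses.mk_eq_mk_iff_isConj] at h2
    obtain ⟨c, hc⟩ := isConj_iff.1 h2.symm
    apply Quot.sound
    refine ⟨g⁻¹ * c, ?_⟩
    have h3 := congrArg (fun z : K => (z : G)) hc
    have h4 : (c : G) * x.1 * (c : G)⁻¹ = g * y.1 * g⁻¹ := h3
    have : (g⁻¹ * (c : G)) * x.1 * (g⁻¹ * (c : G))⁻¹ = g⁻¹ * ((c : G) * x.1 * (c : G)⁻¹) * g := by
      group
    rw [this, h4]; group
  · intro q
    induction q using Quotient.inductionOn' with
    | _ C =>
    obtain ⟨k, hk⟩ := ConjClasses.mk_surjective C.1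
    refine ⟨Quot.mk _ ⟨k, (isR_mk k).1 (by rw [hk]; exact C.2)⟩, ?_⟩
    show Quotient.mk'' _ = Quotient.mk'' _
    congr 1
    exact Subtype.ext hk

end Cfsg.Agent.H7.RealA
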