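import Cfsg.Agent.H3.Counting
import Cfsg.Agent.H27.GlMain
import Cfsg.Agent.H23.Coprime
import Cfsg.Agent.H7.RealA

set_option autoImplicit false
set_option linter.style.haveILetI false
set_option linter.unusedSectionVars false

/-! Real invariant characters and classes under coprime action of a `p`-group. -/

namespace Cfsg.Agent.H7.RealB

open Subgroup Cfsg Cfsg.Agent.H3 Cfsg.Agent.H27
open scoped ComplexConjugate

universe u

section gen

variable {K : Type u} [Group K] [Finite K]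

theorem inv_isConj {a b : K} (h : IsConj a b) : IsConj a⁻¹ b⁻¹ := by
  obtain ⟨c, hc⟩ := isConj_iff.1 h
  exact isConj_iff.2 ⟨c, by rw [← hc]; group⟩

def invC : Equiv.Perm (ConjClasses K) where
  toFun := Quotient.map (fun k => k⁻¹) (fun _ _ h => inv_isConj h)
  invFun := Quotient.map (fun k => k⁻¹) (fun _ _ h => inv_isConj h)
  left_inv := by
    intro C
    obtain ⟨k, rfl⟩ := ConjClasses.mk_surjective C
    change ConjClasses.mk (k⁻¹)⁻¹ = _
    rw [inv_inv]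
  right_inv := by
    intro C
    obtain ⟨k, rfl⟩ := ConjClasses.mk_surjective C
    change ConjClasses.mk (k⁻¹)⁻¹ = _
    rw [inv_inv]

theorem invC_mk (k : K) : invC (ConjClasses.mk k) = ConjClasses.mk k⁻¹ := rfl

theorem invC_iff (k : K) : invC (ConjClasses.mk k) = ConjClasses.mk k ↔ IsConj k k⁻¹ := by
  rw [invC_mk, ConjClasses.mk_eq_mk_iff_isConj]
  exact ⟨IsConj.symm, IsConj.symm⟩

noncomputable def cjI (χ : IrrCharacter K) : IrrCharacter K := ⟨_, isIrr_conj χ.2⟩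

theorem cjI_apply (χ : IrrCharacter K) (k : K) : (cjI χ : K → ℂ) k = conj ((χ : K → ℂ) k) := rfl

theorem cjI_eq_iff (χ : IrrCharacter K) : cjI χ = χ ↔ ∀ k, ((χ : K → ℂ) k).im = 0 := by
  rw [Subtype.ext_iff, funext_iff]
  exact forall_congr' fun k => Complex.conj_eq_iff_im

/-- as many real irreducible characters as real classes -/
theorem card_real : Nat.card {χ : IrrCharacter K // ∀ k, ((χ : K → ℂ) k).im = 0} =
    Nat.card {C : ConjClasses K // invC C = C} := by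
  rw [← Nat.card_congr (Equiv.subtypeEquivRight fun χ => cjI_eq_iff χ)]
  refine brauer_perm_lemma cjI invC ?_
  intro χ k k' h
  have h1 : IsConj k' k⁻¹ := ConjClasses.mk_eq_mk_iff_isConj.1 h
  rw [classFun_isConj (irr_classFun (cjI χ).2) h1, cjI_apply, char_inv (irr_isChar χ.2),
    Complex.conj_conj]

end gen

variable {G : Type u} [Group G] [Finite G]

theorem mlt_conj {K C : Subgroup G} (h : C ≤ K) (χ : IrrCharacter K) (ξ : IrrCharacter C) :
    mlt h (cjI χ) (cjI ξ) = mlt h χ ξ := by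
  haveI := Fintype.ofFinite C
  have h1 : ((mlt h (cjI χ) (cjI ξ) : ℕ) : ℂ) = conj ((mlt h χ ξ : ℕ) : ℂ) := by
    rw [mlt_spec, mlt_spec, map_mul, map_inv₀, Complex.conj_natCast, finsum_eq_sum_of_fintype,
      finsum_eq_sum_of_fintype, map_sum]
    congr 1
    refine Finset.sum_congr rfl fun c _ => ?_
    rw [cjI_apply, cjI_apply, map_mul]
  rw [Complex.conj_natCast] at h1
  exact_mod_cast h1

theorem main1 {p : ℕ} (hp : p.Prime) (P K : Subgroup G) (hP : IsPGroup p ↥P)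
    (hK : ¬ p ∣ Nat.card ↥K) (hPK : P ≤ Subgroup.normalizer (K : Set G)) :
    Nat.card {θ : IrrCharacter ↥K // (∀ k : ↥K, ((θ : ↥K → ℂ) k).im = 0) ∧
      (∀ x ∈ P, ∀ k k' : ↥K, (k' : G) = x * (k : G) * x⁻¹ → (θ : ↥K → ℂ) k' = (θ : ↥K → ℂ) k)} =
    Nat.card {C : ConjClasses ↥(K ⊓ centralizer (P : Set G)) // invC C = C} := by
  classical
  haveI : Fact p.Prime := ⟨hp⟩
  set C := K ⊓ centralizer (P : Set G) with hCdef
  have hCK : C ≤ K := inf_le_left
  have hCmem : ∀ k, k ∈ C ↔ k ∈ K ∧ ∀ y ∈ P, y * k * y⁻¹ * k⁻¹ ∈ (⊥ : Subgroup G) := by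
    intro k
    rw [hCdef, mem_inf, mem_centralizer_iff]
    refine and_congr_right fun _ => forall_congr' fun y => forall_congr' fun hy => ?_
    rw [mem_bot, mul_inv_eq_one, mul_inv_eq_iff_eq_mul]
  have hnb : normalizer ((⊥ : Subgroup G) : Set G) = ⊤ := normalizer_eq_top _
  have hgood : Good p (P : Set G) K C hCK := good_main hp (K := K) (Q := ⊥)
    (by rw [hnb]; exact le_top) bot_le (by rw [relIndex_bot_left]; exact hK) (Nat.card P) P C le_rfl
    hP hPK (by rw [hnb]; exact le_top) hCK hCmem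
  have hinv : ∀ ξ : IrrCharacter C, Inv (P : Set G) C ξ := by
    intro ξ x hx k k' h
    have h1 : k' = k := by
      apply Subtype.ext
      have := (mem_centralizer_iff.1 k.2.2) x hx
      rw [h, this]; group
    rw [h1]
  rw [← card_real]
  have hone : ∀ n : ℕ, (n : ZMod p) ^ 2 = 1 → (n : ZMod p) ≠ 0 := by
    intro n h h0
    rw [h0] at h
    simp at h
  have key1 : ∀ χ, Inv (P : Set G) K χ → Inv (P : Set G) K (cjI χ) := by
    intro χ h x hx k k' hk
    rw [cjI_apply, cjI_apply, h x hx k k' hk]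
  choose f hf1 hf2 hf3 using hgood.1
  have hreal : ∀ χ (hχ : Inv (P : Set G) K χ), (∀ k, ((χ : K → ℂ) k).im = 0) →
      ∀ k, ((f χ hχ : C → ℂ) k).im = 0 := by
    intro χ hχ hr
    rw [← cjI_eq_iff] at hr ⊢
    by_contra hne
    have h1 := hf3 χ hχ (cjI (f χ hχ)) (hinv _) hne
    have h2 := mlt_conj hCK χ (f χ hχ)
    rw [hr] at h2
    rw [h2] at h1
    exact hone _ (hf2 χ hχ) h1
  refine Nat.card_congr (Equiv.ofBijective (fun θ => ⟨f θ.1 θ.2.2, hreal θ.1 θ.2.2 θ.2.1⟩) ⟨?_, ?_⟩)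
  · intro a b hab
    have h1 : f a.1 a.2.2 = f b.1 b.2.2 := congrArg Subtype.val hab
    obtain ⟨χ, hχ1, hχ2, hχ3⟩ := hgood.2 (f a.1 a.2.2) (hinv _)
    have e1 : a.1 = χ := by
      by_contra hne
      exact hone _ (hf2 a.1 a.2.2) (hχ3 a.1 a.2.2 hne)
    have e2 : b.1 = χ := by
      by_contra hne
      have := hχ3 b.1 b.2.2 hne
      rw [h1] at this
      exact hone _ (hf2 b.1 b.2.2) this
    exact Subtype.ext (e1.trans e2.symm)
  · rintro ⟨ξ, hξ⟩
    obtain ⟨χ, hχ1, hχ2, hχ3⟩ := hgood.2 ξ (hinv _)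
    have hr : cjI χ = χ := by
      by_contra hne
      have h1 := hχ3 (cjI χ) (key1 χ hχ1) hne
      have h2 := mlt_conj hCK χ ξ
      rw [(cjI_eq_iff ξ).2 hξ] at h2
      rw [h2] at h1
      exact hone _ hχ2 h1
    refine ⟨⟨χ, (cjI_eq_iff χ).1 hr, hχ1⟩, Subtype.ext ?_⟩
    by_contra hne
    exact hone _ hχ2 (hf3 χ hχ1 ξ (hinv _) (fun h => hne h.symm))

theorem main2 {p : ℕ} (hp : p.Prime) (P K : Subgroup G) (hP : IsPGroup p ↥P)
    (hK : ¬ p ∣ Nat.card ↥K) (hPK : P ≤ Subgroup.normalizer (K : Set G)) :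
    Nat.card {c : ConjClasses ↥K // (∀ k : ↥K, ConjClasses.mk k = c → IsConj k k⁻¹) ∧
      ∀ k : ↥K, ConjClasses.mk k = c → ∀ x ∈ P, ∀ k' : ↥K, (k' : G) = x * (k : G) * x⁻¹ →
        ConjClasses.mk k' = c} =
    Nat.card {C : ConjClasses ↥(K ⊓ centralizer (P : Set G)) // invC C = C} := by
  classical
  haveI : Fact p.Prime := ⟨hp⟩
  set C := K ⊓ centralizer (P : Set G) with hCdef
  have hCK : C ≤ K := inf_le_left
  obtain ⟨n, hn⟩ := IsPGroup.iff_card.1 hP
  have hcop : (Nat.card P).Coprime (Nat.card K) := by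
    rw [hn]
    exact Nat.Coprime.pow_left n ((Nat.Prime.coprime_iff_not_dvd hp).2 hK)
  have hsol : Group.IsSolvable P ∨ Group.IsSolvable K := by
    left
    haveI : Group.IsNilpotent P := hP.isNilpotent
    infer_instance
  -- conjugacy in `C` and in `K`
  have hconj : ∀ a b : C, IsConj (inclusion hCK a) (inclusion hCK b) → IsConj a b := by
    intro a b h
    obtain ⟨g, hg⟩ := isConj_iff.1 h
    have hg' : (g : G) * a * (g : G)⁻¹ = b := congrArg Subtype.val hg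
    obtain ⟨c, hc, hce⟩ := H23.conj_of_mem_centralizer hPK hcop hsol (a : G) a.2.2 g.2
      (by rw [hg']; exact b.2.2)
    exact isConj_iff.2 ⟨⟨c, hc⟩, Subtype.ext (hce.trans hg')⟩
  symm
  have hmap : ∀ D : ConjClasses C, invC D = D →
      (∀ k : ↥K, ConjClasses.mk k = ConjClasses.map (inclusion hCK) D → IsConj k k⁻¹) ∧
      ∀ k : ↥K, ConjClasses.mk k = ConjClasses.map (inclusion hCK) D → ∀ x ∈ P, ∀ k' : ↥K,
        (k' : G) = x * (k : G) * x⁻¹ → ConjClasses.mk k' = ConjClasses.map (inclusion hCK) D := by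
    intro D hD
    obtain ⟨c, rfl⟩ := ConjClasses.mk_surjective D
    rw [invC_iff] at hD
    have hcc : IsConj (inclusion hCK c) (inclusion hCK c)⁻¹ := by
      obtain ⟨d, hd⟩ := isConj_iff.1 hD
      exact isConj_iff.2 ⟨inclusion hCK d, by rw [← map_inv (inclusion hCK) c, ← hd]; rfl⟩
    refine ⟨fun k hk => ?_, fun k hk x hx k' hk' => ?_⟩
    · have h1 : IsConj k (inclusion hCK c) := ConjClasses.mk_eq_mk_iff_isConj.1 hk
      exact h1.trans (hcc.trans (inv_isConj h1.symm))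
    · have h1 : IsConj k (inclusion hCK c) := ConjClasses.mk_eq_mk_iff_isConj.1 hk
      obtain ⟨g, hg⟩ := isConj_iff.1 h1.symm
      have hg' : (g : G) * c * (g : G)⁻¹ = k := congrArg Subtype.val hg
      refine ConjClasses.mk_eq_mk_iff_isConj.2 (IsConj.symm (isConj_iff.2
        ⟨⟨x * g * x⁻¹, H23.mem_normalizer_conj hPK hx g.2⟩, Subtype.ext ?_⟩))
      show x * g * x⁻¹ * c * (x * g * x⁻¹)⁻¹ = k'
      have hxc : x * (c : G) * x⁻¹ = c := by
        rw [(mem_centralizer_iff.1 c.2.2) x hx]; group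
      rw [hk', ← hg']
      calc x * g * x⁻¹ * c * (x * g * x⁻¹)⁻¹ = x * g * x⁻¹ * (x * c * x⁻¹) * (x * g * x⁻¹)⁻¹ := by
            rw [hxc]
        _ = _ := by group
  refine Nat.card_congr (Equiv.ofBijective (fun D => ⟨ConjClasses.map (inclusion hCK) D.1,
    hmap D.1 D.2⟩) ⟨?_, ?_⟩)
  · rintro ⟨D, hD⟩ ⟨E, hE⟩ h
    have h1 : ConjClasses.map (inclusion hCK) D = ConjClasses.map (inclusion hCK) E :=
      congrArg Subtype.val h
    obtain ⟨c, rfl⟩ := ConjClasses.mk_surjective D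
    obtain ⟨d, rfl⟩ := ConjClasses.mk_surjective E
    have h2 : IsConj (inclusion hCK c) (inclusion hCK d) := ConjClasses.mk_eq_mk_iff_isConj.1 h1
    exact Subtype.ext (ConjClasses.mk_eq_mk_iff_isConj.2 (hconj c d h2))
  · rintro ⟨D, hD1, hD2⟩
    obtain ⟨k, rfl⟩ := ConjClasses.mk_surjective D
    have h1 : ∀ a ∈ P, ∃ g ∈ K, a * (k : G) * a⁻¹ = g * (k : G) * g⁻¹ := by
      intro a ha
      have h2 := hD2 k rfl a ha ⟨a * k * a⁻¹, H23.mem_normalizer_conj hPK ha k.2⟩ rfl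
      obtain ⟨g, hg⟩ := isConj_iff.1 (ConjClasses.mk_eq_mk_iff_isConj.1 h2).symm
      exact ⟨g, g.2, (congrArg Subtype.val hg).symm⟩
    obtain ⟨g, hg, hgc⟩ := H23.exists_conj_mem_centralizer hPK hcop hsol (k : G) h1
    have hgK : g * k * g⁻¹ ∈ K := K.mul_mem (K.mul_mem hg k.2) (K.inv_mem hg)
    have h3 : IsConj k (⟨g * k * g⁻¹, hgK⟩ : K) := isConj_iff.2 ⟨⟨g, hg⟩, rfl⟩
    have hr := hD1 k rfl
    refine ⟨⟨ConjClasses.mk ⟨g * k * g⁻¹, hgK, hgc⟩, ?_⟩, Subtype.ext ?_⟩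
    · rw [invC_iff]
      apply hconj
      rw [map_inv]
      exact h3.symm.trans (hr.trans (inv_isConj h3))
    · exact (ConjClasses.mk_eq_mk_iff_isConj.2 h3.symm)

theorem main3 {p : ℕ} (hp : p.Prime) (P K : Subgroup G) (hP : IsPGroup p ↥P)
    (hK : ¬ p ∣ Nat.card ↥K) (hPK : P ≤ Subgroup.normalizer (K : Set G))
    (hall : ∀ θ : IrrCharacter ↥K, (∀ k : ↥K, ((θ : ↥K → ℂ) k).im = 0) →
      (∀ x ∈ P, ∀ k k' : ↥K, (k' : G) = x * (k : G) * x⁻¹ → (θ : ↥K → ℂ) k' = (θ : ↥K → ℂ) k))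
    (k : K) (hk : IsConj k k⁻¹) :
    ∃ k' : ↥K, IsConj k k' ∧ ∀ x ∈ P, x * (k' : G) * x⁻¹ = (k' : G) := by
  classical
  haveI : Fact p.Prime := ⟨hp⟩
  obtain ⟨n, hn⟩ := IsPGroup.iff_card.1 hP
  have hcop : (Nat.card P).Coprime (Nat.card K) := by
    rw [hn]
    exact Nat.Coprime.pow_left n ((Nat.Prime.coprime_iff_not_dvd hp).2 hK)
  have hsol : Group.IsSolvable P ∨ Group.IsSolvable K := by
    left
    haveI : Group.IsNilpotent P := hP.isNilpotent
    infer_instance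
  -- all real classes are invariant
  let S := {c : ConjClasses ↥K // (∀ k : ↥K, ConjClasses.mk k = c → IsConj k k⁻¹) ∧
      ∀ k : ↥K, ConjClasses.mk k = c → ∀ x ∈ P, ∀ k' : ↥K, (k' : G) = x * (k : G) * x⁻¹ →
        ConjClasses.mk k' = c}
  let T := {C : ConjClasses K // invC C = C}
  have hcard : Nat.card S = Nat.card T := by
    have e1 := main1 hp P K hP hK hPK
    have e2 := main2 hp P K hP hK hPK
    have e3 := card_real (K := K)
    show Nat.card S = _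
    rw [e2, ← e1, ← e3]
    exact Nat.card_congr (Equiv.subtypeEquivRight fun θ => ⟨fun h => h.1, fun h => ⟨h, hall θ h⟩⟩)
  have hr : ∀ c : S, invC c.1 = c.1 := by
    rintro ⟨c, hc1, hc2⟩
    obtain ⟨k, rfl⟩ := ConjClasses.mk_surjective c
    exact (invC_iff k).2 (hc1 k rfl)
  let f : S → T := fun c => ⟨c.1, hr c⟩
  have hfi : Function.Injective f := fun a b h => Subtype.ext (congrArg (fun t : T => t.1) h)
  haveI : Finite S := Subtype.finite
  haveI : Finite T := Subtype.finite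
  have hfb : Function.Bijective f := (Nat.bijective_iff_injective_and_card f).2 ⟨hfi, hcard⟩
  obtain ⟨⟨c, hc1, hc2⟩, hc⟩ := hfb.2 ⟨ConjClasses.mk k, (invC_iff k).2 hk⟩
  have hc' : c = ConjClasses.mk k := congrArg (fun t : T => t.1) hc
  subst hc'
  have h1 : ∀ a ∈ P, ∃ g ∈ K, a * (k : G) * a⁻¹ = g * (k : G) * g⁻¹ := by
    intro a ha
    have h2 := hc2 k rfl a ha ⟨a * k * a⁻¹, H23.mem_normalizer_conj hPK ha k.2⟩ rfl
    obtain ⟨g, hg⟩ := isConj_iff.1 (ConjClasses.mk_eq_mk_iff_isConj.1 h2).symm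
    exact ⟨g, g.2, (congrArg Subtype.val hg).symm⟩
  obtain ⟨g, hg, hgc⟩ := H23.exists_conj_mem_centralizer hPK hcop hsol (k : G) h1
  have hgK : g * k * g⁻¹ ∈ K := K.mul_mem (K.mul_mem hg k.2) (K.inv_mem hg)
  refine ⟨⟨g * k * g⁻¹, hgK⟩, isConj_iff.2 ⟨⟨g, hg⟩, rfl⟩, fun x hx => ?_⟩
  show x * (g * k * g⁻¹) * x⁻¹ = g * k * g⁻¹
  rw [(mem_centralizer_iff.1 hgc) x hx]; group

end Cfsg.Agent.H7.RealB
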