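import Cfsg.Agent.H27.FSReal
import Cfsg.Agent.H5.AltBasis
import Cfsg.Agent.H3.DegRatio
import Cfsg.Agent.H3.Clifford
import Mathlib.LinearAlgebra.BilinearMap

set_option autoImplicit false
set_option linter.style.haveILetI false
set_option linter.unusedSectionVars false

/-! Parity of multiplicities of real characters with different Frobenius–Schur indicators. -/

namespace Cfsg.Agent.H7.RealC

open Cfsg Cfsg.Agent.H3 Cfsg.Agent.H27 Matrix
open scoped ComplexConjugate

universe u

section mult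

variable {N : Type u} [Group N] [Fintype N]

theorem even_hom {n m : ℕ} (ρ : Representation ℂ N (Fin n → ℂ)) (σ : Representation ℂ N (Fin m → ℂ))
    (v : Matrix (Fin n) (Fin n) ℂ) (w : Matrix (Fin m) (Fin m) ℂ) (hv : v.det ≠ 0) (hw : w.det ≠ 0)
    (hw0 : w ≠ 0)
    (hvi : ∀ s : N, (LinearMap.toMatrix' (ρ s)).transpose * v * LinearMap.toMatrix' (ρ s) = v)
    (hwi : ∀ s : N, (LinearMap.toMatrix' (σ s)).transpose * w * LinearMap.toMatrix' (σ s) = w)
    (huniq : ∀ M : Matrix (Fin m) (Fin m) ℂ,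
        (∀ s : N, (LinearMap.toMatrix' (σ s)).transpose * M * LinearMap.toMatrix' (σ s) = M) →
        ∃ c : ℂ, M = c • w)
    {δ δ' : ℂ} (hvt : v.transpose = δ • v) (hwt : w.transpose = δ' • w) (hδ : δ * δ' = -1) :
    Even (Module.finrank ℂ (Representation.IntertwiningMap σ ρ)) := by
  classical
  -- matrices of intertwining maps
  have hX : ∀ (X : Representation.IntertwiningMap σ ρ) (s : N),
      LinearMap.toMatrix' (ρ s) * LinearMap.toMatrix' X.toLinearMap =
        LinearMap.toMatrix' X.toLinearMap * LinearMap.toMatrix' (σ s) := by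
    intro X s
    rw [← LinearMap.toMatrix'_comp, ← LinearMap.toMatrix'_comp, X.isIntertwining' s]
  have hprod : ∀ X Y : Representation.IntertwiningMap σ ρ, ∃ c : ℂ,
      (LinearMap.toMatrix' X.toLinearMap).transpose * v * LinearMap.toMatrix' Y.toLinearMap =
        c • w := by
    intro X Y
    apply huniq
    intro s
    have h1 := hX X s
    have h2 := hX Y s
    have h1' := congrArg Matrix.transpose h1
    rw [Matrix.transpose_mul, Matrix.transpose_mul] at h1'
    calc (LinearMap.toMatrix' (σ s)).transpose * ((LinearMap.toMatrix' X.toLinearMap).transpose * v *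
          LinearMap.toMatrix' Y.toLinearMap) * LinearMap.toMatrix' (σ s)
        = ((LinearMap.toMatrix' (σ s)).transpose * (LinearMap.toMatrix' X.toLinearMap).transpose) *
          v * (LinearMap.toMatrix' Y.toLinearMap * LinearMap.toMatrix' (σ s)) := by
          simp only [Matrix.mul_assoc]
      _ = (LinearMap.toMatrix' X.toLinearMap).transpose * ((LinearMap.toMatrix' (ρ s)).transpose *
          v * LinearMap.toMatrix' (ρ s)) * LinearMap.toMatrix' Y.toLinearMap := by
          rw [← h1', ← h2]; simp only [Matrix.mul_assoc]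
      _ = _ := by rw [hvi s]
  obtain ⟨i, j, hij⟩ : ∃ i j, w i j ≠ 0 := by
    by_contra hcon
    push Not at hcon
    exact hw0 (Matrix.ext hcon)
  let B : LinearMap.BilinForm ℂ (Representation.IntertwiningMap σ ρ) :=
    LinearMap.mk₂ ℂ (fun X Y => ((LinearMap.toMatrix' X.toLinearMap).transpose * v *
      LinearMap.toMatrix' Y.toLinearMap) i j * (w i j)⁻¹)
      (fun X X' Y => by
        show ((LinearMap.toMatrix' (X.toLinearMap + X'.toLinearMap)).transpose * v *
          LinearMap.toMatrix' Y.toLinearMap) i j * (w i j)⁻¹ = _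
        rw [map_add, Matrix.transpose_add, Matrix.add_mul, Matrix.add_mul, Matrix.add_apply, add_mul])
      (fun c X Y => by
        show ((LinearMap.toMatrix' (c • X.toLinearMap)).transpose * v *
          LinearMap.toMatrix' Y.toLinearMap) i j * (w i j)⁻¹ = _
        rw [map_smul, Matrix.transpose_smul, Matrix.smul_mul, Matrix.smul_mul, Matrix.smul_apply,
          smul_eq_mul, smul_eq_mul, mul_assoc])
      (fun X Y Y' => by
        show ((LinearMap.toMatrix' X.toLinearMap).transpose * v *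
          LinearMap.toMatrix' (Y.toLinearMap + Y'.toLinearMap)) i j * (w i j)⁻¹ = _
        rw [map_add, Matrix.mul_add, Matrix.add_apply, add_mul])
      (fun c X Y => by
        show ((LinearMap.toMatrix' X.toLinearMap).transpose * v *
          LinearMap.toMatrix' (c • Y.toLinearMap)) i j * (w i j)⁻¹ = _
        rw [map_smul, Matrix.mul_smul, Matrix.smul_apply, smul_eq_mul, smul_eq_mul, mul_assoc])
  have hB : ∀ X Y, (LinearMap.toMatrix' X.toLinearMap).transpose * v *
      LinearMap.toMatrix' Y.toLinearMap = (B X Y) • w := by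
    intro X Y
    obtain ⟨c, hc⟩ := hprod X Y
    have : B X Y = c := by
      show ((LinearMap.toMatrix' X.toLinearMap).transpose * v *
        LinearMap.toMatrix' Y.toLinearMap) i j * (w i j)⁻¹ = c
      rw [hc, Matrix.smul_apply, smul_eq_mul, mul_inv_cancel_right₀ hij]
    rw [this, hc]
  have hanti : ∀ X Y, B Y X = - B X Y := by
    intro X Y
    have h1 := congrArg Matrix.transpose (hB X Y)
    rw [Matrix.transpose_mul, Matrix.transpose_mul, Matrix.transpose_transpose, hvt,
      Matrix.transpose_smul, hwt, Matrix.smul_mul, Matrix.mul_smul, ← Matrix.mul_assoc, hB Y X,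
      smul_smul, smul_smul] at h1
    have h2 := congrFun (congrFun h1 i) j
    rw [Matrix.smul_apply, Matrix.smul_apply, smul_eq_mul, smul_eq_mul] at h2
    have h3 : δ * B Y X = B X Y * δ' := mul_right_cancel₀ hij h2
    have hδ' : δ' ≠ 0 := by
      rintro h
      rw [h, mul_zero] at hδ
      exact absurd hδ (by norm_num)
    have h4 : δ' * δ' = 1 := by
      have h5 := congrArg Matrix.transpose hwt
      rw [Matrix.transpose_transpose, Matrix.transpose_smul, hwt, smul_smul] at h5
      have h6 := congrFun (congrFun h5 i) j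
      rw [Matrix.smul_apply, smul_eq_mul] at h6
      have h7 : (1 : ℂ) * w i j = δ' * δ' * w i j := by rw [one_mul]; exact h6
      exact (mul_right_cancel₀ hij h7).symm
    linear_combination (-δ') * h3 + B Y X * hδ - B X Y * h4
  have halt : B.IsAlt := by
    intro X
    have h := hanti X X
    have : (2 : ℂ) * B X X = 0 := by rw [two_mul]; nth_rewrite 1 [h]; ring
    exact (mul_eq_zero.1 this).resolve_left two_ne_zero
  refine H5.even_of_alt B halt ?_
  intro X hXY
  -- the adjoint map
  set A := LinearMap.toMatrix' X.toLinearMap with hA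
  have hwu : IsUnit w.det := isUnit_iff_ne_zero.2 hw
  have hvu : IsUnit v.det := isUnit_iff_ne_zero.2 hv
  let T : Matrix (Fin m) (Fin n) ℂ := w⁻¹ * A.transpose * v
  have hT : ∀ s : N, T * LinearMap.toMatrix' (ρ s) = LinearMap.toMatrix' (σ s) * T := by
    intro s
    have hA' := congrArg Matrix.transpose (hX X s⁻¹)
    rw [Matrix.transpose_mul, Matrix.transpose_mul] at hA'
    -- `v ρ(s) = ρ(s⁻¹)ᵀ v`
    have e1 : v * LinearMap.toMatrix' (ρ s) = (LinearMap.toMatrix' (ρ s⁻¹)).transpose * v := by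
      have h1 := hvi s⁻¹
      have h2 := toMatrix_inv_mul ρ s
      calc v * LinearMap.toMatrix' (ρ s) = ((LinearMap.toMatrix' (ρ s⁻¹)).transpose * v *
            LinearMap.toMatrix' (ρ s⁻¹)) * LinearMap.toMatrix' (ρ s) := by rw [h1]
        _ = _ := by rw [Matrix.mul_assoc, h2, Matrix.mul_one]
    have e2 : w⁻¹ * (LinearMap.toMatrix' (σ s⁻¹)).transpose = LinearMap.toMatrix' (σ s) * w⁻¹ := by
      have h1 : w * LinearMap.toMatrix' (σ s) = (LinearMap.toMatrix' (σ s⁻¹)).transpose * w := by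
        have h1 := hwi s⁻¹
        have h2 := toMatrix_inv_mul σ s
        calc w * LinearMap.toMatrix' (σ s) = ((LinearMap.toMatrix' (σ s⁻¹)).transpose * w *
              LinearMap.toMatrix' (σ s⁻¹)) * LinearMap.toMatrix' (σ s) := by rw [h1]
          _ = _ := by rw [Matrix.mul_assoc, h2, Matrix.mul_one]
      calc w⁻¹ * (LinearMap.toMatrix' (σ s⁻¹)).transpose
          = w⁻¹ * ((LinearMap.toMatrix' (σ s⁻¹)).transpose * w) * w⁻¹ := by
            rw [← Matrix.mul_assoc, Matrix.mul_assoc (w⁻¹ * _) w (w⁻¹),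
              Matrix.mul_nonsing_inv w hwu, Matrix.mul_one]
        _ = w⁻¹ * (w * LinearMap.toMatrix' (σ s)) * w⁻¹ := by rw [h1]
        _ = _ := by rw [← Matrix.mul_assoc, Matrix.nonsing_inv_mul w hwu, Matrix.one_mul]
    show w⁻¹ * A.transpose * v * LinearMap.toMatrix' (ρ s) =
      LinearMap.toMatrix' (σ s) * (w⁻¹ * A.transpose * v)
    calc w⁻¹ * A.transpose * v * LinearMap.toMatrix' (ρ s)
        = w⁻¹ * A.transpose * (v * LinearMap.toMatrix' (ρ s)) := by rw [Matrix.mul_assoc]
      _ = w⁻¹ * (A.transpose * (LinearMap.toMatrix' (ρ s⁻¹)).transpose) * v := by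
          rw [e1]; simp only [Matrix.mul_assoc]
      _ = (w⁻¹ * (LinearMap.toMatrix' (σ s⁻¹)).transpose) * A.transpose * v := by
          rw [hA']; simp only [Matrix.mul_assoc]; rfl
      _ = _ := by rw [e2]; simp only [Matrix.mul_assoc]
  by_contra hX0
  have hA0 : A ≠ 0 := by
    intro h
    apply hX0
    have h1 : X.toLinearMap = 0 := by
      apply LinearMap.toMatrix'.injective
      rw [map_zero]; exact h
    exact Representation.IntertwiningMap.ext h1
  have hT0 : T ≠ 0 := by
    intro h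
    apply hA0
    have h1 : w * T * v⁻¹ = A.transpose := by
      show w * (w⁻¹ * A.transpose * v) * v⁻¹ = _
      rw [← Matrix.mul_assoc, ← Matrix.mul_assoc, Matrix.mul_nonsing_inv w hwu, Matrix.one_mul,
        Matrix.mul_assoc, Matrix.mul_nonsing_inv v hvu, Matrix.mul_one]
    rw [h, Matrix.mul_zero, Matrix.zero_mul] at h1
    have h2 := congrArg Matrix.transpose h1
    rw [Matrix.transpose_transpose, Matrix.transpose_zero] at h2
    exact h2.symm
  obtain ⟨a, b, hab⟩ : ∃ a b, T a b ≠ 0 := by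
    by_contra hcon
    push Not at hcon
    exact hT0 (Matrix.ext hcon)
  -- averaged map
  let Z : Matrix (Fin n) (Fin m) ℂ := Matrix.single b a 1
  let Ym : Matrix (Fin n) (Fin m) ℂ :=
    ∑ s : N, LinearMap.toMatrix' (ρ s) * Z * LinearMap.toMatrix' (σ s⁻¹)
  have hYm : ∀ t : N, LinearMap.toMatrix' (ρ t) * Ym = Ym * LinearMap.toMatrix' (σ t) := by
    intro t
    show LinearMap.toMatrix' (ρ t) * ∑ s : N, _ = (∑ s : N, _) * _
    rw [Matrix.mul_sum, Matrix.sum_mul]
    refine Fintype.sum_equiv (Equiv.mulLeft t) _ _ fun s => ?_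
    show LinearMap.toMatrix' (ρ t) * (LinearMap.toMatrix' (ρ s) * Z * LinearMap.toMatrix' (σ s⁻¹)) =
      LinearMap.toMatrix' (ρ (t * s)) * Z * LinearMap.toMatrix' (σ (t * s)⁻¹) *
        LinearMap.toMatrix' (σ t)
    have e1 : LinearMap.toMatrix' (ρ (t * s)) = LinearMap.toMatrix' (ρ t) *
        LinearMap.toMatrix' (ρ s) := by rw [map_mul]; exact LinearMap.toMatrix'_mul _ _
    have e2 : LinearMap.toMatrix' (σ (t * s)⁻¹) * LinearMap.toMatrix' (σ t) =
        LinearMap.toMatrix' (σ s⁻¹) := by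
      rw [← LinearMap.toMatrix'_mul, ← map_mul, _root_.mul_inv_rev, mul_assoc, inv_mul_cancel, mul_one]
    rw [e1, Matrix.mul_assoc _ _ (LinearMap.toMatrix' (σ t)), e2]
    simp only [Matrix.mul_assoc]
  let Y : Representation.IntertwiningMap σ ρ :=
    { toLinearMap := Matrix.toLin' Ym
      isIntertwining' := fun t => by
        apply LinearMap.toMatrix'.injective
        rw [LinearMap.toMatrix'_comp, LinearMap.toMatrix'_comp, LinearMap.toMatrix'_toLin', hYm t] }
  have hY1 : LinearMap.toMatrix' Y.toLinearMap = Ym := LinearMap.toMatrix'_toLin' Ym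
  have h0 := hXY Y
  have h1 := hB X Y
  rw [h0, zero_smul, hY1] at h1
  have h2 : T * Ym = 0 := by
    show w⁻¹ * A.transpose * v * Ym = 0
    rw [Matrix.mul_assoc, Matrix.mul_assoc, ← Matrix.mul_assoc A.transpose, h1, Matrix.mul_zero]
  have h3 : Matrix.trace (T * Ym) = (Nat.card N : ℂ) * T a b := by
    show Matrix.trace (T * ∑ s : N, _) = _
    rw [Matrix.mul_sum, Matrix.trace_sum]
    have h4 : ∀ s : N, Matrix.trace (T * (LinearMap.toMatrix' (ρ s) * Z *
        LinearMap.toMatrix' (σ s⁻¹))) = T a b := by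
      intro s
      have e1 : T * (LinearMap.toMatrix' (ρ s) * Z * LinearMap.toMatrix' (σ s⁻¹)) =
          LinearMap.toMatrix' (σ s) * (T * Z) * LinearMap.toMatrix' (σ s⁻¹) := by
        rw [← Matrix.mul_assoc, ← Matrix.mul_assoc, hT s]
        simp only [Matrix.mul_assoc]
      rw [e1, Matrix.trace_mul_comm, ← Matrix.mul_assoc, toMatrix_inv_mul, Matrix.one_mul]
      show Matrix.trace (T * Matrix.single b a 1) = T a b
      rw [Matrix.trace_mul_comm, Matrix.trace_single_mul]
      simp
    rw [Finset.sum_congr rfl fun s _ => h4 s, Finset.sum_const, Finset.card_univ, nsmul_eq_mul,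
      Nat.card_eq_fintype_card]
  rw [h2, Matrix.trace_zero] at h3
  rcases mul_eq_zero.1 h3.symm with h5 | h5
  · exact (Nat.cast_ne_zero.2 Nat.card_pos.ne') h5
  · exact hab h5

end mult

section main

variable {G : Type u} [Group G] [Fintype G]

theorem real_of_fs_ne {χ : G → ℂ} (hχ : IsIrrCharacter G χ) (h : fsInd χ ≠ 0) (g : G) :
    (χ g).im = 0 := by
  by_contra hcon
  apply h
  apply (frobenius_schur hχ).1
  intro heq
  exact hcon (Complex.conj_eq_iff_im.mp (congrFun heq g).symm)

theorem classInner_even (N : Subgroup G) [Fintype N] {χ : G → ℂ} (hχ : IsIrrCharacter G χ)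
    {φ : N → ℂ} (hφ : IsIrrCharacter N φ) (h : fsInd χ * fsInd φ = -1) :
    ∃ k : ℕ, classInner (fun n : N => χ n) φ = (k : ℂ) ∧ Even k := by
  have h1 : fsInd χ ≠ 0 := by
    intro h0; rw [h0, zero_mul] at h; exact absurd h (by norm_num)
  have h2 : fsInd φ ≠ 0 := by
    intro h0; rw [h0, mul_zero] at h; exact absurd h (by norm_num)
  have hr1 := real_of_fs_ne hχ h1
  have hr2 := real_of_fs_ne hφ h2
  obtain ⟨n, ρ, hρ, rfl⟩ := hχ
  obtain ⟨m, σ, hσ, rfl⟩ := hφ
  obtain ⟨v, hv, hv0, hvi, hvt, -⟩ := exists_form2 ρ hρ hr1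
  obtain ⟨w, hw, hw0, hwi, hwt, huniq⟩ := exists_form2 σ hσ hr2
  let ρ' : Representation ℂ N (Fin n → ℂ) := ρ.comp N.subtype
  have hev := even_hom ρ' σ v w hv hw hw0 (fun s => hvi s) hwi huniq hvt hwt h
  exact ⟨_, classInner_eq_finrank ρ' σ, hev⟩

theorem sq_mem {N : Subgroup G} [N.Normal] (hodd : Odd N.index) {g : G} (h : g * g ∈ N) :
    g ∈ N := by
  obtain ⟨k, hk⟩ := hodd
  have h1 : g ^ N.index ∈ N := Subgroup.pow_index_mem N g
  rw [hk, pow_succ, pow_mul] at h1
  have h2 : (g ^ 2) ^ k ∈ N := N.pow_mem (by rw [pow_two]; exact h) k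
  exact (N.mul_mem_cancel_left h2).1 h1

theorem fsInd_ind {N : Subgroup G} [hN : N.Normal] [Fintype N] (hodd : Odd N.index) (φ : N → ℂ) :
    fsInd (indFun N φ) = fsInd φ := by
  classical
  have hG : (Nat.card G : ℂ) ≠ 0 := by exact_mod_cast Nat.card_pos.ne'
  have hN0 : (Nat.card N : ℂ) ≠ 0 := by exact_mod_cast Nat.card_pos.ne'
  have h1 : ∑ g : G, indFun N φ (g * g) = ∑ n : N, indFun N φ ((n : G) * n) := by
    rw [← Finset.sum_subtype (Finset.univ.filter fun g : G => g ∈ N)
      (p := fun g : G => g ∈ N) (by simp) (fun g : G => indFun N φ (g * g)), Finset.sum_filter]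
    refine Finset.sum_congr rfl fun g _ => ?_
    split_ifs with hg
    · rfl
    · exact indFun_not_mem_normal hN φ fun h => hg (sq_mem hodd h)
  have h2 : ∀ n : N, indFun N φ ((n : G) * n) = (Nat.card N : ℂ)⁻¹ * ∑ x : G, cj hN x φ (n * n) :=
    fun n => indFun_restrict_normal hN φ (n * n)
  have h3 : ∀ x : G, ∑ n : N, cj hN x φ (n * n) = ∑ n : N, φ (n * n) := by
    intro x
    refine Fintype.sum_equiv (cjEquiv hN x).toEquiv _ _ fun n => ?_
    show φ (cjEquiv hN x (n * n)) = φ (cjEquiv hN x n * cjEquiv hN x n)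
    rw [map_mul]
  rw [fsInd, fsInd, h1, Finset.sum_congr rfl fun n _ => h2 n, ← Finset.mul_sum, Finset.sum_comm,
    Finset.sum_congr rfl fun x _ => h3 x, Finset.sum_const, Finset.card_univ, nsmul_eq_mul,
    ← Nat.card_eq_fintype_card]
  field_simp

theorem mult_odd {N : Subgroup G} [hN : N.Normal] [Fintype N] (hodd : Odd N.index) {χ : G → ℂ}
    (hχ : IsIrrCharacter G χ) {φ : N → ℂ} (hφ : IsIrrCharacter N φ)
    (h : classInner (fun n : N => χ n) φ ≠ 0) :
    ∃ k : ℕ, classInner (fun n : N => χ n) φ = (k : ℂ) ∧ Odd k := by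
  obtain ⟨c, hc⟩ := char_one_eq_nat (irr_isChar hχ)
  obtain ⟨d, hd⟩ := char_one_eq_nat (irr_isChar hφ)
  obtain ⟨e, he⟩ := classInner_char_nat (isChar_restrict N (irr_isChar hχ)) (irr_isChar hφ)
  obtain ⟨h1, h2⟩ := ratio_dvd_index hN hχ hφ h c d hc hd
  have h3 := clifford_degree hN hχ hφ h
  have hd0 : d ≠ 0 := by
    rintro rfl
    exact irr_one_ne_zero hφ (by rw [hd]; simp)
  refine ⟨e, he, ?_⟩
  rw [hc, hd, he] at h3
  have h4 : c = e * (inertia hN φ).index * d := by exact_mod_cast h3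
  have h5 : c / d = e * (inertia hN φ).index := by
    rw [h4, Nat.mul_div_cancel _ (Nat.pos_of_ne_zero hd0)]
  rw [h5] at h2
  exact Odd.of_dvd_nat hodd ((dvd_mul_right _ _).trans h2)

theorem fs_main (N : Subgroup G) [hN : N.Normal] [Fintype N] (hodd : Odd N.index)
    (φ : IrrCharacter N) (hφ : fsInd (φ : N → ℂ) = 1) :
    ∃! χ : IrrCharacter G, fsInd (χ : G → ℂ) = 1 ∧
      classInner (fun n : N => (χ : G → ℂ) n) φ ≠ 0 := by
  classical
  haveI : Fintype (IrrCharacter G) := Fintype.ofFinite _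
  have hm : ∀ χ : IrrCharacter G, ∃ e : ℕ, classInner (fun n : N => (χ : G → ℂ) n) φ = (e : ℂ) ∧
      (e ≠ 0 → Odd e) := by
    intro χ
    by_cases h : classInner (fun n : N => (χ : G → ℂ) n) φ = 0
    · exact ⟨0, by rw [h]; simp, fun h => absurd rfl h⟩
    · obtain ⟨k, hk, hk'⟩ := mult_odd hodd χ.2 φ.2 h
      exact ⟨k, hk, fun _ => hk'⟩
  choose e he heo using hm
  have hfs : ∀ χ : IrrCharacter G, e χ ≠ 0 → fsInd (χ : G → ℂ) = 0 ∨ fsInd (χ : G → ℂ) = 1 := by
    intro χ hne
    by_cases hr : (χ : G → ℂ) = (fun g => conj ((χ : G → ℂ) g))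
    · rcases (frobenius_schur χ.2).2 hr with h | h
      · exact Or.inr h
      · exfalso
        obtain ⟨k, hk, hk'⟩ := classInner_even N χ.2 φ.2 (by rw [h, hφ]; ring)
        rw [he χ] at hk
        have : e χ = k := by exact_mod_cast hk
        rw [← this] at hk'
        exact (Nat.not_even_iff_odd.2 (heo χ hne)) hk'
    · exact Or.inl ((frobenius_schur χ.2).1 hr)
  -- expansion
  have hcl : IsClassFunction G (indFun N (φ : N → ℂ)) :=
    char_classFun (isChar_ind N (irr_isChar φ.2))
  have hexp : fsInd (indFun N (φ : N → ℂ)) = ∑ χ : IrrCharacter G, (e χ : ℂ) * fsInd (χ : G → ℂ) := by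
    have h1 : ∀ χ : IrrCharacter G, classInner (indFun N (φ : N → ℂ)) χ = (e χ : ℂ) := by
      intro χ
      rw [frobenius_reciprocity N _ (irr_classFun χ.2), ← classInner_conj_symm, he χ]
      simp
    rw [fsInd, Finset.sum_congr rfl fun g _ => classFun_expand_apply hcl (g * g), Finset.sum_comm,
      Finset.mul_sum]
    refine Finset.sum_congr rfl fun χ _ => ?_
    rw [h1 χ, fsInd, ← Finset.mul_sum]
    ring
  rw [fsInd_ind hodd, hφ] at hexp
  -- only `ε = 1` contributes
  let g : IrrCharacter G → ℕ := fun χ => if fsInd (χ : G → ℂ) = 1 then e χ else 0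
  have hg : ∀ χ : IrrCharacter G, (e χ : ℂ) * fsInd (χ : G → ℂ) = (g χ : ℂ) := by
    intro χ
    by_cases h1 : fsInd (χ : G → ℂ) = 1
    · rw [h1, mul_one]; simp [g, h1]
    · have : g χ = 0 := by simp [g, h1]
      rw [this, Nat.cast_zero]
      by_cases h0 : e χ = 0
      · rw [h0]; simp
      · rcases hfs χ h0 with h | h
        · rw [h, mul_zero]
        · exact absurd h h1
  rw [Finset.sum_congr rfl fun χ _ => hg χ] at hexp
  have hsum : ∑ χ : IrrCharacter G, g χ = 1 := by exact_mod_cast hexp.symm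
  obtain ⟨χ, hχ⟩ : ∃ χ, g χ ≠ 0 := by
    by_contra hcon
    push Not at hcon
    rw [Finset.sum_eq_zero fun χ _ => hcon χ] at hsum
    exact absurd hsum (by norm_num)
  have hprop : ∀ χ : IrrCharacter G, g χ ≠ 0 ↔ (fsInd (χ : G → ℂ) = 1 ∧
      classInner (fun n : N => (χ : G → ℂ) n) φ ≠ 0) := by
    intro χ
    rw [he χ]
    by_cases h1 : fsInd (χ : G → ℂ) = 1
    · simp [g, h1]
    · simp [g, h1]
  refine ⟨χ, (hprop χ).1 hχ, fun ψ hψ => ?_⟩
  have hψ' := (hprop ψ).2 hψ
  by_contra hne
  have h2 : g χ + g ψ ≤ ∑ χ : IrrCharacter G, g χ := by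
    rw [← Finset.sum_pair (f := g) (Ne.symm hne)]
    exact Finset.sum_le_sum_of_subset (Finset.subset_univ _)
  omega

end main

end Cfsg.Agent.H7.RealC
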