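import Cfsg.Agent.H7.RealC
import Cfsg.Agent.H3.BrauerE
import Cfsg.Agent.H27.Invol

set_option autoImplicit false
set_option linter.style.haveILetI false
set_option linter.unusedSectionVars false

/-! Strongly real characters over 2-defect zero characters. -/

namespace Cfsg.Agent.H7.RealD

open Cfsg Cfsg.Agent.H3 Cfsg.Agent.H27 Cfsg.Agent.H7.RealC
open scoped ComplexConjugate

universe u

variable {G : Type u} [Group G] [Fintype G]

theorem fsInd_one_real (P : Subgroup G) [Fintype P] : fsInd (fun _ : P => (1 : ℂ)) = 1 := by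
  rw [fsInd]; simp

/-- the multiplicity data of `φ^G` and the permutation character on a Sylow 2-subgroup -/
theorem ind_sylow {N : Subgroup G} [hN : N.Normal] [Fintype N] (h2 : IsPGroup 2 (G ⧸ N))
    (φ : IrrCharacter N)
    (hdef : 2 ^ (Nat.card N).factorization 2 ∣ charDegree (φ : N → ℂ)) (P : Sylow 2 G)
    [Fintype (P : Subgroup G)] :
    ∃ r : ℕ, Odd r ∧ classInner (fun x : (P : Subgroup G) => indFun N (φ : N → ℂ) x)
      (fun _ => 1) = (r : ℂ) := by
  classical
  haveI : Fact (Nat.Prime 2) := ⟨Nat.prime_two⟩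
  have hval : ∀ x : (P : Subgroup G), x ≠ 1 → indFun N (φ : N → ℂ) x = 0 := by
    intro x hx
    by_cases hxN : (x : G) ∈ N
    · have h1 := indFun_restrict_normal hN (φ : N → ℂ) ⟨x, hxN⟩
      refine h1.trans ?_
      rw [Finset.sum_eq_zero, mul_zero]
      intro y _
      rw [cj_apply]
      refine char_eq_zero_of_defect_zero φ.2 Nat.prime_two
        (n := (Nat.card N).factorization 2)
        (Nat.pow_succ_factorization_not_dvd Nat.card_pos.ne' Nat.prime_two)
        (deg_eq φ) hdef _ ?_
      have ho : orderOf (⟨y * (⟨x, hxN⟩ : N) * y⁻¹, hN.conj_mem _ hxN y⟩ : N) = orderOf x := by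
        rw [← Subgroup.orderOf_coe, ← Subgroup.orderOf_coe x]
        exact ((MulAut.conj y).orderOf_eq (x : G))
      rw [ho]
      obtain ⟨k, hk⟩ := (IsPGroup.iff_orderOf.1 P.2) x
      rw [hk]
      refine dvd_pow_self 2 ?_
      rintro rfl
      rw [pow_zero, orderOf_eq_one_iff] at hk
      exact hx hk
    · exact indFun_not_mem_normal hN _ hxN
  have h1 : indFun N (φ : N → ℂ) (1 : G) =
      (Nat.card N : ℂ)⁻¹ * ((Nat.card G : ℂ) * (charDegree (φ : N → ℂ) : ℂ)) := by
    have h1 := indFun_restrict_normal hN (φ : N → ℂ) 1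
    refine h1.trans ?_
    rw [Finset.sum_congr rfl fun x _ => cj_one_apply hN x (φ : N → ℂ), Finset.sum_const,
      Finset.card_univ, nsmul_eq_mul, deg_eq φ, Nat.card_eq_fintype_card (α := G)]
  obtain ⟨s, hs⟩ : charDegree (φ : N → ℂ) ∣ Nat.card N := irr_degree_dvd_card φ.2 (deg_eq φ)
  obtain ⟨r, hr⟩ := hdef
  obtain ⟨b, hb⟩ := IsPGroup.iff_card.1 h2
  have hcG : Nat.card G = Nat.card N * 2 ^ b := by
    rw [← hb]; exact (N.card_mul_index).symm
  have hcP : Nat.card (P : Subgroup G) = 2 ^ ((Nat.card N).factorization 2 + b) := by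
    rw [P.card_eq_multiplicity, hcG, Nat.factorization_mul Nat.card_pos.ne' (by positivity)]
    simp [Nat.prime_two.factorization]
  have hrodd : Odd r := by
    rw [← Nat.not_even_iff_odd]
    intro hev
    obtain ⟨t, ht⟩ := hev
    apply Nat.pow_succ_factorization_not_dvd (n := Nat.card N) Nat.card_pos.ne' Nat.prime_two
    refine ⟨t * s, ?_⟩
    conv_lhs => rw [hs, hr, ht]
    ring
  refine ⟨r, hrodd, ?_⟩
  rw [classInner, Finset.sum_eq_single 1]
  · show (Nat.card (P : Subgroup G) : ℂ)⁻¹ * (indFun N (φ : N → ℂ) (1 : G) * conj (1 : ℂ)) = r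
    rw [h1, map_one, mul_one, hcP, hcG, hr]
    have hN0 : (Nat.card N : ℂ) ≠ 0 := by exact_mod_cast Nat.card_pos.ne'
    push_cast
    rw [pow_add]
    field_simp
  · intro x _ hx
    rw [hval x hx, zero_mul]
  · intro h
    exact absurd (Finset.mem_univ _) h

theorem main (N : Subgroup G) [hN : N.Normal] [Fintype N] (h2 : IsPGroup 2 (G ⧸ N))
    (φ : IrrCharacter N)
    (hdef : 2 ^ (Nat.card N).factorization 2 ∣ charDegree (φ : N → ℂ))
    (hconj : ∃ g : G, cj hN g (φ : N → ℂ) = fun n => conj ((φ : N → ℂ) n)) :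
    ∃ χ : IrrCharacter G, fsInd (χ : G → ℂ) = 1 ∧
      classInner (fun n : N => (χ : G → ℂ) n) φ = 1 := by
  classical
  haveI : Fact (Nat.Prime 2) := ⟨Nat.prime_two⟩
  haveI : Fintype (IrrCharacter G) := Fintype.ofFinite _
  obtain ⟨P⟩ : Nonempty (Sylow 2 G) := inferInstance
  haveI : Fintype (P : Subgroup G) := Fintype.ofFinite _
  obtain ⟨r, hrodd, hr⟩ := ind_sylow h2 φ hdef P
  have h1c : IsCharacter (P : Subgroup G) (fun _ => (1 : ℂ)) := irr_isChar isIrr_one
  have hm : ∀ χ : IrrCharacter G, ∃ e : ℕ, classInner (fun n : N => (χ : G → ℂ) n) φ = (e : ℂ) :=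
    fun χ => classInner_char_nat (isChar_restrict N (irr_isChar χ.2)) (irr_isChar φ.2)
  have hk : ∀ χ : IrrCharacter G, ∃ e : ℕ,
      classInner (fun n : (P : Subgroup G) => (χ : G → ℂ) n) (fun _ => 1) = (e : ℂ) :=
    fun χ => classInner_char_nat (isChar_restrict _ (irr_isChar χ.2)) h1c
  choose m hm using hm
  choose k hk using hk
  have hcl : IsClassFunction G (indFun N (φ : N → ℂ)) :=
    char_classFun (isChar_ind N (irr_isChar φ.2))
  have hmi : ∀ χ : IrrCharacter G, classInner (indFun N (φ : N → ℂ)) χ = (m χ : ℂ) := by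
    intro χ
    rw [frobenius_reciprocity N _ (irr_classFun χ.2), ← classInner_conj_symm, hm χ]
    simp
  have hsum : ∑ χ : IrrCharacter G, m χ * k χ = r := by
    have h1 : (∑ χ : IrrCharacter G, (m χ : ℂ) * (k χ : ℂ)) = r := by
      rw [← hr, classInner, Finset.sum_congr rfl fun (x : (P : Subgroup G)) _ => by
        rw [classFun_expand_apply hcl (x : G)]]
      simp only [Finset.sum_mul]
      rw [Finset.sum_comm, Finset.mul_sum]
      refine Finset.sum_congr rfl fun χ _ => ?_
      rw [hmi χ, ← hk χ, classInner]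
      simp only [mul_assoc, ← Finset.mul_sum]
      ring
    exact_mod_cast h1
  -- conjugation
  let c : IrrCharacter G → IrrCharacter G := fun χ => ⟨_, isIrr_conj χ.2⟩
  have hcc : ∀ χ, c (c χ) = χ := fun χ => Subtype.ext (funext fun g => by
    show conj (conj ((χ : G → ℂ) g)) = _
    simp)
  have hmc : ∀ χ, m (c χ) = m χ := by
    intro χ
    obtain ⟨g, hg⟩ := hconj
    have h1 : ((m (c χ) : ℕ) : ℂ) = m χ := by
      rw [← hm, ← hm]
      have h2 : classInner (fun n : N => (χ : G → ℂ) n) φ =
          classInner (fun n : N => (χ : G → ℂ) n) (fun n => conj ((φ : N → ℂ) n)) := by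
        rw [← hg, classInner_restrict_cj hN (irr_classFun χ.2)]
      have h3 : classInner (fun n : N => ((c χ : IrrCharacter G) : G → ℂ) n) φ =
          conj (classInner (fun n : N => (χ : G → ℂ) n) (fun n => conj ((φ : N → ℂ) n))) := by
        rw [classInner, classInner, map_mul, map_sum]
        congr 1
        · simp
        · refine Finset.sum_congr rfl fun n _ => ?_
          show conj ((χ : G → ℂ) n) * conj ((φ : N → ℂ) n) = _
          rw [map_mul, Complex.conj_conj]
      rw [h3, ← h2, hm]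
      simp
    exact_mod_cast h1
  have hkc : ∀ χ, k (c χ) = k χ := by
    intro χ
    have h1 : ((k (c χ) : ℕ) : ℂ) = k χ := by
      rw [← hk, ← hk]
      have h3 : classInner (fun n : (P : Subgroup G) => ((c χ : IrrCharacter G) : G → ℂ) n)
          (fun _ => 1) = conj (classInner (fun n : (P : Subgroup G) => (χ : G → ℂ) n)
            (fun _ => 1)) := by
        rw [classInner, classInner, map_mul, map_sum]
        congr 1
        · simp
        · refine Finset.sum_congr rfl fun n _ => ?_
          show conj ((χ : G → ℂ) n) * conj 1 = _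
          rw [map_mul, map_one, map_one]
      rw [h3, hk]
      simp
    exact_mod_cast h1
  obtain ⟨χ, hχc, hχo⟩ : ∃ χ, c χ = χ ∧ Odd (m χ * k χ) := by
    by_contra hcon
    push Not at hcon
    have h0 : ∑ χ : IrrCharacter G, ((m χ * k χ : ℕ) : ZMod 2) = 0 := by
      refine Finset.sum_involution (fun χ _ => c χ) ?_ ?_ (fun _ _ => Finset.mem_univ _)
        (fun χ _ => hcc χ)
      · intro χ _
        rw [hmc, hkc]
        exact CharTwo.add_self_eq_zero _
      · intro χ _ hne heq
        apply hne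
        have := hcon χ heq
        rw [Nat.not_odd_iff_even] at this
        exact (ZMod.natCast_eq_zero_iff_even).2 this
    rw [← Nat.cast_sum, hsum] at h0
    rw [ZMod.natCast_eq_zero_iff_even] at h0
    exact (Nat.not_even_iff_odd.2 hrodd) h0
  have hmo : Odd (m χ) := (Nat.odd_mul.1 hχo).1
  have hko : Odd (k χ) := (Nat.odd_mul.1 hχo).2
  refine ⟨χ, ?_, ?_⟩
  · have hreal : (χ : G → ℂ) = fun g => conj ((χ : G → ℂ) g) := by
      have := congrArg (fun ψ : IrrCharacter G => (ψ : G → ℂ)) hχc
      exact this.symm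
    rcases (frobenius_schur χ.2).2 hreal with h | h
    · exact h
    · exfalso
      obtain ⟨j, hj, hj'⟩ := classInner_even (P : Subgroup G) χ.2
        (isIrr_one (G := (P : Subgroup G))) (by
          rw [h]
          have := fsInd_one_real (P : Subgroup G)
          rw [this]; ring)
      have h1 : k χ = j := by
        have h2 := hk χ
        rw [hj] at h2
        exact_mod_cast h2.symm
      rw [← h1] at hj'
      exact (Nat.not_even_iff_odd.2 hko) hj'
  · have hne : classInner (fun n : N => (χ : G → ℂ) n) φ ≠ 0 := by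
      rw [hm χ]
      intro h0
      have : m χ = 0 := by exact_mod_cast h0
      rw [this] at hmo
      exact absurd hmo (by decide)
    obtain ⟨h1, h2'⟩ := ratio_dvd_index hN χ.2 φ.2 hne _ _ (deg_eq χ) (deg_eq φ)
    have h3 := clifford_degree hN χ.2 φ.2 hne
    have hd0 : 0 < charDegree (φ : N → ℂ) := deg_pos φ
    rw [deg_eq χ, deg_eq φ, hm χ] at h3
    have h4 : charDegree (χ : G → ℂ) = m χ * (inertia hN (φ : N → ℂ)).index *
      charDegree (φ : N → ℂ) := by exact_mod_cast h3
    have h5 : charDegree (χ : G → ℂ) / charDegree (φ : N → ℂ) =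
        m χ * (inertia hN (φ : N → ℂ)).index := by
      rw [h4, Nat.mul_div_cancel _ hd0]
    rw [h5] at h2'
    obtain ⟨b, hb⟩ := IsPGroup.iff_card.1 h2
    have h6 : m χ ∣ 2 ^ b := by
      rw [← hb]
      exact (dvd_mul_right _ _).trans h2'
    have h7 : m χ = 1 := Nat.Coprime.eq_one_of_dvd (hmo.coprime_two_right.pow_right b) h6
    rw [hm χ, h7, Nat.cast_one]

end Cfsg.Agent.H7.RealD
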