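import Cfsg.Agent.H7.RealC
import Cfsg.Agent.H11.PF1
import Cfsg.Agent.H3.Gallagher2
import Cfsg.Agent.H3.Basic2
import Cfsg.Agent.H27.AFT

set_option autoImplicit false
set_option linter.style.haveILetI false
set_option linter.unusedSectionVars false

/-! Linear characters and characters induced from stabilizers (Tong-Viet's lemma). -/

namespace Cfsg.Agent.H7.RealE

open Cfsg Cfsg.Agent.H3 Cfsg.Agent.H27 Cfsg.Agent.H7.RealC
open scoped ComplexConjugate

universe u

variable {G : Type u} [Group G] [Finite G]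

theorem card_triv_le (I : Subgroup G) :
    Nat.card {μ : G →* ℂˣ // ∀ g ∈ I, μ g = 1} ≤ I.index := by
  classical
  haveI : Fintype G := Fintype.ofFinite G
  haveI : Fintype I := Fintype.ofFinite I
  haveI : Fintype (IrrCharacter G) := Fintype.ofFinite _
  let f : {μ : G →* ℂˣ // ∀ g ∈ I, μ g = 1} → IrrCharacter G := fun μ => linIrr μ.1
  have hf : Function.Injective f := fun a b h => Subtype.ext (linIrr_injective h)
  haveI : Finite {μ : G →* ℂˣ // ∀ g ∈ I, μ g = 1} := Finite.of_injective _ hf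
  haveI : Fintype {μ : G →* ℂˣ // ∀ g ∈ I, μ g = 1} := Fintype.ofFinite _
  set θ : G → ℂ := indFun I (fun _ => (1 : ℂ)) with hθ
  have hθc : IsCharacter G θ := isChar_ind I (irr_isChar isIrr_one)
  have hm : ∀ χ : IrrCharacter G, ∃ m : ℕ, classInner θ χ = (m : ℂ) :=
    fun χ => classInner_char_nat hθc (irr_isChar χ.2)
  choose m hm using hm
  have h1 := classFun_expand_apply (char_classFun hθc) 1
  rw [hθ, indFun_one_apply, mul_one, ← hθ] at h1
  have h2 : I.index = ∑ χ : IrrCharacter G, m χ * charDegree (χ : G → ℂ) := by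
    have h3 : (I.index : ℂ) = ((∑ χ : IrrCharacter G, m χ * charDegree (χ : G → ℂ) : ℕ) : ℂ) := by
      rw [h1]
      push_cast
      refine Finset.sum_congr rfl fun χ _ => ?_
      rw [hm χ, deg_eq χ]
    exact_mod_cast h3
  rw [h2, Nat.card_eq_fintype_card, ← Finset.card_univ, ← Finset.card_image_of_injective _ hf]
  calc (Finset.univ.image f).card = ∑ χ ∈ Finset.univ.image f, 1 := by simp
    _ ≤ ∑ χ ∈ Finset.univ.image f, m χ * charDegree (χ : G → ℂ) := by
      refine Finset.sum_le_sum fun χ hχ => ?_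
      rw [Finset.mem_image] at hχ
      obtain ⟨μ, -, rfl⟩ := hχ
      have h4 : m (f μ) ≠ 0 := by
        intro h0
        have h5 := hm (f μ)
        rw [hθ, frobenius_reciprocity I _ (irr_classFun (f μ).2), h0, Nat.cast_zero] at h5
        have h6 : (fun h : I => ((f μ : IrrCharacter G) : G → ℂ) h) = fun _ => 1 := by
          funext h
          show ((μ.1 (h : G) : ℂˣ) : ℂ) = 1
          rw [μ.2 h h.2]; rfl
        rw [h6, classInner_self_of_irr isIrr_one] at h5
        exact one_ne_zero h5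
      exact Nat.mul_pos (Nat.pos_of_ne_zero h4) (deg_pos _)
    _ ≤ _ := Finset.sum_le_sum_of_subset (Finset.subset_univ _)

/-- nonabelian minimal normal subgroups are perfect -/
theorem perfect (N : Subgroup G) (hN : N.Normal)
    (hmin : ∀ M : Subgroup G, M.Normal → M ≤ N → M = ⊥ ∨ M = N) (hna : ¬ IsMulCommutative ↥N) :
    ⁅N, N⁆ = N := by
  rcases hmin ⁅N, N⁆ inferInstance (Subgroup.commutator_le_self N) with h | h
  · exfalso
    apply hna
    refine ⟨⟨fun a b => Subtype.ext ?_⟩⟩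
    have := Subgroup.commutator_mem_commutator a.2 b.2
    rw [h, Subgroup.mem_bot, commutatorElement_eq_one_iff_mul_comm] at this
    exact this
  · exact h

theorem lin_trivial (N : Subgroup G) (hp : ⁅N, N⁆ = N) (μ : G →* ℂˣ) {g : G} (hg : g ∈ N) :
    μ g = 1 := by
  have h1 : N ≤ μ.ker := by
    rw [← hp]
    exact (Subgroup.commutator_mono le_top le_top).trans
      (Abelianization.commutator_subset_ker μ)
  exact h1 hg

section stab

variable [Fintype G] {N I : Subgroup G} [Fintype N] [Fintype I] (hN : N.Normal) (hNI : N ≤ I)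
  {φ : N → ℂ} (hφ : IsIrrCharacter N φ) (hI : I = inertia hN φ) {ψ : I → ℂ}
  (hψ : IsIrrCharacter I ψ) (hψφ : ∀ n : N, ψ ⟨(n : G), hNI n.2⟩ = φ n)

include hφ hψφ in
theorem res_ne {ν : I → ℂ} (hν : ∀ n : N, ν ⟨(n : G), hNI n.2⟩ = ψ ⟨(n : G), hNI n.2⟩) :
    classInner (fun n : N => ν ⟨(n : G), hNI n.2⟩) φ ≠ 0 := by
  have : (fun n : N => ν ⟨(n : G), hNI n.2⟩) = φ := funext fun n => (hν n).trans (hψφ n)
  rw [this, classInner_self_of_irr hφ]
  exact one_ne_zero

include hφ hψφ hI hψ in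
theorem stab_trivial (μ : G →* ℂˣ) (hp : ∀ n ∈ N, μ n = 1)
    (hμ : (fun g => (μ g : ℂ) * indFun I ψ g) = indFun I ψ) {g : G} (hg : g ∈ I) : μ g = 1 := by
  classical
  let μI : I →* ℂˣ := μ.comp I.subtype
  have h1 : indFun I (fun h => (μI h : ℂ) * ψ h) = indFun I ψ := by
    have h2 := indFun_mul_restrict I ψ (χ := fun g => (μ g : ℂ)) (irr_classFun (isIrr_of_hom μ))
    rw [← hμ]
    have h3 : (fun h => (μI h : ℂ) * ψ h) = fun h : I => ψ h * (μ (h : G) : ℂ) :=
      funext fun h => mul_comm _ _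
    rw [h3, h2]
    funext g
    exact mul_comm _ _
  have hirr := isIrr_mul_hom hψ μI
  have h4 : (fun h => (μI h : ℂ) * ψ h) = ψ := by
    have h5 : ∀ n : N, (fun h => (μI h : ℂ) * ψ h) ⟨(n : G), hNI n.2⟩ = ψ ⟨(n : G), hNI n.2⟩ := by
      intro n
      show ((μ (n : G) : ℂˣ) : ℂ) * ψ ⟨(n : G), hNI n.2⟩ = _
      rw [hp n n.2, Units.val_one, one_mul]
    have h6 := res_ne hNI hφ hψφ (ν := fun h => (μI h : ℂ) * ψ h) h5
    have h7 := res_ne hNI hφ hψφ (ν := ψ) fun n => rfl
    exact H11.PF.corr_inj hN hNI hφ hI hirr h6 hψ h7 h1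
  -- Gallagher
  haveI : Fintype (N.subgroupOf I) := Fintype.ofFinite _
  have hN' : (N.subgroupOf I).Normal := Subgroup.Normal.subgroupOf hN I
  let e := Subgroup.subgroupOfEquivOfLe hNI
  have hψN : IsIrrCharacter (N.subgroupOf I) (fun n : N.subgroupOf I => ψ n) := by
    have := (isIrr_comp_equiv_iff e).2 hφ
    convert this using 1
    funext n
    exact hψφ (e n)
  obtain ⟨k1, -⟩ := gallagher_one hN' hψ hψN
  have hμ1 : ∀ n : N.subgroupOf I, (fun h => (μI h : ℂ)) (n : I) = (fun h => (μI h : ℂ)) 1 := by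
    intro n
    show ((μ ((n : I) : G) : ℂˣ) : ℂ) = ((μI 1 : ℂˣ) : ℂ)
    rw [hp _ (Subgroup.mem_subgroupOf.1 n.2), map_one]
  rcases k1 (fun h => (μI h : ℂ)) (fun _ => 1) (isIrr_of_hom μI) isIrr_one hμ1 (fun n => rfl) with
    h5 | h5
  · have h6 := congrFun h5 ⟨g, hg⟩
    exact Units.ext h6
  · exfalso
    have h6 : (fun h => (μI h : ℂ)) * ψ = ψ := h4
    have h7 : (fun _ => 1) * ψ = ψ := by funext h; simp
    rw [h6, h7, classInner_self_of_irr hψ] at h5
    exact one_ne_zero h5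

include hφ hψφ hI hψ in
theorem count' (L : Subgroup (G →* ℂˣ)) (hp : ∀ μ ∈ L, ∀ n ∈ N, μ n = 1)
    (P : IrrCharacter G → Prop)
    (hP : ∀ μ ∈ L, ∀ χ : IrrCharacter G, (χ : G → ℂ) = (fun g => (μ g : ℂ) * indFun I ψ g) → P χ) :
    Nat.card L ≤ I.index * Nat.card {χ : IrrCharacter G // P χ} := by
  classical
  have hirr : IsIrrCharacter G (indFun I ψ) :=
    H11.PF.corr_irr hN hNI hφ hI hψ (res_ne hNI hφ hψφ (ν := ψ) fun n => rfl)
  let χ0 : IrrCharacter G := ⟨_, hirr⟩
  haveI : Finite (G →* ℂˣ) := Finite.of_injective _ (linIrr_injective (A := G))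
  have h1 : Nat.card L = Nat.card (MulAction.orbit L χ0) * Nat.card (MulAction.stabilizer L χ0) := by
    rw [← Nat.card_prod]
    exact (Nat.card_congr (MulAction.orbitProdStabilizerEquivGroup L χ0)).symm
  have h2 : Nat.card (MulAction.stabilizer L χ0) ≤ I.index := by
    refine le_trans ?_ (card_triv_le I)
    haveI : Finite {μ : G →* ℂˣ // ∀ g ∈ I, μ g = 1} := Subtype.finite
    refine Nat.card_le_card_of_injective (fun μ => (⟨((μ : L) : G →* ℂˣ), fun g hg => ?_⟩ :
      {μ : G →* ℂˣ // ∀ g ∈ I, μ g = 1})) fun a b h => ?_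
    · refine stab_trivial hN hNI hφ hI hψ hψφ _ (hp _ (μ : L).2) ?_ hg
      have h3 := μ.2
      rw [MulAction.mem_stabilizer_iff] at h3
      have h4 := congrArg (fun χ : IrrCharacter G => (χ : G → ℂ)) h3
      exact h4
    · have := congrArg Subtype.val h
      exact Subtype.ext (Subtype.ext this)
  have h3 : Nat.card (MulAction.orbit L χ0) ≤ Nat.card {χ : IrrCharacter G // P χ} := by
    refine Nat.card_le_card_of_injective (fun x => (⟨x.1, ?_⟩ : {χ : IrrCharacter G // P χ}))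
      fun a b h => Subtype.ext (congrArg (fun y : {χ : IrrCharacter G // P χ} => y.1) h)
    obtain ⟨μ, hμ⟩ := x.2
    exact hP μ μ.2 _ (congrArg (fun χ : IrrCharacter G => (χ : G → ℂ)) hμ).symm
  rw [h1, mul_comm]
  exact Nat.mul_le_mul h2 h3

include hφ hψφ hI hψ in
theorem count (hp : ⁅N, N⁆ = N) (L : Subgroup (G →* ℂˣ)) (P : IrrCharacter G → Prop)
    (hP : ∀ μ ∈ L, ∀ χ : IrrCharacter G, (χ : G → ℂ) = (fun g => (μ g : ℂ) * indFun I ψ g) → P χ) :
    Nat.card L ≤ I.index * Nat.card {χ : IrrCharacter G // P χ} :=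
  count' hN hNI hφ hI hψ hψφ L (fun μ _ _ hn => lin_trivial N hp μ hn) P hP

include hφ hψφ hI hψ in
theorem fs_ind (hfs : fsInd ψ = 1) : fsInd (indFun I ψ) = 1 := by
  classical
  have hirr : IsIrrCharacter G (indFun I ψ) :=
    H11.PF.corr_irr hN hNI hφ hI hψ (res_ne hNI hφ hψφ (ν := ψ) fun n => rfl)
  have hreal : ∀ h, conj (ψ h) = ψ h := fun h =>
    Complex.conj_eq_iff_im.2 (real_of_fs_ne hψ (by rw [hfs]; exact one_ne_zero) h)
  have h1 : (indFun I ψ) = fun g => conj (indFun I ψ g) := by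
    rw [indFun_conj]
    congr 1
    exact funext fun h => (hreal h).symm
  rcases (frobenius_schur hirr).2 h1 with h | h
  · exact h
  · exfalso
    obtain ⟨k, hk, hk'⟩ := classInner_even I hirr hψ (by rw [h, hfs]; ring)
    have h2 : classInner (fun n : I => indFun I ψ n) ψ = 1 := by
      rw [← frobenius_reciprocity' I ψ (irr_classFun hirr), classInner_self_of_irr hirr]
    rw [h2] at hk
    have : k = 1 := by exact_mod_cast hk.symm
    rw [this] at hk'
    exact absurd hk' (by decide)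

end stab

/-- linear characters as homomorphisms -/
theorem card_lin_le (P : IrrCharacter G → Prop) (L : Subgroup (G →* ℂˣ))
    (hP : ∀ μ : G →* ℂˣ, ∀ χ : IrrCharacter G, (χ : G → ℂ) = (fun g => (μ g : ℂ)) → P χ → μ ∈ L) :
    Nat.card {χ : IrrCharacter G // charDegree (χ : G → ℂ) = 1 ∧ P χ} ≤ Nat.card L := by
  classical
  haveI : Finite (G →* ℂˣ) := Finite.of_injective _ (linIrr_injective (A := G))
  have h1 : ∀ χ : {χ : IrrCharacter G // charDegree (χ : G → ℂ) = 1 ∧ P χ},
      ∃ μ : G →* ℂˣ, (χ.1 : G → ℂ) = fun g => (μ g : ℂ) := fun χ =>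
    exists_hom_of_char_one (irr_isChar χ.1.2) (by
      haveI : Fintype G := Fintype.ofFinite G
      rw [deg_eq χ.1, χ.2.1]; simp)
  choose f hf using h1
  refine Nat.card_le_card_of_injective (fun χ => (⟨f χ, hP _ _ (hf χ) χ.2.2⟩ : L)) fun a b h => ?_
  have h2 : f a = f b := congrArg Subtype.val h
  exact Subtype.ext (Subtype.ext (by rw [hf a, hf b, h2]))

end Cfsg.Agent.H7.RealE
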