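import Cfsg.Agent.H7.RealD
import Cfsg.Agent.H7.RealE
import Cfsg.Prelude.Def_Transfer

set_option autoImplicit false
set_option linter.style.haveILetI false
set_option linter.unusedSectionVars false

/-! Average degree of strongly real characters of semidirect products. -/

namespace Cfsg.Agent.H7.RealF

open Cfsg Cfsg.Agent.H3 Cfsg.Agent.H27 Cfsg.Agent.H7.RealC
open scoped ComplexConjugate

universe u

variable {G : Type u} [Group G] [Fintype G]

theorem unit_one {q : ℕ} (hq : Odd q) {x : ℂˣ} (h2 : x ^ 2 = 1) (h : x ^ q = 1) : x = 1 := by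
  obtain ⟨k, rfl⟩ := hq
  rwa [pow_succ, pow_mul, h2, one_pow, one_mul] at h

theorem exists_z (N P : Subgroup G) (hN : N.Normal) (q : ℕ) [Fact q.Prime] (hq : Odd q)
    (hNel : Cfsg.IsElementaryAbelian q N) (hP : IsPGroup 2 ↥P) (hP1 : P ≠ ⊥)
    (hprod : N ⊔ P = ⊤) (hmin : N ≠ ⊥ ∧ ∀ M : Subgroup G, M.Normal → M ≠ ⊥ → N ≤ M) :
    ∃ z : G, ∀ n ∈ N, z * n * z⁻¹ = n⁻¹ := by
  classical
  haveI : Fact (Nat.Prime 2) := ⟨Nat.prime_two⟩
  haveI := hNel.1
  haveI : Nontrivial P := (Subgroup.nontrivial_iff_ne_bot P).2 hP1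
  haveI : Nontrivial (Subgroup.center P) := hP.center_nontrivial
  have hZ : IsPGroup 2 (Subgroup.center P) := hP.to_subgroup _
  obtain ⟨k, hk⟩ := IsPGroup.iff_card.1 hZ
  have h2 : 2 ∣ Nat.card (Subgroup.center P) := by
    rw [hk]
    refine dvd_pow_self 2 ?_
    rintro rfl
    rw [pow_zero] at hk
    have := Finite.one_lt_card (α := Subgroup.center P)
    omega
  obtain ⟨y, hy⟩ := exists_prime_orderOf_dvd_card' 2 h2
  set z : G := ((y : P) : G) with hz
  have hz2 : z * z = 1 := by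
    have h1 : y ^ 2 = 1 := by rw [← hy]; exact pow_orderOf_eq_one y
    have := congrArg (fun t : Subgroup.center P => ((t : P) : G)) h1
    simpa [pow_two] using this
  have hz1 : z ≠ 1 := by
    intro h
    have h1 : y = 1 := Subtype.ext (Subtype.ext h)
    rw [h1, orderOf_one] at hy
    exact absurd hy (by norm_num)
  have hzP : ∀ x ∈ P, z * x = x * z := by
    intro x hx
    have := Subgroup.mem_center_iff.1 y.2 ⟨x, hx⟩
    exact (congrArg Subtype.val this).symm
  have hcomm : ∀ a ∈ N, ∀ b ∈ N, a * b = b * a := fun a ha b hb =>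
    congrArg Subtype.val (mul_comm' (⟨a, ha⟩ : N) ⟨b, hb⟩)
  -- centralizer of z in N
  let C : Subgroup G := N ⊓ Subgroup.centralizer ({z} : Set G)
  have hCn : C.Normal := by
    have h1 : N ⊔ P ≤ Subgroup.normalizer (C : Set G) := by
      refine sup_le ?_ ?_
      · intro n hn
        rw [Subgroup.mem_normalizer_iff]
        intro c
        constructor
        · intro hc
          have : n * c * n⁻¹ = c := by rw [hcomm n hn c hc.1]; group
          rw [this]; exact hc
        · intro hc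
          have h2 : c ∈ N := by
            have := hN.conj_mem _ hc.1 n⁻¹
            simpa [mul_assoc] using this
          have : n * c * n⁻¹ = c := by rw [hcomm n hn c h2]; group
          rw [this] at hc; exact hc
      · intro x hx
        rw [Subgroup.mem_normalizer_iff]
        intro c
        have hzx := hzP x hx
        constructor
        · intro hc
          refine ⟨hN.conj_mem _ hc.1 x, Subgroup.mem_centralizer_singleton_iff.2 ?_⟩
          have h2 := Subgroup.mem_centralizer_singleton_iff.1 hc.2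
          have h3 : x⁻¹ * z = z * x⁻¹ := by
            rw [inv_mul_eq_iff_eq_mul, ← mul_assoc, ← hzx, mul_assoc, mul_inv_cancel, mul_one]
          calc x * c * x⁻¹ * z = x * c * (x⁻¹ * z) := by group
            _ = x * (c * z) * x⁻¹ := by rw [h3]; group
            _ = (x * z) * c * x⁻¹ := by rw [h2]; group
            _ = z * (x * c * x⁻¹) := by rw [← hzx]; group
        · intro hc
          have h4 := hN.conj_mem _ hc.1 x⁻¹
          have h5 : x⁻¹ * (x * c * x⁻¹) * x⁻¹⁻¹ = c := by group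
          rw [h5] at h4
          refine ⟨h4, Subgroup.mem_centralizer_singleton_iff.2 ?_⟩
          have h2 := Subgroup.mem_centralizer_singleton_iff.1 hc.2
          have h3 : x⁻¹ * z = z * x⁻¹ := by
            rw [inv_mul_eq_iff_eq_mul, ← mul_assoc, ← hzx, mul_assoc, mul_inv_cancel, mul_one]
          calc c * z = x⁻¹ * (x * c * x⁻¹) * (x * z) := by group
            _ = x⁻¹ * ((x * c * x⁻¹) * z) * x := by rw [← hzx]; group
            _ = (x⁻¹ * z) * (x * c) := by rw [h2]; group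
            _ = z * c := by rw [h3]; group
    rw [hprod, top_le_iff, Subgroup.normalizer_eq_top_iff] at h1
    exact h1
  have hCbot : C = ⊥ := by
    by_contra hne
    have hNC : N ≤ C := hmin.2 C hCn hne
    -- z central
    have hzc : z ∈ Subgroup.center G := by
      rw [Subgroup.mem_center_iff]
      intro g
      have hg : g ∈ N ⊔ P := by rw [hprod]; trivial
      have h1 : N ⊔ P ≤ Subgroup.centralizer ({z} : Set G) := by
        refine sup_le (fun n hn => (hNC hn).2) fun x hx => ?_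
        rw [Subgroup.mem_centralizer_singleton_iff]
        exact (hzP x hx).symm
      exact Subgroup.mem_centralizer_singleton_iff.1 (h1 hg)
    have hzn : (Subgroup.zpowers z).Normal := by
      refine ⟨fun a ha g => ?_⟩
      have h1 : a ∈ Subgroup.center G := (Subgroup.zpowers_le.2 hzc) ha
      have h2 : g * a * g⁻¹ = a := by
        rw [Subgroup.mem_center_iff.1 h1 g]; group
      rw [h2]; exact ha
    have hNz : N ≤ Subgroup.zpowers z := hmin.2 _ hzn (by
      intro h
      exact hz1 (Subgroup.zpowers_eq_bot.1 h))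
    apply hmin.1
    rw [Subgroup.eq_bot_iff_forall]
    intro n hn
    obtain ⟨j, hj⟩ := Subgroup.mem_zpowers_iff.1 (hNz hn)
    have h3 : n ^ 2 = 1 := by
      rw [← hj, ← zpow_natCast, ← zpow_mul, mul_comm, zpow_mul, zpow_natCast, pow_two, hz2,
        one_zpow]
    have h4 := hNel.2 n hn
    obtain ⟨k, hk⟩ := hq
    rwa [hk, pow_succ, pow_mul, h3, one_pow, one_mul] at h4
  refine ⟨z, fun n hn => ?_⟩
  have hn' : z * n * z⁻¹ ∈ N := hN.conj_mem n hn z
  have hzi : z⁻¹ = z := inv_eq_of_mul_eq_one_right hz2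
  have h1 : n * (z * n * z⁻¹) ∈ C := by
    refine ⟨N.mul_mem hn hn', Subgroup.mem_centralizer_singleton_iff.2 ?_⟩
    have h3 := hcomm n hn _ hn'
    rw [hzi] at h3 ⊢
    calc n * (z * n * z) * z = n * z * n * (z * z) := by group
      _ = n * z * n := by rw [hz2, mul_one]
      _ = (z * z) * (n * z * n) := by rw [hz2, one_mul]
      _ = z * ((z * n * z) * n) := by group
      _ = z * (n * (z * n * z)) := by rw [h3]
  rw [hCbot, Subgroup.mem_bot] at h1
  exact (inv_eq_of_mul_eq_one_right h1).symm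

theorem main (N P : Subgroup G) (hN : N.Normal) (q : ℕ) [Fact q.Prime] (hq : q ≠ 2)
    (hNel : Cfsg.IsElementaryAbelian q N) (hP : IsPGroup 2 ↥P) (hP1 : P ≠ ⊥)
    (hprod : N ⊔ P = ⊤) (hmin : N ≠ ⊥ ∧ ∀ M : Subgroup G, M.Normal → M ≠ ⊥ → N ≤ M) :
    ∃ k : ℕ, 2 ≤ k ∧ Even k ∧ Nat.card (linTor G 2) ≤
      k * Nat.card {χ : IrrCharacter G // charDegree (χ : G → ℂ) = k ∧ fsInd (χ : G → ℂ) = 1} := by
  classical
  haveI : Fact (Nat.Prime 2) := ⟨Nat.prime_two⟩
  haveI := hNel.1
  haveI : Fintype N := Fintype.ofFinite N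
  have hqo : Odd q := (Fact.out : q.Prime).odd_of_ne_two hq
  obtain ⟨z, hz⟩ := exists_z N P hN q hqo hNel hP hP1 hprod hmin
  -- a nontrivial character
  obtain ⟨n0, hn01⟩ := Subgroup.ne_bot_iff_exists_ne_one.1 hmin.1
  obtain ⟨lam, hlam⟩ : ∃ lam : IrrCharacter N, (lam : N → ℂ) n0 ≠ (lam : N → ℂ) 1 := by
    by_contra hcon
    push Not at hcon
    have := (isConj_iff_irr (g := n0) (h := 1)).2 hcon
    exact hn01 (isConj_one_left.1 this)
  have hl1 : (lam : N → ℂ) 1 = 1 := irr_degree_one_of_comm lam.2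
  have hQ : IsPGroup 2 (G ⧸ N) := by
    refine hP.of_surjective ((QuotientGroup.mk' N).comp P.subtype) fun x => ?_
    obtain ⟨g, rfl⟩ := QuotientGroup.mk_surjective x
    have hg : g ∈ N ⊔ P := by rw [hprod]; trivial
    obtain ⟨n, hn, x, hx, rfl⟩ := (Subgroup.mem_sup_of_normal_left).1 hg
    refine ⟨⟨x, hx⟩, ?_⟩
    show QuotientGroup.mk' N x = QuotientGroup.mk' N (n * x)
    have h0 : QuotientGroup.mk' N n = 1 := (QuotientGroup.eq_one_iff n).2 hn
    rw [map_mul, h0, one_mul]
  have hodd : ¬ 2 ∣ Nat.card N := by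
    intro h
    obtain ⟨x, hx⟩ := exists_prime_orderOf_dvd_card' 2 h
    have h1 : (x : G) ^ q = 1 := hNel.2 x x.2
    have h2 : x ^ q = 1 := Subtype.ext h1
    have h3 := orderOf_dvd_of_pow_eq_one h2
    rw [hx] at h3
    exact (Nat.not_even_iff_odd.2 hqo) (even_iff_two_dvd.2 h3)
  have hdef : 2 ^ (Nat.card N).factorization 2 ∣ charDegree (lam : N → ℂ) := by
    rw [Nat.factorization_eq_zero_of_not_dvd hodd, pow_zero]
    exact one_dvd _
  have hcz : cj hN z (lam : N → ℂ) = fun n => conj ((lam : N → ℂ) n) := by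
    funext n
    have h0 : (⟨z * n * z⁻¹, hN.conj_mem n n.2 z⟩ : N) = n⁻¹ := Subtype.ext (hz n n.2)
    rw [cj_apply, ← char_inv (irr_isChar lam.2), h0]
  obtain ⟨χ, hfs, hmul⟩ := RealD.main N hQ lam hdef ⟨z, hcz⟩
  obtain ⟨I, hI⟩ : ∃ I : Subgroup G, I = inertia hN (lam : N → ℂ) := ⟨_, rfl⟩
  have hNI : N ≤ I := by rw [hI]; exact le_inertia hN (irr_classFun lam.2)
  haveI : Fintype I := Fintype.ofFinite _
  obtain ⟨ψ, hψ, hind, -, hψN⟩ := clifford_corr hN χ.2 lam.2 (by rw [hmul]; exact one_ne_zero)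
    I hI hNI
  rw [hmul, one_smul] at hψN
  have hψ1 : ψ 1 = 1 := by
    have := congrFun hψN 1
    rw [hl1] at this
    exact this
  have hzI : z ∉ I := by
    intro h
    rw [hI, mem_inertia, hcz] at h
    obtain ⟨μ, hμ⟩ := exists_hom_of_char_one (irr_isChar lam.2) hl1
    have h1 : μ n0 = 1 := by
      refine unit_one hqo ?_ ?_
      · have h2 := congrFun h n0
        have h3 := hom_mul_conj μ n0
        have h4 : (lam : N → ℂ) n0 = μ n0 := congrFun hμ n0
        rw [h4] at h2
        rw [h2] at h3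
        exact Units.ext (by rw [pow_two, Units.val_mul, h3]; rfl)
      · rw [← map_pow]
        have : n0 ^ q = 1 := Subtype.ext (hNel.2 n0 n0.2)
        rw [this, map_one]
    apply hlam
    rw [hl1, congrFun hμ n0, h1]; rfl
  obtain ⟨b, hb⟩ := IsPGroup.iff_card.1 hQ
  have hdvd : I.index ∣ 2 ^ b := by
    rw [← hb]; exact Subgroup.index_dvd_of_le hNI
  obtain ⟨j, -, hj⟩ := (Nat.dvd_prime_pow Nat.prime_two).1 hdvd
  have hj0 : j ≠ 0 := by
    rintro rfl
    rw [pow_zero, Subgroup.index_eq_one] at hj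
    exact hzI (by rw [hj]; trivial)
  have hkeven : Even I.index := by
    rw [hj]; exact (Nat.even_pow.2 ⟨even_two, hj0⟩)
  refine ⟨I.index, ?_, hkeven, ?_⟩
  · rcases hkeven with ⟨c, hc⟩
    have := I.index_ne_zero_of_finite
    omega
  · refine RealE.count' hN hNI lam.2 hI hψ (fun n => congrFun hψN n) (linTor G 2) ?_ _ ?_
    · intro μ hμ n hn
      refine unit_one hqo ?_ ?_
      · rw [← MonoidHom.pow_apply, mem_linTor.1 hμ]; rfl
      · rw [← map_pow, hNel.2 n hn, map_one]
    · intro μ hμ η hη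
      constructor
      · have h3 : ((charDegree (η : G → ℂ) : ℕ) : ℂ) = ((I.index : ℕ) : ℂ) := by
          rw [← deg_eq η, hη]
          show ((μ 1 : ℂˣ) : ℂ) * indFun I ψ 1 = _
          rw [indFun_one_apply, hψ1, map_one]
          push_cast
          ring
        exact_mod_cast h3
      · rw [← hfs, fsInd, fsInd]
        congr 1
        refine Finset.sum_congr rfl fun g _ => ?_
        rw [hη, hind]
        have h6 : μ (g * g) = 1 := by
          rw [map_mul, ← pow_two, ← MonoidHom.pow_apply, mem_linTor.1 hμ]; rfl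
        show ((μ (g * g) : ℂˣ) : ℂ) * _ = _
        rw [h6, Units.val_one, one_mul]

theorem card_A : Nat.card {χ : IrrCharacter G // charDegree (χ : G → ℂ) = 1 ∧
    fsInd (χ : G → ℂ) = 1} ≤ Nat.card (linTor G 2) := by
  refine RealE.card_lin_le (G := G) (fun χ => fsInd (χ : G → ℂ) = 1) (linTor G 2) ?_
  intro μ χ hχ h1
  rw [mem_linTor]
  ext g
  have hr := real_of_fs_ne χ.2 (by rw [h1]; exact one_ne_zero) g
  rw [hχ] at hr
  have h2 := hom_mul_conj μ g
  rw [Complex.conj_eq_iff_im.2 hr] at h2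
  rw [MonoidHom.pow_apply, pow_two, Units.val_mul, h2]
  rfl

theorem final {k : ℕ} (hk2 : 2 ≤ k) (hke : Even k) (hk : Nat.card (linTor G 2) ≤
      k * Nat.card {χ : IrrCharacter G // charDegree (χ : G → ℂ) = k ∧ fsInd (χ : G → ℂ) = 1}) :
    4 * Nat.card {χ : IrrCharacter G // (charDegree (χ : G → ℂ) = 1 ∨
      2 ∣ charDegree (χ : G → ℂ)) ∧ fsInd (χ : G → ℂ) = 1} ≤
    3 * ∑ᶠ χ : {χ : IrrCharacter G // (charDegree (χ : G → ℂ) = 1 ∨
      2 ∣ charDegree (χ : G → ℂ)) ∧ fsInd (χ : G → ℂ) = 1}, charDegree (χ.1 : G → ℂ) := by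
  classical
  haveI : Fintype (IrrCharacter G) := Fintype.ofFinite _
  set S : Finset (IrrCharacter G) := Finset.univ.filter fun χ => (charDegree (χ : G → ℂ) = 1 ∨
      2 ∣ charDegree (χ : G → ℂ)) ∧ fsInd (χ : G → ℂ) = 1 with hS
  set A : Finset (IrrCharacter G) := Finset.univ.filter fun χ => charDegree (χ : G → ℂ) = 1 ∧
    fsInd (χ : G → ℂ) = 1 with hA
  set B : Finset (IrrCharacter G) := Finset.univ.filter fun χ => charDegree (χ : G → ℂ) = k ∧
    fsInd (χ : G → ℂ) = 1 with hB
  have h1 := (card_A (G := G)).trans hk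
  rw [Nat.card_eq_fintype_card, Nat.card_eq_fintype_card, Fintype.card_subtype,
    Fintype.card_subtype, ← hA, ← hB] at h1
  rw [Nat.card_eq_fintype_card, Fintype.card_subtype, ← hS, finsum_eq_sum_of_fintype,
    ← Finset.sum_subtype S (p := fun χ : IrrCharacter G => (charDegree (χ : G → ℂ) = 1 ∨
      2 ∣ charDegree (χ : G → ℂ)) ∧ fsInd (χ : G → ℂ) = 1) (by simp [hS])
      (fun χ => charDegree (χ : G → ℂ))]
  have hdisj : Disjoint A B := by
    rw [Finset.disjoint_left]
    intro χ h2 h3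
    rw [hA, Finset.mem_filter] at h2
    rw [hB, Finset.mem_filter] at h3
    have := h2.2.1
    rw [h3.2.1] at this
    omega
  have hsub : A ∪ B ⊆ S := by
    intro χ hχ
    rw [hS, Finset.mem_filter]
    rcases Finset.mem_union.1 hχ with h | h
    · rw [hA, Finset.mem_filter] at h
      exact ⟨Finset.mem_univ _, Or.inl h.2.1, h.2.2⟩
    · rw [hB, Finset.mem_filter] at h
      exact ⟨Finset.mem_univ _, Or.inr (by rw [h.2.1]; exact hke.two_dvd), h.2.2⟩
  have key : (0 : ℤ) ≤ ∑ χ ∈ S, (3 * (charDegree (χ : G → ℂ) : ℤ) - 4) := by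
    rw [← Finset.sum_sdiff hsub, Finset.sum_union hdisj]
    have hA' : ∑ χ ∈ A, (3 * (charDegree (χ : G → ℂ) : ℤ) - 4) = - A.card := by
      rw [Finset.sum_congr rfl (g := fun _ => (-1 : ℤ)) fun χ hχ => by
        rw [hA, Finset.mem_filter] at hχ
        rw [hχ.2.1]; norm_num]
      simp
    have hB' : ∑ χ ∈ B, (3 * (charDegree (χ : G → ℂ) : ℤ) - 4) = B.card * (3 * k - 4) := by
      rw [Finset.sum_congr rfl (g := fun _ => (3 * (k : ℤ) - 4)) fun χ hχ => by
        rw [hB, Finset.mem_filter] at hχ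
        rw [hχ.2.1]]
      simp only [Finset.sum_const, nsmul_eq_mul]
    have hR : 0 ≤ ∑ χ ∈ S \ (A ∪ B), (3 * (charDegree (χ : G → ℂ) : ℤ) - 4) := by
      refine Finset.sum_nonneg fun χ hχ => ?_
      rw [Finset.mem_sdiff, hS, Finset.mem_filter] at hχ
      have h3 : charDegree (χ : G → ℂ) ≠ 1 := by
        intro h4
        exact hχ.2 (Finset.mem_union_left _ (by
          rw [hA, Finset.mem_filter]; exact ⟨Finset.mem_univ _, h4, hχ.1.2.2⟩))
      have h5 : 2 ∣ charDegree (χ : G → ℂ) := hχ.1.2.1.resolve_left h3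
      have h6 := Nat.le_of_dvd (deg_pos χ) h5
      have : (2 : ℤ) ≤ charDegree (χ : G → ℂ) := by exact_mod_cast h6
      linarith
    rw [hA', hB']
    have h7 : (A.card : ℤ) ≤ k * B.card := by exact_mod_cast h1
    have h8 : (2 : ℤ) ≤ k := by exact_mod_cast hk2
    have h9 : (0 : ℤ) ≤ B.card := by positivity
    nlinarith
  rw [Finset.sum_sub_distrib, ← Finset.mul_sum] at key
  simp only [Finset.sum_const, nsmul_eq_mul] at key
  have h10 : (4 * S.card : ℤ) ≤ 3 * ∑ χ ∈ S, (charDegree (χ : G → ℂ) : ℤ) := by linarith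
  exact_mod_cast h10

theorem final' {k : ℕ} (hk2 : 2 ≤ k) (hke : Even k) (hk : Nat.card (linTor G 2) ≤
      k * Nat.card {χ : IrrCharacter G // charDegree (χ : G → ℂ) = k ∧ fsInd (χ : G → ℂ) = 1})
    (Q : IrrCharacter G → Prop) (hQ : ∀ χ : IrrCharacter G, Q χ ↔ fsInd (χ : G → ℂ) = 1) :
    4 * Nat.card {χ : IrrCharacter G // (charDegree (χ : G → ℂ) = 1 ∨
      2 ∣ charDegree (χ : G → ℂ)) ∧ Q χ} ≤
    3 * ∑ᶠ χ : {χ : IrrCharacter G // (charDegree (χ : G → ℂ) = 1 ∨
      2 ∣ charDegree (χ : G → ℂ)) ∧ Q χ}, charDegree (χ.1 : G → ℂ) := by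
  obtain rfl : Q = fun χ : IrrCharacter G => fsInd (χ : G → ℂ) = 1 :=
    funext fun χ => propext (hQ χ)
  exact final hk2 hke hk

end Cfsg.Agent.H7.RealF
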