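import Cfsg.Agent.H2.TateCor
import Cfsg.Agent.H2.Conj
import Cfsg.Agent.H2.CopQuot
import Cfsg.Agent.H2.NComp
import Cfsg.Agent.H27.Kernel
import Cfsg.Agent.H27.Invol
import Cfsg.Agent.H3.Clifford
import Cfsg.Agent.H3.Basic2

set_option autoImplicit false
set_option linter.style.haveILetI false
set_option linter.unusedSectionVars false

/-! Extending characters from the normalizer of a Sylow subgroup. -/

namespace Cfsg.Agent.H7.ResN

open Subgroup Cfsg Cfsg.Agent.H3 Cfsg.Agent.H27
open scoped commutatorElement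

universe u

section pnil

variable {L : Type u} [Group L] [Finite L] {p : ℕ} [hp : Fact p.Prime]

theorem pnil (P : Sylow p L) (K : Subgroup L) [hK : K.Normal]
    (h1 : ∀ x ∈ P, ∀ y ∈ P, ⁅x, y⁆ ∈ K)
    (h2 : ∀ x : (P : Subgroup L), (x : L) ∈ K → x ∈ commutator (P : Subgroup L))
    (h3 : ∀ x : L, x ∈ normalizer ((P : Subgroup L) : Set L) → x ∈ P) :
    HasNormalPComplement p L := by
  classical
  let f := QuotientGroup.mk' K
  have hf : Function.Surjective f := QuotientGroup.mk'_surjective K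
  let Q : Sylow p (L ⧸ K) := P.mapSurjective hf
  have hQ : (Q : Subgroup (L ⧸ K)) = (P : Subgroup L).map f := rfl
  -- the normalizer of `Q` is `Q`
  have hN : ∀ x ∈ normalizer ((Q : Subgroup (L ⧸ K)) : Set (L ⧸ K)), x ∈ (P : Subgroup L).map f := by
    intro x hx
    obtain ⟨g, rfl⟩ := hf x
    have hg : ∀ y ∈ (P : Subgroup L), g * y * g⁻¹ ∈ (P : Subgroup L) ⊔ K := by
      intro y hy
      have h4 : f g * f y * (f g)⁻¹ ∈ (P : Subgroup L).map f := by
        have := (mem_normalizer_iff.1 hx (f y)).1 ⟨y, hy, rfl⟩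
        exact this
      obtain ⟨z, hz, hzy⟩ := h4
      have h5 : f (z⁻¹ * (g * y * g⁻¹)) = 1 := by
        rw [map_mul, map_inv, hzy, map_mul, map_mul, map_inv]; group
      have h6 : z⁻¹ * (g * y * g⁻¹) ∈ K := (QuotientGroup.eq_one_iff _).1 h5
      have h7 : g * y * g⁻¹ = z * (z⁻¹ * (g * y * g⁻¹)) := by group
      rw [h7]
      exact mul_mem ((le_sup_left : (P : Subgroup L) ≤ _) hz) ((le_sup_right : K ≤ _) h6)
    set H := (P : Subgroup L) ⊔ K with hH
    have h4 : ¬ p ∣ (P : Subgroup L).relIndex H := fun h =>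
      P.not_dvd_index (h.trans (relIndex_dvd_index_of_le (le_sup_left : (P : Subgroup L) ≤ H)))
    obtain ⟨R, hR⟩ := H2.exists_sylow_subgroupOf P.2 h4
    have h5 : (P : Subgroup L).map (MulAut.conj g).toMonoidHom ≤ H := by
      rintro _ ⟨y, hy, rfl⟩
      exact hg y hy
    obtain ⟨h, hh, h6⟩ := H2.exists_conj_le_of_isPGroup R (H2.isPGroup_map_conj P.2 g) h5
    rw [hR, Subgroup.map_subgroupOf_eq_of_le (le_sup_left : (P : Subgroup L) ≤ H),
      ← H2.map_conj_mul] at h6
    have h7 : (P : Subgroup L).map (MulAut.conj (h * g)).toMonoidHom = P :=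
      Subgroup.eq_of_le_of_card_ge h6 (H2.card_map_conj _ _).ge
    have h8 : h * g ∈ normalizer ((P : Subgroup L) : Set L) := H18.mem_normalizer_iff_map.2 h7
    have h9 : h * g ∈ (P : Subgroup L) := h3 _ h8
    have h10 : f h ∈ (P : Subgroup L).map f := by
      obtain ⟨a, ha, b, hb, rfl⟩ := Subgroup.mem_sup_of_normal_right.1 hh
      refine ⟨a, ha, ?_⟩
      have : f b = 1 := (QuotientGroup.eq_one_iff b).2 hb
      rw [map_mul, this, mul_one]
    have h11 : f g = (f h)⁻¹ * f (h * g) := by rw [map_mul]; group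
    rw [h11]
    exact mul_mem (inv_mem h10) ⟨_, h9, rfl⟩
  have hS : normalizer ((Q : Subgroup (L ⧸ K)) : Set (L ⧸ K)) ≤
      centralizer ((Q : Subgroup (L ⧸ K)) : Set (L ⧸ K)) := by
    intro x hx
    obtain ⟨a, ha, rfl⟩ := hN x hx
    rw [mem_centralizer_iff]
    rintro _ ⟨b, hb, rfl⟩
    have h4 : f ⁅b, a⁆ = 1 := (QuotientGroup.eq_one_iff _).2 (h1 b hb a ha)
    rw [map_commutatorElement, commutatorElement_eq_one_iff_mul_comm] at h4
    exact h4
  have hcomp := MonoidHom.ker_transferSylow_isComplement' Q hS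
  set τ := MonoidHom.transferSylow Q hS with hτ
  apply H2.hasNormalPComplement_of_inf_pResidual_le_index P
  intro M hM hMi x hx
  rw [mem_subgroupOf] at hx
  have h4 : Cfsg.pResidual p L ≤ (τ.comp f).ker := by
    rw [Cfsg.pResidual, closure_le]
    intro y hy
    rw [Set.mem_ofPred_eq] at hy
    show τ (f y) = 1
    obtain ⟨k, hk⟩ := IsPGroup.iff_orderOf.1 Q.2 (τ (f y))
    have h5 : orderOf (τ (f y)) ∣ orderOf y :=
      (orderOf_map_dvd τ (f y)).trans (orderOf_map_dvd f y)
    rw [hk] at h5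
    have h6 : p ^ k = 1 := Nat.Coprime.eq_one_of_dvd (hy.symm.pow_left k) h5
    rw [h6, orderOf_eq_one_iff] at hk
    exact hk
  have h5 : f (x : L) ∈ τ.ker := h4 hx
  have h6 : f (x : L) ∈ (Q : Subgroup (L ⧸ K)) := ⟨x, x.2, rfl⟩
  have h7 : f (x : L) = 1 := by
    have := hcomp.disjoint
    exact (Subgroup.disjoint_def.1 this) h5 h6
  have h8 : (x : L) ∈ K := (QuotientGroup.eq_one_iff _).1 h7
  exact H2.commutator_le_of_index_prime hMi (h2 x h8)

end pnil

section chars

variable {G : Type u} [Group G] [Finite G] {p : ℕ} [hp : Fact p.Prime]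

/-- a normal subgroup of `G` meeting `N` in `M`, from extensions of the characters of `N/M` -/
theorem exists_ker (N : Subgroup G) (M : Subgroup N) [hM : M.Normal]
    (hext : ∀ θ : IrrCharacter (N ⧸ M), ∃ χ : IrrCharacter G, ∀ x : N,
      (χ : G → ℂ) x = (θ : N ⧸ M → ℂ) (QuotientGroup.mk x)) :
    ∃ K : Subgroup G, K.Normal ∧ ∀ x : N, (x : G) ∈ K ↔ x ∈ M := by
  choose χ hχ using hext
  refine ⟨⨅ θ, charKer (irr_isChar (χ θ).2), ?_, fun x => ?_⟩
  · exact Subgroup.normal_iInf_normal fun θ => charKer_normal _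
  · rw [Subgroup.mem_iInf]
    constructor
    · intro h
      have h1 : ∀ θ : IrrCharacter (N ⧸ M), (θ : N ⧸ M → ℂ) (QuotientGroup.mk x) =
          (θ : N ⧸ M → ℂ) 1 := by
        intro θ
        have h2 := (mem_charKer _).1 (h θ)
        have h3 := hχ θ 1
        rw [OneMemClass.coe_one] at h3
        rw [← hχ θ x, h2, h3]
        rfl
      have h2 := (isConj_iff_irr (g := (QuotientGroup.mk x : N ⧸ M)) (h := 1)).2 h1
      exact (QuotientGroup.eq_one_iff x).1 (isConj_one_left.1 h2)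
    · intro h θ
      rw [mem_charKer]
      have h3 := hχ θ 1
      rw [OneMemClass.coe_one] at h3
      rw [hχ θ x, h3, (QuotientGroup.eq_one_iff x).2 h]
      rfl

theorem forward (P : Sylow p G) (hex : ∀ θ : IrrCharacter (normalizer ((P : Subgroup G) : Set G)),
      ¬ p ∣ charDegree (θ : normalizer ((P : Subgroup G) : Set G) → ℂ) →
      ∃ χ : IrrCharacter G, ∀ x : normalizer ((P : Subgroup G) : Set G), (χ : G → ℂ) x =
        (θ : normalizer ((P : Subgroup G) : Set G) → ℂ) x) :
    ∃ K : Subgroup G, K.Normal ∧ K ⊔ normalizer ((P : Subgroup G) : Set G) = ⊤ ∧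
      K ⊓ normalizer ((P : Subgroup G) : Set G) = ⊥ := by
  classical
  haveI : Fintype G := Fintype.ofFinite G
  set N := normalizer ((P : Subgroup G) : Set G) with hN
  have hPN : (P : Subgroup G) ≤ N := le_normalizer
  let A : Subgroup N := (P : Subgroup G).subgroupOf N
  haveI hA : A.Normal := Subgroup.normal_in_normalizer
  have hAi : ¬ p ∣ A.index := fun h => P.not_dvd_index (h.trans
    (relIndex_dvd_index_of_le hPN))
  have hext : ∀ (M : Subgroup N) [M.Normal], (∀ θ : IrrCharacter (N ⧸ M),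
      ¬ p ∣ charDegree (θ : N ⧸ M → ℂ)) → ∀ θ : IrrCharacter (N ⧸ M), ∃ χ : IrrCharacter G, ∀ x : N,
      (χ : G → ℂ) x = (θ : N ⧸ M → ℂ) (QuotientGroup.mk x) := by
    intro M _ hdeg θ
    have h1 := isIrr_comp_surjective θ.2 (QuotientGroup.mk' M) (QuotientGroup.mk'_surjective M)
    refine hex ⟨_, h1⟩ ?_
    have h2 := hdeg θ
    unfold charDegree at h2 ⊢
    exact h2
  -- `L ∩ N = P`
  obtain ⟨L, hL, hLN⟩ := exists_ker N A (hext A (by
    intro θ hd
    have : Fintype (N ⧸ A) := Fintype.ofFinite _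
    have h1 := irr_degree_dvd_card θ.2 (deg_eq θ)
    exact hAi (hd.trans h1)))
  -- `K ∩ N = P'`
  let B : Subgroup N := ⁅A, A⁆
  obtain ⟨K, hK, hKN⟩ := exists_ker N B (hext B (by
    intro θ hd
    have : Fintype (N ⧸ B) := Fintype.ofFinite _
    have hBA : B ≤ A := commutator_le_self A
    have h1 := ito_degree_dvd θ.2 (A.map (QuotientGroup.mk' B)) inferInstance (by
      rintro _ ⟨a, ha, rfl⟩ _ ⟨b, hb, rfl⟩
      have h4 : QuotientGroup.mk' B ⁅a, b⁆ = 1 :=
        (QuotientGroup.eq_one_iff _).2 (commutator_mem_commutator ha hb)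
      rw [map_commutatorElement, commutatorElement_eq_one_iff_mul_comm] at h4
      exact h4) (deg_eq θ)
    have h2 : (A.map (QuotientGroup.mk' B)).index = A.index := by
      rw [index_map, QuotientGroup.ker_mk', sup_eq_left.2 hBA,
        MonoidHom.range_eq_top.2 (QuotientGroup.mk'_surjective B), index_top, mul_one]
    rw [h2] at h1
    exact hAi (hd.trans h1)))
  have hPL : (P : Subgroup G) ≤ L := fun x hx => (hLN ⟨x, hPN hx⟩).2 hx
  -- `L` is `p`-nilpotent
  have hLnil : HasNormalPComplement p L := by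
    refine pnil (P.subtype hPL) (K.subgroupOf L) ?_ ?_ ?_
    · intro x hx y hy
      have hx' : (x : G) ∈ (P : Subgroup G) := hx
      have hy' : (y : G) ∈ (P : Subgroup G) := hy
      rw [mem_subgroupOf]
      have h1 : (⁅(⟨x, hPN hx'⟩ : N), ⟨y, hPN hy'⟩⁆ : N) ∈ B :=
        commutator_mem_commutator (show (⟨x, hPN hx'⟩ : N) ∈ A from hx')
          (show (⟨y, hPN hy'⟩ : N) ∈ A from hy')
      exact (hKN _).2 h1
    · intro x hx
      have hx' : ((x : L) : G) ∈ (P : Subgroup G) := x.2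
      rw [mem_subgroupOf] at hx
      have h1 : (⟨((x : L) : G), hPN hx'⟩ : N) ∈ B := (hKN ⟨_, hPN hx'⟩).1 hx
      -- transport
      have h2 : B.map N.subtype = ((commutator ((P.subtype hPL : Sylow p L) : Subgroup L)).map
          ((P.subtype hPL : Sylow p L) : Subgroup L).subtype).map L.subtype := by
        rw [map_subtype_commutator, map_commutator, map_commutator]
        congr 1 <;>
        · ext g
          constructor
          · rintro ⟨a, ha, rfl⟩
            exact ⟨⟨a, hPL ha⟩, ha, rfl⟩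
          · rintro ⟨a, ha, rfl⟩
            exact ⟨⟨a, hPN ha⟩, ha, rfl⟩
      have h3 : ((x : L) : G) ∈ B.map N.subtype := ⟨_, h1, rfl⟩
      rw [h2] at h3
      obtain ⟨y, ⟨z, hz, rfl⟩, hy⟩ := h3
      have : z = x := Subtype.ext (Subtype.ext hy)
      rwa [← this]
    · intro x hx
      have h1 : (x : G) ∈ N := by
        rw [hN, mem_normalizer_iff]
        intro y
        constructor
        · intro hy
          exact (mem_normalizer_iff.1 hx ⟨y, hPL hy⟩).1 hy
        · intro hy
          have h2 : y ∈ L := by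
            have := hL.conj_mem _ (hPL hy) (x : G)⁻¹
            simpa [mul_assoc] using this
          exact (mem_normalizer_iff.1 hx ⟨y, h2⟩).2 hy
      exact (hLN ⟨x, h1⟩).1 x.2
  obtain ⟨Q, hQ, hpQ, k, hk⟩ := H2.hasNormalPComplement_iff.1 hLnil
  refine ⟨Q.map L.subtype, ?_, ?_, ?_⟩
  · refine ⟨fun n hn g => ?_⟩
    obtain ⟨m, hm, rfl⟩ := hn
    have h1 : (⟨g * m * g⁻¹, hL.conj_mem m m.2 g⟩ : L) ∈ Q := by
      have hm' : m ∈ Q := hm
      rw [H2.mem_normal_complement_iff hpQ hk] at hm' ⊢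
      have : orderOf (⟨g * m * g⁻¹, hL.conj_mem m m.2 g⟩ : L) = orderOf m := by
        rw [← Subgroup.orderOf_coe, ← Subgroup.orderOf_coe]
        change orderOf (g * m * g⁻¹) = orderOf (m : G)
        exact (orderOf_injective (MulAut.conj g).toMonoidHom (MulAut.conj g).injective (m : G))
      rwa [this]
    exact ⟨_, h1, rfl⟩
  · -- `L = Q P`, `G = L N`
    have h1 : Q ⊔ ((P.subtype hPL : Sylow p L) : Subgroup L) = ⊤ :=
      (H2.isComplement'_sylow_of_card_index hpQ hk (P.subtype hPL)).sup_eq_top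
    have h2 : L ≤ Q.map L.subtype ⊔ (P : Subgroup G) := by
      intro x hx
      have h3 : (⟨x, hx⟩ : L) ∈ Q ⊔ ((P.subtype hPL : Sylow p L) : Subgroup L) := by
        rw [h1]; trivial
      obtain ⟨q, hq, r, hr, hqr⟩ := Subgroup.mem_sup_of_normal_left.1 h3
      have h4 : (q : G) * r = x := congrArg Subtype.val hqr
      rw [← h4]
      exact mul_mem ((le_sup_left : Q.map L.subtype ≤ _) ⟨q, hq, rfl⟩)
        ((le_sup_right : (P : Subgroup G) ≤ Q.map L.subtype ⊔ P) hr)
    have h3 : L ⊔ N = ⊤ := by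
      have h4 := Sylow.normalizer_sup_eq_top (P.subtype hPL)
      have h5 : ((P.subtype hPL : Sylow p L) : Subgroup L).map L.subtype = (P : Subgroup G) := by
        show ((P : Subgroup G).subgroupOf L).map L.subtype = _
        exact map_subgroupOf_eq_of_le hPL
      rw [h5] at h4
      rw [sup_comm]
      exact h4
    rw [eq_top_iff, ← h3]
    refine sup_le (h2.trans (sup_le_sup_left hPN _)) le_sup_right
  · rw [eq_bot_iff]
    rintro x ⟨⟨y, hy, rfl⟩, hxN⟩
    have h1 : (y : G) ∈ (P : Subgroup G) := (hLN ⟨_, hxN⟩).1 y.2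
    have h2 := H2.isComplement'_sylow_of_card_index hpQ hk (P.subtype hPL)
    have h3 := (Subgroup.disjoint_def.1 h2.disjoint) hy (show y ∈ ((P.subtype hPL : Sylow p L) :
      Subgroup L) from h1)
    rw [h3]
    exact one_mem _

theorem backward (N K : Subgroup G) [hK : K.Normal] (h1 : K ⊔ N = ⊤) (h2 : K ⊓ N = ⊥)
    (θ : IrrCharacter N) : ∃ χ : IrrCharacter G, ∀ x : N, (χ : G → ℂ) x = (θ : N → ℂ) x := by
  let g : N →* G ⧸ K := (QuotientGroup.mk' K).comp N.subtype
  have hg : Function.Bijective g := by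
    constructor
    · rw [injective_iff_map_eq_one]
      intro x hx
      have h3 : (x : G) ∈ K := (QuotientGroup.eq_one_iff _).1 hx
      have h4 : (x : G) ∈ K ⊓ N := ⟨h3, x.2⟩
      rw [h2, Subgroup.mem_bot] at h4
      exact Subtype.ext h4
    · intro y
      obtain ⟨x, rfl⟩ := QuotientGroup.mk_surjective y
      have hx : x ∈ K ⊔ N := by rw [h1]; trivial
      obtain ⟨k, hk, n, hn, rfl⟩ := Subgroup.mem_sup_of_normal_left.1 hx
      refine ⟨⟨n, hn⟩, ?_⟩
      show QuotientGroup.mk' K n = QuotientGroup.mk' K (k * n)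
      have h3 : QuotientGroup.mk' K k = 1 := (QuotientGroup.eq_one_iff k).2 hk
      rw [map_mul, h3, one_mul]
  let e : N ≃* G ⧸ K := MulEquiv.ofBijective g hg
  let f : G →* N := e.symm.toMonoidHom.comp (QuotientGroup.mk' K)
  have hf : Function.Surjective f := e.symm.surjective.comp (QuotientGroup.mk'_surjective K)
  refine ⟨⟨_, isIrr_comp_surjective θ.2 f hf⟩, fun x => ?_⟩
  have h3 : f (x : G) = x := e.symm_apply_apply x
  show (θ : N → ℂ) (f (x : G)) = _
  rw [h3]

end chars

end Cfsg.Agent.H7.ResN
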