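import Cfsg.Prelude.Def_SporadicB
import Cfsg.Prelude.Def_Sporadic
import Mathlib.GroupTheory.GroupAction.Quotient
import Mathlib.GroupTheory.Index
import Mathlib.GroupTheory.Complement
import Mathlib.GroupTheory.Subgroup.Simple

set_option autoImplicit false
set_option linter.unusedSectionVars false
set_option linter.style.haveILetI false

/-! Realising a group on the cosets of a subgroup; 3-transposition classes from rank three actions. -/

namespace Cfsg.Agent.H7.SporA

open Subgroup

universe u v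

section real

variable {K : Type u} [Group K] [Finite K]

/-- transport of the action on cosets to `Fin n`, base point `0` -/
theorem perm_realize (hs : IsSimpleGroup K) (S : Subgroup K) (n : ℕ) [NeZero n] (hn : S.index = n)
    (hn1 : n ≠ 1) :
    ∃ H : Subgroup (Equiv.Perm (Fin n)), ∃ _e : K ≃* H, MulAction.IsPretransitive H (Fin n) ∧
      Nonempty (S ≃* MulAction.stabilizer H (0 : Fin n)) := by
  classical
  haveI := hs
  have hcard : Nat.card (K ⧸ S) = Nat.card (Fin n) := by
    rw [Nat.card_eq_fintype_card (α := Fin n), Fintype.card_fin, ← hn]; rfl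
  obtain ⟨f0⟩ : Nonempty ((K ⧸ S) ≃ Fin n) := (Finite.card_eq (α := K ⧸ S) (β := Fin n)).1 hcard
  let q0 : K ⧸ S := ((1 : K) : K ⧸ S)
  let f : (K ⧸ S) ≃ Fin n := f0.trans (Equiv.swap (f0 q0) 0)
  have hf0 : f q0 = 0 := by simp [f]
  let φ : K →* Equiv.Perm (Fin n) :=
    (Equiv.permCongrHom f).toMonoidHom.comp (MulAction.toPermHom K (K ⧸ S))
  have hφ : ∀ (k : K) (x : K ⧸ S), φ k (f x) = f (k • x) := by
    intro k x
    show (Equiv.permCongr f (MulAction.toPerm k)) (f x) = _
    rw [Equiv.permCongr_apply, Equiv.symm_apply_apply]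
    rfl
  have hstab : ∀ k : K, φ k 0 = 0 ↔ k ∈ S := by
    intro k
    rw [← hf0, hφ, f.injective.eq_iff]
    show ((k * 1 : K) : K ⧸ S) = ((1 : K) : K ⧸ S) ↔ _
    rw [mul_one, QuotientGroup.eq, mul_one, inv_mem_iff]
  have hker : φ.ker = ⊥ := by
    rcases hs.eq_bot_or_eq_top_of_normal φ.ker inferInstance with h | h
    · exact h
    · exfalso
      apply hn1
      rw [← hn, Subgroup.index_eq_one, eq_top_iff]
      intro k _
      rw [← hstab]
      have : k ∈ φ.ker := by rw [h]; trivial
      rw [MonoidHom.mem_ker.1 this]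
      rfl
  have hinj : Function.Injective φ := (MonoidHom.ker_eq_bot_iff φ).1 hker
  let e : K ≃* φ.range := MonoidHom.ofInjective hinj
  refine ⟨φ.range, e, ⟨?_⟩, ?_⟩
  · intro x y
    obtain ⟨x, rfl⟩ := f.surjective x
    obtain ⟨y, rfl⟩ := f.surjective y
    obtain ⟨k, hk⟩ := MulAction.exists_smul_eq K x y
    exact ⟨e k, by show φ k (f x) = f y; rw [hφ, hk]⟩
  · refine ⟨{ toFun := fun s => ⟨e s, ?_⟩
              invFun := fun x => ⟨e.symm x, ?_⟩
              left_inv := ?_
              right_inv := ?_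
              map_mul' := ?_ }⟩
    · show φ s 0 = 0
      rw [hstab]; exact s.2
    · rw [← hstab]
      have h1 : ((e (e.symm (x : φ.range)) : φ.range) : Equiv.Perm (Fin n)) = φ (e.symm x) := rfl
      rw [← h1, e.apply_symm_apply]
      exact x.2
    · intro s
      exact Subtype.ext (e.symm_apply_apply _)
    · intro x
      exact Subtype.ext (e.apply_symm_apply _)
    · intro s t
      exact Subtype.ext (map_mul e _ _)

theorem simple_congr {A : Type u} {B : Type v} [Group A] [Group B] (e : A ≃* B)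
    (h : IsSimpleGroup A) : IsSimpleGroup B := e.isSimpleGroup_congr.1 h

end real

section trans

variable {G : Type u} [Group G] [Finite G]

/-- rank three: every coset is in one of three suborbits -/
theorem rank_three (H : Subgroup G) (q₁ q₂ : G ⧸ H) {n₁ n₂ : ℕ}
    (h1 : (MulAction.orbit H q₁).ncard = n₁) (h2 : (MulAction.orbit H q₂).ncard = n₂)
    (hn : n₁ + n₂ + 1 = H.index) (hne : n₁ ≠ n₂) (hn1 : n₁ ≠ 1) (hn2 : n₂ ≠ 1)
    (a b : G ⧸ H) (ha : a ≠ ((1 : G) : G ⧸ H)) (hb : b ≠ ((1 : G) : G ⧸ H))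
    (hab : a ∉ MulAction.orbit H b) (q : G ⧸ H) :
    q = ((1 : G) : G ⧸ H) ∨ q ∈ MulAction.orbit H a ∨ q ∈ MulAction.orbit H b := by
  classical
  have hfix : ∀ h : H, h • ((1 : G) : G ⧸ H) = ((1 : G) : G ⧸ H) := by
    intro h
    show (((h : G) * 1 : G) : G ⧸ H) = _
    rw [mul_one, QuotientGroup.eq, mul_one, inv_mem_iff]
    exact h.2
  have horb1 : MulAction.orbit H ((1 : G) : G ⧸ H) = {((1 : G) : G ⧸ H)} := by
    ext x
    constructor
    · rintro ⟨h, rfl⟩
      exact hfix h
    · rintro rfl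
      exact MulAction.mem_orbit_self _
  have hnot : ∀ x : G ⧸ H, (MulAction.orbit H x).ncard ≠ 1 → ((1 : G) : G ⧸ H) ∉ MulAction.orbit H x := by
    intro x hx h
    rw [← MulAction.orbit_eq_iff.2 h, horb1] at hx
    exact hx (Set.ncard_singleton _)
  have hd12 : Disjoint (MulAction.orbit H q₁) (MulAction.orbit H q₂) := by
    rw [Set.disjoint_left]
    intro x hx hx'
    have := (MulAction.orbit_eq_iff.2 hx).symm.trans (MulAction.orbit_eq_iff.2 hx')
    rw [this, h2] at h1
    exact hne h1.symm
  have hcov : MulAction.orbit H q₁ ∪ MulAction.orbit H q₂ ∪ {((1 : G) : G ⧸ H)} = Set.univ := by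
    apply Set.eq_of_subset_of_ncard_le (Set.subset_univ _)
    rw [Set.ncard_union_eq, Set.ncard_union_eq hd12, h1, h2, Set.ncard_singleton, hn,
      Set.ncard_univ]
    · rfl
    · rw [Set.disjoint_singleton_right]
      rintro (h | h)
      · exact hnot q₁ (by rw [h1]; exact hn1) h
      · exact hnot q₂ (by rw [h2]; exact hn2) h
  have hmem : ∀ x : G ⧸ H, x ∈ MulAction.orbit H q₁ ∨ x ∈ MulAction.orbit H q₂ ∨
      x = ((1 : G) : G ⧸ H) := by
    intro x
    have : x ∈ MulAction.orbit H q₁ ∪ MulAction.orbit H q₂ ∪ {((1 : G) : G ⧸ H)} := by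
      rw [hcov]; trivial
    rcases this with (h | h) | h
    · exact Or.inl h
    · exact Or.inr (Or.inl h)
    · exact Or.inr (Or.inr h)
  have key : ∀ x y : G ⧸ H, y ∈ MulAction.orbit H x → MulAction.orbit H y = MulAction.orbit H x :=
    fun x y h => MulAction.orbit_eq_iff.2 h
  rcases hmem a with ha' | ha' | ha'
  · rcases hmem b with hb' | hb' | hb'
    · exact absurd (by rw [key _ _ hb']; exact ha') hab
    · rcases hmem q with hq | hq | hq
      · right; left; rw [key _ _ ha']; exact hq
      · right; right; rw [key _ _ hb']; exact hq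
      · exact Or.inl hq
    · exact absurd hb' hb
  · rcases hmem b with hb' | hb' | hb'
    · rcases hmem q with hq | hq | hq
      · right; right; rw [key _ _ hb']; exact hq
      · right; left; rw [key _ _ ha']; exact hq
      · exact Or.inl hq
    · exact absurd (by rw [key _ _ hb']; exact ha') hab
    · exact absurd hb' hb
  · exact absurd ha' ha

/-- a 3-transposition class from a rank three action -/
theorem three_trans [IsSimpleGroup G] (H : Subgroup G) (d b c : G) (hd : orderOf d = 2)
    (hHd : ∀ g, g ∈ H ↔ g * d = d * g) (hb : IsConj d b) (hc : IsConj d c) (hcd : c ≠ d)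
    (hcomm : c * d = d * c) (hb3 : (d * b) ^ 3 = 1) (hbd : b * d ≠ d * b)
    (q₁ q₂ : G ⧸ H) {n₁ n₂ : ℕ}
    (h1 : (MulAction.orbit H q₁).ncard = n₁) (h2 : (MulAction.orbit H q₂).ncard = n₂)
    (hn : n₁ + n₂ + 1 = H.index) (hne : n₁ ≠ n₂) (hn1 : n₁ ≠ 1) (hn2 : n₂ ≠ 1) :
    Cfsg.IsThreeTranspositionClass (conjugatesOf d) ∧ Nat.card (conjugatesOf d) = H.index := by
  have hd2 : d * d = 1 := by rw [← sq, ← hd]; exact pow_orderOf_eq_one d
  have hd1 : d ≠ 1 := by
    rintro rfl
    rw [orderOf_one] at hd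
    exact absurd hd (by norm_num)
  obtain ⟨x, hx⟩ := isConj_iff.1 hb
  obtain ⟨y, hy⟩ := isConj_iff.1 hc
  -- conjugates of `d` up to `H`
  have hmain : ∀ g : G, (d * (g * d * g⁻¹)) ^ 2 = 1 ∨ (d * (g * d * g⁻¹)) ^ 3 = 1 := by
    intro g
    have hxH : ((x : G) : G ⧸ H) ≠ ((1 : G) : G ⧸ H) := by
      intro h
      rw [QuotientGroup.eq, mul_one, inv_mem_iff, hHd] at h
      apply hbd
      rw [← hx, h]
      group
    have hyH : ((y : G) : G ⧸ H) ≠ ((1 : G) : G ⧸ H) := by
      intro h
      rw [QuotientGroup.eq, mul_one, inv_mem_iff, hHd] at h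
      apply hcd
      rw [← hy, h]
      group
    have hrep : ∀ (g z : G), ((g : G) : G ⧸ H) ∈ MulAction.orbit H ((z : G) : G ⧸ H) →
        ∃ h ∈ H, g * d * g⁻¹ = h * (z * d * z⁻¹) * h⁻¹ := by
      rintro g z ⟨h, hh⟩
      have hh' : (((h : G) * z : G) : G ⧸ H) = ((g : G) : G ⧸ H) := hh
      rw [QuotientGroup.eq] at hh'
      refine ⟨h, h.2, ?_⟩
      obtain ⟨k, hk⟩ : ∃ k, k = ((h : G) * z)⁻¹ * g := ⟨_, rfl⟩
      rw [← hk, hHd] at hh'
      have hg : g = (h : G) * z * k := by rw [hk]; group
      have e1 : g * d * g⁻¹ = (h : G) * z * (k * d * k⁻¹) * z⁻¹ * (h : G)⁻¹ := by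
        rw [hg]; group
      have e2 : k * d * k⁻¹ = d := by rw [hh']; group
      rw [e1, e2]; group
    have hab : ((x : G) : G ⧸ H) ∉ MulAction.orbit H ((y : G) : G ⧸ H) := by
      intro h
      obtain ⟨h, hh, he⟩ := hrep x y h
      rw [hx, hy] at he
      apply hbd
      rw [hHd] at hh
      have hh1 : Commute h d := hh
      have hc1 : Commute c d := hcomm
      rw [he]
      exact ((hh1.mul_left hc1).mul_left hh1.inv_left).eq
    have hpow : ∀ (h e : G) (n : ℕ), h ∈ H → (d * e) ^ n = 1 → (d * (h * e * h⁻¹)) ^ n = 1 := by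
      intro h e n hh he
      rw [hHd] at hh
      have : d * (h * e * h⁻¹) = h * (d * e) * h⁻¹ := by
        calc d * (h * e * h⁻¹) = (d * h) * e * h⁻¹ := by group
          _ = (h * d) * e * h⁻¹ := by rw [hh]
          _ = _ := by group
      rw [this, conj_pow, he]
      group
    rcases rank_three H q₁ q₂ h1 h2 hn hne hn1 hn2 _ _ hxH hyH hab ((g : G) : G ⧸ H) with h | h | h
    · left
      rw [QuotientGroup.eq, mul_one, inv_mem_iff, hHd] at h
      have : g * d * g⁻¹ = d := by rw [h]; group
      rw [this, hd2, one_pow]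
    · right
      obtain ⟨h, hh, he⟩ := hrep _ _ h
      rw [he, hx]
      exact hpow h b 3 hh hb3
    · left
      obtain ⟨h, hh, he⟩ := hrep _ _ h
      rw [he, hy]
      refine hpow h c 2 hh ?_
      have hc2 : c * c = 1 := by
        rw [← hy]
        calc y * d * y⁻¹ * (y * d * y⁻¹) = y * (d * d) * y⁻¹ := by group
          _ = 1 := by rw [hd2]; group
      rw [sq]
      calc d * c * (d * c) = d * (c * d) * c := by group
        _ = (d * d) * (c * c) := by rw [hcomm]; group
        _ = 1 := by rw [hd2, hc2, mul_one]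
  refine ⟨⟨⟨?_, ?_⟩, ⟨d, mem_conjugatesOf_self, rfl⟩, ?_⟩, ?_⟩
  · intro e he
    obtain ⟨g, rfl⟩ := isConj_iff.1 (he)
    rw [← hd]
    exact (MulAut.conj g).orderOf_eq d
  · intro e he f hf
    obtain ⟨g, rfl⟩ := isConj_iff.1 (he)
    obtain ⟨k, rfl⟩ := isConj_iff.1 (hf)
    have h3 : g * d * g⁻¹ * (k * d * k⁻¹) = g * (d * ((g⁻¹ * k) * d * (g⁻¹ * k)⁻¹)) * g⁻¹ := by
      group
    rw [h3, conj_pow, conj_pow]
    rcases hmain (g⁻¹ * k) with h | h
    · left; rw [h]; group
    · right; rw [h]; group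
  · have hN : (Subgroup.closure (conjugatesOf d)).Normal := by
      refine ⟨fun n hn g => ?_⟩
      induction hn using Subgroup.closure_induction with
      | mem x hx =>
        apply Subgroup.subset_closure
        exact ((hx).trans (isConj_iff.2 ⟨g, rfl⟩))
      | one => rw [mul_one, mul_inv_cancel]; exact one_mem _
      | mul x y _ _ hx hy =>
        have : g * (x * y) * g⁻¹ = (g * x * g⁻¹) * (g * y * g⁻¹) := by group
        rw [this]; exact mul_mem hx hy
      | inv x _ hx =>
        have : g * x⁻¹ * g⁻¹ = (g * x * g⁻¹)⁻¹ := by group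
        rw [this]; exact inv_mem hx
    rcases hN.eq_bot_or_eq_top with h | h
    · exfalso
      apply hd1
      have h2 : d ∈ Subgroup.closure (conjugatesOf d) := Subgroup.subset_closure mem_conjugatesOf_self
      rw [h] at h2
      exact h2
    · exact h
  · rw [show H.index = Nat.card (G ⧸ H) from rfl]
    symm
    refine Nat.card_congr (Equiv.ofBijective (fun q => ⟨Quotient.out q * d * (Quotient.out q)⁻¹,
      (isConj_iff.2 ⟨_, rfl⟩)⟩) ⟨?_, ?_⟩)
    · intro p q hpq
      have h3 : Quotient.out p * d * (Quotient.out p)⁻¹ = Quotient.out q * d * (Quotient.out q)⁻¹ :=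
        congrArg Subtype.val hpq
      rw [← Quotient.out_eq p, ← Quotient.out_eq q]
      apply QuotientGroup.eq.2
      rw [hHd]
      have h4 : d = (Quotient.out p)⁻¹ * Quotient.out q * d * ((Quotient.out p)⁻¹ * Quotient.out q)⁻¹ := by
        calc d = (Quotient.out p)⁻¹ * (Quotient.out p * d * (Quotient.out p)⁻¹) * Quotient.out p := by
              group
          _ = _ := by rw [h3]; group
      nth_rewrite 2 [h4]
      group
    · rintro ⟨e, he⟩
      obtain ⟨g, rfl⟩ := isConj_iff.1 (he)
      refine ⟨((g : G) : G ⧸ H), Subtype.ext ?_⟩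
      obtain ⟨h, hh⟩ := QuotientGroup.mk_out_eq_mul H g
      show Quotient.out ((g : G) : G ⧸ H) * d * (Quotient.out ((g : G) : G ⧸ H))⁻¹ = g * d * g⁻¹
      rw [hh]
      have := (hHd h).1 h.2
      calc g * (h : G) * d * (g * (h : G))⁻¹ = g * ((h : G) * d) * (h : G)⁻¹ * g⁻¹ := by group
        _ = _ := by rw [this]; group

end trans

section cover

theorem nonsplit_congr {A : Type u} {B : Type v} {K : Type*} [Group A] [Group B] [Group K]
    (e : A ≃* B) (h : Cfsg.IsNonsplitDoubleCover A K) : Cfsg.IsNonsplitDoubleCover B K := by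
  obtain ⟨h1, ⟨f⟩, h3⟩ := h
  have hc : (Subgroup.center A).map e.toMonoidHom = Subgroup.center B := by
    ext x
    constructor
    · rintro ⟨a, ha, rfl⟩
      rw [Subgroup.mem_center_iff]
      intro b
      obtain ⟨b, rfl⟩ := e.surjective b
      show e b * e a = e a * e b
      rw [← map_mul, ← map_mul, Subgroup.mem_center_iff.1 ha b]
    · intro hx
      refine ⟨e.symm x, ?_, e.apply_symm_apply x⟩
      apply Subgroup.mem_center_iff.2
      intro a
      apply e.injective
      rw [map_mul, map_mul, e.apply_symm_apply]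
      exact Subgroup.mem_center_iff.1 hx (e a)
  refine ⟨?_, ?_, ?_⟩
  · rw [← hc, ← h1]
    exact (Nat.card_congr ((Subgroup.center A).equivMapOfInjective e.toMonoidHom
      e.injective).toEquiv).symm
  · exact ⟨(QuotientGroup.congr (Subgroup.center A) (Subgroup.center B) e hc).symm.trans f⟩
  · intro L hL
    apply h3 (L.comap e.toMonoidHom)
    have h4 : ∀ x : A, x ∈ Subgroup.center A ↔ e x ∈ Subgroup.center B := by
      intro x
      rw [← hc]
      constructor
      · intro hx; exact ⟨x, hx, rfl⟩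
      · rintro ⟨y, hy, hyx⟩
        have : y = x := e.injective hyx
        rwa [← this]
    constructor
    · rintro ⟨a, b⟩ ⟨c, d⟩ h
      have h5 := @hL.1 (⟨e a, (h4 a).1 a.2⟩, ⟨e b, b.2⟩) (⟨e c, (h4 c).1 c.2⟩, ⟨e d, d.2⟩) (by
        show e a * e b = e c * e d
        rw [← map_mul, ← map_mul]
        exact congrArg e h)
      have h6 := congrArg (fun z => (z.1 : B)) h5
      have h7 := congrArg (fun z => (z.2 : B)) h5
      exact Prod.ext (Subtype.ext (e.injective h6)) (Subtype.ext (e.injective h7))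
    · intro x
      obtain ⟨⟨a, b⟩, hab⟩ := hL.2 (e x)
      refine ⟨(⟨e.symm a, (h4 _).2 (by rw [e.apply_symm_apply]; exact a.2)⟩,
        ⟨e.symm b, by show e (e.symm b) ∈ L; rw [e.apply_symm_apply]; exact b.2⟩), ?_⟩
      apply e.injective
      show e (e.symm a * e.symm b) = e x
      rw [map_mul, e.apply_symm_apply, e.apply_symm_apply]
      exact hab

/-- centralisers of conjugate elements are isomorphic -/
noncomputable def centConj {G : Type u} [Group G] (d g : G) :
    Subgroup.centralizer ({d} : Set G) ≃* Subgroup.centralizer ({g * d * g⁻¹} : Set G) :=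
  (MulEquiv.subgroupMap (MulAut.conj g) (Subgroup.centralizer ({d} : Set G))).trans
    (MulEquiv.subgroupCongr (by
      ext x
      constructor
      · rintro ⟨y, hy, rfl⟩
        rw [Subgroup.mem_centralizer_singleton_iff]
        have := Subgroup.mem_centralizer_singleton_iff.1 hy
        show g * y * g⁻¹ * (g * d * g⁻¹) = g * d * g⁻¹ * (g * y * g⁻¹)
        calc g * y * g⁻¹ * (g * d * g⁻¹) = g * (y * d) * g⁻¹ := by group
          _ = g * (d * y) * g⁻¹ := by rw [this]
          _ = _ := by group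
      · intro hx
        have := Subgroup.mem_centralizer_singleton_iff.1 hx
        refine ⟨g⁻¹ * x * g, ?_, ?_⟩
        · apply Subgroup.mem_centralizer_singleton_iff.2
          calc g⁻¹ * x * g * d = g⁻¹ * (x * (g * d * g⁻¹)) * g := by group
            _ = g⁻¹ * ((g * d * g⁻¹) * x) * g := by rw [this]
            _ = _ := by group
        · show g * (g⁻¹ * x * g) * g⁻¹ = x
          group))

end cover

end Cfsg.Agent.H7.SporA
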