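import Cfsg.Agent.H8.Fi23Cover
import Cfsg.Agent.H8.WordTop
import Cfsg.Agent.H7.SporA

set_option autoImplicit false
set_option linter.all false
set_option maxRecDepth 100000

/-! The 3-transposition class of the presented Fischer group `Fi₂₃`. -/

namespace Cfsg.Agent.H7.SporFi23

open Cfsg Cfsg.Spor Cfsg.Agent.H8 Cfsg.Agent.H8.Fi23P

theorem not_mem_seven : s 7 ∉ wordGroup s Fi23t.clG := by
  rw [index_stab.2]
  intro h
  have h0 : ρ (s 7) ⟨0, by decide⟩ = ⟨0, by decide⟩ := h
  have h1 := hρ 7 (by decide)
  rw [h1] at h0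
  have h2 := permL_apply Fi23t.tok 7 (by decide) ⟨0, by decide⟩
  rw [h0] at h2
  revert h2
  decide +kernel

theorem comm_of_relP (u v : Nat) (h : ([u, v], 2) ∈ Fi23t.relsP) : s v * s u = s u * s v :=
  (comm_of_rel u v h).symm

theorem braid_s (u v : Nat) (h : ([u, v], 3) ∈ Fi23t.relsP) : (s u * s v) * s u * (s u * s v)⁻¹ = s v := by
  apply braid_conj _ _ (s_sq u) (s_sq v)
  have := baseP _ h
  simpa using this

theorem mem_s (l : Nat) (h : [l] ∈ Fi23t.clG) : s l ∈ wordGroup s Fi23t.clG := by
  have := mem_wordGroup s Fi23t.clG [l] h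
  simpa using this

theorem ne_zero : s 0 ≠ z := by
  intro h
  -- `s 0` would be central in the subgroup and the whole diagram collapses to `s 0 = s 7`
  have hc : ∀ l, [l] ∈ Fi23t.clG → s l * s 0 = s 0 * s l := by
    intro l hl
    rw [h]
    exact z_central _ (mem_s l hl)
  -- if two consecutive letters commute they are equal
  have step : ∀ u v, ([u, v], 3) ∈ Fi23t.relsP → s u = s 0 → s v * s 0 = s 0 * s v → s v = s 0 := by
    intro u v huv hu hv
    have hb := braid_s u v huv
    rw [hu] at hb
    have : (s 0 * s v) * s 0 * (s 0 * s v)⁻¹ = s 0 := by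
      have e : (s 0 * s v) * s 0 = s 0 * (s 0 * s v) := by
        rw [mul_assoc, hv]
      rw [e]; group
    rw [this] at hb
    exact hb.symm
  have h1 := step 0 1 (by decide) rfl (hc 1 (by decide))
  have h2 := step 1 2 (by decide) h1 (hc 2 (by decide))
  have h3 := step 2 3 (by decide) h2 (hc 3 (by decide))
  have h4 := step 3 4 (by decide) h3 (hc 4 (by decide))
  have h5 := step 4 5 (by decide) h4 (hc 5 (by decide))
  have h6 := step 5 6 (by decide) h5 (hc 6 (by decide))
  have h70 : s 7 * s 0 = s 0 * s 7 := comm_of_relP 0 7 (by decide)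
  have h7 := step 6 7 (by decide) h6 h70
  exact not_mem_seven (by rw [h7]; exact mem_s 0 (by decide))

theorem cent_iff (g : Fi23) : g ∈ wordGroup s Fi23t.clG ↔ g * z = z * g := by
  have hle : wordGroup s Fi23t.clG ≤ Subgroup.centralizer ({z} : Set Fi23) := fun g hg =>
    Subgroup.mem_centralizer_singleton_iff.2 (z_central g hg)
  constructor
  · exact z_central g
  · intro h
    have hco : IsCoatom (wordGroup s Fi23t.clG) := by rw [index_stab.2]; exact coatom
    by_contra hg
    have hlt : wordGroup s Fi23t.clG < Subgroup.centralizer ({z} : Set Fi23) :=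
      lt_of_le_of_ne hle fun he => hg (by rw [he]; exact Subgroup.mem_centralizer_singleton_iff.2 h)
    have htop := hco.2 _ hlt
    have hzc : z ∈ Subgroup.center Fi23 := by
      rw [Subgroup.mem_center_iff]
      intro x
      have : x ∈ Subgroup.centralizer ({z} : Set Fi23) := by rw [htop]; trivial
      exact Subgroup.mem_centralizer_singleton_iff.1 this
    rcases simple.eq_bot_or_eq_top_of_normal (Subgroup.center Fi23) inferInstance with hb | ht
    · rw [hb] at hzc
      exact z_ne hzc
    · -- the group would be abelian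
      have : s 1 * s 0 = s 0 * s 1 := by
        have : s 0 ∈ Subgroup.center Fi23 := by rw [ht]; trivial
        exact Subgroup.mem_center_iff.1 this (s 1)
      have hall : ∀ x y : Fi23, x * y = y * x := by
        intro x y
        have : y ∈ Subgroup.center Fi23 := by rw [ht]; trivial
        exact Subgroup.mem_center_iff.1 this x
      have hcom : commutator Fi23 = ⊥ := by
        rw [commutator_def, Subgroup.commutator_eq_bot_iff_le_centralizer]
        intro x _
        rw [Subgroup.mem_centralizer_iff]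
        intro y _
        exact hall y x
      rw [perfect] at hcom
      haveI := nontrivial_fi23
      exact absurd hcom top_ne_bot

theorem main : IsThreeTranspositionClass (conjugatesOf z) ∧
    Nat.card (conjugatesOf z) = 31671 := by
  haveI := simple
  haveI := finite_and_card_le.1
  obtain ⟨q₁, h₁⟩ := orbit_len 2 3510 ⟨52, by decide⟩ (by decide +kernel) (Fi23t.cl_size 2)
  obtain ⟨q₂, h₂⟩ := orbit_len 1 28160 ⟨1, by decide⟩ (by decide +kernel) (Fi23t.cl_size 1)
  have hz2 : z * z = 1 := zz
  have r3 : (z * s 7) ^ 3 = 1 := by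
    have h := jz
    have e : z * s 7 = (s 7)⁻¹ * (s 7 * z) * ((s 7)⁻¹)⁻¹ := by group
    rw [e, conj_pow]
    change (s 7)⁻¹ * (s 7 * (zw.map s).prod) ^ 3 * ((s 7)⁻¹)⁻¹ = 1
    rw [h]; group
  have c07 : IsConj z (s 7) := isConj_iff.2 ⟨_, braid_conj _ _ hz2 (s_sq 7) r3⟩
  have cc : ∀ u v, ([u, v], 3) ∈ Fi23t.relsP → IsConj (s v) (s u) := fun u v h =>
    (isConj_iff.2 ⟨_, braid_s u v h⟩ : IsConj (s u) (s v)).symm
  have c70 : IsConj (s 7) (s 0) := (cc 6 7 (by decide)).trans ((cc 5 6 (by decide)).trans
    ((cc 4 5 (by decide)).trans ((cc 3 4 (by decide)).trans ((cc 2 3 (by decide)).trans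
      ((cc 1 2 (by decide)).trans (cc 0 1 (by decide)))))))
  have hord : orderOf z = 2 := by
    rw [orderOf_eq_prime_iff]
    exact ⟨by rw [pow_two]; exact hz2, z_ne⟩
  have := SporA.three_trans (wordGroup s Fi23t.clG) z (s 7) (s 0) hord cent_iff c07
    (c07.trans c70) ne_zero (z_central _ (mem_s 0 (by decide))) r3
    (fun h => not_mem_seven ((cent_iff _).2 h))
    q₁ q₂ h₁ h₂ (by rw [index_stab.1]) (by decide) (by decide) (by decide)
  rw [index_stab.1] at this
  exact this

theorem cover (d : Fi23) (hd : d ∈ conjugatesOf z) :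
    IsNonsplitDoubleCover (Subgroup.centralizer ({d} : Set Fi23)) Fi22 := by
  obtain ⟨g, rfl⟩ := isConj_iff.1 hd
  have e : wordGroup s Fi23t.clG ≃* Subgroup.centralizer ({z} : Set Fi23) :=
    MulEquiv.subgroupCongr (by
      ext x
      rw [cent_iff, Subgroup.mem_centralizer_singleton_iff])
  exact SporA.nonsplit_congr (e.trans (SporA.centConj z g)) double_cover

end Cfsg.Agent.H7.SporFi23
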