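import Cfsg.Agent.H7.SylGL
import Cfsg.Agent.H10.Perm1
import Cfsg.Agent.H23.Coprime
import Mathlib.LinearAlgebra.Matrix.Reindex

set_option autoImplicit false

/-!
Squares of elements of a Sylow 2-subgroup of `SL_{2m}(q)`.
-/

namespace Cfsg.Agent.H7.SylGL

open Subgroup Equiv Matrix
open Cfsg.Agent.H7.SylSp

section transfer

variable {F : Type*} [Field F] {ι κ : Type*} [Fintype ι] [DecidableEq ι] [Fintype κ] [DecidableEq κ]

/-- `GL` for two index types. -/
def gle (F : Type*) [Field F] (e : κ ≃ ι) : GL κ F ≃* GL ι F :=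
  Units.mapEquiv (reindexAlgEquiv F F e).toMulEquiv

/-- `SL` inside `GL` after reindexing. -/
def phi (F : Type*) [Field F] (e : κ ≃ ι) : SpecialLinearGroup κ F →* GL ι F :=
  (gle F e).toMonoidHom.comp SpecialLinearGroup.toGL

theorem phi_val (e : κ ≃ ι) (A : SpecialLinearGroup κ F) :
    (phi F e A : Matrix ι ι F) = reindex e e (A : Matrix κ κ F) := rfl

theorem phi_injective (e : κ ≃ ι) : Function.Injective (phi F e) := by
  intro A B h
  exact SpecialLinearGroup.toGL_injective ((gle F e).injective h)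

theorem phi_range (e : κ ≃ ι) : (GeneralLinearGroup.det : GL ι F →* Fˣ).ker = (phi F e).range := by
  ext x
  rw [MonoidHom.mem_ker]
  constructor
  · intro hx
    have h1 : Matrix.det (x : Matrix ι ι F) = 1 := congrArg Units.val hx
    refine ⟨⟨(reindex e e).symm (x : Matrix ι ι F), ?_⟩, Units.ext ?_⟩
    · rw [reindex_symm, det_reindex_self]
      exact h1
    · exact (reindex e e).apply_symm_apply _
  · rintro ⟨y, rfl⟩
    apply Units.ext
    show Matrix.det (reindex e e (y : Matrix κ κ F)) = 1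
    rw [det_reindex_self]
    exact y.2

theorem transfer [Fintype F] (e : κ ≃ ι) {T : Subgroup (GL ι F)}
    (hT : Nat.card T = 2 ^ (Nat.card (GL ι F)).factorization 2)
    (hsq : ∀ x ∈ GeneralLinearGroup.det.ker ⊓ T,
      x ^ 2 ∈ ⁅GeneralLinearGroup.det.ker ⊓ T, GeneralLinearGroup.det.ker ⊓ T⁆)
    (P : Sylow 2 (SpecialLinearGroup κ F)) :
    ∀ x : (P : Subgroup (SpecialLinearGroup κ F)),
      x ^ 2 ∈ commutator (P : Subgroup (SpecialLinearGroup κ F)) := by
  classical
  have : Fact (Nat.Prime 2) := ⟨Nat.prime_two⟩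
  let S : Sylow 2 (GL ι F) := Sylow.ofCard T hT
  let T2 : Subgroup (SpecialLinearGroup κ F) := T.comap (phi F e)
  have hmap : T2.map (phi F e) = (GeneralLinearGroup.det : GL ι F →* Fˣ).ker ⊓ T := by
    rw [map_comap_eq, phi_range e]
  have hcard : Nat.card T2 = 2 ^ (Nat.card (SpecialLinearGroup κ F)).factorization 2 := by
    have h1 := H24.card_inf_sylow (GeneralLinearGroup.det : GL ι F →* Fˣ).ker S
    have h2 : (S : Subgroup (GL ι F)) = T := rfl
    rw [h2, ← hmap] at h1
    rw [Nat.card_congr (equivMapOfInjective T2 _ (phi_injective e)).toEquiv, h1, phi_range e]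
    rw [← Nat.card_congr (MonoidHom.ofInjective (phi_injective (F := F) e)).toEquiv]
  refine sylow_of_one hcard ?_ P
  intro x hx
  have h1 := hsq (phi F e x) (by rw [← hmap]; exact mem_map_of_mem _ hx)
  rw [← hmap, ← map_pow, ← map_commutator] at h1
  obtain ⟨y, hy, hyx⟩ := h1
  rwa [← phi_injective e hyx]

end transfer

section A

variable {F : Type*} [Field F] {n : ℕ}

theorem det_Dmat (g : Fin n → Matrix (Fin 2) (Fin 2) F) : (Dmat g).det = ∏ i, (g i).det := by
  let e : Fin n ⊕ Fin n ≃ Fin 2 × Fin n :=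
    { toFun := Sum.elim (fun k => (0, k)) (fun k => (1, k))
      invFun := fun x => if x.1 = 0 then Sum.inl x.2 else Sum.inr x.2
      left_inv := by
        rintro (k | k)
        · simp
        · simp
      right_inv := by
        rintro ⟨a, k⟩
        fin_cases a <;> simp }
  have h1 : Dmat g = (blockDiagonal g).submatrix e e := by
    ext i j
    rcases i with i | i <;> rcases j with j | j <;>
    · simp only [Dmat, fromBlocks_apply₁₁, fromBlocks_apply₁₂, fromBlocks_apply₂₁, fromBlocks_apply₂₂,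
        submatrix_apply, blockDiagonal_apply, diagonal_apply]
      rfl
  rw [h1, det_submatrix_equiv_self, det_blockDiagonal]

theorem Pm_det (σ : Perm (Fin n)) : (Pm F σ).det = ((Perm.sign σ : ℤ) : F) := by
  have h1 : Pm F σ = (σ⁻¹).permMatrix F := by
    ext i j
    rw [Pm_apply, Equiv.Perm.permMatrix, PEquiv.toMatrix_apply]
    simp only [Equiv.toPEquiv_apply, Option.mem_def, Option.some.injEq]
    congr 1
    rw [eq_iff_iff]
    constructor
    · rintro rfl; simp
    · rintro h; rw [← h]; simp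
  rw [h1, det_permutation, Perm.sign_inv]

theorem det_PG (σ : Perm (Fin n)) : GeneralLinearGroup.det (PG F n σ) = 1 := by
  apply Units.ext
  show Matrix.det (fromBlocks (Pm F σ) 0 0 (Pm F σ)) = 1
  rw [det_fromBlocks_zero₂₁, Pm_det, ← Int.cast_mul, ← Units.val_mul, Int.units_mul_self]
  simp

theorem caseA [Fintype F] (hF : Odd (Fintype.card F)) (hq : 4 ∣ Fintype.card F + 1) (m : ℕ)
    (P : Sylow 2 (SpecialLinearGroup (Fin (2 * m)) F)) :
    ∀ x : (P : Subgroup (SpecialLinearGroup (Fin (2 * m)) F)),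
      x ^ 2 ∈ commutator (P : Subgroup (SpecialLinearGroup (Fin (2 * m)) F)) := by
  classical
  have : Fact (Nat.Prime 2) := ⟨Nat.prime_two⟩
  obtain ⟨S, hr, hd, hs⟩ := exists_S hF hq
  let R : Sylow 2 (Perm (Fin m)) := default
  let K : Subgroup (Fin m → GL (Fin 2) F) := Subgroup.pi (Set.univ : Set (Fin m)) (fun _ => (S : Subgroup (GL (Fin 2) F)))
  let KQ : Subgroup (Fin m → GL (Fin 2) F) := Subgroup.pi (Set.univ : Set (Fin m))
    (fun _ => GeneralLinearGroup.det.ker ⊓ (S : Subgroup (GL (Fin 2) F)))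
  set T : Subgroup (GL (Fin m ⊕ Fin m) F) := K.map (DG F m) ⊔ (R : Subgroup (Perm (Fin m))).map (PG F m) with hT
  let e : Fin (2 * m) ≃ Fin m ⊕ Fin m := Fintype.equivOfCardEq (by
    rw [Fintype.card_sum, Fintype.card_fin, Fintype.card_fin]
    ring)
  have hKinv : ∀ σ ∈ (R : Subgroup (Perm (Fin m))), ∀ g ∈ K, (fun i => g (σ⁻¹ i)) ∈ K :=
    fun σ _ g hg i _ => hg (σ⁻¹ i) (Set.mem_univ _)
  have hcard0 : Nat.card T = Nat.card K * Nat.card (R : Subgroup (Perm (Fin m))) := wr_card hKinv
  have hcK : Nat.card K = (2 ^ (Nat.card (GL (Fin 2) F)).factorization 2) ^ m := by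
    rw [← S.card_eq_multiplicity]
    exact card_pi _
  have hcR : Nat.card (R : Subgroup (Perm (Fin m))) = 2 ^ (m.factorial.factorization 2) := by
    have h4 : (Nat.card (Perm (Fin m))) = m.factorial := by
      rw [Nat.card_eq_fintype_card, Fintype.card_perm, Fintype.card_fin]
    rw [← h4]
    exact R.card_eq_multiplicity
  have hq1 : 1 < Fintype.card F := Fintype.one_lt_card
  have h2q : ¬ 2 ∣ Fintype.card F := by
    rw [← even_iff_two_dvd]
    exact Nat.not_even_iff_odd.mpr hF
  have hne : ∀ i, (Fintype.card F) ^ (i + 1) - 1 ≠ 0 := by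
    intro i
    have : 1 < (Fintype.card F) ^ (i + 1) := Nat.one_lt_pow (by omega) hq1
    omega
  have hgl : ∀ k, (Nat.card (GL (Fin (2 * k)) F)).factorization 2
      = k * ((Fintype.card F - 1).factorization 2 + ((Fintype.card F) ^ 2 - 1).factorization 2) + k.factorial.factorization 2 := by
    intro k
    rw [H16.SylB.card_gl rfl, Nat.factorization_mul (pow_ne_zero _ (by omega))
      (Finset.prod_ne_zero_iff.2 (fun i _ => hne i)), Finsupp.add_apply, Nat.factorization_pow,
      Finsupp.smul_apply, Nat.factorization_eq_zero_of_not_dvd h2q, smul_zero, zero_add, val_even hF hq1]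
  have hcard : Nat.card T = 2 ^ (Nat.card (GL (Fin m ⊕ Fin m) F)).factorization 2 := by
    rw [hcard0, hcK, hcR, ← Nat.card_congr (gle F e).toEquiv, hgl, ← pow_mul, ← pow_add]
    congr 1
    have h5 := hgl 1
    rw [mul_one, one_mul, Nat.factorial_one, Nat.factorization_one, Finsupp.zero_apply, add_zero] at h5
    rw [h5]
    ring
  refine transfer e hcard ?_ P
  set T1 := GeneralLinearGroup.det.ker ⊓ T with hT1
  -- the generators
  have hKQ : KQ.map (DG F m) ≤ T1 := by
    rintro _ ⟨g, hg, rfl⟩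
    refine ⟨?_, mem_sup_left (mem_map_of_mem _ (fun i hi => (hg i hi).2))⟩
    apply Units.ext
    show Matrix.det (Dmat _) = 1
    rw [det_Dmat]
    exact Finset.prod_eq_one (fun i _ => congrArg Units.val (hg i (Set.mem_univ i)).1)
  have hPR : (R : Subgroup (Perm (Fin m))).map (PG F m) ≤ T1 := by
    rintro _ ⟨σ, hσ, rfl⟩
    exact ⟨det_PG σ, mem_sup_right (mem_map_of_mem _ hσ)⟩
  have hKQsq : ∀ x ∈ KQ.map (DG F m), x ^ 2 ∈ ⁅T1, T1⁆ := by
    intro x hx
    refine commutator_mono hKQ hKQ ?_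
    refine pow_map (DG F m) ?_ x hx
    intro g hg
    rw [Subgroup.commutator_pi_pi_of_finite]
    intro i _
    exact hs (g i) (hg i (Set.mem_univ i))
  have hPRsq : ∀ x ∈ (R : Subgroup (Perm (Fin m))).map (PG F m), x ^ 2 ∈ ⁅T1, T1⁆ := by
    intro x hx
    refine commutator_mono hPR hPR ?_
    refine pow_map (PG F m) ?_ x hx
    intro g hg
    exact (SylSn.sylow_gen m R).1.pow_mem hg
  have hnorm : (R : Subgroup (Perm (Fin m))).map (PG F m) ≤ normalizer (K.map (DG F m) : Set (GL (Fin m ⊕ Fin m) F)) := by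
    apply H23.le_normalizer_of_conj_mem
    rintro _ ⟨σ, hσ, rfl⟩ _ ⟨g, hg, rfl⟩
    rw [conj_DG, mul_inv_cancel_right]
    exact ⟨_, hKinv σ hσ g hg, rfl⟩
  intro x hx
  refine (pow_closure (T := T1) (S := {y | y ∈ T1 ∧ y ^ 2 ∈ ⁅T1, T1⁆}) (fun y hy => hy) x ?_).2
  obtain ⟨hx1, hx2⟩ := hx
  replace hx2 : x ∈ T := hx2
  rw [hT, H23.mem_sup_iff_of_le_normalizer hnorm] at hx2
  obtain ⟨_, ⟨g, hg, rfl⟩, y, hy, rfl⟩ := hx2
  refine mul_mem ?_ (subset_closure ⟨hPR hy, hPRsq y hy⟩)
  have hdg : GeneralLinearGroup.det (DG F m g) = 1 := by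
    have h1 : GeneralLinearGroup.det (DG F m g * y) = 1 := hx1
    obtain ⟨σ, -, rfl⟩ := hy
    rwa [map_mul, det_PG, mul_one] at h1
  let ε : Fin m → GL (Fin 2) F := fun i => if GeneralLinearGroup.det (g i) = 1 then 1 else rr F
  have hε2 : ε * ε = 1 := by
    funext i
    show (if GeneralLinearGroup.det (g i) = 1 then 1 else rr F) * (if GeneralLinearGroup.det (g i) = 1 then 1 else rr F) = 1
    split_ifs
    · exact one_mul 1
    · exact rr_mul
  have hεK : ε ∈ K := by
    intro i _
    show (if GeneralLinearGroup.det (g i) = 1 then 1 else rr F) ∈ (S : Subgroup (GL (Fin 2) F))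
    split_ifs
    · exact one_mem _
    · exact hr
  have hh : g * ε ∈ KQ := by
    intro i _
    refine ⟨?_, mul_mem (hg i (Set.mem_univ i)) (hεK i (Set.mem_univ i))⟩
    show GeneralLinearGroup.det (g i * (if GeneralLinearGroup.det (g i) = 1 then 1 else rr F)) = 1
    split_ifs with h
    · rw [mul_one, h]
    · rw [map_mul, det_rr, (hd (g i) (hg i (Set.mem_univ i))).resolve_left h]
      simp
  have hmem1 : DG F m (g * ε) ∈ KQ.map (DG F m) := mem_map_of_mem _ hh
  have hg' : DG F m g = DG F m (g * ε) * DG F m ε := by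
    rw [← map_mul, mul_assoc, hε2, mul_one]
  have hdet1 : GeneralLinearGroup.det (DG F m ε) = 1 := by
    have h1 : GeneralLinearGroup.det (DG F m (g * ε)) = 1 := (hKQ hmem1).1
    rw [hg', map_mul, h1, one_mul] at hdg
    exact hdg
  rw [hg']
  refine mul_mem (subset_closure ⟨hKQ hmem1, hKQsq _ hmem1⟩) (subset_closure ⟨⟨hdet1, mem_sup_left (mem_map_of_mem _ hεK)⟩, ?_⟩)
  rw [sq, ← map_mul, hε2, map_one]
  exact one_mem _

end A

end Cfsg.Agent.H7.SylGL
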