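import Cfsg.Agent.H7.SylGL2

set_option autoImplicit false

/-!
Squares of elements of a Sylow 2-subgroup of `SL_n(q)`, `n` a power of 2, `q ≡ 1 mod 4`.
-/

namespace Cfsg.Agent.H7.SylGL

open Subgroup Equiv Matrix
open Cfsg.Agent.H7.SylSp

/-- An invariant cocycle on a transitive group generated by involutions is 2-torsion. -/
theorem D_sq {A : Type*} [CommGroup A] {n : ℕ} {R : Subgroup (Perm (Fin n))} (hR : SylSn.Gen 2 R)
    (htrans : ∀ a b, ∃ σ ∈ R, σ a = b) (D : Fin n → Fin n → A)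
    (h1 : ∀ a b c, D a b * D b c = D a c) (h2 : ∀ σ ∈ R, ∀ a b, D (σ a) (σ b) = D a b) (a b : Fin n) :
    (D a b) ^ 2 = 1 := by
  have h0 : ∀ a, D a a = 1 := by
    intro a
    have := h1 a a a
    rwa [mul_eq_left] at this
  have key : ∀ σ ∈ closure {x | x ∈ R ∧ x ^ 2 = 1}, ∀ a, (D a (σ a)) ^ 2 = 1 := by
    intro σ hσ
    induction hσ using closure_induction with
    | mem σ hσ =>
      intro a
      obtain ⟨hσ, hσ2⟩ := hσ
      have h3 := h1 a (σ a) (σ (σ a))
      have h4 : σ (σ a) = a := by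
        have := congrArg (fun f : Perm (Fin n) => f a) hσ2
        rwa [sq] at this
      rw [h2 σ hσ, ← sq, h4, h0] at h3
      exact h3
    | one => intro a; rw [Perm.one_apply, h0, one_pow]
    | mul σ τ _ _ hσ hτ =>
      intro a
      rw [Perm.mul_apply, ← h1 a (τ a) (σ (τ a)), mul_pow, hσ, hτ, one_mul]
    | inv σ _ hσ =>
      intro a
      have h3 := hσ (σ⁻¹ a)
      rw [show σ (σ⁻¹ a) = a from σ.apply_symm_apply a] at h3
      have h4 := h1 a (σ⁻¹ a) a
      rw [h0] at h4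
      rw [eq_inv_of_mul_eq_one_left h4, inv_pow, h3, inv_one]
  obtain ⟨σ, hσ, rfl⟩ := htrans a b
  exact key σ (hR hσ) a

section B

variable {F : Type*} [Field F] {n : ℕ}

/-- Diagonal matrices. -/
def dg (F : Type*) [Field F] (n : ℕ) : (Fin n → Fˣ) →* GL (Fin n) F where
  toFun c := ⟨diagonal fun i => (c i : F), diagonal fun i => (((c i)⁻¹ : Fˣ) : F),
    by rw [diagonal_mul_diagonal, ← diagonal_one]; congr 1; funext i; exact Units.mul_inv _,
    by rw [diagonal_mul_diagonal, ← diagonal_one]; congr 1; funext i; exact Units.inv_mul _⟩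
  map_one' := by
    apply Units.ext
    show (diagonal fun i => ((1 : Fˣ) : F)) = 1
    rw [Units.val_one, diagonal_one]
  map_mul' g h := by
    apply Units.ext
    show (diagonal fun i => ((g i * h i : Fˣ) : F)) = (diagonal fun i => (g i : F)) * (diagonal fun i => (h i : F))
    rw [diagonal_mul_diagonal]
    rfl

theorem dg_injective : Function.Injective (dg F n) := by
  intro g h hgh
  have h1 : (diagonal fun i => (g i : F)) = (diagonal fun i => (h i : F)) := congrArg Units.val hgh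
  funext i
  exact Units.ext (congrFun (diagonal_injective h1) i)

/-- Permutation matrices. -/
def pg (F : Type*) [Field F] (n : ℕ) : Perm (Fin n) →* GL (Fin n) F where
  toFun σ := ⟨Pm F σ, Pm F σ⁻¹,
    by rw [Pm_mul, mul_inv_cancel, Pm_one],
    by rw [Pm_mul, inv_mul_cancel, Pm_one]⟩
  map_one' := Units.ext Pm_one
  map_mul' σ τ := Units.ext (Pm_mul σ τ).symm

theorem pg_injective : Function.Injective (pg F n) := by
  intro σ τ h
  exact Pm_injective (congrArg Units.val h)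

theorem conj_dg (σ : Perm (Fin n)) (g : Fin n → Fˣ) :
    pg F n σ * dg F n g = dg F n (fun i => g (σ⁻¹ i)) * pg F n σ := by
  apply Units.ext
  exact Pm_diagonal σ _

theorem dg_eq_pg {g : Fin n → Fˣ} {σ : Perm (Fin n)} (h : dg F n g = pg F n σ) : σ = 1 := by
  have h1 : (diagonal fun i => (g i : F)) = Pm F σ := congrArg Units.val h
  ext j
  have h2 := congrFun (congrFun h1 (σ j)) j
  rw [Pm_apply, if_pos rfl] at h2
  by_contra hne
  rw [diagonal_apply_ne _ (fun h => hne (by rw [h]; rfl))] at h2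
  exact zero_ne_one h2

theorem det_dg (g : Fin n → Fˣ) : GeneralLinearGroup.det (dg F n g) = ∏ i, g i := by
  apply Units.ext
  show Matrix.det (diagonal fun i => (g i : F)) = _
  rw [det_diagonal, Units.coe_prod]

theorem det_pg (σ : Perm (Fin n)) : GeneralLinearGroup.det (pg F n σ) = Units.map (Int.castRingHom F : ℤ →* F) (Perm.sign σ) := by
  apply Units.ext
  exact Pm_det σ

/-- the 2-part for `q ≡ 1 mod 4`. -/
theorem val_one {q : ℕ} (hq : 4 ∣ q - 1) (hq1 : 1 < q) (i : ℕ) :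
    (q ^ (i + 1) - 1).factorization 2 = (q - 1).factorization 2 + (i + 1).factorization 2 := by
  have : Fact (Nat.Prime 2) := ⟨Nat.prime_two⟩
  have hodd : Odd q := by
    obtain ⟨k, hk⟩ := hq
    exact ⟨2 * k, by omega⟩
  rcases Nat.even_or_odd' i with ⟨j, rfl | rfl⟩
  · rw [val_odd hodd hq1, Nat.factorization_eq_zero_of_not_dvd (n := 2 * j + 1) (by omega), add_zero]
  · rw [show 2 * j + 1 + 1 = 2 * (j + 1) from by ring, val_sq hodd hq1,
      Nat.factorization_mul (by omega) (by omega), Finsupp.add_apply, Nat.Prime.factorization_self Nat.prime_two, ← add_assoc]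
    congr 1
    have h1 : q ^ 2 - 1 = (q - 1) * (q + 1) := by
      have := Nat.sq_sub_sq q 1
      rw [one_pow] at this
      rw [this, mul_comm]
    rw [h1, Nat.factorization_mul (by omega) (by omega), Finsupp.add_apply]
    congr 1
    obtain ⟨k, hk⟩ := hq
    have h2 : q + 1 = 2 * (2 * k + 1) := by omega
    rw [h2, Nat.factorization_mul (by omega) (by omega), Finsupp.add_apply, Nat.Prime.factorization_self Nat.prime_two,
      Nat.factorization_eq_zero_of_not_dvd (n := 2 * k + 1) (by omega)]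

theorem caseB [Fintype F] (hq : 4 ∣ Fintype.card F - 1) {j n : ℕ} (hn : n = 2 ^ (j + 1))
    (P : Sylow 2 (SpecialLinearGroup (Fin n) F)) :
    ∀ x : (P : Subgroup (SpecialLinearGroup (Fin n) F)),
      x ^ 2 ∈ commutator (P : Subgroup (SpecialLinearGroup (Fin n) F)) := by
  classical
  have : Fact (Nat.Prime 2) := ⟨Nat.prime_two⟩
  have hq1 : 1 < Fintype.card F := Fintype.one_lt_card
  have h2q : ¬ 2 ∣ Fintype.card F := by
    intro h
    omega
  have hne : ∀ i, (Fintype.card F) ^ (i + 1) - 1 ≠ 0 := by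
    intro i
    have : 1 < (Fintype.card F) ^ (i + 1) := Nat.one_lt_pow (by omega) hq1
    omega
  have hn0 : 0 < n := by rw [hn]; positivity
  set s := (Fintype.card F - 1).factorization 2 with hs
  have hs2 : 2 ≤ s := by
    rw [hs]
    exact (Nat.prime_two.pow_dvd_iff_le_factorization (by omega)).1 (by exact hq)
  let C : Subgroup Fˣ := rootsOfUnity (2 ^ s) F
  have hCmem : ∀ u : Fˣ, u ∈ C ↔ u ^ 2 ^ s = 1 := fun u => mem_rootsOfUnity (2 ^ s) u
  have hCcard : Nat.card C = 2 ^ s := by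
    have h1 := H5.card_rootsOfUnity_eq_gcd (F := F) (2 ^ s)
    rw [Nat.card_eq_fintype_card (α := F), Nat.gcd_eq_left (Nat.ordProj_dvd _ _)] at h1
    exact h1
  let R : Sylow 2 (Perm (Fin n)) := default
  have hRgen : SylSn.Gen 2 (R : Subgroup (Perm (Fin n))) := (SylSn.sylow_gen n R).1
  have hRtrans : ∀ a b : Fin n, ∃ σ ∈ (R : Subgroup (Perm (Fin n))), σ a = b := fun a b =>
    H10.sylow_transitive (p := 2) (f := j + 1) (Ω := Fin n) (by rw [Nat.card_fin, hn]) R a b
  let K : Subgroup (Fin n → Fˣ) := Subgroup.pi (Set.univ : Set (Fin n)) (fun _ => C)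
  set T : Subgroup (GL (Fin n) F) := K.map (dg F n) ⊔ (R : Subgroup (Perm (Fin n))).map (pg F n) with hT
  have hKinv : ∀ σ : Perm (Fin n), ∀ g ∈ K, (fun i => g (σ⁻¹ i)) ∈ K :=
    fun σ g hg i _ => hg (σ⁻¹ i) (Set.mem_univ _)
  have hnorm : (R : Subgroup (Perm (Fin n))).map (pg F n) ≤ normalizer (K.map (dg F n) : Set (GL (Fin n) F)) := by
    apply H23.le_normalizer_of_conj_mem
    rintro _ ⟨σ, hσ, rfl⟩ _ ⟨g, hg, rfl⟩
    rw [conj_dg, mul_inv_cancel_right]
    exact ⟨_, hKinv σ g hg, rfl⟩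
  have hinf : K.map (dg F n) ⊓ (R : Subgroup (Perm (Fin n))).map (pg F n) = ⊥ := by
    rw [eq_bot_iff]
    rintro _ ⟨⟨g, -, rfl⟩, ⟨σ, -, hσ⟩⟩
    rw [mem_bot, ← hσ, dg_eq_pg hσ.symm, map_one]
  have hcR : Nat.card (R : Subgroup (Perm (Fin n))) = 2 ^ (n.factorial.factorization 2) := by
    have h4 : (Nat.card (Perm (Fin n))) = n.factorial := by
      rw [Nat.card_eq_fintype_card, Fintype.card_perm, Fintype.card_fin]
    rw [← h4]
    exact R.card_eq_multiplicity
  have hcard : Nat.card T = 2 ^ (Nat.card (GL (Fin n) F)).factorization 2 := by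
    have h1 := H1.card_sup_mul_card_inf_of_le_normalizer hnorm
    rw [hinf, card_bot, mul_one] at h1
    rw [hT, h1, ← Nat.card_congr (equivMapOfInjective K (dg F n) dg_injective).toEquiv,
      ← Nat.card_congr (equivMapOfInjective (R : Subgroup (Perm (Fin n))) (pg F n) pg_injective).toEquiv, hcR,
      card_pi, hCcard, H16.SylB.card_gl rfl, Nat.factorization_mul (pow_ne_zero _ (by omega))
      (Finset.prod_ne_zero_iff.2 (fun i _ => hne i)), Finsupp.add_apply, Nat.factorization_pow,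
      Finsupp.smul_apply, Nat.factorization_eq_zero_of_not_dvd h2q, smul_zero, zero_add,
      Nat.factorization_prod (fun i _ => hne i), Finsupp.finsetSum_apply,
      Finset.sum_congr rfl (fun i _ => val_one hq hq1 i), Finset.sum_add_distrib, Finset.sum_const,
      Finset.card_range, smul_eq_mul, val_fact, ← pow_mul, ← pow_add]
    congr 2
    rw [← hs]
    ring
  refine transfer (Equiv.refl (Fin n)) hcard ?_ P
  set T1 := GeneralLinearGroup.det.ker ⊓ T with hT1
  have hnegC : (-1 : Fˣ) ∈ C := by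
    rw [hCmem]
    exact Even.neg_one_pow (Nat.even_pow.2 ⟨even_two, by omega⟩)
  obtain ⟨i0, hi0⟩ : ∃ u : Fˣ, u ^ 2 = -1 := by
    have h1 : IsSquare (-1 : F) := by
      rw [FiniteField.isSquare_neg_one_iff]
      omega
    obtain ⟨u, hu⟩ := h1
    have hu0 : u ≠ 0 := by
      rintro rfl
      rw [mul_zero] at hu
      exact neg_ne_zero.2 one_ne_zero hu
    refine ⟨Units.mk0 u hu0, Units.ext ?_⟩
    rw [Units.val_pow_eq_pow_val, Units.val_mk0, sq, ← hu]
    rfl
  have hi0C : i0 ∈ C := by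
    rw [hCmem]
    have h1 : 2 ^ s = 2 * (2 * 2 ^ (s - 2)) := by
      obtain ⟨t, ht⟩ : ∃ t, s = t + 2 := ⟨s - 2, by omega⟩
      rw [ht, Nat.add_sub_cancel]
      ring
    rw [h1, pow_mul, pow_mul, hi0]
    simp
  have hdgT : ∀ c ∈ K, (∏ i, c i = 1) → dg F n c ∈ T1 := by
    intro c hc h1
    refine ⟨?_, mem_sup_left (mem_map_of_mem _ hc)⟩
    show GeneralLinearGroup.det (dg F n c) = 1
    rw [det_dg, h1]
  have hmsK : ∀ a : Fin n, ∀ x ∈ C, (Pi.mulSingle a x : Fin n → Fˣ) ∈ K := by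
    intro a x hx i _
    show (Pi.mulSingle a x : Fin n → Fˣ) i ∈ C
    rcases eq_or_ne i a with rfl | h
    · rwa [Pi.mulSingle_eq_same]
    · rw [Pi.mulSingle_eq_of_ne h]
      exact one_mem _
  have hmsprod : ∀ (a : Fin n) (x : Fˣ), ∏ i, (Pi.mulSingle a x : Fin n → Fˣ) i = x := by
    intro a x
    rw [Finset.prod_eq_single a]
    · rw [Pi.mulSingle_eq_same]
    · intro b _ hb
      rw [Pi.mulSingle_eq_of_ne hb]
    · intro h
      exact absurd (Finset.mem_univ _) h
  have hmsconj : ∀ (σ : Perm (Fin n)) (a : Fin n) (x : Fˣ),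
      (fun i => (Pi.mulSingle a x : Fin n → Fˣ) (σ⁻¹ i)) = Pi.mulSingle (σ a) x := by
    intro σ a x
    funext i
    rcases eq_or_ne i (σ a) with rfl | h
    · rw [Pi.mulSingle_eq_same, show σ⁻¹ (σ a) = a from σ.symm_apply_apply a, Pi.mulSingle_eq_same]
    · rw [Pi.mulSingle_eq_of_ne h, Pi.mulSingle_eq_of_ne]
      rintro rfl
      exact h (σ.apply_symm_apply i).symm
  set tt : Fin n → Fin n → Fˣ → (Fin n → Fˣ) := fun a b x => Pi.mulSingle a x * Pi.mulSingle b x⁻¹ with htt
  have htt_mem : ∀ a b, ∀ x ∈ C, dg F n (tt a b x) ∈ T1 := by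
    intro a b x hx
    refine hdgT _ (mul_mem (hmsK a x hx) (hmsK b _ (inv_mem hx))) ?_
    rw [htt]
    simp only [Pi.mul_apply]
    rw [Finset.prod_mul_distrib, hmsprod, hmsprod, mul_inv_cancel]
  have htt_conj : ∀ (σ : Perm (Fin n)) (a b : Fin n) (x : Fˣ),
      (fun i => tt a b x (σ⁻¹ i)) = tt (σ a) (σ b) x := by
    intro σ a b x
    rw [htt]
    simp only
    rw [← hmsconj σ a, ← hmsconj σ b]
    rfl
  have htt_mul : ∀ (a b c : Fin n) (x : Fˣ), tt a b x * tt b c x = tt a c x := by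
    intro a b c x
    rw [htt]
    simp only
    rw [mul_assoc, ← mul_assoc (Pi.mulSingle b x⁻¹ : Fin n → Fˣ), ← Pi.mulSingle_mul, inv_mul_cancel, Pi.mulSingle_one, one_mul]
  let a0 : Fin n := ⟨0, hn0⟩
  have hlift : ∀ σ ∈ (R : Subgroup (Perm (Fin n))), ∃ c ∈ K, dg F n c * pg F n σ ∈ T1 := by
    intro σ hσ
    have hsC : GeneralLinearGroup.det (pg F n σ) ∈ C := by
      rw [det_pg]
      rcases Int.units_eq_one_or (Perm.sign σ) with h | h
      · rw [h, map_one]
        exact one_mem _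
      · rw [h]
        have h1 : Units.map (Int.castRingHom F : ℤ →* F) (-1) = -1 := by
          apply Units.ext
          simp
        rw [h1]
        exact hnegC
    refine ⟨Pi.mulSingle a0 (GeneralLinearGroup.det (pg F n σ))⁻¹, hmsK a0 _ (inv_mem hsC), ?_, ?_⟩
    · show GeneralLinearGroup.det _ = 1
      rw [map_mul, det_dg, hmsprod, inv_mul_cancel]
    · exact mul_mem (mem_sup_left (mem_map_of_mem _ (hmsK a0 _ (inv_mem hsC)))) (mem_sup_right (mem_map_of_mem _ hσ))
  have hiff : ∀ (y : GL (Fin n) F) (hy : y ∈ T1), y ^ 2 ∈ ⁅T1, T1⁆ ↔ (Abelianization.of (⟨y, hy⟩ : T1)) ^ 2 = 1 := by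
    intro y hy
    rw [← map_pow, ← MonoidHom.mem_ker, Abelianization.ker_of, ← T1.map_subtype_commutator]
    constructor
    · rintro ⟨z, hz, hzy⟩
      have : z = (⟨y, hy⟩ : T1) ^ 2 := Subtype.ext hzy
      rwa [← this]
    · intro h
      exact ⟨_, h, rfl⟩
  have hsq_tt : ∀ x ∈ C, ∀ a b, (dg F n (tt a b x)) ^ 2 ∈ ⁅T1, T1⁆ := by
    intro x hx a b
    rw [hiff _ (htt_mem a b x hx)]
    refine D_sq hRgen hRtrans (fun a b => Abelianization.of (⟨dg F n (tt a b x), htt_mem a b x hx⟩ : T1)) ?_ ?_ a b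
    · intro a b c
      show Abelianization.of (⟨dg F n (tt a b x), htt_mem a b x hx⟩ : T1) * Abelianization.of (⟨dg F n (tt b c x), htt_mem b c x hx⟩ : T1)
        = Abelianization.of (⟨dg F n (tt a c x), htt_mem a c x hx⟩ : T1)
      rw [← map_mul]
      congr 1
      apply Subtype.ext
      show dg F n (tt a b x) * dg F n (tt b c x) = dg F n (tt a c x)
      rw [← map_mul, htt_mul]
    · intro σ hσ a b
      obtain ⟨c, hc, hy⟩ := hlift σ hσ
      show Abelianization.of (⟨dg F n (tt (σ a) (σ b) x), htt_mem (σ a) (σ b) x hx⟩ : T1)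
        = Abelianization.of (⟨dg F n (tt a b x), htt_mem a b x hx⟩ : T1)
      have h1 : (⟨dg F n (tt (σ a) (σ b) x), htt_mem (σ a) (σ b) x hx⟩ : T1)
          = ⟨dg F n c * pg F n σ, hy⟩ * ⟨dg F n (tt a b x), htt_mem a b x hx⟩ * (⟨dg F n c * pg F n σ, hy⟩ : T1)⁻¹ := by
        apply Subtype.ext
        show dg F n (tt (σ a) (σ b) x) = (dg F n c * pg F n σ) * dg F n (tt a b x) * (dg F n c * pg F n σ)⁻¹
        rw [eq_mul_inv_iff_mul_eq, mul_assoc (dg F n c) (pg F n σ), conj_dg, htt_conj, ← mul_assoc, ← mul_assoc, ← map_mul, ← map_mul,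
          mul_comm c]
      rw [h1, map_mul, map_mul, mul_comm (Abelianization.of _), mul_assoc, ← map_mul, mul_inv_cancel, map_one, mul_one]
  set W : Subgroup (GL (Fin n) F) := closure {y | y ∈ T1 ∧ y ^ 2 ∈ ⁅T1, T1⁆} with hW
  have hM : ∀ c ∈ K, (∏ i, c i = 1) → dg F n c ∈ W := by
    intro c hc h1
    have h2 : c = ∏ i, tt i a0 (c i) := by
      rw [htt]
      simp only
      rw [Finset.prod_mul_distrib, Finset.univ_prod_mulSingle]
      have h3 : ∏ i, (Pi.mulSingle a0 (c i)⁻¹ : Fin n → Fˣ) = MonoidHom.mulSingle (fun _ : Fin n => Fˣ) a0 (∏ i, (c i)⁻¹) := by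
        rw [map_prod]
        rfl
      rw [h3, Finset.prod_inv_distrib, h1, inv_one, map_one, mul_one]
    show c ∈ W.comap (dg F n)
    rw [h2]
    refine prod_mem (fun i _ => ?_)
    show dg F n (tt i a0 (c i)) ∈ W
    exact subset_closure ⟨htt_mem _ _ _ (hc i (Set.mem_univ i)), hsq_tt _ (hc i (Set.mem_univ i)) _ _⟩
  have hlift2 : ∀ σ ∈ closure {x | x ∈ (R : Subgroup (Perm (Fin n))) ∧ x ^ 2 = 1}, ∃ c ∈ K, dg F n c * pg F n σ ∈ W := by
    intro σ hσ
    induction hσ using closure_induction with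
    | mem σ hσ =>
      obtain ⟨hσ, hσ2⟩ := hσ
      have hpT : pg F n σ ∈ T := mem_sup_right (mem_map_of_mem _ hσ)
      rcases Int.units_eq_one_or (Perm.sign σ) with h | h
      · refine ⟨1, one_mem _, ?_⟩
        rw [map_one, one_mul]
        refine subset_closure ⟨⟨?_, hpT⟩, ?_⟩
        · show GeneralLinearGroup.det _ = 1
          rw [det_pg, h, map_one]
        · rw [← map_pow, hσ2, map_one]
          exact one_mem _
      · obtain ⟨a, ha⟩ : ∃ a, σ a ≠ a := by
          by_contra hcon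
          push Not at hcon
          have : σ = 1 := Equiv.ext hcon
          rw [this, map_one] at h
          exact absurd h (by decide)
        refine ⟨Pi.mulSingle a (-1), hmsK a _ hnegC, ?_⟩
        refine subset_closure ⟨⟨?_, mul_mem (mem_sup_left (mem_map_of_mem _ (hmsK a _ hnegC))) hpT⟩, ?_⟩
        · show GeneralLinearGroup.det _ = 1
          rw [map_mul, det_dg, hmsprod, det_pg, h]
          apply Units.ext
          simp
        · have h1 : (dg F n (Pi.mulSingle a (-1)) * pg F n σ) ^ 2 = (dg F n (tt a (σ a) i0)) ^ 2 := by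
            have h2 : pg F n σ * pg F n σ = 1 := by rw [← map_mul, ← sq, hσ2, map_one]
            rw [sq, mul_assoc, ← mul_assoc (pg F n σ), conj_dg, hmsconj, mul_assoc (dg F n _) (pg F n σ) (pg F n σ), h2, mul_one,
              ← map_mul, ← map_pow]
            congr 1
            rw [htt]
            simp only
            rw [mul_pow, ← Pi.mulSingle_pow, ← Pi.mulSingle_pow, inv_pow, hi0]
            simp
          rw [h1]
          exact hsq_tt _ hi0C _ _
    | one => exact ⟨1, one_mem _, by rw [map_one, map_one, one_mul]; exact one_mem _⟩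
    | mul σ τ _ _ hσ hτ =>
      obtain ⟨c, hc, hw⟩ := hσ
      obtain ⟨d, hd, hw'⟩ := hτ
      refine ⟨c * fun i => d (σ⁻¹ i), mul_mem hc (hKinv σ d hd), ?_⟩
      have h1 := mul_mem hw hw'
      rw [mul_assoc, ← mul_assoc (pg F n σ), conj_dg, mul_assoc (dg F n _) (pg F n σ), ← mul_assoc, ← map_mul, ← map_mul] at h1
      exact h1
    | inv σ _ hσ =>
      obtain ⟨c, hc, hw⟩ := hσ
      refine ⟨fun i => c⁻¹ (σ⁻¹⁻¹ i), hKinv σ⁻¹ _ (inv_mem hc), ?_⟩
      have h1 := inv_mem hw
      rw [_root_.mul_inv_rev, ← map_inv, ← map_inv, conj_dg] at h1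
      exact h1
  intro x hx
  refine (pow_closure (T := T1) (S := {y | y ∈ T1 ∧ y ^ 2 ∈ ⁅T1, T1⁆}) (fun y hy => hy) x ?_).2
  obtain ⟨hx1, hx2⟩ := hx
  replace hx2 : x ∈ T := hx2
  rw [hT, H23.mem_sup_iff_of_le_normalizer hnorm] at hx2
  obtain ⟨_, ⟨c, hc, rfl⟩, _, ⟨σ, hσ, rfl⟩, rfl⟩ := hx2
  obtain ⟨d, hd, hw⟩ := hlift2 σ (hRgen hσ)
  have hw1 : GeneralLinearGroup.det (dg F n d * pg F n σ) = 1 :=
    (pow_closure (T := T1) (S := {y | y ∈ T1 ∧ y ^ 2 ∈ ⁅T1, T1⁆}) (fun y hy => hy) _ hw).1.1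
  have hx1' : GeneralLinearGroup.det (dg F n c * pg F n σ) = 1 := hx1
  have h1 : dg F n c * pg F n σ = dg F n (c * d⁻¹) * (dg F n d * pg F n σ) := by
    rw [← mul_assoc, ← map_mul, inv_mul_cancel_right]
  rw [h1]
  refine mul_mem (hM _ (mul_mem hc (inv_mem hd)) ?_) hw
  rw [h1, map_mul, hw1, mul_one, det_dg] at hx1'
  exact hx1'

end B

end Cfsg.Agent.H7.SylGL
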